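import Mathlib
import Cfsg.Prelude.Def_BaumannBlocks
import Cfsg.Agent.Lib.H14.CentrallyLarge

/-! Some minimal centrally large subgroup is normalized by `J(G)` and `G_MCL` (helper14). -/

set_option autoImplicit false

namespace Cfsg.Agent.H14.CLN

open Cfsg Cfsg.Agent.H14
open scoped Pointwise commutatorElement

variable {G : Type*} [Group G]

/-- conjugate subgroup -/
def cj (g : G) (X : Subgroup G) : Subgroup G := X.map (MulAut.conj g).toMonoidHom

theorem mem_cj {g x : G} {X : Subgroup G} : x ∈ cj g X ↔ g⁻¹ * x * g ∈ X := by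
  constructor
  · rintro ⟨y, hy, rfl⟩
    simpa [mul_assoc] using hy
  · intro h
    exact ⟨_, h, by simp [mul_assoc]⟩

theorem conj_mem_cj {g x : G} {X : Subgroup G} (h : x ∈ X) : g * x * g⁻¹ ∈ cj g X := by
  rw [mem_cj]
  simpa [mul_assoc] using h

theorem cj_mono {g : G} {X Y : Subgroup G} (h : X ≤ Y) : cj g X ≤ cj g Y := Subgroup.map_mono h

theorem cj_cj (g h : G) (X : Subgroup G) : cj g (cj h X) = cj (g * h) X := by
  ext x
  simp only [mem_cj]
  have : h⁻¹ * (g⁻¹ * x * g) * h = (g * h)⁻¹ * x * (g * h) := by group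
  rw [this]

theorem cj_one (X : Subgroup G) : cj 1 X = X := by
  ext x
  simp [mem_cj]

theorem cj_inv_cj (g : G) (X : Subgroup G) : cj g⁻¹ (cj g X) = X := by
  rw [cj_cj]; simp [cj_one]

theorem cj_cj_inv (g : G) (X : Subgroup G) : cj g (cj g⁻¹ X) = X := by
  rw [cj_cj]; simp [cj_one]

theorem card_cj (g : G) (X : Subgroup G) : Nat.card (cj g X) = Nat.card X :=
  Subgroup.card_map_of_injective (MulAut.conj g).injective

theorem cj_sup (g : G) (X Y : Subgroup G) : cj g (X ⊔ Y) = cj g X ⊔ cj g Y := Subgroup.map_sup _ _ _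

theorem cj_inf (g : G) (X Y : Subgroup G) : cj g (X ⊓ Y) = cj g X ⊓ cj g Y := by
  ext x
  simp [mem_cj, Subgroup.mem_inf]

theorem centralizer_cj (g : G) (X : Subgroup G) :
    Subgroup.centralizer (cj g X : Set G) = cj g (Subgroup.centralizer (X : Set G)) := by
  ext x
  rw [mem_cj, Subgroup.mem_centralizer_iff, Subgroup.mem_centralizer_iff]
  constructor
  · intro h y hy
    have h1 := h (g * y * g⁻¹) (conj_mem_cj hy)
    calc y * (g⁻¹ * x * g) = g⁻¹ * ((g * y * g⁻¹) * x) * g := by group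
      _ = g⁻¹ * (x * (g * y * g⁻¹)) * g := by rw [h1]
      _ = g⁻¹ * x * g * y := by group
  · intro h y hy
    have hy' : g⁻¹ * y * g ∈ X := mem_cj.mp hy
    have h1 := h _ hy'
    calc y * x = g * ((g⁻¹ * y * g) * (g⁻¹ * x * g)) * g⁻¹ := by group
      _ = g * ((g⁻¹ * x * g) * (g⁻¹ * y * g)) * g⁻¹ := by rw [h1]
      _ = x * y := by group

section finite

variable [Finite G]

theorem large_cj (g : G) {X : Subgroup G} (h : IsCentralizerLarge X) : IsCentralizerLarge (cj g X) := by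
  show Nat.card (cj g X) * Nat.card ↥(Subgroup.centralizer (cj g X : Set G)) = _
  rw [centralizer_cj, card_cj, card_cj]
  exact h

theorem cl_cj (g : G) {X : Subgroup G} (h : IsCentrallyLarge X) : IsCentrallyLarge (cj g X) := by
  rw [isCentrallyLarge_iff] at h ⊢
  refine ⟨large_cj g h.1, ?_⟩
  rw [centralizer_cj]
  exact cj_mono h.2

theorem minCL_cj (g : G) {X : Subgroup G} (h : IsMinimalCentrallyLarge X) :
    IsMinimalCentrallyLarge (cj g X) := by
  refine ⟨cl_cj g h.1, fun R hR hRc => ?_⟩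
  have h1 : cj g⁻¹ R ≤ X := by
    have := cj_mono (g := g⁻¹) hR
    rwa [cj_inv_cj] at this
  have h2 := h.2 _ h1 (cl_cj _ hRc)
  rw [← h2, cj_cj_inv]

theorem maxAb_cj (g : G) {X : Subgroup G} (h : X ∈ maxAbelianSubgroups G) :
    cj g X ∈ maxAbelianSubgroups G := by
  refine ⟨?_, fun B hB => ?_⟩
  · apply isMulCommutative_of_le_centralizer
    rw [centralizer_cj]
    exact cj_mono (le_centralizer_of_isMulCommutative h.1)
  · rw [card_cj]
    exact h.2 B hB

theorem mem_normalizer_of_cj_le {g : G} {X : Subgroup G} (h : cj g X ≤ X) :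
    g ∈ Subgroup.normalizer (X : Set G) := by
  have he : cj g X = X := Subgroup.eq_of_le_of_card_ge h (by rw [card_cj])
  rw [Subgroup.mem_normalizer_iff]
  intro y
  constructor
  · intro hy
    exact h (conj_mem_cj hy)
  · intro hy
    rw [← he] at hy
    have := mem_cj.mp hy
    simpa [mul_assoc] using this

theorem cj_eq_of_mem_normalizer {g : G} {X : Subgroup G} (h : g ∈ Subgroup.normalizer (X : Set G)) :
    cj g X = X := by
  rw [Subgroup.mem_normalizer_iff] at h
  ext x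
  rw [mem_cj, h (g⁻¹ * x * g)]
  have : g * (g⁻¹ * x * g) * g⁻¹ = x := by group
  rw [this]

/-- sup of a nonempty family of large subgroups is large -/
theorem large_sSup {𝓢 : Set (Subgroup G)} (hne : 𝓢.Nonempty)
    (h : ∀ X ∈ 𝓢, IsCentralizerLarge X) : IsCentralizerLarge (sSup 𝓢) := by
  classical
  obtain ⟨S₀, hS₀⟩ := hne
  have hfin : Set.Finite {X : Subgroup G | IsCentralizerLarge X ∧ X ≤ sSup 𝓢} := Set.toFinite _
  obtain ⟨W, hW⟩ := hfin.exists_maximal ⟨S₀, h S₀ hS₀, le_sSup hS₀⟩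
  have hWmem := hW.1
  have hle : sSup 𝓢 ≤ W := by
    apply sSup_le
    intro S hS
    have h1 : W ⊔ S ∈ {X : Subgroup G | IsCentralizerLarge X ∧ X ≤ sSup 𝓢} :=
      ⟨(large_lattice hWmem.1 (h S hS)).2.1, sup_le hWmem.2 (le_sSup hS)⟩
    have h2 := hW.2 h1 le_sup_left
    exact le_sup_right.trans h2
  have heq : sSup 𝓢 = W := le_antisymm hle hWmem.2
  rw [heq]
  exact hWmem.1

/-- gate: `(Q ∩ C(X)) X` is again minimal centrally large, for `X` large and abelian -/
theorem minCL_gate {Q X : Subgroup G} (hQ : IsMinimalCentrallyLarge Q)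
    (hX : IsCentralizerLarge X) (hXab : X ≤ Subgroup.centralizer (X : Set G)) :
    IsMinimalCentrallyLarge ((Q ⊓ Subgroup.centralizer (X : Set G)) ⊔ X) := by
  have hQL := cl_large hQ.1
  have hQc := cl_centralizer_le hQ.1
  set K := Subgroup.centralizer (X : Set G) with hK
  have hKL : IsCentralizerLarge K := large_centralizer hX
  have hCK : Subgroup.centralizer (K : Set G) = X := large_cc hX
  obtain ⟨hIL, hQKL, _, hc1, hCI⟩ := large_lattice hQL hKL
  obtain ⟨_, hQ'L, _, hc2, _⟩ := large_lattice hIL hX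
  have hCQL := large_centralizer hQL
  obtain ⟨_, _, hZXmul, _, _⟩ := large_lattice hCQL hX
  have hQ'cl : IsCentrallyLarge ((Q ⊓ K) ⊔ X) := by
    rw [isCentrallyLarge_iff]
    refine ⟨hQ'L, ?_⟩
    rw [centralizer_sup_eq, hCI, hCK]
    rintro w ⟨hw1, hw2⟩
    have hw1' : w ∈ ((Subgroup.centralizer (Q : Set G) ⊔ X : Subgroup G) : Set G) := hw1
    rw [hZXmul] at hw1'
    obtain ⟨z, hz, x, hx, rfl⟩ := Set.mem_mul.mp hw1'
    have hzK : z ∈ K := by
      have := K.mul_mem hw2 (K.inv_mem (hXab hx))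
      simpa using this
    exact Subgroup.mul_mem _ (Subgroup.mem_sup_left ⟨hQc hz, hzK⟩) (Subgroup.mem_sup_right hx)
  refine ⟨hQ'cl, fun R hR hRc => ?_⟩
  obtain ⟨R₁, hR₁, hR₁min⟩ := exists_minimal_le hRc
  -- order computation
  have hIX : (Q ⊓ K) ⊓ X = Q ⊓ X :=
    le_antisymm (inf_le_inf_right _ inf_le_left)
      (le_inf (le_inf inf_le_left (inf_le_right.trans hXab)) inf_le_right)
  rw [hIX] at hc2
  have hmQK := hQKL
  unfold IsCentralizerLarge at hmQK
  rw [centralizer_sup_eq, hCK] at hmQK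
  have hmX := hX
  unfold IsCentralizerLarge at hmX
  have hle : Nat.card ↥(Subgroup.centralizer (Q : Set G) ⊓ X) ≤ Nat.card ↥(Q ⊓ X) :=
    Subgroup.card_le_of_le (inf_le_inf_right _ hQc)
  have hcQ : Nat.card ↥((Q ⊓ K) ⊔ X) ≤ Nat.card Q := by
    set a := Nat.card ↥((Q ⊓ K) ⊔ X)
    set b := Nat.card ↥(Q ⊓ X)
    set c := Nat.card ↥(Q ⊓ K)
    set x := Nat.card X
    set k := Nat.card K
    set q := Nat.card Q
    set s := Nat.card ↥(Q ⊔ K)
    set z := Nat.card ↥(Subgroup.centralizer (Q : Set G) ⊓ X)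
    have hkpos : 0 < k := Nat.card_pos
    have hbpos : 0 < b := Nat.card_pos
    have hspos : 0 < s := Nat.card_pos
    -- a b = c x ; s c = q k ; s z = M = x k
    have h1 : a * b = c * x := hc2
    have h2 : s * c = q * k := hc1
    have h3 : s * z = x * k := hmQK.trans hmX.symm
    have h4 : q * z = c * x := by
      have : k * (q * z) = k * (c * x) := by
        calc k * (q * z) = (q * k) * z := by ring
          _ = (s * c) * z := by rw [h2]
          _ = c * (s * z) := by ring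
          _ = c * (x * k) := by rw [h3]
          _ = k * (c * x) := by ring
      exact Nat.eq_of_mul_eq_mul_left hkpos this
    have h5 : a * b ≤ q * b := by
      calc a * b = c * x := h1
        _ = q * z := h4.symm
        _ ≤ q * b := Nat.mul_le_mul_left _ hle
    exact Nat.le_of_mul_le_mul_right h5 hbpos
  have h1 := (minCL_card_eq hQ hR₁min).1
  have h2 : R₁ = (Q ⊓ K) ⊔ X :=
    Subgroup.eq_of_le_of_card_ge (hR₁.trans hR) (by rw [← h1]; exact hcQ)
  apply le_antisymm hR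
  rw [← h2]
  exact hR₁

/-- a central-mod-`X` element in `Y` for nilpotent ambient group. -/
theorem exists_fixed_mod {p : ℕ} [Fact p.Prime] (hG : IsPGroup p G) {X Y T : Subgroup G}
    (hne : ¬ Y ≤ X) (hT : T ≤ Subgroup.normalizer (Y : Set G)) :
    ∃ r ∈ Y, r ∉ X ∧ ∀ t ∈ T, ⁅r, t⁆ ∈ X := by
  classical
  have hnil := hG.isNilpotent
  obtain ⟨n, hn⟩ := (Group.isNilpotent_iff G).mp hnil
  have hex : ∃ i, ¬ (Y ⊓ Subgroup.upperCentralSeries G i ≤ X) := by
    refine ⟨n, ?_⟩
    rw [hn, inf_top_eq]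
    exact hne
  have hi := Nat.find_spec hex
  set i := Nat.find hex with hidef
  have hi0 : i ≠ 0 := by
    intro h0
    apply hi
    rw [h0, Subgroup.upperCentralSeries_zero, inf_bot_eq]
    exact bot_le
  obtain ⟨j, hj⟩ := Nat.exists_eq_succ_of_ne_zero hi0
  have hjmin : Y ⊓ Subgroup.upperCentralSeries G j ≤ X := by
    have := Nat.find_min hex (m := j) (by omega)
    simpa using this
  obtain ⟨r, hr, hrX⟩ := SetLike.not_le_iff_exists.mp hi
  refine ⟨r, hr.1, hrX, fun t ht => ?_⟩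
  apply hjmin
  constructor
  · have h1 := (Subgroup.mem_normalizer_iff.mp (hT ht)) r⁻¹
    have h2 : t * r⁻¹ * t⁻¹ ∈ Y := h1.mp (Y.inv_mem hr.1)
    have : ⁅r, t⁆ = r * (t * r⁻¹ * t⁻¹) := by
      simp only [commutatorElement_def]; group
    rw [this]
    exact Y.mul_mem hr.1 h2
  · have h3 := hr.2
    rw [hj] at h3
    exact Subgroup.mem_upperCentralSeries_succ_iff.mp h3 t

/-- normalizers grow; a proper subgroup lies in a proper subgroup normalized by the group. -/
theorem exists_normal_between {p : ℕ} [Fact p.Prime] (hG : IsPGroup p G) {N T : Subgroup G}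
    (hle : N ≤ T) (hne : N ≠ T) :
    ∃ M : Subgroup G, N ≤ M ∧ M ≤ T ∧ M ≠ T ∧ T ≤ Subgroup.normalizer (M : Set G) := by
  classical
  have hfin : Set.Finite {M : Subgroup G | N ≤ M ∧ M ≤ T ∧ M ≠ T} := Set.toFinite _
  obtain ⟨M, hM⟩ := hfin.exists_maximal ⟨N, le_rfl, hle, hne⟩
  obtain ⟨⟨hNM, hMT, hMne⟩, hmax⟩ := hM
  refine ⟨M, hNM, hMT, hMne, ?_⟩
  have hnle : ¬ T ≤ M := fun h => hMne (le_antisymm hMT h)
  have hMN : M ≤ Subgroup.normalizer (T : Set G) := by
    intro m hm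
    rw [Subgroup.mem_normalizer_iff]
    intro y
    have hmT := hMT hm
    constructor
    · intro hy
      exact T.mul_mem (T.mul_mem hmT hy) (T.inv_mem hmT)
    · intro hy
      have := T.mul_mem (T.mul_mem (T.inv_mem hmT) hy) hmT
      simpa [mul_assoc] using this
  obtain ⟨r, hrT, hrM, hr⟩ := exists_fixed_mod hG hnle hMN
  -- `r` normalizes `M`
  have hrN : r ∈ Subgroup.normalizer (M : Set G) := by
    apply mem_normalizer_of_cj_le
    intro x hx
    have hx' := mem_cj.mp hx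
    have h1 := hr _ hx'
    have h2 : x = ⁅r, r⁻¹ * x * r⁆ * (r⁻¹ * x * r) := by
      simp only [commutatorElement_def]; group
    rw [h2]
    exact M.mul_mem h1 hx'
  by_contra hcon
  have hM2 : M ⊔ Subgroup.zpowers r ≤ T :=
    sup_le hMT ((Subgroup.zpowers_le).mpr hrT)
  have hM3 : M ⊓ T ≠ T := by
    rwa [inf_eq_left.mpr hMT]
  -- `N_T(M)` contains `M` and `r`; maximality
  set P := Subgroup.normalizer (M : Set G) ⊓ T with hP
  have hMP : M ≤ P := le_inf Subgroup.le_normalizer hMT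
  have hrP : r ∈ P := ⟨hrN, hrT⟩
  have hPne : P ≠ T := by
    intro h
    apply hcon
    rw [← h]
    exact inf_le_left
  have := hmax (y := P) ⟨hNM.trans hMP, inf_le_right, hPne⟩ hMP
  exact hrM (this hrP)

theorem mem_normalizer_centralizer {g : G} {X : Subgroup G} (h : g ∈ Subgroup.normalizer (X : Set G)) :
    g ∈ Subgroup.normalizer ((Subgroup.centralizer (X : Set G) : Subgroup G) : Set G) := by
  apply mem_normalizer_of_cj_le
  rw [← centralizer_cj, cj_eq_of_mem_normalizer h]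

/-- The hull lemma. -/
theorem hull_le {p : ℕ} [Fact p.Prime] (hG : IsPGroup p G) {T X L : Subgroup G}
    (hXL : IsCentralizerLarge X) (hXab : X ≤ Subgroup.centralizer (X : Set G))
    (hTX : T ≤ Subgroup.normalizer (X : Set G))
    (hmax : ∀ X' : Subgroup G, IsCentralizerLarge X' → X' ≤ Subgroup.centralizer (X' : Set G) →
      T ≤ Subgroup.normalizer (X' : Set G) → X ≤ X' → X' ≤ X)
    (hL : IsCentralizerLarge L)
    (hR : ∀ k ∈ Subgroup.centralizer (X : Set G), (∀ t ∈ T, ⁅k, t⁆ ∈ X) → k ∈ L) :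
    Subgroup.centralizer (X : Set G) ≤ L := by
  classical
  set K := Subgroup.centralizer (X : Set G) with hK
  set R : Set G := {k | k ∈ K ∧ ∀ t ∈ T, ⁅k, t⁆ ∈ X} with hRdef
  have hKL : IsCentralizerLarge K := large_centralizer hXL
  have hfin : Set.Finite {Y : Subgroup G | IsCentralizerLarge Y ∧ R ⊆ Y} := Set.toFinite _
  obtain ⟨L₀, hL₀⟩ := hfin.exists_minimal ⟨K, hKL, fun k hk => hk.1⟩
  obtain ⟨⟨hL₀L, hRL₀⟩, hL₀min⟩ := hL₀
  have hmin : ∀ Y : Subgroup G, IsCentralizerLarge Y → R ⊆ Y → L₀ ≤ Y := by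
    intro Y hY hRY
    have h1 : L₀ ⊓ Y ∈ {Y : Subgroup G | IsCentralizerLarge Y ∧ R ⊆ Y} :=
      ⟨(large_lattice hL₀L hY).1, fun k hk => ⟨hRL₀ hk, hRY hk⟩⟩
    exact (hL₀min h1 inf_le_left).trans inf_le_right
  -- `T`-invariance of `R`
  have hTK : T ≤ Subgroup.normalizer (K : Set G) := fun t ht => mem_normalizer_centralizer (hTX ht)
  have hRinv : ∀ t ∈ T, ∀ k ∈ R, t⁻¹ * k * t ∈ R := by
    intro t ht k hk
    have htK := Subgroup.mem_normalizer_iff.mp (hTK (T.inv_mem ht)) k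
    have htX := Subgroup.mem_normalizer_iff.mp (hTX (T.inv_mem ht))
    refine ⟨?_, fun s hs => ?_⟩
    · have := htK.mp hk.1
      simpa using this
    · have h1 := hk.2 (t * s * t⁻¹) (T.mul_mem (T.mul_mem ht hs) (T.inv_mem ht))
      have h2 := (htX _).mp h1
      have : ⁅t⁻¹ * k * t, s⁆ = t⁻¹ * ⁅k, t * s * t⁻¹⁆ * t⁻¹⁻¹ := by
        simp only [commutatorElement_def]; group
      rw [this]
      exact h2
  have hTL₀ : T ≤ Subgroup.normalizer (L₀ : Set G) := by
    intro t ht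
    have h1 : L₀ ≤ cj t⁻¹ L₀ := by
      apply hmin _ (large_cj _ hL₀L)
      intro k hk
      rw [SetLike.mem_coe, mem_cj]
      have h2 := hRinv t⁻¹ (T.inv_mem ht) k hk
      exact hRL₀ (by simpa using h2)
    have h2 : cj t L₀ ≤ L₀ := by
      have := cj_mono (g := t) h1
      rwa [cj_cj_inv] at this
    exact mem_normalizer_of_cj_le h2
  have hCL₀L := large_centralizer hL₀L
  have hL₀K : L₀ ≤ K := hmin K hKL (fun k hk => hk.1)
  have hXR : ∀ x ∈ X, x ∈ R := by
    intro x hx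
    refine ⟨hXab hx, fun t ht => ?_⟩
    have h1 := (Subgroup.mem_normalizer_iff.mp (hTX ht) x⁻¹).mp (X.inv_mem hx)
    have : ⁅x, t⁆ = x * (t * x⁻¹ * t⁻¹) := by
      simp only [commutatorElement_def]; group
    rw [this]
    exact X.mul_mem hx h1
  have hXL₀ : X ≤ L₀ := fun x hx => hRL₀ (hXR x hx)
  have hCK : Subgroup.centralizer (K : Set G) = X := large_cc hXL
  have hXCL₀ : X ≤ Subgroup.centralizer (L₀ : Set G) := by
    rw [← hCK]
    exact centralizer_anti hL₀K
  -- centre of `L₀`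
  have hZmax : L₀ ⊓ Subgroup.centralizer (L₀ : Set G) ≤ X := by
    apply hmax
    · exact (large_lattice hL₀L hCL₀L).1
    · intro a ha
      rw [Subgroup.mem_centralizer_iff]
      intro b hb
      exact (Subgroup.mem_centralizer_iff.mp ha.2) b hb.1
    · intro t ht
      apply mem_normalizer_of_cj_le
      rw [cj_inf, ← centralizer_cj, cj_eq_of_mem_normalizer (hTL₀ ht)]
    · exact le_inf hXL₀ hXCL₀
  have hCL₀X : Subgroup.centralizer (L₀ : Set G) ≤ X := by
    by_contra hcon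
    obtain ⟨r, hr, hrX, hrt⟩ := exists_fixed_mod hG hcon
      (fun t ht => mem_normalizer_centralizer (hTL₀ ht))
    have hrK : r ∈ K := centralizer_anti hXL₀ hr
    have hrR : r ∈ R := ⟨hrK, hrt⟩
    exact hrX (hZmax ⟨hRL₀ hrR, hr⟩)
  have hCeq : Subgroup.centralizer (L₀ : Set G) = X := le_antisymm hCL₀X hXCL₀
  have hL₀eq : L₀ = K := by
    have := large_cc hL₀L
    rw [hCeq] at this
    exact this.symm
  rw [← hL₀eq]
  exact hmin L hL (fun k hk => hR k hk.1 hk.2)

/-- subgroup product when one factor normalizes the other -/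
theorem coe_sup_eq_mul_of_le_normalizer {A B : Subgroup G} (h : A ≤ Subgroup.normalizer (B : Set G)) :
    ((A ⊔ B : Subgroup G) : Set G) = (A : Set G) * (B : Set G) := by
  apply Set.Subset.antisymm _ (mul_subset_sup A B)
  let S : Subgroup G :=
    { carrier := (A : Set G) * (B : Set G)
      mul_mem' := by
        rintro _ _ ⟨a, ha, b, hb, rfl⟩ ⟨c, hc, d, hd, rfl⟩
        refine ⟨a * c, A.mul_mem ha hc, (c⁻¹ * b * c) * d, B.mul_mem ?_ hd, ?_⟩
        · have := (Subgroup.mem_normalizer_iff.mp (h (A.inv_mem hc)) b).mp hb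
          simpa using this
        · show a * c * (c⁻¹ * b * c * d) = a * b * (c * d)
          group
      one_mem' := ⟨1, A.one_mem, 1, B.one_mem, by simp⟩
      inv_mem' := by
        rintro _ ⟨a, ha, b, hb, rfl⟩
        refine ⟨a⁻¹, A.inv_mem ha, a * b⁻¹ * a⁻¹, ?_, ?_⟩
        · exact (Subgroup.mem_normalizer_iff.mp (h ha) b⁻¹).mp (B.inv_mem hb)
        · show a⁻¹ * (a * b⁻¹ * a⁻¹) = (a * b)⁻¹
          group }
  have hle : A ⊔ B ≤ S := by
    apply sup_le
    · intro a ha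
      exact ⟨a, ha, 1, B.one_mem, by simp⟩
    · intro b hb
      exact ⟨1, A.one_mem, b, hb, by simp⟩
  intro x hx
  exact hle hx

theorem card_of_coe_eq_mul {W A B : Subgroup G} (h : (W : Set G) = (A : Set G) * (B : Set G)) :
    Nat.card W * Nat.card ↥(A ⊓ B) = Nat.card A * Nat.card B := by
  have := card_mul_set_mul_card_inf A B
  rw [← h] at this
  exact this

/-- The subgroup generated by the `B`-conjugates of `C(Q)`. -/
noncomputable def coreW (B Q : Subgroup G) : Subgroup G :=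
  sSup {Z | ∃ b ∈ B, Z = cj b (Subgroup.centralizer (Q : Set G))}

theorem mem_core {B Q : Subgroup G} (hQ : IsCentralizerLarge Q) {a : G} :
    a ∈ Subgroup.centralizer (coreW B Q : Set G) ↔ ∀ b ∈ B, a ∈ cj b Q := by
  constructor
  · intro ha b hb
    have h1 : cj b (Subgroup.centralizer (Q : Set G)) ≤ coreW B Q := le_sSup ⟨b, hb, rfl⟩
    have h2 := centralizer_anti h1 ha
    rwa [centralizer_cj, large_cc hQ] at h2
  · intro h
    rw [Subgroup.mem_centralizer_iff]
    have h1 : coreW B Q ≤ Subgroup.centralizer ({a} : Set G) := by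
      apply sSup_le
      rintro _ ⟨b, hb, rfl⟩ z hz
      rw [← centralizer_cj] at hz
      rw [Subgroup.mem_centralizer_iff]
      intro y hy
      rw [Set.mem_singleton_iff] at hy
      subst hy
      exact Subgroup.mem_centralizer_iff.mp hz _ (h b hb)
    intro w hw
    have := Subgroup.mem_centralizer_iff.mp (h1 hw) a (Set.mem_singleton a)
    exact this.symm

theorem cj_sSup_le {t : G} {𝓢 : Set (Subgroup G)} (h : ∀ Z ∈ 𝓢, cj t Z ≤ sSup 𝓢) :
    cj t (sSup 𝓢) ≤ sSup 𝓢 := by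
  have h1 : sSup 𝓢 ≤ cj t⁻¹ (sSup 𝓢) := by
    apply sSup_le
    intro Z hZ
    have := cj_mono (g := t⁻¹) (h Z hZ)
    rwa [cj_inv_cj] at this
  have := cj_mono (g := t) h1
  rwa [cj_cj_inv] at this

theorem coreW_normalized (B Q : Subgroup G) : B ≤ Subgroup.normalizer (coreW B Q : Set G) := by
  intro b hb
  apply mem_normalizer_of_cj_le
  apply cj_sSup_le
  rintro _ ⟨b₁, hb₁, rfl⟩
  rw [cj_cj]
  exact le_sSup ⟨b * b₁, B.mul_mem hb hb₁, rfl⟩

theorem large_coreW (B : Subgroup G) {Q : Subgroup G} (hQ : IsCentralizerLarge Q) :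
    IsCentralizerLarge (coreW B Q) := by
  apply large_sSup
  · exact ⟨_, 1, B.one_mem, rfl⟩
  · rintro _ ⟨b, _, rfl⟩
    exact large_cj b (large_centralizer hQ)

/-- The measure count when `B` is abelian of largest order. -/
theorem large_G0_maxAb {B Q X : Subgroup G} (hB : B ∈ maxAbelianSubgroups G)
    (hQ : IsCentrallyLarge Q) (hXL : IsCentralizerLarge X)
    (hXab : X ≤ Subgroup.centralizer (X : Set G)) (hXQ : X ≤ Q)
    (hQK : Q ≤ Subgroup.centralizer (X : Set G))
    (hBX : B ≤ Subgroup.normalizer (X : Set G))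
    (hKmul : ∀ k ∈ Subgroup.centralizer (X : Set G), k ∈ (Q : Set G) * (B : Set G)) :
    IsCentralizerLarge ((Subgroup.centralizer (X : Set G) ⊓ B) ⊔
      Subgroup.centralizer (coreW B Q : Set G)) := by
  classical
  set K := Subgroup.centralizer (X : Set G) with hK
  have hKL : IsCentralizerLarge K := large_centralizer hXL
  have hCK : Subgroup.centralizer (K : Set G) = X := large_cc hXL
  have hKcl : IsCentrallyLarge K :=
    isCentrallyLarge_iff.mpr ⟨hKL, by rw [hCK]; exact hXab⟩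
  obtain ⟨_, _, hB'mem, hB'mul⟩ := cl_maxAbelian_package hKcl hB
  rw [hCK] at hB'mem hB'mul
  set E := K ⊓ B with hE
  set B' := X ⊔ E with hB'
  have hQL := cl_large hQ
  have hBab := le_centralizer_of_isMulCommutative hB.1
  have hB'K : B' ≤ K := sup_le hXab inf_le_left
  have hEB' : E ≤ B' := le_sup_right
  have hXB' : X ≤ B' := le_sup_left
  have hCB' : Subgroup.centralizer (B' : Set G) = B' := maxAbelian_centralizer_eq hB'mem
  have hQB' : Q ⊔ B' = K := by
    apply le_antisymm (sup_le hQK hB'K)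
    intro k hk
    obtain ⟨a, ha, y, hy, rfl⟩ := Set.mem_mul.mp (hKmul k hk)
    have hyK : y ∈ K := by
      have := K.mul_mem (K.inv_mem (hQK ha)) hk
      simpa using this
    exact Subgroup.mul_mem _ (Subgroup.mem_sup_left ha) (Subgroup.mem_sup_right (hEB' ⟨hyK, hy⟩))
  obtain ⟨h1, h2⟩ := cl_maxAbelian_centralizer hQ hB'mem
  rw [hQB'] at h1
  have hBNK : ∀ b ∈ B, cj b K = K := fun b hb =>
    cj_eq_of_mem_normalizer (mem_normalizer_centralizer (hBX hb))
  set W := coreW B Q with hW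
  have hCQW : Subgroup.centralizer (Q : Set G) ≤ W := by
    have : cj 1 (Subgroup.centralizer (Q : Set G)) ≤ W := le_sSup ⟨1, B.one_mem, rfl⟩
    rwa [cj_one] at this
  have hCQK : Subgroup.centralizer (Q : Set G) ≤ K := (cl_centralizer_le hQ).trans hQK
  have hWle : W ≤ Subgroup.centralizer (Q : Set G) ⊔ B' := by
    rw [← h1]
    apply sSup_le
    rintro _ ⟨b, hb, rfl⟩
    apply le_inf
    · have := cj_mono (g := b) hCQK
      rwa [hBNK b hb] at this
    · intro w hw
      rw [Subgroup.mem_centralizer_iff]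
      intro a₁ ha₁
      have hz : b⁻¹ * w * b ∈ Subgroup.centralizer (Q : Set G) := mem_cj.mp hw
      have ha₁B : a₁ ∈ ((B' : Subgroup G) : Set G) := ha₁.2
      rw [hB'mul] at ha₁B
      obtain ⟨x, hx, c, hc, hxc⟩ := Set.mem_mul.mp ha₁B
      have hcb : c * b = b * c := by
        have := Subgroup.mem_centralizer_iff.mp (hBab hc.2) b hb
        exact this.symm
      have hxb : b⁻¹ * x * b ∈ X := by
        have := (Subgroup.mem_normalizer_iff.mp (hBX (B.inv_mem hb)) x).mp hx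
        simpa using this
      have ha₂ : b⁻¹ * a₁ * b ∈ Q := by
        have e : b⁻¹ * a₁ * b = (b⁻¹ * x * b) * (x⁻¹ * a₁) := by
          rw [← hxc]
          calc b⁻¹ * (x * c) * b = b⁻¹ * x * (c * b) := by group
            _ = b⁻¹ * x * (b * c) := by rw [hcb]
            _ = (b⁻¹ * x * b) * (x⁻¹ * (x * c)) := by group
        rw [e]
        exact Q.mul_mem (hXQ hxb) (Q.mul_mem (Q.inv_mem (hXQ hx)) ha₁.1)
      have hcomm := Subgroup.mem_centralizer_iff.mp hz _ ha₂
      calc a₁ * w = b * ((b⁻¹ * a₁ * b) * (b⁻¹ * w * b)) * b⁻¹ := by group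
        _ = b * ((b⁻¹ * w * b) * (b⁻¹ * a₁ * b)) * b⁻¹ := by rw [hcomm]
        _ = w * a₁ := by group
  have hWmul : (W : Set G) = (Subgroup.centralizer (Q : Set G) : Set G) * ((W ⊓ B' : Subgroup G) : Set G) := by
    apply Set.Subset.antisymm
    · intro w hw
      have hw' : w ∈ ((Subgroup.centralizer (Q : Set G) ⊔ B' : Subgroup G) : Set G) := hWle hw
      rw [h2] at hw'
      obtain ⟨z, hz, y, hy, rfl⟩ := Set.mem_mul.mp hw'
      refine Set.mem_mul.mpr ⟨z, hz, y, ⟨?_, hy⟩, rfl⟩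
      have := W.mul_mem (W.inv_mem (hCQW hz)) hw
      simpa using this
    · rintro _ ⟨z, hz, y, hy, rfl⟩
      exact W.mul_mem (hCQW hz) hy.1
  have hcard1 := card_of_coe_eq_mul hWmul
  have hXCQ : X ≤ Subgroup.centralizer (Q : Set G) := by
    rw [← hCK]
    exact centralizer_anti hQK
  have hinf : Subgroup.centralizer (Q : Set G) ⊓ (W ⊓ B') = X := by
    apply le_antisymm
    · rintro x ⟨hx1, _, hx2⟩
      rw [← hCK, ← hQB', centralizer_sup_eq, hCB']
      exact ⟨hx1, hx2⟩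
    · exact le_inf hXCQ (le_inf (hXCQ.trans hCQW) hXB')
  rw [hinf] at hcard1
  have hWL : IsCentralizerLarge W := large_coreW B hQL
  set Q₀ := Subgroup.centralizer (W : Set G) with hQ₀
  have hQ₀L : IsCentralizerLarge Q₀ := large_centralizer hWL
  have hCQ₀ : Subgroup.centralizer (Q₀ : Set G) = W := large_cc hWL
  have hQ₀mem : ∀ a, a ∈ Q₀ ↔ ∀ b ∈ B, a ∈ cj b Q := fun a => mem_core hQL
  have hQ₀Q : Q₀ ≤ Q := by
    intro a ha
    have := (hQ₀mem a).mp ha 1 B.one_mem
    rwa [cj_one] at this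
  have hXQ₀ : X ≤ Q₀ := by
    intro x hx
    rw [hQ₀mem]
    intro b hb
    rw [mem_cj]
    have := (Subgroup.mem_normalizer_iff.mp (hBX (B.inv_mem hb)) x).mp hx
    apply hXQ
    simpa using this
  have hQBQ₀ : Q ⊓ B ≤ Q₀ := by
    rintro a ⟨ha, haB⟩
    rw [hQ₀mem]
    intro b hb
    rw [mem_cj]
    have hcomm := Subgroup.mem_centralizer_iff.mp (hBab haB) b hb
    have : b⁻¹ * a * b = a := by
      calc b⁻¹ * a * b = b⁻¹ * (a * b) := by group
        _ = b⁻¹ * (b * a) := by rw [hcomm]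
        _ = a := by group
    rw [this]
    exact ha
  have hEQ₀ : E ⊓ Q₀ = Q ⊓ B := by
    apply le_antisymm
    · rintro a ⟨ha1, ha2⟩
      exact ⟨hQ₀Q ha2, ha1.2⟩
    · exact le_inf (inf_le_inf_right _ hQK) hQBQ₀
  have hQE : Q ⊓ E = Q ⊓ B := by
    apply le_antisymm
    · exact inf_le_inf_left _ inf_le_right
    · exact le_inf inf_le_left (inf_le_inf_right _ hQK)
  have hBQ₀ : B ≤ Subgroup.normalizer (Q₀ : Set G) := fun b hb =>
    mem_normalizer_centralizer (coreW_normalized B Q hb)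
  have hG₀mul := coe_sup_eq_mul_of_le_normalizer (A := E) (B := Q₀) (inf_le_right.trans hBQ₀)
  have hcard2 := card_of_coe_eq_mul hG₀mul
  rw [hEQ₀] at hcard2
  have hKEmul : (K : Set G) = (Q : Set G) * (E : Set G) := by
    apply Set.Subset.antisymm
    · intro k hk
      obtain ⟨a, ha, y, hy, rfl⟩ := Set.mem_mul.mp (hKmul k hk)
      have hyK : y ∈ K := by
        have := K.mul_mem (K.inv_mem (hQK ha)) hk
        simpa using this
      exact Set.mem_mul.mpr ⟨a, ha, y, ⟨hyK, hy⟩, rfl⟩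
    · rintro _ ⟨a, ha, y, hy, rfl⟩
      exact K.mul_mem (hQK ha) hy.1
  have hcard3 := card_of_coe_eq_mul hKEmul
  rw [hQE] at hcard3
  have hCG : Subgroup.centralizer ((E ⊔ Q₀ : Subgroup G) : Set G) = W ⊓ B' := by
    rw [centralizer_sup_eq, hCQ₀]
    ext x
    constructor
    · rintro ⟨hx1, hx2⟩
      refine ⟨hx2, ?_⟩
      have hxK : x ∈ K := by
        have h3 : Subgroup.centralizer (Q₀ : Set G) ≤ K := centralizer_anti hXQ₀
        rw [hCQ₀] at h3
        exact h3 hx2
      have : x ∈ Subgroup.centralizer (B' : Set G) := by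
        rw [centralizer_sup_eq]
        exact ⟨hxK, hx1⟩
      rwa [hCB'] at this
    · rintro ⟨hx1, hx2⟩
      refine ⟨?_, hx1⟩
      have : x ∈ Subgroup.centralizer (B' : Set G) := by rwa [hCB']
      exact centralizer_anti hEB' this
  rw [isCentralizerLarge_iff]
  have hMQ : cdm Q = maxCentralizerProduct G := hQL
  have hMQ₀ : cdm Q₀ = maxCentralizerProduct G := hQ₀L
  have hMK : cdm K = maxCentralizerProduct G := hKL
  unfold cdm at hMQ hMQ₀ hMK
  rw [hCQ₀] at hMQ₀
  rw [hCK] at hMK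
  unfold cdm
  rw [hCG]
  set M := maxCentralizerProduct G
  set g := Nat.card ↥(E ⊔ Q₀)
  set c := Nat.card ↥(W ⊓ B')
  set i := Nat.card ↥(Q ⊓ B)
  set z := Nat.card ↥(Subgroup.centralizer (Q : Set G))
  set w := Nat.card W
  set x := Nat.card X
  set q := Nat.card Q
  set q₀ := Nat.card Q₀
  set k := Nat.card K
  set e := Nat.card E
  have hipos : 0 < i := Nat.card_pos
  have hzpos : 0 < z := Nat.card_pos
  have hfin : (g * c) * (i * z) = M * (i * z) := by
    calc (g * c) * (i * z) = (g * i) * (z * c) := by ring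
      _ = (e * q₀) * (w * x) := by rw [hcard2, hcard1]
      _ = e * x * (q₀ * w) := by ring
      _ = e * x * M := by rw [hMQ₀]
      _ = e * x * (q * z) := by rw [hMQ]
      _ = (q * e) * x * z := by ring
      _ = (k * i) * x * z := by rw [hcard3]
      _ = (k * x) * (i * z) := by ring
      _ = M * (i * z) := by rw [hMK]
  have := Nat.eq_of_mul_eq_mul_right (Nat.mul_pos hipos hzpos) hfin
  exact this.ge

/-- generators: minimal centrally large subgroups and abelian subgroups of largest order -/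
def IsGen (B : Subgroup G) : Prop := IsMinimalCentrallyLarge B ∨ B ∈ maxAbelianSubgroups G

theorem isGen_cj (g : G) {B : Subgroup G} (h : IsGen B) : IsGen (cj g B) :=
  h.imp (minCL_cj g) (maxAb_cj g)

/-- The main step. -/
theorem normalize_step {p : ℕ} [Fact p.Prime] (hG : IsPGroup p G) {H B Q : Subgroup G}
    (hQ : IsMinimalCentrallyLarge Q) (hB : IsGen B)
    (hHQ : H ≤ Subgroup.normalizer (Q : Set G)) (hBH : B ≤ Subgroup.normalizer (H : Set G)) :
    ∃ Q' : Subgroup G, IsMinimalCentrallyLarge Q' ∧ H ⊔ B ≤ Subgroup.normalizer (Q' : Set G) := by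
  classical
  set T := H ⊔ B with hT
  have hJ := isCentrallyLarge_join (G := G)
  have hJN : ∀ g : G, g ∈ Subgroup.normalizer (centrallyLargeJoin G : Set G) := fun g =>
    mem_normalizer_of_cj_le (le_sSup (cl_cj g hJ))
  have hfin : Set.Finite {X : Subgroup G | IsCentralizerLarge X ∧
      X ≤ Subgroup.centralizer (X : Set G) ∧ T ≤ Subgroup.normalizer (X : Set G)} := Set.toFinite _
  obtain ⟨X, hX⟩ := hfin.exists_maximal ⟨Subgroup.centralizer (centrallyLargeJoin G : Set G),
    large_centralizer (cl_large hJ), by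
      rw [large_cc (cl_large hJ)]
      exact cl_centralizer_le hJ,
    fun t _ => mem_normalizer_centralizer (hJN t)⟩
  obtain ⟨⟨hXL, hXab, hTX⟩, hXmax⟩ := hX
  have hmax : ∀ X' : Subgroup G, IsCentralizerLarge X' → X' ≤ Subgroup.centralizer (X' : Set G) →
      T ≤ Subgroup.normalizer (X' : Set G) → X ≤ X' → X' ≤ X :=
    fun X' h1 h2 h3 h4 => hXmax ⟨h1, h2, h3⟩ h4
  set K := Subgroup.centralizer (X : Set G) with hK
  have hKL : IsCentralizerLarge K := large_centralizer hXL
  have hCK : Subgroup.centralizer (K : Set G) = X := large_cc hXL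
  have hTK : T ≤ Subgroup.normalizer (K : Set G) := fun t ht => mem_normalizer_centralizer (hTX ht)
  have hHT : H ≤ T := le_sup_left
  have hBT : B ≤ T := le_sup_right
  set Q' := (Q ⊓ K) ⊔ X with hQ'def
  have hQ' : IsMinimalCentrallyLarge Q' := minCL_gate hQ hXL hXab
  have hQ'L := cl_large hQ'.1
  have hXQ' : X ≤ Q' := le_sup_right
  have hQ'K : Q' ≤ K := sup_le inf_le_right hXab
  have hHQ' : H ≤ Subgroup.normalizer (Q' : Set G) := by
    intro h hh
    apply mem_normalizer_of_cj_le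
    rw [hQ'def, cj_sup, cj_inf, cj_eq_of_mem_normalizer (hHQ hh),
      cj_eq_of_mem_normalizer (hTK (hHT hh)), cj_eq_of_mem_normalizer (hTX (hHT hh))]
  -- `Y`
  set Y := sSup {Z | ∃ b ∈ B, Z = cj b Q'} with hY
  have hQ'Y : Q' ≤ Y := by
    have : cj 1 Q' ≤ Y := le_sSup ⟨1, B.one_mem, rfl⟩
    rwa [cj_one] at this
  have hYcl : IsCentrallyLarge Y := by
    refine isCentrallyLarge_sSup (𝓢 := {Z | ∃ b ∈ B, Z = cj b Q'}) ⟨cj 1 Q', 1, B.one_mem, rfl⟩ ?_
    rintro _ ⟨b, _, rfl⟩
    exact cl_cj b hQ'.1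
  have hYL := cl_large hYcl
  have hYK : Y ≤ K := by
    apply sSup_le
    rintro _ ⟨b, hb, rfl⟩
    have := cj_mono (g := b) hQ'K
    rwa [cj_eq_of_mem_normalizer (hTK (hBT hb))] at this
  have hTY : T ≤ Subgroup.normalizer (Y : Set G) := by
    apply sup_le
    · intro h hh
      apply mem_normalizer_of_cj_le
      apply cj_sSup_le
      rintro _ ⟨b, hb, rfl⟩
      apply le_sSup
      refine ⟨b, hb, ?_⟩
      have e : h * b = b * (b⁻¹ * h * b) := by group
      have hh' : b⁻¹ * h * b ∈ H := by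
        have := (Subgroup.mem_normalizer_iff.mp (hBH (B.inv_mem hb)) h).mp hh
        simpa using this
      rw [cj_cj, e, ← cj_cj, cj_eq_of_mem_normalizer (hHQ' hh')]
    · intro b₀ hb₀
      apply mem_normalizer_of_cj_le
      apply cj_sSup_le
      rintro _ ⟨b, hb, rfl⟩
      rw [cj_cj]
      exact le_sSup ⟨b₀ * b, B.mul_mem hb₀ hb, rfl⟩
  have hCYle : Subgroup.centralizer (Y : Set G) ≤ X := by
    apply hmax _ (large_centralizer hYL)
    · rw [large_cc hYL]
      exact (centralizer_anti hQ'Y).trans ((cl_centralizer_le hQ'.1).trans hQ'Y)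
    · exact fun t ht => mem_normalizer_centralizer (hTY ht)
    · rw [← hCK]
      exact centralizer_anti hYK
  have hYeq : Y = K := by
    apply le_antisymm hYK
    have h1 := centralizer_anti hCYle
    rwa [large_cc hYL] at h1
  have hKle : K ≤ Q' ⊔ B := by
    rw [← hYeq]
    apply sSup_le
    rintro _ ⟨b, hb, rfl⟩ x hx
    have h1 : b⁻¹ * x * b ∈ Q' := mem_cj.mp hx
    have e : x = b * (b⁻¹ * x * b) * b⁻¹ := by group
    rw [e]
    exact Subgroup.mul_mem _ (Subgroup.mul_mem _ (Subgroup.mem_sup_right hb) (Subgroup.mem_sup_left h1))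
      (Subgroup.mem_sup_right (B.inv_mem hb))
  have hProd : ((Q' ⊔ B : Subgroup G) : Set G) = (Q' : Set G) * (B : Set G) := by
    rcases hB with hB | hB
    · exact (large_lattice hQ'L (cl_large hB.1)).2.2.1
    · exact (cl_maxAbelian_package hQ'.1 hB).1
  have hKmul : ∀ k ∈ K, k ∈ (Q' : Set G) * (B : Set G) := by
    intro k hk
    rw [← hProd]
    exact hKle hk
  have hD : ∀ y ∈ K ⊓ B, ∀ b ∈ B, b⁻¹ * y * b * y⁻¹ ∈ Q' := by
    rintro y ⟨_, hy⟩ b hb
    rcases hB with hB | hB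
    · have h1 : ⁅b⁻¹, y⁆ ∈ ⁅B, B⁆ := Subgroup.commutator_mem_commutator (B.inv_mem hb) hy
      rw [commutator_eq_inf hB hQ'] at h1
      have h2 : ⁅B ⊓ Q', B ⊓ Q'⁆ ≤ Q' := by
        rw [Subgroup.commutator_le]
        rintro u hu v hv
        simp only [commutatorElement_def]
        exact Q'.mul_mem (Q'.mul_mem (Q'.mul_mem hu.2 hv.2) (Q'.inv_mem hu.2)) (Q'.inv_mem hv.2)
      have h3 := h2 h1
      simpa [commutatorElement_def] using h3
    · have hc := Subgroup.mem_centralizer_iff.mp (le_centralizer_of_isMulCommutative hB.1 hy) b hb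
      have : b⁻¹ * y * b * y⁻¹ = 1 := by
        calc b⁻¹ * y * b * y⁻¹ = b⁻¹ * (y * b) * y⁻¹ := by group
          _ = b⁻¹ * (b * y) * y⁻¹ := by rw [hc]
          _ = 1 := by group
      rw [this]
      exact Q'.one_mem
  -- `Q₀`
  have hWL : IsCentralizerLarge (coreW B Q') := large_coreW B hQ'L
  set Q₀ := Subgroup.centralizer (coreW B Q' : Set G) with hQ₀
  have hQ₀L : IsCentralizerLarge Q₀ := large_centralizer hWL
  have hQ₀mem : ∀ a, a ∈ Q₀ ↔ ∀ b ∈ B, a ∈ cj b Q' := fun a => mem_core hQ'L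
  have hBQ₀ : B ≤ Subgroup.normalizer (Q₀ : Set G) := fun b hb =>
    mem_normalizer_centralizer (coreW_normalized B Q' hb)
  have hG₀L : IsCentralizerLarge ((K ⊓ B) ⊔ Q₀) := by
    rcases hB with hB | hB
    · exact (large_lattice (large_lattice hKL (cl_large hB.1)).1 hQ₀L).2.1
    · exact large_G0_maxAb hB hQ'.1 hXL hXab hXQ' hQ'K (hBT.trans hTX) hKmul
  have hG₀mul := coe_sup_eq_mul_of_le_normalizer (A := K ⊓ B) (B := Q₀) (inf_le_right.trans hBQ₀)
  have hQ'BQ₀ : Q' ⊓ B ≤ Q₀ := by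
    rintro a ⟨ha, haB⟩
    rw [hQ₀mem]
    intro b hb
    rw [mem_cj]
    have h1 := hD a ⟨hQ'K ha, haB⟩ b hb
    have e : b⁻¹ * a * b = (b⁻¹ * a * b * a⁻¹) * a := by group
    rw [e]
    exact Q'.mul_mem h1 ha
  have hKG₀ : K ≤ (K ⊓ B) ⊔ Q₀ := by
    apply hull_le hG hXL hXab hTX hmax hG₀L
    intro r hr hrt
    -- write `r = y * a`
    obtain ⟨y, a, hyE, haQ', hrya⟩ : ∃ y a : G, y ∈ K ⊓ B ∧ a ∈ Q' ∧ r = y * a := by
      have hr' := hKmul r⁻¹ (K.inv_mem hr)
      obtain ⟨a₁, ha₁, y₁, hy₁, hay⟩ := Set.mem_mul.mp hr'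
      have hy₁K : y₁ ∈ K := by
        have := K.mul_mem (K.inv_mem (hQ'K ha₁)) (K.inv_mem hr)
        rw [← hay] at this
        simpa using this
      refine ⟨y₁⁻¹, a₁⁻¹, ⟨K.inv_mem hy₁K, B.inv_mem hy₁⟩, Q'.inv_mem ha₁, ?_⟩
      rw [eq_comm, ← mul_inv_rev, hay, inv_inv]
    have haQ₀ : a ∈ Q₀ := by
      rw [hQ₀mem]
      intro b hb
      rw [mem_cj]
      have hx₁ : ⁅r, b⁻¹⁆ ∈ X := hrt b⁻¹ (hBT (B.inv_mem hb))
      set x₁ := ⁅r, b⁻¹⁆ with hx₁def
      have hyx : y * x₁ = x₁ * y := by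
        have := Subgroup.mem_centralizer_iff.mp hyE.1 x₁ hx₁
        exact this.symm
      have hd := hD y⁻¹ ⟨K.inv_mem hyE.1, B.inv_mem hyE.2⟩ b hb
      rw [inv_inv] at hd
      have e1 : b⁻¹ * r * b = x₁⁻¹ * r := by
        rw [hx₁def]
        simp only [commutatorElement_def]
        group
      have e2 : b⁻¹ * a * b = (b⁻¹ * y⁻¹ * b * y) * (x₁⁻¹ * a) := by
        have e3 : a = y⁻¹ * r := by
          rw [hrya]; group
        have e4 : y * x₁⁻¹ = x₁⁻¹ * y := by
          have hc : Commute y x₁ := hyx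
          exact hc.inv_right.eq
        calc b⁻¹ * a * b = (b⁻¹ * y⁻¹ * b) * (b⁻¹ * r * b) := by
              rw [e3]; group
          _ = (b⁻¹ * y⁻¹ * b) * (x₁⁻¹ * r) := by rw [e1]
          _ = (b⁻¹ * y⁻¹ * b) * (x₁⁻¹ * (y * a)) := by rw [hrya]
          _ = (b⁻¹ * y⁻¹ * b) * ((x₁⁻¹ * y) * a) := by group
          _ = (b⁻¹ * y⁻¹ * b) * ((y * x₁⁻¹) * a) := by rw [e4]
          _ = (b⁻¹ * y⁻¹ * b * y) * (x₁⁻¹ * a) := by group
      rw [e2]
      exact Q'.mul_mem hd (Q'.mul_mem (Q'.inv_mem (hXQ' hx₁)) haQ')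
    rw [hrya]
    exact Subgroup.mul_mem _ (Subgroup.mem_sup_left hyE) (Subgroup.mem_sup_right haQ₀)
  have hQ'Q₀ : Q' ≤ Q₀ := by
    intro a ha
    have h1 : a ∈ (((K ⊓ B) ⊔ Q₀ : Subgroup G) : Set G) := hKG₀ (hQ'K ha)
    rw [hG₀mul] at h1
    obtain ⟨y, hy, a₀, ha₀, rfl⟩ := Set.mem_mul.mp h1
    have ha₀Q' : a₀ ∈ Q' := by
      have := (hQ₀mem a₀).mp ha₀ 1 B.one_mem
      rwa [cj_one] at this
    have hyQ' : y ∈ Q' := by
      have := Q'.mul_mem ha (Q'.inv_mem ha₀Q')
      simpa using this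
    exact Q₀.mul_mem (hQ'BQ₀ ⟨hyQ', hy.2⟩) ha₀
  refine ⟨Q', hQ', sup_le hHQ' ?_⟩
  intro b hb
  apply mem_normalizer_of_cj_le
  intro x hx
  have h1 : b⁻¹ * x * b ∈ Q' := mem_cj.mp hx
  have h2 := (hQ₀mem _).mp (hQ'Q₀ h1) b⁻¹ (B.inv_mem hb)
  rw [mem_cj] at h2
  simpa [mul_assoc] using h2

/-- Generated subgroups normalize a minimal centrally large subgroup. -/
theorem exists_normalized {p : ℕ} [Fact p.Prime] (hG : IsPGroup p G) (n : ℕ) :
    ∀ T : Subgroup G, Nat.card T ≤ n → T = sSup {B | IsGen B ∧ B ≤ T} →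
      ∃ Q : Subgroup G, IsMinimalCentrallyLarge Q ∧ T ≤ Subgroup.normalizer (Q : Set G) := by
  classical
  induction n with
  | zero =>
    intro T hT _
    have : 0 < Nat.card T := Nat.card_pos
    omega
  | succ n ih =>
    intro T hT hgen
    by_cases hbot : T = ⊥
    · obtain ⟨X, hX⟩ := exists_isCentrallyLarge (G := G)
      obtain ⟨Q, _, hQ⟩ := exists_minimal_le hX
      exact ⟨Q, hQ, by rw [hbot]; exact bot_le⟩
    -- choose `H`
    have hfin : Set.Finite {H : Subgroup G | H ≤ T ∧ H ≠ T ∧ T ≤ Subgroup.normalizer (H : Set G) ∧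
        H = sSup {B | IsGen B ∧ B ≤ H}} := Set.toFinite _
    obtain ⟨H, hH⟩ := hfin.exists_maximal ⟨⊥, bot_le, fun h => hbot h.symm, by
        intro t _
        apply mem_normalizer_of_cj_le
        intro x hx
        have := mem_cj.mp hx
        rw [Subgroup.mem_bot] at this ⊢
        have h2 : x = t * (t⁻¹ * x * t) * t⁻¹ := by group
        rw [h2, this]
        group,
      by
        apply le_antisymm bot_le
        apply sSup_le
        rintro B ⟨_, hB⟩
        exact hB⟩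
    obtain ⟨⟨hHT, hHne, hHN, hHgen⟩, hHmax⟩ := hH
    have hexB : ∃ B : Subgroup G, IsGen B ∧ B ≤ T ∧ ¬ B ≤ H := by
      by_contra hcon
      push Not at hcon
      apply hHne
      apply le_antisymm hHT
      rw [hgen]
      apply sSup_le
      rintro B ⟨hB1, hB2⟩
      exact hcon B hB1 hB2
    obtain ⟨B, hB, hBT, hBH⟩ := hexB
    have hsup : H ⊔ B = T := by
      by_contra hne
      obtain ⟨M, hM1, hM2, hM3, hM4⟩ := exists_normal_between hG (sup_le hHT hBT) hne
      set M₀ := sSup {C | IsGen C ∧ C ≤ M} with hM₀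
      have hM₀M : M₀ ≤ M := sSup_le (fun C hC => hC.2)
      have hHM₀ : H ≤ M₀ := by
        rw [hHgen]
        apply sSup_le
        rintro C ⟨hC1, hC2⟩
        exact le_sSup ⟨hC1, hC2.trans (le_sup_left.trans hM1)⟩
      have hBM₀ : B ≤ M₀ := le_sSup ⟨hB, le_sup_right.trans hM1⟩
      have hmem : M₀ ∈ {H : Subgroup G | H ≤ T ∧ H ≠ T ∧ T ≤ Subgroup.normalizer (H : Set G) ∧
          H = sSup {B | IsGen B ∧ B ≤ H}} := by
        refine ⟨hM₀M.trans hM2, ?_, ?_, ?_⟩
        · intro h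
          apply hM3
          exact le_antisymm hM2 (h ▸ hM₀M)
        · intro t ht
          apply mem_normalizer_of_cj_le
          apply cj_sSup_le
          rintro C ⟨hC1, hC2⟩
          apply le_sSup
          refine ⟨isGen_cj t hC1, ?_⟩
          have := cj_mono (g := t) hC2
          rwa [cj_eq_of_mem_normalizer (hM4 ht)] at this
        · apply le_antisymm
          · apply sSup_le
            rintro C ⟨hC1, hC2⟩
            exact le_sSup ⟨hC1, le_sSup ⟨hC1, hC2⟩⟩
          · apply sSup_le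
            rintro C ⟨_, hC2⟩
            exact hC2
      exact hBH (hBM₀.trans (hHmax hmem hHM₀))
    have hHcard : Nat.card H ≤ n := by
      by_contra hc
      have hc' : Nat.card T ≤ Nat.card H := by omega
      exact hHne (Subgroup.eq_of_le_of_card_ge hHT hc')
    obtain ⟨Q, hQ, hHQ⟩ := ih H hHcard hHgen
    obtain ⟨Q', hQ', hQ'N⟩ := normalize_step hG hQ hB hHQ (hBT.trans hHN)
    rw [hsup] at hQ'N
    exact ⟨Q', hQ', hQ'N⟩

end finite

end Cfsg.Agent.H14.CLN
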