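import Mathlib
import Cfsg.Agent.Lib.H14.GT

/-! Every `p`-group (`p` odd) has a characteristic self-centralizing subgroup `K` such that a group
with Sylow subgroup `S` has a normal `p`-complement iff `N(K)/C(K)` is a `p`-group. -/

set_option autoImplicit false

namespace Cfsg.Agent.H14

open Cfsg Cfsg.Agent.H13 ZJFam

universe u

section

variable {G : Type*} [Group G] {p : ℕ}

/-- Every element of order prime to `p` normalizing `T` centralizes it. -/
def Star (p : ℕ) (T : Subgroup G) : Prop :=
  ∀ g ∈ Subgroup.normalizer (T : Set G), (orderOf g).Coprime p →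
    g ∈ Subgroup.centralizer (T : Set G)

lemma star_of_map {H : Subgroup G} {T' : Subgroup H} (h : Star p (T'.map H.subtype)) : Star p T' := by
  intro g hg hgc
  have h1 : (g : G) ∈ Subgroup.normalizer ((T'.map H.subtype : Subgroup G) : Set G) :=
    Subgroup.le_normalizer_map H.subtype ⟨g, hg, rfl⟩
  have h2 := h _ h1 (by rwa [Subgroup.orderOf_coe])
  rw [Subgroup.mem_centralizer_iff] at h2 ⊢
  intro x hx
  apply Subtype.ext
  exact h2 _ ⟨x, hx, rfl⟩

end

section

variable {G : Type*} [Group G] [Finite G] {p : ℕ} [Fact p.Prime]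

/-- Quotients by normal `p'`-subgroups. -/
lemma star_quot {T L : Subgroup G} (hT : IsPGroup p T) (hLn : L.Normal) (hLc : (Nat.card L).Coprime p)
    (h : Star p T) : Star p (T.map (QuotientGroup.mk' L)) := by
  haveI := hLn
  let π := QuotientGroup.mk' L
  have hπs : Function.Surjective π := QuotientGroup.mk'_surjective L
  have hπ1 : ∀ x : G, π x = 1 ↔ x ∈ L := fun x => QuotientGroup.eq_one_iff x
  intro gb hgb hgc
  obtain ⟨g, rfl⟩ := hπs gb
  have hle : T.map (MulAut.conj g).toMonoidHom ≤ T ⊔ L := by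
    rintro _ ⟨w, hw, rfl⟩
    have h1 : π (g * w * g⁻¹) ∈ T.map π := by
      have h0 := (Subgroup.mem_normalizer_iff.mp hgb (π w)).mp ⟨w, hw, rfl⟩
      have e0 : π (g * w * g⁻¹) = π g * π w * (π g)⁻¹ := by simp only [map_mul, map_inv]
      rw [e0]
      exact h0
    obtain ⟨w', hw', e⟩ := h1
    have h2 : w'⁻¹ * (g * w * g⁻¹) ∈ L := by
      rw [← hπ1, map_mul, map_inv, e, inv_mul_cancel]
    have e2 : g * w * g⁻¹ = w' * (w'⁻¹ * (g * w * g⁻¹)) := by group
    change g * w * g⁻¹ ∈ T ⊔ L
    rw [e2]
    exact Subgroup.mul_mem _ (Subgroup.mem_sup_left hw') (Subgroup.mem_sup_right h2)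
  obtain ⟨ℓ, hℓ, hle2⟩ := exists_conj_of_le_sup hT hLn hLc (hT.map (MulAut.conj g).toMonoidHom) hle
  have hmem : ℓ * g ∈ Subgroup.normalizer (T : Set G) := by
    apply mem_normalizer_of_map_conj_le
    rintro _ ⟨w, hw, rfl⟩
    have h3 : ℓ * (g * w * g⁻¹) * ℓ⁻¹ ∈ T := hle2 ⟨g * w * g⁻¹, ⟨w, hw, rfl⟩, rfl⟩
    have e3 : (ℓ * g) * w * (ℓ * g)⁻¹ = ℓ * (g * w * g⁻¹) * ℓ⁻¹ := by group
    change (ℓ * g) * w * (ℓ * g)⁻¹ ∈ T
    rw [e3]
    exact h3
  obtain ⟨a, ha⟩ := exists_pprime_part (p := p) (ℓ * g)
  have h4 := h _ (Subgroup.pow_mem _ hmem (p ^ a)) ha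
  have h5 : π ((ℓ * g) ^ p ^ a) = π g ^ p ^ a := by
    rw [map_pow, map_mul, (hπ1 ℓ).mpr hℓ, one_mul]
  have h6 : π g ^ p ^ a ∈ Subgroup.centralizer ((T.map π : Subgroup _) : Set _) := by
    rw [← h5, Subgroup.mem_centralizer_iff]
    rintro _ ⟨t, ht, rfl⟩
    rw [← map_mul, ← map_mul, (Subgroup.mem_centralizer_iff.mp h4) t ht]
  exact mem_of_pow_mem_coprime h6 (Nat.Coprime.pow_left a hgc.symm)

/-- Conclusion when the centralizer of a subgroup of the normal subgroup `T` is a `p`-group. -/
lemma frobCond_of_star_normal {T Z : Subgroup G} (hT : T.Normal) (hZT : Z ≤ T)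
    (hC : IsPGroup p (Subgroup.centralizer (Z : Set G))) (h : Star p T) : FrobCond p G := by
  intro T₁ _ g _ hgc
  have h1 : g ∈ Subgroup.centralizer (T : Set G) :=
    h g (by rw [Subgroup.normalizer_eq_top_iff.mpr hT]; trivial) hgc
  have h2 : g ∈ Subgroup.centralizer (Z : Set G) := Subgroup.centralizer_le hZT h1
  obtain ⟨k, hk⟩ := hC ⟨g, h2⟩
  have h3 : g = 1 := eq_one_of_coprime_order (congrArg Subtype.val hk) hgc
  rw [h3]
  exact Subgroup.one_mem _

/-- A characteristic subgroup transported by an isomorphism to a normal subgroup is normal. -/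
lemma normal_of_char_equiv {S₁ : Type*} [Group S₁] {K₁ : Subgroup S₁} (hK₁ : K₁.Characteristic)
    {M : Subgroup G} (hM : M.Normal) (E : S₁ ≃* M) :
    ((K₁.map E.toMonoidHom).map M.subtype).Normal := by
  haveI := hM
  refine ⟨fun x hx g => ?_⟩
  obtain ⟨_, ⟨k, hk, rfl⟩, rfl⟩ := hx
  let ψ : MulAut M := MulAut.conjNormal g
  let ψ' : S₁ ≃* S₁ := E.trans (ψ.trans E.symm)
  have h1 : K₁.map ψ'.toMonoidHom ≤ K₁ := (Subgroup.characteristic_iff_map_le.mp hK₁) ψ'
  have h2 : ψ' k ∈ K₁ := h1 ⟨k, hk, rfl⟩
  refine ⟨E (ψ' k), ⟨_, h2, rfl⟩, ?_⟩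
  have h3 : E (ψ' k) = ψ (E k) := by
    change E (E.symm (ψ (E k))) = _
    simp
  change ((E (ψ' k) : M) : G) = _
  rw [h3]
  simp [ψ, MulAut.conjNormal_apply]

end

/-- The property of `K`. -/
def PsiS (p : ℕ) (S : Type u) [Group S] (K : Subgroup S) : Prop :=
  ∀ (G : Type u) [Group G] [Finite G] (f : S →* G), Function.Injective f → ¬ p ∣ f.range.index →
    Star p (K.map f) → FrobCond p G

section Inner

variable {p : ℕ} [Fact p.Prime] {S : Type u} [Group S] [Finite S]

/-- The central part of the Thompson subgroup. -/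
noncomputable abbrev Z0 (S : Type u) [Group S] : Subgroup S := (elFam S 0).zz ⊤

lemma Z0_map {G : Type u} [Group G] (f : S →* G) (hf : Function.Injective f) :
    (elFam G 0).zz f.range = (Z0 S).map f := by
  rw [MonoidHom.range_eq_map]
  exact zz_map 0 f ⊤ (fun x _ hx => hf (by rw [hx, map_one]))

lemma Z0_char : (Z0 S).Characteristic := by
  rw [Subgroup.characteristic_iff_map_le]
  intro ϕ
  have h1 := zz_map 0 ϕ.toMonoidHom (⊤ : Subgroup S) (fun x _ hx => ϕ.injective (by
    have : ϕ x = 1 := hx
    rw [this, map_one]))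
  have h2 : (⊤ : Subgroup S).map ϕ.toMonoidHom = ⊤ :=
    Subgroup.map_top_of_surjective _ ϕ.surjective
  rw [h2] at h1
  exact h1.ge

omit [Finite S] [Fact p.Prime] in
lemma isPGroup_top (hS : IsPGroup p S) : IsPGroup p (⊤ : Subgroup S) := fun x => by
  obtain ⟨k, hk⟩ := hS x.1
  exact ⟨k, Subtype.ext hk⟩

lemma Z0_normal : (Z0 S).Normal := by
  haveI := Z0_char (S := S)
  exact Subgroup.normal_of_characteristic _

lemma Z0_ne_bot (hS : IsPGroup p S) (hne : Nat.card S ≠ 1) : Z0 S ≠ ⊥ := by
  apply zz_ne_bot (p := p) 0 (Or.inl rfl)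
  · exact isPGroup_top hS
  · intro h
    apply hne
    have : (⊤ : Subgroup S) = ⊥ := h
    rw [← Subgroup.card_top (G := S), this, Subgroup.card_bot]

/-- The inductive argument on the order of `G`. -/
theorem psi_of_step (hp2 : p ≠ 2) (hS : IsPGroup p S) (K : Subgroup S)
    (hstep : ∀ (G : Type u) [Group G] [Finite G] (f : S →* G), Function.Injective f →
      ¬ p ∣ f.range.index → Star p (K.map f) → ((Z0 S).map f).Normal →
      (∀ L : Subgroup G, L.Normal → (Nat.card L).Coprime p → L = ⊥) →
      (∀ H : Subgroup G, H ≠ ⊤ → f.range ≤ H → FC p H) → FrobCond p G) : PsiS p S K := by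
  intro G
  induction hcard : Nat.card G using Nat.strong_induction_on generalizing G with
  | _ N IH =>
    intro _ _ f hf hidx hstar
    have hrp : IsPGroup p f.range := by
      rw [MonoidHom.range_eq_map]
      exact (isPGroup_top hS).map f
    have hsub : ∀ H : Subgroup G, H ≠ ⊤ → f.range ≤ H → FC p H := by
      intro H hH hrH
      apply FC_of_frobCond
      have hle : ∀ x, f x ∈ H := fun x => hrH ⟨x, rfl⟩
      let f' : S →* H := f.codRestrict H hle
      have hf' : Function.Injective f' := by
        intro a b h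
        apply hf
        exact congrArg Subtype.val h
      have hr : f'.range = f.range.subgroupOf H := by
        ext x
        rw [Subgroup.mem_subgroupOf]
        constructor
        · rintro ⟨y, rfl⟩
          exact ⟨y, rfl⟩
        · rintro ⟨y, hy⟩
          exact ⟨y, Subtype.ext hy⟩
      have hidx' : ¬ p ∣ f'.range.index := by
        rw [hr]
        intro h
        apply hidx
        have h1 : f.range.relIndex H * H.index = f.range.index := Subgroup.relIndex_mul_index hrH
        rw [← h1]
        exact Dvd.dvd.mul_right h _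
      have hstar' : Star p (K.map f') := by
        apply star_of_map
        have e : (K.map f').map H.subtype = K.map f := by
          rw [Subgroup.map_map]
          rfl
        rw [e]
        exact hstar
      have hcardH : Nat.card H < N := by
        rw [← hcard]
        have hlt : H < ⊤ := lt_top_iff_ne_top.mpr hH
        have h1 := card_lt_of_lt hlt
        rwa [Subgroup.card_top] at h1
      exact IH _ hcardH H rfl f' hf' hidx' hstar'
    let P : Sylow p G := hrp.toSylow hidx
    have hPc : (P : Subgroup G) = f.range := rfl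
    have hzz : (elFam G 0).zz (P : Subgroup G) = (Z0 S).map f := Z0_map f hf
    have hclosed : IsStronglyClosed (P : Subgroup G) (P : Subgroup G) := ⟨le_rfl, fun _ _ _ h => h⟩
    have hgt : FrobCond p (NN ((elFam G 0).zz (P : Subgroup G))) → FrobCond p G :=
      gt_all hp2 (Or.inl rfl) (Nat.card G + 1) G (by omega) P _ hclosed
    by_cases hNt : NN ((Z0 S).map f) = ⊤
    · have hZn : ((Z0 S).map f).Normal := Subgroup.normalizer_eq_top_iff.mp hNt
      by_cases hLex : ∃ L : Subgroup G, L.Normal ∧ (Nat.card L).Coprime p ∧ L ≠ ⊥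
      · obtain ⟨L, hLn, hLc, hLne⟩ := hLex
        haveI := hLn
        let π := QuotientGroup.mk' L
        have hπ1 : ∀ x : G, π x = 1 ↔ x ∈ L := fun x => QuotientGroup.eq_one_iff x
        have hinj : Function.Injective (π.comp f) := by
          rw [injective_iff_map_eq_one]
          intro a ha
          have h1 : f a ∈ L := (hπ1 _).mp ha
          obtain ⟨k, hk⟩ := hS a
          have h2 : f a = 1 := eq_one_of_mem_coprime h1 hLc (by rw [← map_pow, hk, map_one])
          apply hf
          rw [h2, map_one]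
        have hr2 : (π.comp f).range = f.range.map π := MonoidHom.range_comp π f
        have hidx2 : ¬ p ∣ (π.comp f).range.index := by
          rw [hr2]
          intro h
          exact hidx (h.trans (Subgroup.index_map_dvd _ (QuotientGroup.mk'_surjective L)))
        have hT : IsPGroup p (K.map f) := hrp.to_le (by
          rintro _ ⟨x, _, rfl⟩
          exact ⟨x, rfl⟩)
        have hstar2 : Star p (K.map (π.comp f)) := by
          have e : K.map (π.comp f) = (K.map f).map π := (Subgroup.map_map _ _ _).symm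
          rw [e]
          exact star_quot hT hLn hLc hstar
        have hcardL : Nat.card (G ⧸ L) < N := by
          rw [← hcard]
          have h1 : Nat.card G = Nat.card (G ⧸ L) * Nat.card L :=
            Subgroup.card_eq_card_quotient_mul_card_subgroup L
          have h2 : 1 < Nat.card L := by
            rw [Subgroup.one_lt_card_iff_ne_bot]
            exact hLne
          have h3 : 0 < Nat.card (G ⧸ L) := Nat.card_pos
          rw [h1]
          nlinarith
        have := IH _ hcardL (G ⧸ L) rfl (π.comp f) hinj hidx2 hstar2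
        exact frobCond_lift_pprime hLc this
      · push Not at hLex
        exact hstep G f hf hidx hstar hZn (fun L h1 h2 => by
          by_contra h3
          exact h3 (hLex L h1 h2)) hsub
    · apply hgt
      rw [hzz]
      apply frobCond_of_FC
      apply hsub _ hNt
      rintro _ ⟨y, rfl⟩
      apply mem_normalizer_of_map_conj_le
      rintro _ ⟨_, ⟨z, hz, rfl⟩, rfl⟩
      refine ⟨y * z * y⁻¹, ?_, ?_⟩
      · have hn : (Z0 S).Normal := by
          haveI := (Z0_char (S := S))
          infer_instance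
        exact hn.conj_mem z hz y
      · change f (y * z * y⁻¹) = f y * f z * (f y)⁻¹
        simp only [map_mul, map_inv]

/-- The case where `Z(J(S))` is not central. -/
theorem exists_K_case1 (hp2 : p ≠ 2) (hS : IsPGroup p S)
    (IH : IsPGroup p ↥(Subgroup.centralizer (Z0 S : Set S)) →
      ∃ K' : Subgroup ↥(Subgroup.centralizer (Z0 S : Set S)), K'.Characteristic ∧
        Subgroup.centralizer (K' : Set _) ≤ K' ∧ PsiS p _ K') :
    ∃ K : Subgroup S, K.Characteristic ∧ Subgroup.centralizer (K : Set S) ≤ K ∧ PsiS p S K := by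
  classical
  have hp : p.Prime := Fact.out
  set Z := Z0 S with hZ
  have hZchar : Z.Characteristic := Z0_char
  set C := Subgroup.centralizer (Z : Set S) with hC
  obtain ⟨K', hK'c, hK'cen, hK'psi⟩ := IH (IsPGroup.to_subgroup hS C)
  have hZC : Z ≤ C := by
    intro z hz
    rw [hC, Subgroup.mem_centralizer_iff]
    intro w hw
    exact zz_comm hw hz
  have hCmem : ∀ x ∈ C, ∀ z ∈ Z, z * x = x * z := fun x hx z hz =>
    (Subgroup.mem_centralizer_iff.mp hx) z hz
  let K : Subgroup S := K'.map C.subtype
  have hZK : Z ≤ K := by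
    intro z hz
    refine ⟨⟨z, hZC hz⟩, hK'cen ?_, rfl⟩
    rw [Subgroup.mem_centralizer_iff]
    intro k _
    apply Subtype.ext
    exact (hCmem k.1 k.2 z hz).symm
  have hϕZ : ∀ (ϕ : S ≃* S), ∀ z ∈ Z, ϕ z ∈ Z := by
    intro ϕ z hz
    exact (Subgroup.characteristic_iff_map_le.mp hZchar) ϕ ⟨z, hz, rfl⟩
  have hϕC : ∀ (ϕ : S ≃* S), ∀ x ∈ C, ϕ x ∈ C := by
    intro ϕ x hx
    rw [hC, Subgroup.mem_centralizer_iff]
    intro z hz
    have h1 := hCmem x hx _ (hϕZ ϕ.symm z hz)
    have h2 := congrArg ϕ h1
    simpa using h2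
  refine ⟨K, ?_, ?_, ?_⟩
  · rw [Subgroup.characteristic_iff_map_le]
    intro ϕ
    let ϕC : C ≃* C :=
      { toFun := fun x => ⟨ϕ x, hϕC ϕ x x.2⟩
        invFun := fun x => ⟨ϕ.symm x, hϕC ϕ.symm x x.2⟩
        left_inv := fun x => Subtype.ext (by simp)
        right_inv := fun x => Subtype.ext (by simp)
        map_mul' := fun x y => Subtype.ext (by simp) }
    rintro _ ⟨_, ⟨k, hk, rfl⟩, rfl⟩
    have h1 := (Subgroup.characteristic_iff_map_le.mp hK'c) ϕC ⟨k, hk, rfl⟩
    exact ⟨ϕC k, h1, rfl⟩
  · intro x hx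
    have hxC : x ∈ C := Subgroup.centralizer_le hZK hx
    refine ⟨⟨x, hxC⟩, hK'cen ?_, rfl⟩
    rw [Subgroup.mem_centralizer_iff]
    intro k hk
    apply Subtype.ext
    exact (Subgroup.mem_centralizer_iff.mp hx) k.1 ⟨k, hk, rfl⟩
  · apply psi_of_step hp2 hS
    intro G _ _ f hf hidx hstar hZn hL _
    set ZG := Z.map f with hZG
    haveI := hZn
    set M := Subgroup.centralizer (ZG : Set G) with hM
    have hMn : M.Normal := Subgroup.normal_centralizer
    have hfC : ∀ x : C, f x.1 ∈ M := by
      intro x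
      rw [hM, Subgroup.mem_centralizer_iff]
      rintro _ ⟨z, hz, rfl⟩
      rw [← map_mul, ← map_mul, hCmem x.1 x.2 z hz]
    let f' : C →* M :=
      { toFun := fun x => ⟨f x.1, hfC x⟩
        map_one' := Subtype.ext (map_one f)
        map_mul' := fun a b => Subtype.ext (map_mul f a.1 b.1) }
    have hf' : Function.Injective f' := by
      intro a b h
      apply Subtype.ext
      apply hf
      exact congrArg Subtype.val h
    have hmemC : ∀ x : S, f x ∈ M → x ∈ C := by
      intro x hx
      rw [hC, Subgroup.mem_centralizer_iff]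
      intro z hz
      apply hf
      rw [map_mul, map_mul]
      exact (Subgroup.mem_centralizer_iff.mp hx) _ ⟨z, hz, rfl⟩
    have hr : f'.range = (f.range ⊓ M).subgroupOf M := by
      ext y
      rw [Subgroup.mem_subgroupOf]
      constructor
      · rintro ⟨x, rfl⟩
        exact ⟨⟨x.1, rfl⟩, hfC x⟩
      · rintro ⟨⟨x, hx⟩, -⟩
        have hxC : x ∈ C := hmemC x (by rw [hx]; exact y.2)
        exact ⟨⟨x, hxC⟩, Subtype.ext hx⟩
    have hidx' : ¬ p ∣ f'.range.index := by
      rw [hr]
      change ¬ p ∣ (f.range ⊓ M).relIndex M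
      rw [Subgroup.inf_relIndex_right]
      intro h
      exact hidx (h.trans (H18.relIndex_dvd_index_of_normal_right f.range M))
    have hmapeq : (K'.map f').map M.subtype = K.map f := by
      ext y
      constructor
      · rintro ⟨_, ⟨k, hk, rfl⟩, rfl⟩
        exact ⟨k.1, ⟨k, hk, rfl⟩, rfl⟩
      · rintro ⟨_, ⟨k, hk, rfl⟩, rfl⟩
        exact ⟨f' k, ⟨k, hk, rfl⟩, rfl⟩
    have hstar' : Star p (K'.map f') := by
      apply star_of_map
      rw [hmapeq]
      exact hstar
    have hfr := hK'psi M f' hf' hidx' hstar'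
    have hMp : IsPGroup p M := isPGroup_of_FC_normal hMn (FC_of_frobCond hfr) hL
    have hrp : IsPGroup p f.range := by
      rw [MonoidHom.range_eq_map]
      exact (isPGroup_top hS).map f
    let P : Sylow p G := hrp.toSylow hidx
    have hMr : M ≤ f.range :=
      (Cfsg.Agent.H01.le_pCore hMn hMp).trans (Cfsg.Agent.H01.pCore_le_sylow p P)
    have hsurj : Function.Surjective f' := by
      intro y
      obtain ⟨x, hx⟩ := hMr y.2
      have hxC : x ∈ C := hmemC x (by rw [hx]; exact y.2)
      exact ⟨⟨x, hxC⟩, Subtype.ext hx⟩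
    let E : C ≃* M := MulEquiv.ofBijective f' ⟨hf', hsurj⟩
    have hTn : (K.map f).Normal := by
      have h1 := normal_of_char_equiv hK'c hMn E
      have h2 : (K'.map E.toMonoidHom).map M.subtype = K.map f := hmapeq
      rwa [h2] at h1
    exact frobCond_of_star_normal hTn (Subgroup.map_mono hZK) hMp hstar

/-- The case where `Z(J(S))` is central. -/
theorem exists_K_case2 (hp2 : p ≠ 2) (hS : IsPGroup p S)
    (hcen : ∀ z ∈ Z0 S, ∀ x : S, z * x = x * z)
    (IH : haveI : (Z0 S).Normal := Z0_normal
      ∃ K' : Subgroup (S ⧸ Z0 S), K'.Characteristic ∧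
        Subgroup.centralizer (K' : Set _) ≤ K' ∧ PsiS p _ K') :
    ∃ K : Subgroup S, K.Characteristic ∧ Subgroup.centralizer (K : Set S) ≤ K ∧ PsiS p S K := by
  classical
  have hp : p.Prime := Fact.out
  set Z := Z0 S with hZ
  have hZchar : Z.Characteristic := Z0_char
  haveI hZn : Z.Normal := Z0_normal
  obtain ⟨Kb, hKbc, hKbcen, hKbpsi⟩ := IH
  let mk := QuotientGroup.mk' Z
  have hmk1 : ∀ x : S, mk x = 1 ↔ x ∈ Z := fun x => QuotientGroup.eq_one_iff x
  have hmks : Function.Surjective mk := QuotientGroup.mk'_surjective Z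
  let K : Subgroup S := Kb.comap mk
  have hZK : Z ≤ K := by
    intro z hz
    rw [Subgroup.mem_comap, (hmk1 z).mpr hz]
    exact Kb.one_mem
  refine ⟨K, ?_, ?_, ?_⟩
  · rw [Subgroup.characteristic_iff_map_le]
    intro ϕ
    have hZϕ : Z.map ϕ.toMonoidHom = Z := (Subgroup.characteristic_iff_map_eq.mp hZchar) ϕ
    let ϕb : (S ⧸ Z) ≃* (S ⧸ Z) := QuotientGroup.congr Z Z ϕ hZϕ
    rintro _ ⟨x, hx, rfl⟩
    have h1 := (Subgroup.characteristic_iff_map_le.mp hKbc) ϕb ⟨mk x, hx, rfl⟩
    exact h1
  · intro x hx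
    change mk x ∈ Kb
    apply hKbcen
    rw [Subgroup.mem_centralizer_iff]
    intro y hy
    obtain ⟨y', rfl⟩ := hmks y
    have h1 : y' ∈ K := hy
    rw [← map_mul, ← map_mul, (Subgroup.mem_centralizer_iff.mp hx) y' h1]
  · apply psi_of_step hp2 hS
    intro G _ _ f hf hidx hstar hZGn hL hsub
    set ZG := Z.map f with hZG
    haveI := hZGn
    set M := Subgroup.centralizer (ZG : Set G) with hM
    have hMn : M.Normal := Subgroup.normal_centralizer
    have hrp : IsPGroup p f.range := by
      rw [MonoidHom.range_eq_map]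
      exact (isPGroup_top hS).map f
    let P : Sylow p G := hrp.toSylow hidx
    have hrM : f.range ≤ M := by
      rintro _ ⟨x, rfl⟩
      rw [hM, Subgroup.mem_centralizer_iff]
      rintro _ ⟨z, hz, rfl⟩
      rw [← map_mul, ← map_mul, hcen z hz x]
    by_cases hMt : M = ⊤
    · -- central case
      have hZGcen : ∀ z ∈ ZG, ∀ g : G, z * g = g * z := by
        intro z hz g
        have : g ∈ M := by rw [hMt]; trivial
        exact (Subgroup.mem_centralizer_iff.mp this) z hz
      have hZGp : IsPGroup p ZG := hrp.to_le (by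
        rintro _ ⟨x, _, rfl⟩
        exact ⟨x, rfl⟩)
      let π := QuotientGroup.mk' ZG
      have hπs : Function.Surjective π := QuotientGroup.mk'_surjective ZG
      have hπ1 : ∀ x : G, π x = 1 ↔ x ∈ ZG := fun x => QuotientGroup.eq_one_iff x
      let fb : (S ⧸ Z) →* (G ⧸ ZG) := QuotientGroup.map Z ZG f (fun z hz => ⟨z, hz, rfl⟩)
      have hfb : ∀ x : S, fb (mk x) = π (f x) := fun x => rfl
      have hfbi : Function.Injective fb := by
        rw [injective_iff_map_eq_one]
        intro a ha
        obtain ⟨x, rfl⟩ := hmks a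
        rw [hfb, hπ1] at ha
        obtain ⟨z, hz, e⟩ := ha
        have : z = x := hf e
        rw [(hmk1 x).mpr (this ▸ hz)]
      have hr : fb.range = f.range.map π := by
        ext y
        constructor
        · rintro ⟨a, rfl⟩
          obtain ⟨x, rfl⟩ := hmks a
          exact ⟨f x, ⟨x, rfl⟩, rfl⟩
        · rintro ⟨_, ⟨x, rfl⟩, rfl⟩
          exact ⟨mk x, rfl⟩
      have hidxb : ¬ p ∣ fb.range.index := by
        rw [hr]
        intro h
        exact hidx (h.trans (Subgroup.index_map_dvd _ hπs))
      have hT : (K.map f).map π = Kb.map fb := by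
        ext y
        constructor
        · rintro ⟨_, ⟨x, hx, rfl⟩, rfl⟩
          exact ⟨mk x, hx, rfl⟩
        · rintro ⟨a, ha, rfl⟩
          obtain ⟨x, rfl⟩ := hmks a
          exact ⟨f x, ⟨x, ha, rfl⟩, rfl⟩
      have hZGT : ZG ≤ K.map f := Subgroup.map_mono hZK
      have hcomap : ((K.map f).map π).comap π = K.map f := by
        rw [Subgroup.comap_map_eq, QuotientGroup.ker_mk', sup_eq_left]
        exact hZGT
      have hstarb : Star p (Kb.map fb) := by
        rw [← hT]
        intro gb hgb hgc
        obtain ⟨g, rfl⟩ := hπs gb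
        have hg : g ∈ Subgroup.normalizer ((K.map f : Subgroup G) : Set G) := by
          rw [← hcomap, ← Subgroup.comap_normalizer_eq_of_surjective _ hπs]
          exact hgb
        obtain ⟨a, ha⟩ := exists_pprime_part (p := p) g
        have h4 := hstar _ (Subgroup.pow_mem _ hg (p ^ a)) ha
        have h6 : π g ^ p ^ a ∈ Subgroup.centralizer (((K.map f).map π : Subgroup _) : Set _) := by
          rw [← map_pow, Subgroup.mem_centralizer_iff]
          rintro _ ⟨t, ht, rfl⟩
          rw [← map_mul, ← map_mul, (Subgroup.mem_centralizer_iff.mp h4) t ht]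
        exact mem_of_pow_mem_coprime h6 (Nat.Coprime.pow_left a hgc.symm)
      have hfrb := hKbpsi (G ⧸ ZG) fb hfbi hidxb hstarb
      exact frobCond_lift_central hZGp hZGcen hfrb
    · have hfc := hsub M hMt hrM
      have hMp : IsPGroup p M := isPGroup_of_FC_normal hMn hfc hL
      have hMr : M ≤ f.range :=
        (Cfsg.Agent.H01.le_pCore hMn hMp).trans (Cfsg.Agent.H01.pCore_le_sylow p P)
      have hMeq : M = f.range := le_antisymm hMr hrM
      let f' : S →* M := f.codRestrict M (fun x => hrM ⟨x, rfl⟩)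
      have hf' : Function.Injective f' := by
        intro a b h
        apply hf
        exact congrArg Subtype.val h
      have hsurj : Function.Surjective f' := by
        intro y
        obtain ⟨x, hx⟩ := hMr y.2
        exact ⟨x, Subtype.ext hx⟩
      let E : S ≃* M := MulEquiv.ofBijective f' ⟨hf', hsurj⟩
      have hKc : K.Characteristic := by
        rw [Subgroup.characteristic_iff_map_le]
        intro ϕ
        have hZϕ : Z.map ϕ.toMonoidHom = Z := (Subgroup.characteristic_iff_map_eq.mp hZchar) ϕ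
        let ϕb : (S ⧸ Z) ≃* (S ⧸ Z) := QuotientGroup.congr Z Z ϕ hZϕ
        rintro _ ⟨x, hx, rfl⟩
        have h1 := (Subgroup.characteristic_iff_map_le.mp hKbc) ϕb ⟨mk x, hx, rfl⟩
        exact h1
      have hTn : (K.map f).Normal := by
        have h1 := normal_of_char_equiv hKc hMn E
        have h2 : (K.map E.toMonoidHom).map M.subtype = K.map f := by
          rw [Subgroup.map_map]
          rfl
        rwa [h2] at h1
      exact frobCond_of_star_normal hTn (Subgroup.map_mono hZK) hMp hstar

end Inner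

/-- The existence of `K`, by induction on the order of `S`. -/
theorem exists_K {p : ℕ} [Fact p.Prime] (hp2 : p ≠ 2) : ∀ (N : ℕ) (S : Type u) [Group S] [Finite S],
    Nat.card S = N → IsPGroup p S →
    ∃ K : Subgroup S, K.Characteristic ∧ Subgroup.centralizer (K : Set S) ≤ K ∧ PsiS p S K := by
  intro N
  induction N using Nat.strong_induction_on with
  | _ N IH =>
    intro S _ _ hN hS
    have hp : p.Prime := Fact.out
    by_cases hS1 : Nat.card S = 1
    · -- trivial group
      refine ⟨⊤, inferInstance, le_top, ?_⟩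
      intro G _ _ f hf hidx _ T hT g _ _
      have hrbot : f.range = ⊥ := by
        rw [eq_bot_iff]
        rintro _ ⟨x, rfl⟩
        haveI : Subsingleton S := (Nat.card_eq_one_iff_unique.mp hS1).1
        rw [Subsingleton.elim x 1, map_one]
        exact Subgroup.one_mem _
      rw [hrbot, Subgroup.index_bot] at hidx
      rw [Subgroup.mem_centralizer_iff]
      intro t ht
      have ht1 : t = 1 := by
        obtain ⟨k, hk⟩ := hT ⟨t, ht⟩
        have hk' : t ^ p ^ k = 1 := congrArg Subtype.val hk
        exact eq_one_of_pow_of_coprime hk' (pow_card_eq_one' (x := t))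
          (((Nat.Prime.coprime_iff_not_dvd hp).mpr hidx).symm)
      rw [ht1, one_mul, mul_one]
    by_cases hC : Subgroup.centralizer (Z0 S : Set S) = ⊤
    · have hcen : ∀ z ∈ Z0 S, ∀ x : S, z * x = x * z := by
        intro z hz x
        have : x ∈ Subgroup.centralizer (Z0 S : Set S) := by rw [hC]; trivial
        exact (Subgroup.mem_centralizer_iff.mp this) z hz
      apply exists_K_case2 hp2 hS hcen
      haveI : (Z0 S).Normal := Z0_normal
      refine IH (Nat.card (S ⧸ Z0 S)) ?_ (S ⧸ Z0 S) rfl (hS.to_quotient _)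
      rw [← hN]
      have h1 : Nat.card S = Nat.card (S ⧸ Z0 S) * Nat.card (Z0 S) :=
        Subgroup.card_eq_card_quotient_mul_card_subgroup _
      have h2 : 1 < Nat.card (Z0 S) := by
        rw [Subgroup.one_lt_card_iff_ne_bot]
        exact Z0_ne_bot hS hS1
      have h3 : 0 < Nat.card (S ⧸ Z0 S) := Nat.card_pos
      rw [h1]
      nlinarith
    · apply exists_K_case1 hp2 hS
      intro hCp
      refine IH _ ?_ _ rfl hCp
      rw [← hN]
      have hlt := card_lt_of_lt (lt_top_iff_ne_top.mpr hC)
      rwa [Subgroup.card_top] at hlt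

end Cfsg.Agent.H14
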