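import Mathlib
import Cfsg.Agent.S0742
import Cfsg.Agent.Lib.Lead.PSL29
import Cfsg.Agent.Lib.H03.ZS1

set_option autoImplicit false

/-! Simple groups of order 360: the action on the ten Sylow 3-subgroups. -/

namespace Cfsg.Agent.H14.Sim360

open MulAction

variable {G : Type*} [Group G] [Finite G] [IsSimpleGroup G]

/-- A proper subgroup of a simple group of order 360 has index at least 6. -/
theorem six_le_index (h : Nat.card G = 360) (K : Subgroup G) (hK : K ≠ ⊤) : 6 ≤ K.index := by
  classical
  by_contra hlt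
  push Not at hlt
  haveI : Fintype (G ⧸ K) := Fintype.ofFinite _
  let φ : G →* Equiv.Perm (G ⧸ K) := MulAction.toPermHom G (G ⧸ K)
  have hker : φ.ker = ⊥ := by
    rcases (inferInstance : φ.ker.Normal).eq_bot_or_eq_top with h' | h'
    · exact h'
    · exfalso
      apply hK
      rw [eq_top_iff]
      intro g _
      have hg : g ∈ φ.ker := by rw [h']; trivial
      have h1 : φ g = 1 := hg
      have h2 : φ g ((1 : G) : G ⧸ K) = ((1 : G) : G ⧸ K) := by rw [h1]; rfl
      have h3 : ((g * 1 : G) : G ⧸ K) = ((1 : G) : G ⧸ K) := h2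
      have h4 := QuotientGroup.eq.1 h3
      simpa using h4
  have hinj : Function.Injective φ := (MonoidHom.ker_eq_bot_iff φ).1 hker
  have hdvd : Nat.card G ∣ Nat.card (Equiv.Perm (G ⧸ K)) := Subgroup.card_dvd_of_injective φ hinj
  have hcard : Nat.card (Equiv.Perm (G ⧸ K)) = (K.index).factorial := by
    rw [Nat.card_eq_fintype_card, Fintype.card_perm, ← Nat.card_eq_fintype_card]
    rfl
  have h5 : K.index.factorial ∣ (5 : ℕ).factorial :=
    Nat.factorial_dvd_factorial (by omega : K.index ≤ 5)
  rw [h, hcard] at hdvd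
  have h6 := hdvd.trans h5
  exact absurd h6 (by decide)

omit [IsSimpleGroup G] in
theorem card_sylow3 (h : Nat.card G = 360) (P : Sylow 3 G) : Nat.card (P : Subgroup G) = 9 := by
  haveI : Fact (Nat.Prime 3) := ⟨Nat.prime_three⟩
  obtain ⟨k, hk⟩ := IsPGroup.iff_card.1 P.isPGroup'
  have hm := (P : Subgroup G).card_mul_index
  have hnd := P.not_dvd_index
  rw [h, hk] at hm
  rcases k with _ | _ | _ | k
  · exfalso
    apply hnd
    have h1 : (P : Subgroup G).index = 360 := by simpa using hm
    rw [h1]
    norm_num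
  · exfalso
    apply hnd
    have h1 : (P : Subgroup G).index = 120 := by
      have : 3 * (P : Subgroup G).index = 360 := by simpa using hm
      omega
    rw [h1]
    norm_num
  · simpa using hk
  · exfalso
    have h1 : 27 ∣ 360 := by
      refine ⟨3 ^ k * (P : Subgroup G).index, ?_⟩
      rw [← hm]
      ring
    norm_num at h1

omit [IsSimpleGroup G] in
theorem sylow3_comm (h : Nat.card G = 360) (P : Sylow 3 G) {a b : G} (ha : a ∈ (P : Subgroup G))
    (hb : b ∈ (P : Subgroup G)) : a * b = b * a := by
  haveI : Fact (Nat.Prime 3) := ⟨Nat.prime_three⟩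
  have hc : Nat.card (P : Subgroup G) = 3 ^ 2 := by rw [card_sylow3 h P]; norm_num
  haveI := IsPGroup.isMulCommutative_of_card_eq_prime_sq hc
  have := mul_comm' (⟨a, ha⟩ : (P : Subgroup G)) ⟨b, hb⟩
  exact congrArg Subtype.val this

theorem card_sylow_eq_ten (h : Nat.card G = 360) : Nat.card (Sylow 3 G) = 10 := by
  classical
  haveI : Fact (Nat.Prime 3) := ⟨Nat.prime_three⟩
  obtain ⟨P⟩ : Nonempty (Sylow 3 G) := inferInstance
  have hPc := card_sylow3 h P
  have hidx : (P : Subgroup G).index = 40 := by
    have hm := (P : Subgroup G).card_mul_index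
    rw [h, hPc] at hm
    omega
  have h1 := card_sylow_modEq_one 3 G
  have hd := P.card_dvd_index
  have hN : Nat.card (Sylow 3 G) = (Subgroup.normalizer ((P : Subgroup G) : Set G)).index :=
    P.card_eq_index_normalizer
  rw [hidx] at hd
  set n := Nat.card (Sylow 3 G) with hn
  have hn40 : n ≤ 40 := Nat.le_of_dvd (by norm_num) hd
  have hnot1 : Subgroup.normalizer ((P : Subgroup G) : Set G) ≠ ⊤ := by
    intro htop
    have hPn : (P : Subgroup G).Normal := Subgroup.normalizer_eq_top_iff.1 htop
    rcases hPn.eq_bot_or_eq_top with h2 | h2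
    · rw [h2] at hPc; simp at hPc
    · rw [h2] at hPc
      simp only [Subgroup.card_top] at hPc
      omega
  have hsix := six_le_index h _ hnot1
  rw [← hN] at hsix
  have hcase : n = 10 ∨ n = 40 := by
    have : n % 3 = 1 := h1
    interval_cases n <;> first | omega | (exfalso; revert hd; decide)
  rcases hcase with h2 | h2
  · exact h2
  exfalso
  -- the normalizer equals `P`, Burnside gives a normal complement
  have hNP : Subgroup.normalizer ((P : Subgroup G) : Set G) ≤ (P : Subgroup G) := by
    have hm1 := (Subgroup.normalizer ((P : Subgroup G) : Set G)).card_mul_index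
    rw [← hN, h2, h] at hm1
    have hm2 : Nat.card (Subgroup.normalizer ((P : Subgroup G) : Set G)) = 9 := by omega
    have hle : (P : Subgroup G) ≤ Subgroup.normalizer ((P : Subgroup G) : Set G) := Subgroup.le_normalizer
    have : (P : Subgroup G) = Subgroup.normalizer ((P : Subgroup G) : Set G) :=
      Subgroup.eq_of_le_of_card_ge hle (by rw [hm2, hPc])
    exact this.ge
  have hcen : Subgroup.normalizer ((P : Subgroup G) : Set G) ≤ Subgroup.centralizer ((P : Subgroup G) : Set G) := by
    intro g hg
    rw [Subgroup.mem_centralizer_iff]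
    intro y hy
    exact sylow3_comm h P hy (hNP hg)
  have hcompl := MonoidHom.ker_transferSylow_isComplement' P hcen
  have hkn : (MonoidHom.transferSylow P hcen).ker.Normal := inferInstance
  have hci := hcompl.card_mul_card
  rcases hkn.eq_bot_or_eq_top with h3 | h3
  · rw [h3] at hci
    simp only [Subgroup.card_bot, one_mul, hPc] at hci
    omega
  · rw [h3] at hci
    simp only [Subgroup.card_top, hPc] at hci
    omega

theorem center_free (h : Nat.card G = 360) {x : G} (hx1 : x ≠ 1) :
    Subgroup.centralizer ({x} : Set G) ≠ ⊤ := by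
  intro htop
  have hxc : ∀ g : G, g * x = x * g := by
    intro g
    have : g ∈ Subgroup.centralizer ({x} : Set G) := by rw [htop]; trivial
    exact Subgroup.mem_centralizer_singleton_iff.1 this
  have hn : (Subgroup.zpowers x).Normal := by
    constructor
    intro n hn g
    obtain ⟨k, rfl⟩ := Subgroup.mem_zpowers_iff.1 hn
    have : g * x ^ k * g⁻¹ = x ^ k := by
      have hc : Commute g x := hxc g
      rw [(hc.zpow_right k).eq]
      group
    rw [this]
    exact Subgroup.zpow_mem_zpowers x k
  rcases hn.eq_bot_or_eq_top with h2 | h2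
  · exact hx1 (Subgroup.zpowers_eq_bot.1 h2)
  · -- `G` is then commutative, contradiction with a proper nontrivial Sylow
    haveI : Fact (Nat.Prime 3) := ⟨Nat.prime_three⟩
    obtain ⟨P⟩ : Nonempty (Sylow 3 G) := inferInstance
    have hPc := card_sylow3 h P
    have hPn : (P : Subgroup G).Normal := by
      constructor
      intro n hn g
      obtain ⟨k, hk⟩ := Subgroup.mem_zpowers_iff.1 (by rw [h2]; trivial : g ∈ Subgroup.zpowers x)
      have hc : Commute n g := by
        rw [← hk]
        have hc0 : Commute n x := hxc n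
        exact hc0.zpow_right k
      rw [hc.symm.eq]
      simpa using hn
    rcases hPn.eq_bot_or_eq_top with h3 | h3
    · rw [h3] at hPc; simp at hPc
    · rw [h3] at hPc
      simp only [Subgroup.card_top] at hPc
      omega

/-- If two Sylow 3-subgroups share a nontrivial element `x` then `|C(x)| = 36`. -/
theorem card_centralizer_eq_36 (h : Nat.card G = 360) {P Q : Sylow 3 G} (hPQ : P ≠ Q) {x : G}
    (hxP : x ∈ (P : Subgroup G)) (hxQ : x ∈ (Q : Subgroup G)) (hx1 : x ≠ 1) :
    Nat.card (Subgroup.centralizer ({x} : Set G)) = 36 := by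
  classical
  haveI : Fact (Nat.Prime 3) := ⟨Nat.prime_three⟩
  set X := Subgroup.centralizer ({x} : Set G) with hX
  have hPX : (P : Subgroup G) ≤ X := fun y hy =>
    Subgroup.mem_centralizer_singleton_iff.2 (sylow3_comm h P hy hxP)
  have hQX : (Q : Subgroup G) ≤ X := fun y hy =>
    Subgroup.mem_centralizer_singleton_iff.2 (sylow3_comm h Q hy hxQ)
  have hXtop : X ≠ ⊤ := center_free h hx1
  have hsix := six_le_index h X hXtop
  -- Sylow subgroups of `X` above `P` and `Q`
  have key : ∀ A : Sylow 3 G, (A : Subgroup G) ≤ X → ∃ R : Sylow 3 X,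
      (R : Subgroup X).map X.subtype = (A : Subgroup G) := by
    intro A hA
    have hpA : IsPGroup 3 ((A : Subgroup G).subgroupOf X) :=
      A.isPGroup'.comap_of_injective X.subtype X.subtype_injective
    obtain ⟨R, hR⟩ := hpA.exists_le_sylow
    refine ⟨R, ?_⟩
    have hpR : IsPGroup 3 ((R : Subgroup X).map X.subtype) := R.isPGroup'.map _
    have hle : (A : Subgroup G) ≤ (R : Subgroup X).map X.subtype := by
      intro y hy
      exact ⟨⟨y, hA hy⟩, hR (by rw [Subgroup.mem_subgroupOf]; exact hy), rfl⟩
    exact A.is_maximal' hpR hle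
  obtain ⟨R₁, hR₁⟩ := key P hPX
  obtain ⟨R₂, hR₂⟩ := key Q hQX
  have hne : R₁ ≠ R₂ := by
    intro he
    apply hPQ
    apply Sylow.ext
    rw [← hR₁, ← hR₂, he]
  have hR₁c : Nat.card (R₁ : Subgroup X) = 9 := by
    have h1 : Nat.card ((R₁ : Subgroup X).map X.subtype) = Nat.card (R₁ : Subgroup X) :=
      Nat.card_congr ((R₁ : Subgroup X).equivMapOfInjective X.subtype X.subtype_injective).toEquiv.symm
    rw [← h1, hR₁]
    exact card_sylow3 h P
  have hm1 := (R₁ : Subgroup X).card_mul_index
  rw [hR₁c] at hm1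
  have hm2 := X.card_mul_index
  rw [h, ← hm1] at hm2
  set idx := (R₁ : Subgroup X).index with hidx
  have hn1 := card_sylow_modEq_one 3 X
  have hnd := R₁.card_dvd_index
  rw [← hidx] at hnd
  set n := Nat.card (Sylow 3 X) with hn
  have hn_ne : n ≠ 1 := by
    intro h1
    haveI : Subsingleton (Sylow 3 X) := by
      rw [hn] at h1
      exact (Nat.card_eq_one_iff_unique.1 h1).1
    exact hne (Subsingleton.elim _ _)
  have hmod : n % 3 = 1 := hn1
  have hprod : idx * X.index = 40 := by nlinarith
  have hidxpos : 0 < idx := by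
    rcases Nat.eq_zero_or_pos idx with h0 | h0
    · rw [h0] at hprod; omega
    · exact h0
  have hidx6 : idx ≤ 6 := by
    by_contra hc
    push Not at hc
    nlinarith
  have hnle : n ≤ idx := Nat.le_of_dvd hidxpos hnd
  have hidx4 : idx = 4 := by
    interval_cases idx
    · omega
    · have : n = 1 ∨ n = 2 := by omega
      omega
    · omega
    · rfl
    · have : n = 1 ∨ n = 5 := by
        have := (Nat.dvd_prime (by norm_num : Nat.Prime 5)).1 hnd
        exact this
      omega
    · omega
  rw [← hm1, hidx4]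

/-- The main recognition: action on the Sylow 3-subgroups is a Zassenhaus action. -/
theorem a6_of_ti (h : Nat.card G = 360)
    (hTI : ∀ (P Q : Sylow 3 G) (x : G), P ≠ Q → x ∈ (P : Subgroup G) → x ∈ (Q : Subgroup G) → x = 1)
    (h6 : ∀ (P : Sylow 3 G) (x : G), x ∈ (P : Subgroup G) → x ≠ 1 → ∀ t : G, orderOf t = 2 →
      t * x ≠ x * t) :
    Nonempty (G ≃* alternatingGroup (Fin 6)) := by
  classical
  haveI : Fact (Nat.Prime 3) := ⟨Nat.prime_three⟩
  haveI : Fintype (Sylow 3 G) := Fintype.ofFinite _
  have hΩ : Nat.card (Sylow 3 G) = 10 := card_sylow_eq_ten h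
  have hΩ' : Fintype.card (Sylow 3 G) = 10 := by rw [← Nat.card_eq_fintype_card]; exact hΩ
  -- 3-elements of normalizers lie in the Sylow subgroup
  have hmem : ∀ (a b : Sylow 3 G) (p : G), p ∈ (a : Subgroup G) → p • b = b → p ∈ (b : Subgroup G) := by
    intro a b p hpa hpb
    have hn : p ∈ Subgroup.normalizer ((b : Subgroup G) : Set G) := Sylow.smul_eq_iff_mem_normalizer.1 hpb
    have hz : IsPGroup 3 (Subgroup.zpowers p) :=
      a.isPGroup'.to_le (Subgroup.zpowers_le.2 hpa)
    have hs := hz.to_sup_of_normal_right' b.isPGroup' (Subgroup.zpowers_le.2 hn)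
    have he := b.is_maximal' hs le_sup_right
    rw [← he]
    exact (le_sup_left : Subgroup.zpowers p ≤ _) (Subgroup.mem_zpowers p)
  have hinj : ∀ (a b : Sylow 3 G), a ≠ b → ∀ p ∈ (a : Subgroup G), ∀ q ∈ (a : Subgroup G),
      p • b = q • b → p = q := by
    intro a b hab p hp q hq hpq
    have h1 : (q⁻¹ * p) • b = b := by rw [mul_smul, hpq, ← mul_smul]; simp
    have h2 : q⁻¹ * p ∈ (a : Subgroup G) := a.1.mul_mem (a.1.inv_mem hq) hp
    have h3 := hTI a b (q⁻¹ * p) hab h2 (hmem a b _ h2 h1)
    rw [inv_mul_eq_one] at h3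
    exact h3.symm
  have hself : ∀ (a : Sylow 3 G) (p : G), p ∈ (a : Subgroup G) → p • a = a := by
    intro a p hp
    exact Sylow.smul_eq_iff_mem_normalizer.2 (Subgroup.le_normalizer hp)
  have hsurj : ∀ (a b c : Sylow 3 G), a ≠ b → a ≠ c → ∃ p ∈ (a : Subgroup G), p • b = c := by
    intro a b c hab hac
    let f : ↥(a : Subgroup G) → {d : Sylow 3 G // d ≠ a} := fun p => ⟨(p : G) • b, by
      intro he
      apply hab
      have h1 : (p : G) • a = a := hself a p p.2
      have h2 : (p : G) • b = (p : G) • a := by rw [he, h1]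
      exact (MulAction.injective (p : G) h2).symm⟩
    have hf : Function.Injective f := by
      intro p q hpq
      have h1 : (p : G) • b = (q : G) • b := congrArg Subtype.val hpq
      exact Subtype.ext (hinj a b hab p p.2 q q.2 h1)
    have hcard : Nat.card {d : Sylow 3 G // d ≠ a} ≤ Nat.card (a : Subgroup G) := by
      rw [card_sylow3 h a, Nat.card_eq_fintype_card, Fintype.card_subtype_compl]
      simp only [Fintype.card_unique, hΩ']
      norm_num
    obtain ⟨p, hp⟩ := (hf.bijective_of_nat_card_le hcard).2 ⟨c, hac.symm⟩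
    exact ⟨p, p.2, congrArg Subtype.val hp⟩
  have htrans : ∀ a b : Sylow 3 G, ∃ g : G, g • a = b := fun a b => MulAction.exists_smul_eq G a b
  have h2 : ∀ a b c d : Sylow 3 G, a ≠ b → c ≠ d → ∃ g : G, g • a = c ∧ g • b = d := by
    intro a b c d hab hcd
    obtain ⟨g, hg⟩ := htrans a c
    have hne : c ≠ g • b := by
      intro he
      apply hab
      rw [← hg] at he
      exact MulAction.injective g he
    obtain ⟨p, hp, hpb⟩ := hsurj c (g • b) d hne hcd
    refine ⟨p * g, ?_, ?_⟩
    · rw [mul_smul, hg, hself c p hp]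
    · rw [mul_smul, hpb]
  have hfaith : FaithfulSMul G (Sylow 3 G) := by
    constructor
    intro g₁ g₂ hg
    let φ : G →* Equiv.Perm (Sylow 3 G) := MulAction.toPermHom G (Sylow 3 G)
    have hker : φ.ker = ⊥ := by
      rcases (inferInstance : φ.ker.Normal).eq_bot_or_eq_top with h' | h'
      · exact h'
      · exfalso
        obtain ⟨a⟩ : Nonempty (Sylow 3 G) := inferInstance
        obtain ⟨b, hb⟩ : ∃ b : Sylow 3 G, a ≠ b := by
          by_contra hc
          push Not at hc
          haveI : Subsingleton (Sylow 3 G) := ⟨fun x y => by rw [← hc x, ← hc y]⟩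
          have : Nat.card (Sylow 3 G) = 1 := Nat.card_unique
          omega
        have hnt : Subgroup.normalizer ((a : Subgroup G) : Set G) = ⊤ := by
          rw [eq_top_iff]
          intro g _
          have hg' : g ∈ φ.ker := by rw [h']; trivial
          have h1 : φ g = 1 := hg'
          have h3 : φ g a = a := by rw [h1]; rfl
          exact Sylow.smul_eq_iff_mem_normalizer.1 h3
        have hin : Nat.card (Sylow 3 G) = (Subgroup.normalizer ((a : Subgroup G) : Set G)).index :=
          a.card_eq_index_normalizer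
        rw [hnt, Subgroup.index_top, hΩ] at hin
        omega
    have hinjφ : Function.Injective φ := (MonoidHom.ker_eq_bot_iff φ).1 hker
    apply hinjφ
    ext1 a
    exact hg a
  obtain ⟨a₀⟩ : Nonempty (Sylow 3 G) := inferInstance
  obtain ⟨b₀, hb₀⟩ : ∃ b : Sylow 3 G, a₀ ≠ b := by
    by_contra hc
    push Not at hc
    haveI : Subsingleton (Sylow 3 G) := ⟨fun x y => by rw [← hc x, ← hc y]⟩
    have : Nat.card (Sylow 3 G) = 1 := Nat.card_unique
    omega
  set D := (MulAction.stabilizer G a₀ ⊓ MulAction.stabilizer G b₀ : Subgroup G) with hD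
  have hDcard : ∀ (a b : Sylow 3 G), a ≠ b →
      Nat.card (MulAction.stabilizer G a ⊓ MulAction.stabilizer G b : Subgroup G) = 4 := by
    intro a b hab
    have hi := Cfsg.Agent.H03.ZS.card_two_trans h2 hab
    rw [hΩ'] at hi
    have hm := (MulAction.stabilizer G a ⊓ MulAction.stabilizer G b : Subgroup G).card_mul_index
    rw [hi, h] at hm
    omega
  have hDc := hDcard a₀ b₀ hb₀
  have hthree : ∀ g : G, ∀ a b c : Sylow 3 G, a ≠ b → b ≠ c → a ≠ c → g • a = a → g • b = b → g • c = c →
      g = 1 := by
    intro g a b c hab hbc hac hga hgb hgc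
    by_contra hg1
    obtain ⟨p, hpa, hpb⟩ := hsurj a b c hab hac
    have hp1 : p ≠ 1 := by
      rintro rfl
      rw [one_smul] at hpb
      exact hbc hpb
    have hgn : g ∈ Subgroup.normalizer ((a : Subgroup G) : Set G) := Sylow.smul_eq_iff_mem_normalizer.1 hga
    have hgp : g * p * g⁻¹ ∈ (a : Subgroup G) := (Subgroup.mem_normalizer_iff.1 hgn p).1 hpa
    have hact : (g * p * g⁻¹) • b = p • b := by
      have hgib : g⁻¹ • b = b := by
        conv_lhs => rw [← hgb]
        simp
      rw [mul_smul, mul_smul, hgib, hpb, hgc]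
    have hcomm : g * p * g⁻¹ = p := hinj a b hab _ hgp _ hpa hact
    have hcomm' : g * p = p * g := by
      calc g * p = g * p * g⁻¹ * g := by group
        _ = p * g := by rw [hcomm]
    have hgD : g ∈ (MulAction.stabilizer G a ⊓ MulAction.stabilizer G b : Subgroup G) := ⟨hga, hgb⟩
    have hod : orderOf g ∣ 4 := by
      have h1 := Subgroup.orderOf_dvd_natCard _ hgD
      rwa [hDcard a b hab] at h1
    have hod2 : 2 ∣ orderOf g := by
      have h5 : orderOf g ≠ 1 := by rwa [Ne, orderOf_eq_one_iff]
      have hle := Nat.le_of_dvd (by norm_num) hod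
      interval_cases hh : orderOf g <;> first | omega | norm_num | (exfalso; revert hod; decide)
    have hot : orderOf (g ^ (orderOf g / 2)) = 2 := orderOf_pow_orderOf_div (orderOf_pos g).ne' hod2
    refine h6 a p hpa hp1 (g ^ (orderOf g / 2)) hot ?_
    exact ((show Commute g p from hcomm').pow_left _).eq
  have hZ : Cfsg.IsZassenhausGroup G (Sylow 3 G) := by
    refine ⟨hfaith, MulAction.is_two_pretransitive_iff.2 (fun {a b c d} hab hcd => h2 a b c d hab hcd),
      hthree, ?_, ?_⟩
    · -- a nontrivial element fixing two points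
      have h1 : Nontrivial D := by
        rw [← Finite.one_lt_card_iff_nontrivial]
        rw [hDc]
        norm_num
      obtain ⟨d, hd⟩ := exists_ne (1 : D)
      refine ⟨d, fun he => hd (Subtype.ext he), a₀, b₀, hb₀, d.2.1, d.2.2⟩
    · intro N hN hNt
      rcases hN.eq_bot_or_eq_top with h3 | h3
      · exfalso
        obtain ⟨g, hg⟩ := hNt.exists_smul_eq a₀ b₀
        have hg1 : (g : G) = 1 := by
          have hgb : (g : G) ∈ (⊥ : Subgroup G) := h3 ▸ g.2
          exact Subgroup.mem_bot.1 hgb
        have : (g : G) • a₀ = b₀ := hg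
        rw [hg1, one_smul] at this
        exact hb₀ this
      · -- every Sylow point has a nontrivial stabilizer in `N = G`
        refine ⟨a₀, ?_⟩
        have h1 : Nontrivial D := by
          rw [← Finite.one_lt_card_iff_nontrivial]
          rw [hDc]
          norm_num
        obtain ⟨d, hd⟩ := exists_ne (1 : D)
        intro hb
        have hdN : (d : G) ∈ N := by rw [h3]; trivial
        have : (⟨(d : G), hdN⟩ : N) ∈ MulAction.stabilizer N a₀ := d.2.1
        rw [hb, Subgroup.mem_bot] at this
        apply hd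
        apply Subtype.ext
        have h9 := congrArg Subtype.val this
        simpa using h9
  have heven : Even (Nat.card (MulAction.stabilizer G a₀ ⊓ MulAction.stabilizer G b₀ : Subgroup G)) := by
    rw [hDcard a₀ b₀ hb₀]
    decide
  have hd2 : 2 * Nat.card (MulAction.stabilizer G a₀ ⊓ MulAction.stabilizer G b₀ : Subgroup G) ≤
      Fintype.card (Sylow 3 G) - 2 := by
    rw [hDcard a₀ b₀ hb₀, hΩ']
  obtain ⟨p, f, K, _, _, -, -, hK, hΩK, ⟨e⟩⟩ := Cfsg.Agent.S0742.result hZ hb₀ heven hd2
  have hK9 : Fintype.card K = 9 := by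
    rw [hK]
    omega
  obtain ⟨e'⟩ := Cfsg.Agent.Lead.psl29_equiv_alt hK9
  exact ⟨e.trans e'⟩

end Cfsg.Agent.H14.Sim360
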