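import Mathlib
import Cfsg.Agent.Lib.H14.Sim360
import Cfsg.Agent.S0848
import Cfsg.Agent.S0495
import Cfsg.Agent.Lib.Lead.PSL27
import Cfsg.Agent.Lib.H15.OddCore
import Cfsg.Agent.Lib.H15.SwapPair5
import Cfsg.Agent.Lib.H15.ChzFour2
import Cfsg.Agent.Lib.H15.ColBasic
import Cfsg.Agent.Lib.H08.Thom.Sign
import Cfsg.Agent.Lib.H09.AltAut3
import Cfsg.Agent.Lib.H03.S4Rec

set_option autoImplicit false
set_option maxRecDepth 100000

/-! Finite groups with an involution whose centralizer is dihedral of order 8. -/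

namespace Cfsg.Agent.H14.D8C

open Cfsg DihedralGroup
open scoped commutatorElement

universe u

theorem z2_cube : ∀ c : ZMod 2, c ^ 3 = 1 → c = 1 := by decide
theorem d8_center : ∀ x : DihedralGroup 4, (∀ y, x * y = y * x) → x = 1 ∨ x = r 2 := by decide
theorem d8_invol : ∀ x : DihedralGroup 4, x * x = 1 → x ≠ 1 → x = r 2 ∨ ∃ i, x = sr i := by decide
theorem d8_r2 : ∀ x : DihedralGroup 4, x * r 2 = r 2 * x := by decide
theorem d8_rr : (r 1 * r 1 : DihedralGroup 4) = r 2 := by decide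
theorem d8_conj : ∀ i : ZMod 4, (r 1 : DihedralGroup 4) * sr i * (r 1)⁻¹ = sr i * r 2 := by decide
theorem d8_srj : ∀ i j : ZMod 4, (sr j : DihedralGroup 4) = sr i ∨ sr j = sr i * r 2 ∨
    sr j = sr i * r 1 ∨ sr j = r 1 * (sr i * r 1) * (r 1)⁻¹ := by decide
theorem d8_gen : ∀ a : DihedralGroup 4, ∃ b c : ZMod 4, a = sr b ∨ a = sr b * sr c := by decide
theorem d8_r2_gen : ∀ a : DihedralGroup 4, a * a = 1 → a ≠ 1 → a * a = 1 := fun _ h _ => h
theorem d8_noncomm : (r 1 * sr 0 : DihedralGroup 4) ≠ sr 0 * r 1 := by decide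
theorem d8_r2_ne : (r 2 : DihedralGroup 4) ≠ 1 := by decide
theorem d8_r2_sq : (r 2 * r 2 : DihedralGroup 4) = 1 := by decide
theorem d8_w_sq : ∀ i : ZMod 4, (sr i * r 1 * (sr i * r 1) : DihedralGroup 4) = 1 := by decide
theorem d8_w_ne : ∀ i : ZMod 4, (sr i * r 1 : DihedralGroup 4) ≠ 1 := by decide

theorem d8_V0_mul : ∀ (i : ZMod 4) (a b : DihedralGroup 4),
    (a = 1 ∨ a = r 2 ∨ a = sr i ∨ a = sr i * r 2) → (b = 1 ∨ b = r 2 ∨ b = sr i ∨ b = sr i * r 2) →
    (a * b = 1 ∨ a * b = r 2 ∨ a * b = sr i ∨ a * b = sr i * r 2) := by decide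
theorem d8_V0_inv : ∀ (i : ZMod 4) (a : DihedralGroup 4),
    (a = 1 ∨ a = r 2 ∨ a = sr i ∨ a = sr i * r 2) →
    (a⁻¹ = 1 ∨ a⁻¹ = r 2 ∨ a⁻¹ = sr i ∨ a⁻¹ = sr i * r 2) := by decide
theorem d8_V0_comm : ∀ (i : ZMod 4) (a b : DihedralGroup 4),
    (a = 1 ∨ a = r 2 ∨ a = sr i ∨ a = sr i * r 2) → (b = 1 ∨ b = r 2 ∨ b = sr i ∨ b = sr i * r 2) →
    a * b = b * a := by decide
theorem d8_V0_sq : ∀ (i : ZMod 4) (a : DihedralGroup 4),
    (a = 1 ∨ a = r 2 ∨ a = sr i ∨ a = sr i * r 2) → a * a = 1 := by decide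
theorem d8_cent : ∀ (i : ZMod 4) (a : DihedralGroup 4), a * sr i = sr i * a →
    (a = 1 ∨ a = r 2 ∨ a = sr i ∨ a = sr i * r 2) := by decide
theorem d8_split : ∀ (i : ZMod 4) (a : DihedralGroup 4),
    (a = 1 ∨ a = r 2 ∨ a = sr i ∨ a = sr i * r 2) ∨
    ∃ v : DihedralGroup 4, (v = 1 ∨ v = r 2 ∨ v = sr i ∨ v = sr i * r 2) ∧ a = v * (sr i * r 1) := by
  decide
theorem d8_card : ∀ i : ZMod 4, (Finset.univ.filter
    (fun a : DihedralGroup 4 => a = 1 ∨ a = r 2 ∨ a = sr i ∨ a = sr i * r 2)).card = 4 := by decide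

/-- The Klein four subgroup `{1, r², sr i, sr i r²}`. -/
def V0 (i : ZMod 4) : Subgroup (DihedralGroup 4) where
  carrier := {a | a = 1 ∨ a = r 2 ∨ a = sr i ∨ a = sr i * r 2}
  mul_mem' := fun ha hb => d8_V0_mul i _ _ ha hb
  one_mem' := Or.inl rfl
  inv_mem' := fun ha => d8_V0_inv i _ ha

theorem mem_V0 {i : ZMod 4} {a : DihedralGroup 4} :
    a ∈ V0 i ↔ a = 1 ∨ a = r 2 ∨ a = sr i ∨ a = sr i * r 2 := Iff.rfl

theorem card_V0 (i : ZMod 4) : Nat.card (V0 i) = 4 := by
  have h : ∀ a, a ∈ (Finset.univ.filter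
      (fun a : DihedralGroup 4 => a = 1 ∨ a = r 2 ∨ a = sr i ∨ a = sr i * r 2)) ↔ a ∈ V0 i := by
    intro a
    rw [Finset.mem_filter]
    simp only [Finset.mem_univ, true_and]
    rfl
  have h2 := Nat.subtype_card _ h
  rw [d8_card i] at h2
  exact h2

variable {G : Type u} [Group G] [Finite G]

/-- A dihedral parametrisation of the centralizer of `z`. -/
structure Pack (z : G) (el : DihedralGroup 4 →* G) : Prop where
  inj : Function.Injective el
  surj : ∀ g, g * z = z * g → ∃ x, el x = g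
  two : el (r 2) = z
  card : Nat.card (Subgroup.centralizer ({z} : Set G)) = 8

theorem exists_pack (z : G) (hz : orderOf z = 2)
    (e : Subgroup.centralizer ({z} : Set G) ≃* DihedralGroup 4) :
    ∃ el : DihedralGroup 4 →* G, Pack z el := by
  classical
  have hz1 : z ≠ 1 := by
    intro h
    rw [h, orderOf_one] at hz
    omega
  set D := Subgroup.centralizer ({z} : Set G) with hD
  have hmemD : ∀ g, g ∈ D ↔ g * z = z * g := fun g => Subgroup.mem_centralizer_singleton_iff
  refine ⟨D.subtype.comp e.symm.toMonoidHom, ?_, ?_, ?_, ?_⟩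
  · intro a b h
    have h1 : (e.symm a : D) = e.symm b := Subtype.ext h
    exact e.symm.injective h1
  · intro g hg
    exact ⟨e ⟨g, (hmemD g).2 hg⟩, by simp⟩
  · have htD : z ∈ D := (hmemD z).2 rfl
    have h1 : ∀ y, e ⟨z, htD⟩ * y = y * e ⟨z, htD⟩ := by
      intro y
      obtain ⟨y', rfl⟩ := e.surjective y
      rw [← map_mul, ← map_mul]
      congr 1
      apply Subtype.ext
      exact ((hmemD y').1 y'.2).symm
    have h2 : e ⟨z, htD⟩ = r 2 := by
      rcases d8_center _ h1 with h | h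
      · exfalso
        apply hz1
        have := e.injective (h.trans (map_one e).symm)
        exact congrArg Subtype.val this
      · exact h
    have h3 : e.symm (r 2) = ⟨z, htD⟩ := by rw [← h2]; simp
    simp [h3]
  · rw [Nat.card_congr e.toEquiv, DihedralGroup.nat_card]

namespace Pack

variable {z : G} {el : DihedralGroup 4 →* G} (P : Pack z el)
include P

theorem el_comm (x : DihedralGroup 4) : el x * z = z * el x := by
  rw [← P.two, ← map_mul, ← map_mul, d8_r2 x]

theorem z_ne : z ≠ 1 := by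
  rw [← P.two]
  intro h
  exact d8_r2_ne (P.inj (h.trans (map_one el).symm))

theorem z_sq : z * z = 1 := by
  rw [← P.two, ← map_mul, d8_r2_sq, map_one]

theorem order_z : orderOf z = 2 := orderOf_eq_prime (by rw [pow_two, P.z_sq]) P.z_ne

theorem el_ne {x : DihedralGroup 4} (hx : x ≠ 1) : el x ≠ 1 :=
  fun h => hx (P.inj (h.trans (map_one el).symm))

theorem mem_C {g : G} : g ∈ Subgroup.centralizer ({z} : Set G) ↔ ∃ x, el x = g := by
  rw [Subgroup.mem_centralizer_singleton_iff]
  constructor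
  · exact P.surj g
  · rintro ⟨x, rfl⟩
    exact P.el_comm x

theorem isP : IsPGroup 2 (Subgroup.centralizer ({z} : Set G)) :=
  IsPGroup.of_card (n := 3) (by rw [P.card]; norm_num)

theorem index_odd : ¬ 2 ∣ (Subgroup.centralizer ({z} : Set G)).index := by
  refine Cfsg.Agent.H15.Col.not_dvd_index_of_unique_central z _ P.isP le_rfl ?_ P.z_sq P.z_ne ?_ ?_
  · exact Subgroup.mem_centralizer_singleton_iff.2 rfl
  · intro w hw hw1 _ hc
    obtain ⟨x, rfl⟩ := P.mem_C.1 hw
    have hx : ∀ y, x * y = y * x := by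
      intro y
      apply P.inj
      rw [map_mul, map_mul]
      exact hc _ (P.mem_C.2 ⟨y, rfl⟩)
    rcases d8_center x hx with h | h
    · rw [h, map_one] at hw1
      exact absurd rfl hw1
    · rw [h, P.two]
  · intro R _ hR hQR
    exact le_antisymm hR hQR

/-- The centralizer as a Sylow subgroup. -/
noncomputable def syl : Sylow 2 G :=
  haveI : Fact (Nat.Prime 2) := ⟨Nat.prime_two⟩
  P.isP.toSylow P.index_odd

theorem syl_coe : ((P.syl : Sylow 2 G) : Subgroup G) = Subgroup.centralizer ({z} : Set G) := by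
  haveI : Fact (Nat.Prime 2) := ⟨Nat.prime_two⟩
  exact IsPGroup.toSylow_coe _ _

/-- `C(z)` is self-normalizing. -/
theorem normalizer_le : Subgroup.normalizer ((Subgroup.centralizer ({z} : Set G) : Subgroup G) : Set G) ≤
    Subgroup.centralizer ({z} : Set G) := by
  intro g hg
  have hzC : z ∈ Subgroup.centralizer ({z} : Set G) := Subgroup.mem_centralizer_singleton_iff.2 rfl
  have h1 : g * z * g⁻¹ ∈ Subgroup.centralizer ({z} : Set G) :=
    (Subgroup.mem_normalizer_iff.1 hg z).1 hzC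
  obtain ⟨b, hb⟩ := P.mem_C.1 h1
  have hc : ∀ y, b * y = y * b := by
    intro y
    apply P.inj
    rw [map_mul, map_mul, hb]
    have h2 : g⁻¹ * el y * g ∈ Subgroup.centralizer ({z} : Set G) := by
      have := (Subgroup.mem_normalizer_iff.1 (Subgroup.inv_mem _ hg) (el y)).1 (P.mem_C.2 ⟨y, rfl⟩)
      simpa using this
    have h3 : (g⁻¹ * el y * g) * z = z * (g⁻¹ * el y * g) := Subgroup.mem_centralizer_singleton_iff.1 h2
    calc g * z * g⁻¹ * el y = g * (z * (g⁻¹ * el y * g)) * g⁻¹ := by group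
      _ = g * ((g⁻¹ * el y * g) * z) * g⁻¹ := by rw [h3]
      _ = el y * (g * z * g⁻¹) := by group
  rcases d8_center b hc with h | h
  · exfalso
    rw [h, map_one] at hb
    apply P.z_ne
    have : z = g⁻¹ * (g * z * g⁻¹) * g := by group
    rw [this, ← hb]
    group
  · rw [h, P.two] at hb
    rw [Subgroup.mem_centralizer_singleton_iff]
    calc g * z = (g * z * g⁻¹) * g := by group
      _ = z * g := by rw [← hb]

/-- Odd normal subgroups meet `C(z)` trivially. -/
theorem mem_odd_one {n : G} (hn : n ∈ oddCore G) (hc : n * z = z * n) : n = 1 := by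
  have h1 : orderOf n ∣ Nat.card (oddCore G) := Subgroup.orderOf_dvd_natCard _ hn
  have h2 : orderOf n ∣ 2 ^ 3 := by
    have := Subgroup.orderOf_dvd_natCard _ (Subgroup.mem_centralizer_singleton_iff.2 hc)
    rw [P.card] at this
    simpa using this
  have h3 : (Nat.card (oddCore G)).Coprime (2 ^ 3) :=
    Nat.Coprime.pow_right 3 Cfsg.Agent.H15.card_oddCore_coprime
  have h4 := Nat.Coprime.coprime_dvd_left h1 h3
  exact orderOf_eq_one_iff.1 (Nat.Coprime.eq_one_of_dvd h4 h2)

omit P in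
theorem inv_of_fpf {N : Subgroup G} [N.Normal] (w : G) (hw : w * w = 1)
    (hfix : ∀ n ∈ N, w * n * w⁻¹ = n → n = 1) : ∀ n ∈ N, w * n * w⁻¹ = n⁻¹ := by
  let φ : N →* N := (MulAut.conjNormal w : MulAut N).toMonoidHom
  have hφv : ∀ n : N, ((φ n : N) : G) = w * n * w⁻¹ := fun n => MulAut.conjNormal_apply w n
  have hφ : MonoidHom.FixedPointFree (φ : N → N) := by
    intro n hn
    have h1 : w * (n : G) * w⁻¹ = n := by
      rw [← hφv, hn]
    exact Subtype.ext (hfix n n.2 h1)
  have hinv : Function.Involutive φ := by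
    intro n
    apply Subtype.ext
    rw [hφv, hφv]
    have hwi : w⁻¹ = w := inv_eq_of_mul_eq_one_left hw
    rw [hwi]
    calc w * (w * (n : G) * w) * w = (w * w) * n * (w * w) := by group
      _ = n := by rw [hw]; group
  have h := MonoidHom.FixedPointFree.coe_eq_inv_of_involutive hφ hinv
  intro n hn
  have h2 := congrFun h ⟨n, hn⟩
  have h3 := congrArg Subtype.val h2
  rw [hφv] at h3
  exact h3

theorem conj_inverts (c : G) : ∀ n ∈ oddCore G, (c * z * c⁻¹) * n * (c * z * c⁻¹)⁻¹ = n⁻¹ := by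
  refine inv_of_fpf (c * z * c⁻¹) ?_ ?_
  · calc c * z * c⁻¹ * (c * z * c⁻¹) = c * (z * z) * c⁻¹ := by group
      _ = 1 := by rw [P.z_sq]; group
  · intro n hn hc0
    have hcn : c⁻¹ * n * c ∈ oddCore G := by
      have := (inferInstance : (oddCore G).Normal).conj_mem n hn c⁻¹
      simpa using this
    have hc : c⁻¹ * n * c * z = z * (c⁻¹ * n * c) := by
      have h1 : (c * z * c⁻¹) * n = n * (c * z * c⁻¹) := by
        calc (c * z * c⁻¹) * n = (c * z * c⁻¹) * n * (c * z * c⁻¹)⁻¹ * (c * z * c⁻¹) := by group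
          _ = n * (c * z * c⁻¹) := by rw [hc0]
      calc c⁻¹ * n * c * z = c⁻¹ * (n * (c * z * c⁻¹)) * c := by group
        _ = c⁻¹ * ((c * z * c⁻¹) * n) * c := by rw [h1]
        _ = z * (c⁻¹ * n * c) := by group
    have := P.mem_odd_one hcn hc
    calc n = c * (c⁻¹ * n * c) * c⁻¹ := by group
      _ = 1 := by rw [this]; group

/-- If `z`, `u`, `uz` are all conjugate then `O(G) = 1`. -/
theorem oddCore_bot {a b : G} (h : (a * z * a⁻¹) * z = b * z * b⁻¹) : oddCore G = ⊥ := by
  rw [eq_bot_iff]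
  intro n hn
  rw [Subgroup.mem_bot]
  have h1 := P.conj_inverts a n hn
  have h2 := P.conj_inverts b n hn
  have h3 := P.conj_inverts 1 n hn
  simp only [one_mul, mul_one, inv_one] at h3
  rw [← h] at h2
  have h4 : (a * z * a⁻¹ * z) * n * (a * z * a⁻¹ * z)⁻¹ = n := by
    calc (a * z * a⁻¹ * z) * n * (a * z * a⁻¹ * z)⁻¹
        = (a * z * a⁻¹) * (z * n * z⁻¹) * (a * z * a⁻¹)⁻¹ := by group
      _ = (a * z * a⁻¹) * n⁻¹ * (a * z * a⁻¹)⁻¹ := by rw [h3]
      _ = ((a * z * a⁻¹) * n * (a * z * a⁻¹)⁻¹)⁻¹ := by group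
      _ = n := by rw [h1]; simp
  rw [h4] at h2
  -- `n = n⁻¹`, and `n` has odd order
  have h5 : n * n = 1 := by
    calc n * n = n⁻¹ * n := by rw [← h2]
      _ = 1 := by group
  have h6 : orderOf n ∣ 2 := orderOf_dvd_of_pow_eq_one (by rw [pow_two, h5])
  have h7 : orderOf n ∣ Nat.card (oddCore G) := Subgroup.orderOf_dvd_natCard _ hn
  have h8 := Nat.Coprime.coprime_dvd_left h7 Cfsg.Agent.H15.card_oddCore_coprime
  exact orderOf_eq_one_iff.1 (Nat.Coprime.eq_one_of_dvd h8 h6)

/-- Under the fusion assumption, all involutions are conjugate to `z`. -/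
theorem all_conj (hall : ∀ j : ZMod 4, ∃ c : G, c * z * c⁻¹ = el (sr j)) {y : G} (hy : y * y = 1)
    (hy1 : y ≠ 1) : ∃ c : G, c * z * c⁻¹ = y := by
  classical
  haveI : Fact (Nat.Prime 2) := ⟨Nat.prime_two⟩
  have hoy : orderOf y = 2 := orderOf_eq_prime (by rw [pow_two, hy]) hy1
  have hp : IsPGroup 2 (Subgroup.zpowers y) :=
    IsPGroup.of_card (n := 1) (by rw [Nat.card_zpowers, hoy]; norm_num)
  obtain ⟨Q, hQ⟩ := hp.exists_le_sylow
  obtain ⟨g, hg⟩ := MulAction.exists_smul_eq G Q P.syl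
  have hyQ : y ∈ (Q : Subgroup G) := hQ (Subgroup.mem_zpowers y)
  have h1 : g * y * g⁻¹ ∈ ((g • Q : Sylow 2 G) : Subgroup G) :=
    Cfsg.Agent.H15.ChzFour.conj_mem_smul Q g y hyQ
  rw [hg, P.syl_coe] at h1
  obtain ⟨x, hx⟩ := P.mem_C.1 h1
  have hxx : x * x = 1 := by
    apply P.inj
    rw [map_mul, hx, map_one]
    calc g * y * g⁻¹ * (g * y * g⁻¹) = g * (y * y) * g⁻¹ := by group
      _ = 1 := by rw [hy]; group
  have hx1 : x ≠ 1 := by
    rintro rfl
    rw [map_one] at hx
    apply hy1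
    calc y = g⁻¹ * (g * y * g⁻¹) * g := by group
      _ = 1 := by rw [← hx]; group
  rcases d8_invol x hxx hx1 with h | ⟨j, h⟩
  · refine ⟨g⁻¹, ?_⟩
    rw [h, P.two] at hx
    rw [hx]
    group
  · obtain ⟨c, hc⟩ := hall j
    refine ⟨g⁻¹ * c, ?_⟩
    rw [h, ← hc] at hx
    calc g⁻¹ * c * z * (g⁻¹ * c)⁻¹ = g⁻¹ * (c * z * c⁻¹) * g := by group
      _ = g⁻¹ * (g * y * g⁻¹) * g := by rw [hx]
      _ = y := by group

/-- Under the fusion assumption and `O(G) = 1` the group is simple. -/
theorem simple_of (hO : oddCore G = ⊥) (hall : ∀ j : ZMod 4, ∃ c : G, c * z * c⁻¹ = el (sr j)) :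
    IsSimpleGroup G := by
  classical
  haveI : Fact (Nat.Prime 2) := ⟨Nat.prime_two⟩
  haveI : Nontrivial G := ⟨⟨z, 1, P.z_ne⟩⟩
  refine ⟨fun N hN => ?_⟩
  by_cases h2 : 2 ∣ Nat.card N
  · right
    obtain ⟨y, hy⟩ := exists_prime_orderOf_dvd_card' 2 h2
    have hyG : orderOf (y : G) = 2 := by rwa [Subgroup.orderOf_coe]
    have hy2 : (y : G) * y = 1 := by
      have := pow_orderOf_eq_one (y : G)
      rwa [hyG, pow_two] at this
    have hy1 : (y : G) ≠ 1 := by
      intro h
      rw [h, orderOf_one] at hyG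
      omega
    obtain ⟨c, hc⟩ := P.all_conj hall hy2 hy1
    have hzN : z ∈ N := by
      have := hN.conj_mem y y.2 c⁻¹
      rw [← hc] at this
      have h3 : c⁻¹ * (c * z * c⁻¹) * c⁻¹⁻¹ = z := by group
      rwa [h3] at this
    have hsr : ∀ j, el (sr j) ∈ N := by
      intro j
      obtain ⟨c, hc⟩ := hall j
      rw [← hc]
      exact hN.conj_mem z hzN c
    have hCN : Subgroup.centralizer ({z} : Set G) ≤ N := by
      intro g hg
      obtain ⟨a, rfl⟩ := P.mem_C.1 hg
      obtain ⟨b, c, h⟩ := d8_gen a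
      rcases h with h | h
      · rw [h]
        exact hsr b
      · rw [h, map_mul]
        exact N.mul_mem (hsr b) (hsr c)
    have hf := Sylow.normalizer_sup_eq_top' (N := N) P.syl (by rw [P.syl_coe]; exact hCN)
    rw [eq_top_iff, ← hf]
    refine sup_le ?_ le_rfl
    have h4 : Subgroup.normalizer ((P.syl : Sylow 2 G) : Set G) ≤ Subgroup.centralizer ({z} : Set G) := by
      have h5 := P.normalizer_le
      have h6 : ((P.syl : Sylow 2 G) : Set G) = ((Subgroup.centralizer ({z} : Set G) : Subgroup G) : Set G) := by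
        rw [← P.syl_coe]
        rfl
      rw [h6]
      exact h5
    exact h4.trans hCN
  · left
    have hc : (Nat.card N).Coprime 2 := ((Nat.Prime.coprime_iff_not_dvd Nat.prime_two).2 h2).symm
    have := Cfsg.Agent.H15.le_oddCore hN hc
    rw [hO] at this
    exact le_bot_iff.1 this

/-- The simple case. -/
theorem simple_case [IsSimpleGroup G] (e : Subgroup.centralizer ({z} : Set G) ≃* DihedralGroup 4)
    (hall : ∀ j : ZMod 4, ∃ c : G, c * z * c⁻¹ = el (sr j)) :
    Nonempty (G ≃* Matrix.SpecialLinearGroup (Fin 3) (ZMod 2)) ∨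
      Nonempty (G ≃* ↥(alternatingGroup (Fin 6))) := by
  classical
  have hperf : commutator G = ⊤ := by
    rcases (inferInstance : (commutator G).Normal).eq_bot_or_eq_top with h | h
    · exfalso
      have h1 : ⁅el (r 1), el (sr 0)⁆ ∈ commutator G := Subgroup.commutator_mem_commutator
        (Subgroup.mem_top _) (Subgroup.mem_top _)
      rw [h, Subgroup.mem_bot, commutatorElement_eq_one_iff_mul_comm, ← map_mul, ← map_mul] at h1
      exact d8_noncomm (P.inj h1)
    · exact h
  rcases Cfsg.Agent.S0848.result hperf z P.order_z e with h | h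
  · left
    haveI : Fact (Nat.Prime 7) := ⟨by norm_num⟩
    haveI : Fact (Nat.Prime 2) := ⟨Nat.prime_two⟩
    obtain ⟨e1⟩ := Cfsg.Agent.S0495.result h (F := ZMod 7) (ZMod.card 7)
    obtain ⟨e2⟩ := Cfsg.Agent.Lead.PSL27.psl27_equiv (F := ZMod 7) (K := ZMod 2) (ZMod.card 7) (ZMod.card 2)
    have hcen : Subgroup.center (Matrix.SpecialLinearGroup (Fin 3) (ZMod 2)) = ⊥ := by
      rw [eq_bot_iff]
      intro A hA
      obtain ⟨c, hc, hcA⟩ := Matrix.SpecialLinearGroup.mem_center_iff.1 hA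
      rw [Subgroup.mem_bot]
      have hc1 : c = 1 := by
        apply z2_cube
        simpa using hc
      apply Matrix.SpecialLinearGroup.ext
      intro i j
      rw [← hcA, hc1]
      simp
    let e3 : Matrix.ProjectiveSpecialLinearGroup (Fin 3) (ZMod 2) ≃*
        Matrix.SpecialLinearGroup (Fin 3) (ZMod 2) :=
      (QuotientGroup.quotientMulEquivOfEq hcen).trans QuotientGroup.quotientBot
    exact ⟨(e1.trans e2).trans e3⟩
  · right
    haveI : Fact (Nat.Prime 3) := ⟨Nat.prime_three⟩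
    haveI : Fact (Nat.Prime 2) := ⟨Nat.prime_two⟩
    have h6 : ∀ (Q : Sylow 3 G) (x : G), x ∈ (Q : Subgroup G) → x ≠ 1 → ∀ t : G, orderOf t = 2 →
        t * x ≠ x * t := by
      intro Q x hxQ hx1 t ht htx
      have ht2 : t * t = 1 := by
        have := pow_orderOf_eq_one t
        rwa [ht, pow_two] at this
      have ht1 : t ≠ 1 := by
        intro h0
        rw [h0, orderOf_one] at ht
        omega
      obtain ⟨c, hc⟩ := P.all_conj hall ht2 ht1
      have h1 : (c⁻¹ * x * c) * z = z * (c⁻¹ * x * c) := by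
        rw [← hc] at htx
        calc (c⁻¹ * x * c) * z = c⁻¹ * (x * (c * z * c⁻¹)) * c := by group
          _ = c⁻¹ * ((c * z * c⁻¹) * x) * c := by rw [htx]
          _ = z * (c⁻¹ * x * c) := by group
      have h2 : orderOf (c⁻¹ * x * c) ∣ 2 ^ 3 := by
        have := Subgroup.orderOf_dvd_natCard _ (Subgroup.mem_centralizer_singleton_iff.2 h1)
        rw [P.card] at this
        simpa using this
      have h3 : orderOf x ∣ 3 ^ 2 := by
        have := Subgroup.orderOf_dvd_natCard _ hxQ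
        rw [Cfsg.Agent.H14.Sim360.card_sylow3 h Q] at this
        simpa using this
      have h4 : orderOf (c⁻¹ * x * c) = orderOf x := by
        have h7 : c⁻¹ * x * c = (MulAut.conj c⁻¹).toMonoidHom x := by simp [MulAut.conj_apply]
        rw [h7]
        exact orderOf_injective _ (MulAut.conj c⁻¹).injective x
      rw [h4] at h2
      have h5 : orderOf x = 1 := by
        have hc0 : Nat.Coprime (3 ^ 2) (2 ^ 3) := by norm_num
        exact Nat.Coprime.eq_one_of_dvd (Nat.Coprime.coprime_dvd_left h3 hc0) h2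
      exact hx1 (orderOf_eq_one_iff.1 h5)
    refine Cfsg.Agent.H14.Sim360.a6_of_ti h ?_ h6
    intro A B x hAB hxA hxB
    by_contra hx1
    have h36 := Cfsg.Agent.H14.Sim360.card_centralizer_eq_36 h hAB hxA hxB hx1
    have h2 : 2 ∣ Nat.card (Subgroup.centralizer ({x} : Set G)) := by rw [h36]; norm_num
    obtain ⟨t, ht⟩ := exists_prime_orderOf_dvd_card' 2 h2
    have htG : orderOf (t : G) = 2 := by rwa [Subgroup.orderOf_coe]
    exact h6 A x hxA hx1 t htG (Subgroup.mem_centralizer_singleton_iff.1 t.2)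

/-- The Klein case: `sr i` and `sr i r²` fuse to `z`, `sr i r` does not. -/
theorem klein_case (i : ZMod 4) (hu : ∃ c : G, c * z * c⁻¹ = el (sr i))
    (huz : ∃ c : G, c * z * c⁻¹ = el (sr i * r 2))
    (hw : ¬ ∃ c : G, c * z * c⁻¹ = el (sr i * r 1)) :
    Nonempty (G ≃* Equiv.Perm (Fin 4)) ∨ Nonempty (G ≃* Equiv.Perm (Fin 5)) := by
  classical
  haveI : Fact (Nat.Prime 2) := ⟨Nat.prime_two⟩
  set V : Subgroup G := (V0 i).map el with hV
  have hVmem : ∀ v, v ∈ V ↔ ∃ a, a ∈ V0 i ∧ el a = v := fun v => Subgroup.mem_map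
  have hVcard : Nat.card V = 4 := by
    rw [hV, Nat.card_congr ((V0 i).equivMapOfInjective el P.inj).toEquiv.symm, card_V0]
  have hVconj : ∀ v ∈ V, v ≠ 1 → ∃ c : G, c * z * c⁻¹ = v := by
    intro v hv hv1
    obtain ⟨a, ha, rfl⟩ := (hVmem v).1 hv
    rcases ha with rfl | rfl | rfl | rfl
    · exact absurd (map_one el) hv1
    · exact ⟨1, by rw [P.two]; group⟩
    · exact hu
    · exact huz
  have hVsq : ∀ v ∈ V, v * v = 1 := by
    intro v hv
    obtain ⟨a, ha, rfl⟩ := (hVmem v).1 hv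
    rw [← map_mul, d8_V0_sq i a ha, map_one]
  have hVcomm : ∀ v ∈ V, ∀ v' ∈ V, v * v' = v' * v := by
    intro v hv v' hv'
    obtain ⟨a, ha, rfl⟩ := (hVmem v).1 hv
    obtain ⟨b, hb, rfl⟩ := (hVmem v').1 hv'
    rw [← map_mul, ← map_mul, d8_V0_comm i a b ha hb]
  have hzV : z ∈ V := (hVmem z).2 ⟨r 2, Or.inr (Or.inl rfl), P.two⟩
  set m := (Subgroup.centralizer ({z} : Set G)).index with hm
  have hmodd : Odd m := Nat.not_even_iff_odd.1 (fun h => P.index_odd h.two_dvd)
  have hGcard : Nat.card G = 8 * m := by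
    have := (Subgroup.centralizer ({z} : Set G)).card_mul_index
    rw [P.card] at this
    exact this.symm
  have hVidx : V.index = 2 ^ 1 * m := by
    have := V.card_mul_index
    rw [hVcard, hGcard] at this
    omega
  set w := el (sr i * r 1) with hwdef
  have hw1 : w ≠ 1 := P.el_ne (d8_w_ne i)
  have hww : w ^ 2 ^ 1 = 1 := by
    rw [pow_one, pow_two, hwdef, ← map_mul, d8_w_sq, map_one]
  have hfree : ∀ g : G, g * w ^ 2 ^ (1 - 1) * g⁻¹ ∉ V := by
    intro g hg
    simp only [Nat.sub_self, pow_zero, pow_one] at hg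
    have hne : g * w * g⁻¹ ≠ 1 := by
      intro h0
      apply hw1
      calc w = g⁻¹ * (g * w * g⁻¹) * g := by group
        _ = 1 := by rw [h0]; group
    obtain ⟨c, hc⟩ := hVconj _ hg hne
    refine hw ⟨g⁻¹ * c, ?_⟩
    calc g⁻¹ * c * z * (g⁻¹ * c)⁻¹ = g⁻¹ * (c * z * c⁻¹) * g := by group
      _ = g⁻¹ * (g * w * g⁻¹) * g := by rw [hc]
      _ = w := by group
  obtain ⟨φ, hφ⟩ := Cfsg.Agent.H08.Thom.exists_sign V w 1 m le_rfl hmodd hww hfree hVidx
  have hφz : φ z = 1 := by
    have h0 : z = el (r 1) * el (r 1) := by rw [← map_mul, d8_rr, P.two]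
    rw [h0, map_mul]
    exact Int.units_mul_self _
  have hφc : ∀ c, φ (c * z * c⁻¹) = 1 := by
    intro c
    rw [map_mul, map_mul, map_inv, hφz, mul_one, mul_inv_cancel]
  have hφV : ∀ v ∈ V, φ v = 1 := by
    intro v hv
    by_cases h1 : v = 1
    · rw [h1, map_one]
    · obtain ⟨c, rfl⟩ := hVconj v hv h1
      exact hφc c
  have hCH : ∀ y, φ y = 1 → y * z = z * y → y ∈ V := by
    intro y hy hc
    obtain ⟨a, rfl⟩ := P.surj y hc
    rcases d8_split i a with h | ⟨v, hv, rfl⟩
    · exact (hVmem _).2 ⟨a, h, rfl⟩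
    · exfalso
      rw [map_mul, map_mul, hφV (el v) ((hVmem _).2 ⟨v, hv, rfl⟩), one_mul] at hy
      rw [hwdef] at hφ
      rw [hφ] at hy
      exact absurd hy (by decide)
  have hT1 : ∀ v ∈ V, v ≠ 1 → ∀ y, φ y = 1 → y * v = v * y → y ∈ V := by
    intro v hv hv1 y hy hyv
    obtain ⟨j, rfl⟩ := hVconj v hv hv1
    have hmap : ∀ x, φ x = 1 → x * (j * z * j⁻¹) = (j * z * j⁻¹) * x → j⁻¹ * x * j ∈ V := by
      intro x hx hc
      apply hCH
      · rw [map_mul, map_mul, map_inv, hx, mul_one, inv_mul_cancel]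
      · calc (j⁻¹ * x * j) * z = j⁻¹ * (x * (j * z * j⁻¹)) * j := by group
          _ = j⁻¹ * ((j * z * j⁻¹) * x) * j := by rw [hc]
          _ = z * (j⁻¹ * x * j) := by group
    let f : V → V := fun x => ⟨j⁻¹ * x * j, hmap x (hφV x x.2) (hVcomm _ x.2 _ hv)⟩
    have hf : Function.Injective f := by
      intro a b hab
      have h1 : j⁻¹ * (a : G) * j = j⁻¹ * (b : G) * j := congrArg Subtype.val hab
      apply Subtype.ext
      simpa using h1
    obtain ⟨x, hx⟩ := (Finite.injective_iff_surjective.1 hf) ⟨j⁻¹ * y * j, hmap y hy hyv⟩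
    have h1 : j⁻¹ * (x : G) * j = j⁻¹ * y * j := congrArg Subtype.val hx
    have hxy : (x : G) = y := by simpa using h1
    rw [← hxy]
    exact x.2
  set H := φ.ker with hH
  have hmemH : ∀ y, y ∈ H ↔ φ y = 1 := fun y => MonoidHom.mem_ker
  have hHidx : H.index = 2 := by
    rw [hH, Subgroup.index_ker]
    have h1 : φ.range = ⊤ := by
      rw [eq_top_iff]
      intro u _
      rcases Int.units_eq_one_or u with rfl | rfl
      · exact one_mem _
      · exact ⟨w, hφ⟩
    rw [h1, Subgroup.card_top, Nat.card_eq_fintype_card]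
    rfl
  have hHcard : Nat.card H * 2 = 8 * m := by
    have := H.card_mul_index
    rw [hHidx, hGcard] at this
    exact this
  have hVH : V ≤ H := fun v hv => (hmemH v).2 (hφV v hv)
  have hSyl : ∀ T : Subgroup G, T ≤ H → Nat.card T = 4 →
      ∃ S : Sylow 2 H, (S : Subgroup H) = T.subgroupOf H := by
    intro T hT hTc
    have hc : Nat.card (T.subgroupOf H) = 4 := by
      rw [Nat.card_congr (Subgroup.subgroupOfEquivOfLe hT).toEquiv, hTc]
    have hp : IsPGroup 2 (T.subgroupOf H) := IsPGroup.of_card (n := 2) (by rw [hc]; norm_num)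
    have hi : ¬ 2 ∣ (T.subgroupOf H).index := by
      have h1 := (T.subgroupOf H).card_mul_index
      rw [hc] at h1
      have h2 : (T.subgroupOf H).index = m := by omega
      rw [h2]
      exact hmodd.not_two_dvd_nat
    exact ⟨hp.toSylow hi, IsPGroup.toSylow_coe _ _⟩
  have hCV : ∀ g : G, (∀ v ∈ V, g * v = v * g) → g ∈ V := by
    intro g hg
    have hgz : g * z = z * g := hg z hzV
    obtain ⟨a, rfl⟩ := P.surj g hgz
    have h2 := hg (el (sr i)) ((hVmem _).2 ⟨sr i, Or.inr (Or.inr (Or.inl rfl)), rfl⟩)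
    rw [← map_mul, ← map_mul] at h2
    exact (hVmem _).2 ⟨a, d8_cent i a (P.inj h2), rfl⟩
  by_cases hVn : V.Normal
  · left
    haveI := hVn
    have hm3 : m = 3 := by
      let f : G ⧸ (Subgroup.centralizer ({z} : Set G)) → {v : V // v ≠ 1} := fun q =>
        ⟨⟨q.out * z * q.out⁻¹, hVn.conj_mem z hzV _⟩, by
          intro h0
          have h1 : q.out * z * q.out⁻¹ = 1 := congrArg Subtype.val h0
          apply P.z_ne
          calc z = q.out⁻¹ * (q.out * z * q.out⁻¹) * q.out := by group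
            _ = 1 := by rw [h1]; group⟩
      have hf : Function.Injective f := by
        intro q₁ q₂ hq
        have h1 : q₁.out * z * q₁.out⁻¹ = q₂.out * z * q₂.out⁻¹ :=
          congrArg Subtype.val (congrArg Subtype.val hq)
        rw [← QuotientGroup.out_eq' q₁, ← QuotientGroup.out_eq' q₂]
        apply QuotientGroup.eq.2
        rw [Subgroup.mem_centralizer_singleton_iff]
        calc q₁.out⁻¹ * q₂.out * z = q₁.out⁻¹ * (q₂.out * z * q₂.out⁻¹) * q₂.out := by group
          _ = q₁.out⁻¹ * (q₁.out * z * q₁.out⁻¹) * q₂.out := by rw [h1]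
          _ = z * (q₁.out⁻¹ * q₂.out) := by group
      have hle := Nat.card_le_card_of_injective f hf
      have hc3 : Nat.card {v : V // v ≠ 1} = 3 := by
        haveI : Fintype V := Fintype.ofFinite _
        rw [Nat.card_eq_fintype_card, Fintype.card_subtype_compl]
        simp only [Fintype.card_unique]
        rw [← Nat.card_eq_fintype_card, hVcard]
      rw [hc3] at hle
      have hle' : m ≤ 3 := hle
      have hne1 : m ≠ 1 := by
        intro h1
        have h2 : Subgroup.centralizer ({z} : Set G) = ⊤ := Subgroup.index_eq_one.1 h1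
        obtain ⟨c, hc⟩ := hu
        have hcC : c ∈ Subgroup.centralizer ({z} : Set G) := by rw [h2]; trivial
        have h3 : c * z = z * c := Subgroup.mem_centralizer_singleton_iff.1 hcC
        have h4 : c * z * c⁻¹ = z := by rw [h3]; group
        rw [h4, ← P.two] at hc
        have h5 := P.inj hc
        cases h5
      have hodd2 : m % 2 = 1 := Nat.odd_iff.1 hmodd
      omega
    have h24 : Nat.card G = 24 := by rw [hGcard, hm3]
    exact Cfsg.Agent.H03.S4R.sym_four_of V hVcard hCV h24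
  · right
    have hex : ∃ g : G, ∃ n ∈ V, g * n * g⁻¹ ∉ V := by
      by_contra hc
      push Not at hc
      exact hVn ⟨fun n hn g => hc g n hn⟩
    obtain ⟨g, n, hn, hgn⟩ := hex
    set T : Subgroup G := V.map (MulAut.conj g).toMonoidHom with hT
    have hTH : T ≤ H := by
      rintro _ ⟨v, hv, rfl⟩
      rw [hmemH]
      have h1 : (MulAut.conj g).toMonoidHom v = g * v * g⁻¹ := by simp [MulAut.conj_apply]
      rw [h1, map_mul, map_mul, map_inv, hφV v hv, mul_one, mul_inv_cancel]
    have hTc : Nat.card T = 4 := by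
      rw [hT, Nat.card_congr (V.equivMapOfInjective (MulAut.conj g).toMonoidHom
        (MulAut.conj g).injective).toEquiv.symm, hVcard]
    obtain ⟨S₀, hS₀⟩ := hSyl V hVH hVcard
    obtain ⟨S₁, hS₁⟩ := hSyl T hTH hTc
    have hne : S₀ ≠ S₁ := by
      intro he
      have hmT : g * n * g⁻¹ ∈ T := ⟨n, hn, by simp [MulAut.conj_apply]⟩
      have h1 : (⟨g * n * g⁻¹, hTH hmT⟩ : H) ∈ (S₁ : Subgroup H) := by
        rw [hS₁, Subgroup.mem_subgroupOf]
        exact hmT
      rw [← he, hS₀, Subgroup.mem_subgroupOf] at h1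
      exact hgn h1
    have hS₀mem : ∀ c : H, c ∈ (S₀ : Subgroup H) ↔ (c : G) ∈ V := by
      intro c
      rw [hS₀, Subgroup.mem_subgroupOf]
    have hconj : ∀ α : Sylow 2 H, ∃ h : H, ∀ c : H,
        c ∈ (α : Subgroup H) ↔ h⁻¹ * c * h ∈ (S₀ : Subgroup H) := by
      intro α
      obtain ⟨h, hh⟩ := MulAction.exists_smul_eq H S₀ α
      refine ⟨h, fun c => ⟨fun hc => ?_, fun hc => ?_⟩⟩
      · have h1 := Cfsg.Agent.H15.ChzFour.conj_mem_smul α h⁻¹ c hc
        rw [← hh, inv_smul_smul] at h1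
        simpa using h1
      · have h1 := Cfsg.Agent.H15.ChzFour.conj_mem_smul S₀ h _ hc
        rw [hh] at h1
        have h2 : h * (h⁻¹ * c * h) * h⁻¹ = c := by group
        rwa [h2] at h1
    have hK : Cfsg.Agent.H15.ChzFour.KleinTI H :=
      { hB := by
          intro α c hc hc1
          obtain ⟨h, hh⟩ := hconj α
          have hc0 : h⁻¹ * c * h ∈ (S₀ : Subgroup H) := (hh c).1 hc
          have hc0V : (((h⁻¹ * c * h : H)) : G) ∈ V := (hS₀mem _).1 hc0
          have hc01 : ((h⁻¹ * c * h : H) : G) ≠ 1 := by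
            intro h0
            apply hc1
            have h1 : h⁻¹ * c * h = 1 := Subtype.ext h0
            calc c = h * (h⁻¹ * c * h) * h⁻¹ := by group
              _ = 1 := by rw [h1]; group
          ext y
          rw [Subgroup.mem_centralizer_singleton_iff, hh y]
          constructor
          · intro hyc
            have h1 : (h⁻¹ * y * h) * (h⁻¹ * c * h) = (h⁻¹ * c * h) * (h⁻¹ * y * h) := by
              calc (h⁻¹ * y * h) * (h⁻¹ * c * h) = h⁻¹ * (y * c) * h := by group
                _ = h⁻¹ * (c * y) * h := by rw [hyc]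
                _ = (h⁻¹ * c * h) * (h⁻¹ * y * h) := by group
            rw [hS₀mem]
            refine hT1 _ hc0V hc01 _ ?_ (congrArg Subtype.val h1)
            exact (hmemH _).1 (h⁻¹ * y * h).2
          · intro hy0
            have h1 : ((h⁻¹ * y * h : H) : G) * ((h⁻¹ * c * h : H) : G) =
                ((h⁻¹ * c * h : H) : G) * ((h⁻¹ * y * h : H) : G) :=
              hVcomm _ ((hS₀mem _).1 hy0) _ hc0V
            have h2 : (h⁻¹ * y * h) * (h⁻¹ * c * h) = (h⁻¹ * c * h) * (h⁻¹ * y * h) :=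
              Subtype.ext h1
            calc y * c = h * ((h⁻¹ * y * h) * (h⁻¹ * c * h)) * h⁻¹ := by group
              _ = h * ((h⁻¹ * c * h) * (h⁻¹ * y * h)) * h⁻¹ := by rw [h2]
              _ = c * y := by group
        hE := by
          intro α c hc
          obtain ⟨h, hh⟩ := hconj α
          have hc0 := (hS₀mem _).1 ((hh c).1 hc)
          have h1 := hVsq _ hc0
          have h2 : (h⁻¹ * c * h) * (h⁻¹ * c * h) = 1 := Subtype.ext h1
          rw [pow_two]
          calc c * c = h * ((h⁻¹ * c * h) * (h⁻¹ * c * h)) * h⁻¹ := by group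
            _ = 1 := by rw [h2]; group
        hC := by
          intro α
          rw [Nat.card_congr (Sylow.equiv α S₀).toEquiv, hS₀,
            Nat.card_congr (Subgroup.subgroupOfEquivOfLe hVH).toEquiv, hVcard]
        hn := by
          intro α
          by_cases hα : α = S₀
          · exact ⟨S₁, by rw [hα]; exact hne.symm⟩
          · exact ⟨S₀, fun h => hα h.symm⟩ }
    obtain ⟨E⟩ := hK.iso_alternating
    have hH60 : Nat.card H = 60 := by
      rw [Nat.card_congr E.toEquiv, nat_card_alternatingGroup]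
      simp
      decide
    have hG120 : Nat.card G = 120 := by
      have := H.card_mul_index
      rw [hH60, hHidx] at this
      omega
    let Φ : G →* MulAut (alternatingGroup (Fin 5)) :=
      (MulAut.congr E).toMonoidHom.comp (MulAut.conjNormal : G →* MulAut H)
    have hΦinj : Function.Injective Φ := by
      rw [injective_iff_map_eq_one]
      intro g hg
      have h1 : (MulAut.conjNormal g : MulAut H) = 1 := by
        apply (MulAut.congr E).injective
        rw [map_one]
        exact hg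
      have h2 : ∀ y : H, g * (y : G) = y * g := by
        intro y
        have h3 : (MulAut.conjNormal g : MulAut H) y = y := by rw [h1]; rfl
        have h4 := congrArg Subtype.val h3
        rw [MulAut.conjNormal_apply] at h4
        calc g * (y : G) = (g * y * g⁻¹) * g := by group
          _ = y * g := by rw [h4]
      have hgV : g ∈ V := hCV g (fun v hv => h2 ⟨v, hVH hv⟩)
      by_contra hg1
      have h3 : H ≤ V := fun y hy => hT1 g hgV hg1 y ((hmemH y).1 hy) (h2 ⟨y, hy⟩).symm
      have h4 := Subgroup.card_le_of_le h3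
      omega
    let Θ : Equiv.Perm (Fin 5) →* MulAut (alternatingGroup (Fin 5)) := MulAut.conjNormal
    have hΘsurj : Function.Surjective Θ := fun f =>
      Cfsg.Agent.H09.conjNormal_surj (p₀ := 0) (p₁ := 1) (p₂ := 2) (p₃ := 3) (by simp)
        ⟨by decide, by decide, by decide⟩ ⟨by decide, by decide, by decide⟩ (by decide) f
    have hPerm : Nat.card (Equiv.Perm (Fin 5)) = 120 := by
      rw [Nat.card_eq_fintype_card, Fintype.card_perm, Fintype.card_fin]
      rfl
    have hcard1 : Nat.card (Equiv.Perm (Fin 5)) = Nat.card (MulAut (alternatingGroup (Fin 5))) := by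
      apply le_antisymm
      · rw [hPerm, ← hG120]
        exact Nat.card_le_card_of_injective Φ hΦinj
      · exact Nat.card_le_card_of_surjective Θ hΘsurj
    have hΘbij : Function.Bijective Θ := (Nat.bijective_iff_surjective_and_card Θ).2 ⟨hΘsurj, hcard1⟩
    have hΦbij : Function.Bijective Φ :=
      (Nat.bijective_iff_injective_and_card Φ).2 ⟨hΦinj, by rw [hG120, ← hcard1, hPerm]⟩
    exact ⟨(MulEquiv.ofBijective Φ hΦbij).trans (MulEquiv.ofBijective Θ hΘbij).symm⟩

end Pack

/-- The main theorem. -/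
theorem main (z : G) (hz : orderOf z = 2)
    (hC : Nonempty (↥(Subgroup.centralizer ({z} : Set G)) ≃* DihedralGroup 4)) :
    Subgroup.centralizer ({z} : Set G) ⊔ Cfsg.oddCore G = ⊤ ∨ Nonempty (G ≃* Equiv.Perm (Fin 4)) ∨
      Nonempty (G ≃* Equiv.Perm (Fin 5)) ∨
      Nonempty (G ≃* Matrix.SpecialLinearGroup (Fin 3) (ZMod 2)) ∨
      Nonempty (G ≃* ↥(alternatingGroup (Fin 6))) := by
  classical
  obtain ⟨e⟩ := hC
  by_cases hiso : IsIsolatedInvolution z
  · exact Or.inl (Cfsg.Agent.H15.sup_oddCore_of_isolated hiso)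
  right
  obtain ⟨el, P⟩ := exists_pack z hz e
  have hex : ∃ g : G, Commute z (g * z * g⁻¹) ∧ g * z * g⁻¹ ≠ z := by
    by_contra hc
    push Not at hc
    exact hiso ⟨hz, hc⟩
  obtain ⟨g, hgc, hgz⟩ := hex
  set u := g * z * g⁻¹ with hu
  obtain ⟨x, hx⟩ := P.surj u hgc.symm.eq
  have hu2 : u * u = 1 := by
    calc u * u = g * (z * z) * g⁻¹ := by rw [hu]; group
      _ = 1 := by rw [P.z_sq]; group
  have hu1 : u ≠ 1 := by
    intro h0
    apply P.z_ne
    calc z = g⁻¹ * (g * z * g⁻¹) * g := by group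
      _ = 1 := by rw [← hu, h0]; group
  have hxx : x * x = 1 := by
    apply P.inj
    rw [map_mul, hx, map_one, hu2]
  have hx1 : x ≠ 1 := by
    rintro rfl
    rw [map_one] at hx
    exact hu1 hx.symm
  rcases d8_invol x hxx hx1 with h | ⟨i, rfl⟩
  · exfalso
    rw [h, P.two] at hx
    exact hgz hx.symm
  set k := el (r 1) with hk
  have hku : k * g * z * (k * g)⁻¹ = el (sr i * r 2) := by
    calc k * g * z * (k * g)⁻¹ = k * (g * z * g⁻¹) * k⁻¹ := by group
      _ = el (r 1 * sr i * (r 1)⁻¹) := by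
        rw [← hu, ← hx, map_mul, map_mul, map_inv]
      _ = el (sr i * r 2) := by rw [d8_conj]
  have huz : el (sr i * r 2) = u * z := by rw [map_mul, hx, P.two]
  have hO : oddCore G = ⊥ := P.oddCore_bot (a := g) (b := k * g) (by rw [hku, huz])
  by_cases hw : ∃ c : G, c * z * c⁻¹ = el (sr i * r 1)
  · have hall : ∀ j : ZMod 4, ∃ c : G, c * z * c⁻¹ = el (sr j) := by
      intro j
      rcases d8_srj i j with h | h | h | h
      · exact ⟨g, by rw [h, hx]⟩
      · exact ⟨k * g, by rw [h]; exact hku⟩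
      · rw [h]
        exact hw
      · obtain ⟨c, hc⟩ := hw
        refine ⟨k * c, ?_⟩
        rw [h, map_mul, map_mul, map_inv, ← hc, ← hk]
        group
    haveI := P.simple_of hO hall
    rcases P.simple_case e hall with h | h
    · exact Or.inr (Or.inr (Or.inl h))
    · exact Or.inr (Or.inr (Or.inr h))
  · rcases P.klein_case i ⟨g, hx.symm⟩ ⟨k * g, hku⟩ hw with h | h
    · exact Or.inl h
    · exact Or.inr (Or.inl h)

end Cfsg.Agent.H14.D8C
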