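import Mathlib
import Cfsg.Prelude.Def_DStar
import Cfsg.Agent.Lib.H14.Nilp

set_option autoImplicit false

namespace Cfsg.Agent.H14

open Cfsg

variable {S : Type*} [Group S]

/-- Members of the family behind `D*` centralize all abelian normal subgroups. -/
theorem family_le_centralizer [Group.IsNilpotent S] {A : Subgroup S} (hA : A ∈ dStarFamily S)
    {V : Subgroup S} (hV : V.Normal) (hVab : IsMulCommutative V) :
    V ≤ Subgroup.centralizer (A : Set S) := by
  by_contra hne
  obtain ⟨y, hyV, hyC, hy⟩ := exists_commutator_mem hV hne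
  have hVc : ∀ a ∈ V, ∀ b ∈ V, a * b = b * a := fun a ha b hb =>
    congrArg Subtype.val (hVab.is_comm.comm (⟨a, ha⟩ : V) ⟨b, hb⟩)
  have hAc : ∀ a ∈ A, ∀ b ∈ A, a * b = b * a := fun a ha b hb =>
    congrArg Subtype.val (hA.1.is_comm.comm (⟨a, ha⟩ : A) ⟨b, hb⟩)
  have h2 := class_two_of_sup_zpowers (A := A) (y := y) (V ⊓ Subgroup.centralizer (A : Set S)) hAc
    (fun z hz a ha => (Subgroup.mem_centralizer_iff.mp hz.2 a ha).symm)
    (fun z hz => hVc z hz.1 y hyV)
    (fun a _ => hy a)
  have h3 := hA.2 y h2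
  apply hyC
  rw [Subgroup.mem_centralizer_iff]
  intro a ha
  exact h3 a ha

/-- Members of the family are in every abelian normal self-centralizing subgroup. -/
theorem family_le_of_selfCentralizing [Group.IsNilpotent S] {A M : Subgroup S}
    (hA : A ∈ dStarFamily S) (hM : M.Normal) (hMab : IsMulCommutative M)
    (hMc : Subgroup.centralizer (M : Set S) ≤ M) : A ≤ M := by
  intro a ha
  apply hMc
  rw [Subgroup.mem_centralizer_iff]
  intro m hm
  have := family_le_centralizer hA hM hMab hm
  exact (Subgroup.mem_centralizer_iff.mp this a ha).symm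

theorem dStar_le_of_selfCentralizing [Group.IsNilpotent S] {M : Subgroup S}
    (hM : M.Normal) (hMab : IsMulCommutative M)
    (hMc : Subgroup.centralizer (M : Set S) ≤ M) : dStar S ≤ M :=
  sSup_le fun _ hA => family_le_of_selfCentralizing hA hM hMab hMc

/-- `D*(S)` is abelian for a finite nilpotent group. -/
theorem dStar_abelian [Finite S] [Group.IsNilpotent S] : IsMulCommutative (dStar S) := by
  obtain ⟨M, hMn, hMab, hMc⟩ := exists_normal_abelian_selfCentralizing (G := S)
  have hle := dStar_le_of_selfCentralizing hMn hMab hMc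
  refine ⟨⟨fun a b => Subtype.ext ?_⟩⟩
  have := hMab.is_comm.comm (⟨a, hle a.2⟩ : M) ⟨b, hle b.2⟩
  simpa using congrArg Subtype.val this

/-- `D*(S)` is in its own family. -/
theorem dStar_mem_family [Finite S] [Group.IsNilpotent S] : dStar S ∈ dStarFamily S := by
  refine ⟨dStar_abelian, ?_⟩
  intro x hx a ha
  have hall : ∀ A ∈ dStarFamily S, A ≤ Subgroup.centralizer ({x} : Set S) := by
    intro A hA b hb
    have hle : A ≤ dStar S := le_sSup hA
    have hle2 : A ⊔ Subgroup.zpowers x ≤ dStar S ⊔ Subgroup.zpowers x := sup_le_sup_right hle _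
    have hcomm : ⁅⁅A ⊔ Subgroup.zpowers x, A ⊔ Subgroup.zpowers x⁆, A ⊔ Subgroup.zpowers x⁆ = ⊥ := by
      rw [eq_bot_iff, ← hx]
      exact Subgroup.commutator_mono (Subgroup.commutator_mono hle2 hle2) hle2
    have := hA.2 x hcomm b hb
    rw [Subgroup.mem_centralizer_singleton_iff]
    exact this
  have h3 : dStar S ≤ Subgroup.centralizer ({x} : Set S) := sSup_le hall
  have := h3 ha
  rw [Subgroup.mem_centralizer_singleton_iff] at this
  exact this

/-- The family is invariant under isomorphisms. -/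
theorem dStarFamily_map {S' : Type*} [Group S'] (φ : S ≃* S') {A : Subgroup S} (hA : A ∈ dStarFamily S) :
    A.map φ.toMonoidHom ∈ dStarFamily S' := by
  constructor
  · refine ⟨⟨fun x y => ?_⟩⟩
    obtain ⟨a, ha, hax⟩ := x.2
    obtain ⟨b, hb, hby⟩ := y.2
    apply Subtype.ext
    show (x : S') * (y : S') = (y : S') * (x : S')
    have := hA.1.is_comm.comm (⟨a, ha⟩ : A) ⟨b, hb⟩
    have h2 : a * b = b * a := congrArg Subtype.val this
    rw [← hax, ← hby, ← map_mul, ← map_mul, h2]
  · intro x' hx' a' ha'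
    obtain ⟨a, ha, rfl⟩ := ha'
    set x := φ.symm x' with hx
    have hmap : (A ⊔ Subgroup.zpowers x).map φ.toMonoidHom = A.map φ.toMonoidHom ⊔ Subgroup.zpowers x' := by
      rw [Subgroup.map_sup, MonoidHom.map_zpowers]
      simp [hx]
    have hcomm : ⁅⁅A ⊔ Subgroup.zpowers x, A ⊔ Subgroup.zpowers x⁆, A ⊔ Subgroup.zpowers x⁆ = ⊥ := by
      apply (Subgroup.map_eq_bot_iff_of_injective _ (f := φ.toMonoidHom) φ.injective).mp
      rw [Subgroup.map_commutator, Subgroup.map_commutator, hmap]
      exact hx'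
    have h3 := hA.2 x hcomm a ha
    have h4 := congrArg φ h3
    simp only [map_mul] at h4
    have h5 : φ x = x' := by simp [hx]
    rw [h5] at h4
    exact h4

theorem dStar_map_le {S' : Type*} [Group S'] (φ : S ≃* S') :
    (dStar S).map φ.toMonoidHom ≤ dStar S' := by
  rw [Subgroup.map_le_iff_le_comap]
  apply sSup_le
  intro A hA
  rw [← Subgroup.map_le_iff_le_comap]
  exact le_sSup (dStarFamily_map φ hA)

theorem dStar_normal : (dStar S).Normal := by
  constructor
  intro n hn g
  exact dStar_map_le (MulAut.conj g) ⟨n, hn, rfl⟩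

/-- Every member of the family is contained in `D*`, and `D*` is the largest member. -/
theorem le_dStar {A : Subgroup S} (hA : A ∈ dStarFamily S) : A ≤ dStar S := le_sSup hA

end Cfsg.Agent.H14
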