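import Mathlib
import Cfsg.Prelude.Def_Transfer
import Cfsg.Agent.Lib.H01.Basic
import Cfsg.Agent.Lib.H06.OddPGroup

/-!
Extraspecial groups of order `p ^ 3` and exponent `p ^ 2`, `p` odd: the subgroup of elements of order
dividing `p`.
-/

set_option autoImplicit false

namespace Cfsg.Agent.H14

open Cfsg

/-- Structure data. -/
theorem extra3_data {Q : Type*} [Group Q] [Finite Q] {p : ℕ} [hp : Fact p.Prime] (hp2 : p ≠ 2)
    (hE : IsExtraspecial p Q) (hcard : Nat.card Q = p ^ 3) (hexp : Monoid.exponent Q = p ^ 2) :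
    ∃ E : Subgroup Q, (∀ a, a ∈ E ↔ a ^ p = 1) ∧ Nat.card E = p ^ 2 ∧
      (∀ a b : Q, a * b * a⁻¹ * b⁻¹ ∈ Subgroup.center Q) ∧ (∀ a : Q, a ^ p ∈ Subgroup.center Q) := by
  obtain ⟨⟨hpg, hfr, hcm⟩, hzc⟩ := hE
  have hcomm : ∀ a b : Q, a * b * a⁻¹ * b⁻¹ ∈ Subgroup.center Q := by
    intro a b
    rw [← hcm, commutator_def]
    exact Subgroup.commutator_mem_commutator (Subgroup.mem_top a) (Subgroup.mem_top b)
  have hpow : ∀ a : Q, a ^ p ∈ Subgroup.center Q := by
    intro a
    rw [← hfr]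
    exact Cfsg.Agent.H01.pow_mem_frattini_of_isPGroup hpg a
  let φ : Q →* Q :=
    { toFun := fun a => a ^ p
      map_one' := one_pow p
      map_mul' := by
        intro a b
        have hc := hcomm b a
        exact Cfsg.Agent.H06.mul_pow_prime_of_class_two hp.out hp2 rfl
          ((Subgroup.mem_center_iff.mp hc a).symm) ((Subgroup.mem_center_iff.mp hc b).symm)
          ((Subgroup.mem_center_iff.mp (hpow b) a).symm) }
  have hφ : ∀ a, φ a = a ^ p := fun _ => rfl
  refine ⟨φ.ker, fun a => by rw [MonoidHom.mem_ker, hφ], ?_, hcomm, hpow⟩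
  have hrange : φ.range ≤ Subgroup.center Q := by
    rintro _ ⟨a, rfl⟩
    exact hpow a
  have hne : φ.range ≠ ⊥ := by
    intro h
    have h1 : ∀ a : Q, a ^ p = 1 := by
      intro a
      have : φ a ∈ φ.range := ⟨a, rfl⟩
      rw [h] at this
      simpa [hφ] using this
    have h2 : Monoid.exponent Q ∣ p := Monoid.exponent_dvd_of_forall_pow_eq_one h1
    rw [hexp] at h2
    have h3 := Nat.le_of_dvd hp.out.pos h2
    have h4 : p * 1 < p * p := Nat.mul_lt_mul_of_pos_left hp.out.one_lt hp.out.pos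
    nlinarith
  have hrc : Nat.card φ.range = p := by
    have h1 : Nat.card φ.range ∣ p := by
      rw [← hzc]
      exact Subgroup.card_dvd_of_le hrange
    rcases (Nat.dvd_prime hp.out).mp h1 with h | h
    · exact absurd (Subgroup.card_eq_one.mp h) hne
    · exact h
  have h1 := Subgroup.card_mul_index φ.ker
  rw [Subgroup.index_ker, hrc, hcard] at h1
  have h2 : p ^ 3 = p ^ 2 * p := by ring
  rw [h2] at h1
  exact Nat.eq_of_mul_eq_mul_right hp.out.pos h1

variable {G : Type*} [Group G]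

theorem conj_pow_comm_step {x y u : G} {a : ℕ} (hux : Commute u x)
    (huy : u * y * u⁻¹ = x ^ a * y) (i : ℕ) : u ^ i * y * (u ^ i)⁻¹ = x ^ (a * i) * y := by
  induction i with
  | zero => simp
  | succ i ih =>
    have hcux : Commute (u ^ i) (x ^ a) := (hux.pow_left i).pow_right a
    calc u ^ (i + 1) * y * (u ^ (i + 1))⁻¹ = u ^ i * (u * y * u⁻¹) * (u ^ i)⁻¹ := by
          rw [pow_succ]
          group
      _ = u ^ i * (x ^ a * y) * (u ^ i)⁻¹ := by rw [huy]
      _ = x ^ a * (u ^ i * y * (u ^ i)⁻¹) := by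
          rw [← mul_assoc (u ^ i), hcux.eq]
          group
      _ = x ^ a * (x ^ (a * i) * y) := by rw [ih]
      _ = x ^ (a * (i + 1)) * y := by
          rw [← mul_assoc, ← pow_add]
          congr 2
          ring

/-- The element inverting a subgroup generated by two "opposite transvections". -/
theorem inverting_word {x y u t : G} (hxy : Commute x y) (hux : Commute u x) (hty : Commute t y)
    (huy : u * y * u⁻¹ = x * y) (htx : t * x * t⁻¹ = y⁻¹ * x) :
    let W := u * t * u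
    W * W * x * (W * W)⁻¹ = x⁻¹ ∧ W * W * y * (W * W)⁻¹ = y⁻¹ := by
  intro W
  have h1 : ∀ v, W * v * W⁻¹ = u * (t * (u * v * u⁻¹) * t⁻¹) * u⁻¹ := by
    intro v
    simp only [W]
    group
  have hux' : u * x * u⁻¹ = x := by rw [hux.eq]; group
  have hty' : t * y * t⁻¹ = y := by rw [hty.eq]; group
  have hWx : W * x * W⁻¹ = y⁻¹ := by
    rw [h1, hux', htx]
    have : u * (y⁻¹ * x) * u⁻¹ = (u * y * u⁻¹)⁻¹ * (u * x * u⁻¹) := by group
    rw [this, huy, hux']
    group
  have hWy : W * y * W⁻¹ = x := by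
    rw [h1, huy]
    have h2 : t * (x * y) * t⁻¹ = (t * x * t⁻¹) * (t * y * t⁻¹) := by group
    rw [h2, htx, hty']
    have h3 : y⁻¹ * x * y = x := by
      rw [mul_assoc, hxy.eq]
      group
    rw [h3, hux']
  have hWxi : W * x⁻¹ * W⁻¹ = y := by
    have : W * x⁻¹ * W⁻¹ = (W * x * W⁻¹)⁻¹ := by group
    rw [this, hWx, inv_inv]
  have hWyi : W * y⁻¹ * W⁻¹ = x⁻¹ := by
    have : W * y⁻¹ * W⁻¹ = (W * y * W⁻¹)⁻¹ := by group
    rw [this, hWy]
  constructor
  · have : W * W * x * (W * W)⁻¹ = W * (W * x * W⁻¹) * W⁻¹ := by group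
    rw [this, hWx, hWyi]
  · have : W * W * y * (W * W)⁻¹ = W * (W * y * W⁻¹) * W⁻¹ := by group
    rw [this, hWy, hWx]

end Cfsg.Agent.H14
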