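import Mathlib

/-! Transfer extending a homomorphism on a subgroup `M` that is trivial on `M ∩ M^x`, `x ∉ M`
(helper14). -/

set_option autoImplicit false

namespace Cfsg.Agent.H14

open MulAction Subgroup

variable {G : Type*} [Group G]

/-- If `ϕ : M → A` (with `A` abelian) kills `M ∩ x⁻¹ M x` for all `x ∉ M`, then `ϕ` extends to a
homomorphism on `G`. -/
theorem exists_transfer_ext [Finite G] {M : Subgroup G} {A : Type*} [Group A]
    (hA : ∀ a b : A, a * b = b * a) (ϕ : M →* A)
    (h : ∀ x, x ∉ M → ∀ y ∈ M, ∀ hy : x⁻¹ * y * x ∈ M, ϕ ⟨x⁻¹ * y * x, hy⟩ = 1) :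
    ∃ V : G →* A, ∀ m : M, V m = ϕ m := by
  classical
  letI : CommGroup A := { (inferInstance : Group A) with mul_comm := hA }
  refine ⟨MonoidHom.transfer ϕ, fun m => ?_⟩
  haveI := Fintype.ofFinite (Quotient (orbitRel (zpowers (m : G)) (G ⧸ M)))
  rw [MonoidHom.transfer_eq_prod_quotient_orbitRel_zpowers_quot]
  let q₀ : Quotient (orbitRel (zpowers (m : G)) (G ⧸ M)) :=
    Quotient.mk _ (QuotientGroup.mk 1 : G ⧸ M)
  have hfix : ∀ x ∈ M, (QuotientGroup.mk x : G ⧸ M) = QuotientGroup.mk 1 := by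
    intro x hx
    rw [QuotientGroup.eq]
    simpa using M.inv_mem hx
  rw [Finset.prod_eq_single q₀]
  · -- the main term
    set q := q₀.out with hq
    have hqq : (Quotient.mk _ q : Quotient (orbitRel (zpowers (m : G)) (G ⧸ M))) = q₀ := Quotient.out_eq _
    have hrel : orbitRel (zpowers (m : G)) (G ⧸ M) |>.r q (QuotientGroup.mk 1) := Quotient.exact hqq
    have hone : (m : G) • (QuotientGroup.mk 1 : G ⧸ M) = QuotientGroup.mk 1 := by
      rw [MulAction.Quotient.smul_mk]
      simpa using hfix _ m.2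
    -- q is in the orbit of the trivial coset, hence it is the trivial coset
    have hq1 : q = QuotientGroup.mk 1 := by
      rw [orbitRel_apply] at hrel
      obtain ⟨⟨z, hz⟩, hzq⟩ := hrel
      obtain ⟨k, rfl⟩ := Subgroup.mem_zpowers_iff.mp hz
      have hpow : ∀ k : ℤ, ((m : G) ^ k) • (QuotientGroup.mk 1 : G ⧸ M) = QuotientGroup.mk 1 := by
        intro k
        rw [MulAction.Quotient.smul_mk]
        simpa using hfix _ (M.zpow_mem m.2 k)
      rw [← hzq]
      exact hpow k
    have hxM : q.out ∈ M := by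
      have h1 : (QuotientGroup.mk q.out : G ⧸ M) = QuotientGroup.mk 1 := by
        rw [QuotientGroup.out_eq', hq1]
      rw [QuotientGroup.eq] at h1
      simpa using M.inv_mem h1
    have hperiod : Function.minimalPeriod ((m : G) • ·) q = 1 := by
      rw [Function.minimalPeriod_eq_one_iff_isFixedPt, hq1]
      exact hone
    have helem : (⟨q.out⁻¹ * (m : G) ^ Function.minimalPeriod ((m : G) • ·) q * q.out,
        QuotientGroup.out_conj_pow_minimalPeriod_mem M (m : G) q⟩ : M) =
        (⟨q.out, hxM⟩ : M)⁻¹ * m * ⟨q.out, hxM⟩ := by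
      apply Subtype.ext
      simp [hperiod]
    rw [helem, map_mul, map_mul, hA, ← mul_assoc, map_inv, mul_inv_cancel, one_mul]
  · intro q _ hq
    have hxM : q.out.out ∉ M := by
      intro hx
      apply hq
      have h1 : q.out = QuotientGroup.mk 1 := by
        rw [← hfix _ hx, QuotientGroup.out_eq']
      have h2 : (Quotient.mk _ q.out : Quotient (orbitRel (zpowers (m : G)) (G ⧸ M))) = q :=
        Quotient.out_eq _
      rw [← h2, h1]
    exact h _ hxM _ (M.pow_mem m.2 _) _
  · intro hq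
    exact absurd (Finset.mem_univ _) hq

/-- The quotient by a covered subgroup is commutative. -/
theorem quotient_comm_of_cover {M H : Subgroup G} (hHM : H ≤ M)
    [hn : (H.subgroupOf M).Normal]
    (hcov : ∀ d ∈ M, d ∉ H → M ≤ H ⊔ Subgroup.zpowers d) (a b : ↥M ⧸ H.subgroupOf M) :
    a * b = b * a := by
  by_cases ha : a = 1
  · rw [ha]; simp
  obtain ⟨⟨d, hd⟩, rfl⟩ := QuotientGroup.mk'_surjective _ a
  have hdH : d ∉ H := by
    intro h
    apply ha
    exact (QuotientGroup.eq_one_iff _).mpr (Subgroup.mem_subgroupOf.mpr h)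
  have hmem : ∀ u : ↥M ⧸ H.subgroupOf M, u ∈ Subgroup.zpowers
      (QuotientGroup.mk' (H.subgroupOf M) (⟨d, hd⟩ : M)) := by
    intro u
    obtain ⟨⟨w, hw⟩, rfl⟩ := QuotientGroup.mk'_surjective _ u
    have hw' : w ∈ H ⊔ Subgroup.zpowers d := hcov d hd hdH hw
    -- the set of elements of the join with image in the cyclic group
    have hle : H ⊔ Subgroup.zpowers d ≤ ((Subgroup.zpowers
        (QuotientGroup.mk' (H.subgroupOf M) (⟨d, hd⟩ : M))).comap (QuotientGroup.mk' (H.subgroupOf M))).map M.subtype := by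
      apply sup_le
      · intro x hx
        refine ⟨⟨x, hHM hx⟩, ?_, rfl⟩
        change QuotientGroup.mk' (H.subgroupOf M) (⟨x, hHM hx⟩ : M) ∈ Subgroup.zpowers (QuotientGroup.mk' (H.subgroupOf M) (⟨d, hd⟩ : M))
        have : QuotientGroup.mk' (H.subgroupOf M) (⟨x, hHM hx⟩ : M) = 1 :=
          (QuotientGroup.eq_one_iff _).mpr (Subgroup.mem_subgroupOf.mpr hx)
        rw [this]
        exact Subgroup.one_mem _
      · rw [Subgroup.zpowers_le]
        exact ⟨⟨d, hd⟩, Subgroup.mem_zpowers _, rfl⟩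
    obtain ⟨⟨w', hw'M⟩, hw'1, hw'2⟩ := hle hw'
    have : (⟨w, hw⟩ : M) = ⟨w', hw'M⟩ := Subtype.ext hw'2.symm
    rw [this]
    exact hw'1
  obtain ⟨i, hi⟩ := Subgroup.mem_zpowers_iff.mp (hmem b)
  rw [← hi]
  exact (Commute.zpow_right (Commute.refl _) i).eq

end Cfsg.Agent.H14
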