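import Mathlib
import Cfsg.Agent.Lib.H14.FusionQd
import Cfsg.Agent.Lib.H24.FusFactor

/-! Fusion systems of `Qd(p)`-free groups are solvable. -/

set_option autoImplicit false

namespace Cfsg.Agent.H14

open Cfsg Cfsg.Agent.H13 ZJFam Cfsg.FusionSystem

universe u

/-- The relative core statement. -/
def RelCore {G : Type*} [Group G] (P R Q : Subgroup G) : Prop :=
  R ≤ Q ∧ R ≠ Q ∧ Q ≤ P ∧ ∀ A : Subgroup G, R ≤ A → A ≤ P → ∀ g : G, (∀ a ∈ A, g * a * g⁻¹ ∈ P) →
    ∃ y ∈ NN Q, ∀ a ∈ A, (y * a * y⁻¹)⁻¹ * (g * a * g⁻¹) ∈ R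

variable {p : ℕ} [Fact p.Prime]

theorem rel_core (hp2 : p ≠ 2) : ∀ (N : ℕ) (G : Type u) [Group G] [Finite G], Nat.card G ≤ N →
    ¬ Cfsg.Involves ↥(Cfsg.qdOver (ZMod p)) G → ∀ (P : Sylow p G) (R : Subgroup G),
    IsStronglyClosed R (P : Subgroup G) → R ≠ (P : Subgroup G) → ∃ Q, RelCore (P : Subgroup G) R Q := by
  classical
  intro N
  induction N with
  | zero =>
    intro G _ _ hc
    have : 0 < Nat.card G := Nat.card_pos
    omega
  | succ N ih =>
    intro G _ _ hc hfree P R hR hne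
    have hT := T_main (n := 0) (fusClass_qdFree hp2) hp2 (Or.inl rfl) (Nat.card G) G le_rfl hfree P
    have hRp : IsPGroup p R := P.isPGroup'.to_le hR.1
    by_cases hRb : R = ⊥
    · -- the base case
      subst hRb
      have hPne : (P : Subgroup G) ≠ ⊥ := fun h => hne h.symm
      have hPcl : IsStronglyClosed (P : Subgroup G) (P : Subgroup G) := ⟨le_rfl, fun x _ g hg => hg⟩
      refine ⟨(elFam G 0).zz (P : Subgroup G), bot_le, ?_, (zz_le_jj _).trans (jj_le _), ?_⟩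
      · intro h
        exact zz_ne_bot (p := p) 0 (Or.inl rfl) P.isPGroup' hPne h.symm
      · intro A _ hAP g hg
        obtain ⟨x, hx, he⟩ := hT _ hPcl A hAP g hg
        refine ⟨x, hx, fun a ha => ?_⟩
        rw [he a ha, inv_mul_cancel]
        exact Subgroup.one_mem _
    · set W := (elFam G 0).zz R with hW
      have hWR : W ≤ R := (zz_le_jj _).trans (jj_le _)
      have hWne : W ≠ ⊥ := zz_ne_bot (p := p) 0 (Or.inl rfl) hRp hRb
      set N₁ := NN W with hN₁
      have hPN₁ : (P : Subgroup G) ≤ N₁ := (sylow_le_normalizer_of_closed hR).trans (zz_normalizer_ge 0 R)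
      let W₁ : Subgroup N₁ := W.subgroupOf N₁
      haveI hW₁n : W₁.Normal := Subgroup.normal_in_normalizer
      let π : N₁ →* (N₁ ⧸ W₁) := QuotientGroup.mk' W₁
      have hπs : Function.Surjective π := QuotientGroup.mk'_surjective W₁
      have hπe : ∀ a b : N₁, π a = π b → (a : G)⁻¹ * b ∈ W := by
        intro a b hab
        have h1 : a⁻¹ * b ∈ W₁ := QuotientGroup.eq.mp hab
        exact Subgroup.mem_subgroupOf.mp h1
      -- elements modulo `W`
      have hmod : ∀ T : Subgroup G, W ≤ T → ∀ z : N₁, π z ∈ (T.subgroupOf N₁).map π → (z : G) ∈ T := by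
        intro T hT z hz
        obtain ⟨t, ht, hte⟩ := hz
        have h1 := hπe t z hte
        have h2 : (t : G) ∈ T := Subgroup.mem_subgroupOf.mp ht
        have h3 := T.mul_mem h2 (hT h1)
        have e : (t : G) * ((t : G)⁻¹ * z) = z := by group
        rwa [e] at h3
      have hcardQ : Nat.card (N₁ ⧸ W₁) ≤ N := by
        have h1 : Nat.card N₁ = Nat.card (N₁ ⧸ W₁) * Nat.card W₁ :=
          Subgroup.card_eq_card_quotient_mul_card_subgroup W₁
        have h2 : Nat.card W₁ = Nat.card W := by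
          have hle : W ≤ N₁ := Subgroup.le_normalizer
          exact Nat.card_congr (Subgroup.subgroupOfEquivOfLe hle).toEquiv
        have h3 : 1 < Nat.card W := by
          have h4 : (⊥ : Subgroup G) < W := bot_lt_iff_ne_bot.mpr hWne
          have h5 := card_lt_of_lt h4
          rwa [Subgroup.card_bot] at h5
        have h6 : Nat.card N₁ ≤ Nat.card G := Subgroup.card_le_card_group N₁
        have h7 : 0 < Nat.card (N₁ ⧸ W₁) := Nat.card_pos
        rw [h2] at h1
        nlinarith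
      have hfreeQ : ¬ Cfsg.Involves ↥(Cfsg.qdOver (ZMod p)) (N₁ ⧸ W₁) := fun h =>
        hfree (H09.Involves.trans' (H09.Involves.trans' h (H09.involves_quotient W₁))
          (H09.involves_subgroup N₁))
      let P₁ : Sylow p N₁ := P.subtype hPN₁
      let Pb : Sylow p (N₁ ⧸ W₁) := P₁.mapSurjective hπs
      have hPb : (Pb : Subgroup (N₁ ⧸ W₁)) = ((P : Subgroup G).subgroupOf N₁).map π := by
        rw [Sylow.coe_mapSurjective, Sylow.coe_subtype]
      let Rb : Subgroup (N₁ ⧸ W₁) := (R.subgroupOf N₁).map π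
      have hWP : W ≤ (P : Subgroup G) := hWR.trans hR.1
      have hRb' : IsStronglyClosed Rb (Pb : Subgroup (N₁ ⧸ W₁)) := by
        constructor
        · rw [hPb]
          exact Subgroup.map_mono fun x hx => Subgroup.mem_subgroupOf.mpr (hR.1 (Subgroup.mem_subgroupOf.mp hx))
        · rintro _ ⟨r, hr, rfl⟩ g' hg'
          obtain ⟨g₁, rfl⟩ := hπs g'
          rw [hPb, ← map_inv, ← map_mul, ← map_mul] at hg'
          have h1 := hmod _ hWP _ hg'
          have h2 : (g₁ : G) * r * (g₁ : G)⁻¹ ∈ R :=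
            hR.2 r (Subgroup.mem_subgroupOf.mp hr) g₁ (by simpa using h1)
          refine ⟨g₁ * r * g₁⁻¹, Subgroup.mem_subgroupOf.mpr (by simpa using h2), ?_⟩
          rw [map_mul, map_mul, map_inv]
      have hRbne : Rb ≠ (Pb : Subgroup (N₁ ⧸ W₁)) := by
        intro h
        apply hne
        refine le_antisymm hR.1 fun s hs => ?_
        have h1 : π ⟨s, hPN₁ hs⟩ ∈ Rb := by
          rw [h, hPb]
          exact ⟨⟨s, hPN₁ hs⟩, Subgroup.mem_subgroupOf.mpr hs, rfl⟩
        exact hmod R hWR ⟨s, hPN₁ hs⟩ h1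
      obtain ⟨Qb, hRQ, hRQne, hQP, hctrl⟩ := ih (N₁ ⧸ W₁) hcardQ hfreeQ Pb Rb hRb' hRbne
      rw [hPb] at hQP hctrl
      let Q : Subgroup G := (Qb.comap π).map N₁.subtype
      have hQmem : ∀ z : N₁, (z : G) ∈ Q ↔ π z ∈ Qb := by
        intro z
        constructor
        · rintro ⟨z', hz', hzz⟩
          have : z' = z := Subtype.ext hzz
          rw [← this]
          exact hz'
        · intro h
          exact ⟨z, h, rfl⟩
      have hQN₁ : Q ≤ N₁ := Subgroup.map_subtype_le _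
      refine ⟨Q, ?_, ?_, ?_, ?_⟩
      · intro r hr
        have hrN : r ∈ N₁ := hPN₁ (hR.1 hr)
        exact (hQmem ⟨r, hrN⟩).mpr (hRQ ⟨⟨r, hrN⟩, Subgroup.mem_subgroupOf.mpr hr, rfl⟩)
      · intro h
        apply hRQne
        refine le_antisymm hRQ fun q hq => ?_
        obtain ⟨q₁, rfl⟩ := hπs q
        have h1 : (q₁ : G) ∈ R := by
          rw [h]
          exact (hQmem q₁).mpr hq
        exact ⟨q₁, Subgroup.mem_subgroupOf.mpr h1, rfl⟩
      · intro q hq
        have hqN := hQN₁ hq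
        have h1 := hQP ((hQmem ⟨q, hqN⟩).mp hq)
        exact hmod _ hWP ⟨q, hqN⟩ h1
      · intro A hRA hAP g hg
        obtain ⟨x, hxN, he⟩ := hT R hR A hAP g hg
        have hxN₁ : x ∈ N₁ := hxN
        let Ab : Subgroup (N₁ ⧸ W₁) := (A.subgroupOf N₁).map π
        have hRAb : Rb ≤ Ab := Subgroup.map_mono fun r hr =>
          Subgroup.mem_subgroupOf.mpr (hRA (Subgroup.mem_subgroupOf.mp hr))
        have hAbP : Ab ≤ ((P : Subgroup G).subgroupOf N₁).map π := Subgroup.map_mono fun r hr =>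
          Subgroup.mem_subgroupOf.mpr (hAP (Subgroup.mem_subgroupOf.mp hr))
        obtain ⟨yb, hyb, hy⟩ := hctrl Ab hRAb hAbP (π ⟨x, hxN₁⟩) (by
          rintro _ ⟨a, ha, rfl⟩
          rw [← map_inv, ← map_mul, ← map_mul]
          refine ⟨⟨x, hxN₁⟩ * a * ⟨x, hxN₁⟩⁻¹, Subgroup.mem_subgroupOf.mpr ?_, rfl⟩
          have h1 := hg a (Subgroup.mem_subgroupOf.mp ha)
          rw [he a (Subgroup.mem_subgroupOf.mp ha)] at h1
          simpa using h1)
        obtain ⟨y₁, rfl⟩ := hπs yb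
        refine ⟨y₁, ?_, fun a ha => ?_⟩
        · apply mem_normalizer_of_map_conj_le
          rintro _ ⟨q, hq, rfl⟩
          have hqN := hQN₁ hq
          change (y₁ : G) * q * (y₁ : G)⁻¹ ∈ Q
          have h1 : π ⟨q, hqN⟩ ∈ Qb := (hQmem ⟨q, hqN⟩).mp hq
          have h2 := (Subgroup.mem_normalizer_iff.mp hyb _).mp h1
          rw [← map_inv, ← map_mul, ← map_mul] at h2
          exact (hQmem _).mpr h2
        · have haN : a ∈ N₁ := hPN₁ (hAP ha)
          have h1 := hy (π ⟨a, haN⟩) ⟨⟨a, haN⟩, Subgroup.mem_subgroupOf.mpr ha, rfl⟩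
          simp only [← map_inv, ← map_mul] at h1
          have h2 := hmod R hWR _ h1
          rw [he a ha]
          simpa using h2


theorem solvable_of_qdFree {G : Type u} [Group G] [Finite G] (hp2 : p ≠ 2)
    (hfree : ¬ Cfsg.Involves ↥(Cfsg.qdOver (ZMod p)) G) (P : Sylow p G) :
    (Cfsg.groupFusionSystem (P : Subgroup G)).IsSolvableSystem := by
  classical
  intro R hR hne _ E hE
  obtain ⟨hRP, hker, hrange, hHom⟩ := hE
  have hRc : IsStronglyClosed R (P : Subgroup G) := by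
    refine ⟨hRP, fun x hx g hg => ?_⟩
    have hle : Subgroup.zpowers x ≤ R := by
      rw [Subgroup.zpowers_le]
      exact hx
    have hφ : conjHom (Subgroup.zpowers x) g ∈ (Cfsg.groupFusionSystem (P : Subgroup G)).Hom (Subgroup.zpowers x) := by
      refine ⟨hle.trans hRP, fun y => ?_, g, fun y => rfl⟩
      obtain ⟨y, hy⟩ := y
      obtain ⟨k, rfl⟩ := Subgroup.mem_zpowers_iff.mp hy
      change g * x ^ k * g⁻¹ ∈ (P : Subgroup G)
      rw [← conj_zpow]
      exact Subgroup.zpow_mem _ hg k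
    exact hR.2 _ hle _ hφ ⟨x, Subgroup.mem_zpowers x⟩
  obtain ⟨Q, hRQ, hRQne, hQP, hctrl⟩ := rel_core hp2 (Nat.card G) G le_rfl hfree P R hRc hne
  set θ := QuotientGroup.mk' (R.subgroupOf (P : Subgroup G)) with hθ
  have hθs : Function.Surjective θ := QuotientGroup.mk'_surjective _
  have hθe : ∀ a b : (P : Subgroup G), θ a = θ b ↔ (a : G)⁻¹ * b ∈ R := by
    intro a b
    constructor
    · intro h
      have h1 := (hker (a⁻¹ * b)).mp (by rw [map_mul, map_inv, h, inv_mul_cancel])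
      exact h1
    · intro h
      have h1 : θ (a⁻¹ * b) = 1 := (hker (a⁻¹ * b)).mpr h
      rw [map_mul, map_inv] at h1
      exact inv_mul_eq_one.mp h1
  let Qb : Subgroup ((P : Subgroup G) ⧸ R.subgroupOf (P : Subgroup G)) := (Q.subgroupOf (P : Subgroup G)).map θ
  have hQbmem : ∀ s : (P : Subgroup G), θ s ∈ Qb ↔ (s : G) ∈ Q := by
    intro s
    constructor
    · rintro ⟨t, ht, hte⟩
      have h1 := (hθe t s).mp hte
      have h2 := Q.mul_mem (Subgroup.mem_subgroupOf.mp ht) (hRQ h1)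
      have e : (t : G) * ((t : G)⁻¹ * s) = s := by group
      rwa [e] at h2
    · intro h
      exact ⟨s, Subgroup.mem_subgroupOf.mpr h, rfl⟩
  have hQb : E.IsNormal Qb := by
    refine ⟨le_top, fun P' φ' hφ' => ?_⟩
    obtain ⟨-, φ, hφ, hPS, hφv, hP'', hind⟩ := (hHom P' φ').mp hφ'
    obtain ⟨hle, hval, g, hg⟩ := hφ
    let A : Subgroup G := preimageAlong θ P'
    have hRA : R ≤ A := H24.le_preimageAlong' hker hR P'
    obtain ⟨y, hyN, hy⟩ := hctrl A hRA hPS g (fun a ha => by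
      have := hval ⟨a, ha⟩
      rwa [hg] at this)
    have hyA : ∀ a ∈ A, y * a * y⁻¹ ∈ (P : Subgroup G) := by
      intro a ha
      have h1 := hy a ha
      have h2 : g * a * g⁻¹ ∈ (P : Subgroup G) := by
        have := hval ⟨a, ha⟩
        rwa [hg] at this
      have h3 := (P : Subgroup G).mul_mem h2 ((P : Subgroup G).inv_mem (hRP h1))
      have e : g * a * g⁻¹ * ((y * a * y⁻¹)⁻¹ * (g * a * g⁻¹))⁻¹ = y * a * y⁻¹ := by group
      rwa [e] at h3
    have hyQ : ∀ q ∈ Q, y * q * y⁻¹ ∈ Q := fun q hq => (Subgroup.mem_normalizer_iff.mp hyN q).mp hq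
    have hyQ' : ∀ q ∈ Q, y⁻¹ * q * y ∈ Q := fun q hq => by
      have h1 := hyN
      have h2 := (Subgroup.mem_normalizer_iff.mp (Subgroup.inv_mem _ h1) q).mp hq
      simpa using h2
    set B := preimageAlong θ (P' ⊔ Qb) with hB
    have hBP : B ≤ (P : Subgroup G) := H24.preimageAlong_le _
    have hyB : ∀ b ∈ B, y * b * y⁻¹ ∈ (P : Subgroup G) := by
      intro b hb
      obtain ⟨hbP, hb'⟩ := H24.mem_preimageAlong.mp hb
      let Tb : Subgroup ((P : Subgroup G) ⧸ R.subgroupOf (P : Subgroup G)) :=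
        (((P : Subgroup G).comap (MulAut.conj y).toMonoidHom).subgroupOf (P : Subgroup G)).map θ
      have hle1 : P' ⊔ Qb ≤ Tb := by
        refine sup_le (fun z hz => ?_) (fun z hz => ?_)
        · obtain ⟨s, rfl⟩ := hθs z
          refine ⟨s, Subgroup.mem_subgroupOf.mpr ?_, rfl⟩
          exact hyA s (H24.mem_preimageAlong.mpr ⟨s.2, hz⟩)
        · obtain ⟨s, hs, rfl⟩ := hz
          refine ⟨s, Subgroup.mem_subgroupOf.mpr ?_, rfl⟩
          exact hQP (hyQ s (Subgroup.mem_subgroupOf.mp hs))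
      obtain ⟨s, hs, hse⟩ := hle1 hb'
      have h1 : (s : G)⁻¹ * b ∈ R := (hθe s ⟨b, hbP⟩).mp hse
      have h2 := hyA _ (hRA h1)
      have h3 : y * s * y⁻¹ ∈ (P : Subgroup G) := Subgroup.mem_subgroupOf.mp hs
      have h4 := (P : Subgroup G).mul_mem h3 h2
      have e : y * s * y⁻¹ * (y * ((s : G)⁻¹ * b) * y⁻¹) = y * b * y⁻¹ := by group
      rwa [e] at h4
    have hψ₀ : conjHom B y ∈ (Cfsg.groupFusionSystem (P : Subgroup G)).Hom B :=
      ⟨hBP, fun x => hyB x x.2, y, fun x => rfl⟩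
    have hψv : ∀ x : B, conjHom B y x ∈ (P : Subgroup G) := fun x => hyB x x.2
    obtain ⟨ψ', hψ'⟩ := H24.exists_induced (θ := θ) (P' := P' ⊔ Qb) (by rw [MonoidHom.range_eq_top.mpr hθs]; exact le_top)
      (φ := conjHom B y) hψv (by
        intro x hx
        have h1 : (x : G) ∈ R := (hker _).mp hx
        have h2 := hRc.2 _ h1 y (hyB x x.2)
        exact (hker _).mpr h2)
    have hmemB : ∀ s : (P : Subgroup G), θ s ∈ P' ⊔ Qb → (s : G) ∈ B := fun s hs =>
      H24.mem_preimageAlong.mpr ⟨s.2, hs⟩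
    have hψ'θ : ∀ (s : (P : Subgroup G)) (h : θ s ∈ P' ⊔ Qb), ψ' ⟨θ s, h⟩ = θ ⟨y * s * y⁻¹, hyB s (hmemB s h)⟩ := by
      intro s h
      exact hψ' ⟨s, hmemB s h⟩ h
    refine ⟨ψ', (hHom _ ψ').mpr ⟨le_top, conjHom B y, hψ₀, hBP, hψv, fun x => (H24.mem_preimageAlong.mp x.2).2, fun x => hψ' x _⟩, ?_, ?_⟩
    · intro x
      obtain ⟨z, hz⟩ := x
      obtain ⟨s, rfl⟩ := hθs z
      have hsA : (s : G) ∈ A := H24.mem_preimageAlong.mpr ⟨s.2, hz⟩
      have h1 : (Subgroup.inclusion le_sup_left (⟨θ s, hz⟩ : P') : ↥(P' ⊔ Qb)) = ⟨θ s, Subgroup.mem_sup_left hz⟩ := rfl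
      rw [h1, hψ'θ]
      have h2 := hind ⟨s, hsA⟩
      have h3 : φ' ⟨θ s, hz⟩ = θ ⟨φ ⟨s, hsA⟩, hφv ⟨s, hsA⟩⟩ := h2
      rw [h3]
      rw [hθe]
      have h4 := hy s hsA
      have h5 : φ ⟨s, hsA⟩ = g * s * g⁻¹ := hg ⟨s, hsA⟩
      change (y * s * y⁻¹)⁻¹ * φ ⟨s, hsA⟩ ∈ R
      rw [h5]
      exact h4
    · ext z
      constructor
      · rintro ⟨⟨w, hw⟩, hw', rfl⟩
        have hwQ : w ∈ Qb := Subgroup.mem_subgroupOf.mp hw'
        obtain ⟨s, rfl⟩ := hθs w
        change ψ' ⟨θ s, hw⟩ ∈ Qb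
        rw [hψ'θ]
        exact (hQbmem _).mpr (hyQ _ ((hQbmem s).mp hwQ))
      · intro hz
        obtain ⟨s, rfl⟩ := hθs z
        have hsQ : (s : G) ∈ Q := (hQbmem s).mp hz
        have hs' := hyQ' _ hsQ
        let t : (P : Subgroup G) := ⟨y⁻¹ * s * y, hQP hs'⟩
        have htQ : θ t ∈ Qb := (hQbmem t).mpr hs'
        have hmemS : θ t ∈ P' ⊔ Qb := Subgroup.mem_sup_right htQ
        refine ⟨⟨θ t, hmemS⟩, Subgroup.mem_subgroupOf.mpr htQ, ?_⟩
        change ψ' ⟨θ t, hmemS⟩ = θ s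
        rw [hψ'θ]
        congr 1
        apply Subtype.ext
        change y * (y⁻¹ * s * y) * y⁻¹ = s
        group
  intro hcore
  have h1 : Qb ≤ E.core := le_sSup hQb
  rw [hcore] at h1
  apply hRQne
  refine le_antisymm hRQ fun q hq => ?_
  have h2 : θ ⟨q, hQP hq⟩ ∈ Qb := (hQbmem _).mpr hq
  have h3 := h1 h2
  exact (hker _).mp (Subgroup.mem_bot.mp h3)

end Cfsg.Agent.H14
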