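import Cfsg.Agent.Lib.H23.SL2
import Cfsg.Agent.Lib.H12.NatMod

/-!
# Recognition of the natural module for `SL₂(F)`

An irreducible nontrivial module `M` of exponent `p` for `SL₂(F)` (`F` a field of characteristic
`p`) with `M = C_M(U) + C_M(U⁻)`, or with `U` acting quadratically, is natural.
-/

set_option autoImplicit false
set_option linter.unusedSectionVars false
set_option linter.style.longLine false

namespace Cfsg.Agent.H14.NatRec

open Matrix Cfsg.Agent.H23

variable {F : Type*} [Field F]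

/-- The Weyl element. -/
def wSL (a : F) : SpecialLinearGroup (Fin 2) F := uSL a * lSL (-a⁻¹) * uSL a

lemma wSL_coe {a : F} (ha : a ≠ 0) : (wSL a).1 = !![0, a; -a⁻¹, 0] := by
  unfold wSL
  rw [sl2_mul_coe, sl2_mul_coe]
  simp only [uSL_coe, lSL_coe, mul_fin_two]
  congr 1
  ext i j
  fin_cases i <;> fin_cases j <;> simp [ha]

lemma wSL_eq' {a : F} (ha : a ≠ 0) : wSL a = lSL (-a⁻¹) * uSL a * lSL (-a⁻¹) := by
  apply Subtype.ext
  rw [wSL_coe ha, sl2_mul_coe, sl2_mul_coe]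
  simp only [uSL_coe, lSL_coe, mul_fin_two]
  congr 1
  ext i j
  fin_cases i <;> fin_cases j <;> simp [ha]

lemma u_mul_w {a : F} (ha : a ≠ 0) (s : F) : uSL s * wSL a = wSL a * lSL (-s * a⁻¹ * a⁻¹) := by
  apply Subtype.ext
  rw [sl2_mul_coe, sl2_mul_coe, wSL_coe ha]
  simp only [uSL_coe, lSL_coe, mul_fin_two]
  congr 1
  ext i j
  fin_cases i <;> fin_cases j <;> simp [ha] <;> field_simp

lemma l_mul_w {a : F} (ha : a ≠ 0) (s : F) : lSL s * wSL a = wSL a * uSL (-s * a * a) := by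
  apply Subtype.ext
  rw [sl2_mul_coe, sl2_mul_coe, wSL_coe ha]
  simp only [uSL_coe, lSL_coe, mul_fin_two]
  congr 1
  ext i j
  fin_cases i <;> fin_cases j <;> simp [ha] <;> field_simp

lemma w4 {a : F} (ha : a ≠ 0) : wSL a * wSL a * (wSL a * wSL a) = 1 := by
  apply Subtype.ext
  simp only [sl2_mul_coe, wSL_coe ha, mul_fin_two, SpecialLinearGroup.coe_one]
  ext i j
  fin_cases i <;> fin_cases j <;> simp [ha, one_fin_two]

lemma wwh {x z : F} (hx : x ≠ 0) (hz : z ≠ 0) :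
    wSL x * wSL (-1) * (wSL z * wSL (-1)) = wSL (x * z) * wSL (-1) := by
  have h1 : (-1 : F) ≠ 0 := neg_ne_zero.2 one_ne_zero
  apply Subtype.ext
  simp only [sl2_mul_coe, wSL_coe hx, wSL_coe hz, wSL_coe h1, wSL_coe (mul_ne_zero hx hz), mul_fin_two]
  congr 1
  ext i j
  fin_cases i <;> fin_cases j <;> simp [hx, hz, mul_comm]

/-! ### The module -/

variable (M : Type*) [AddCommGroup M] [DistribMulAction (SpecialLinearGroup (Fin 2) F) M]

/-- Fixed points of the upper unitriangular group. -/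
def V0 : AddSubgroup M where
  carrier := {m | ∀ t : F, uSL t • m = m}
  zero_mem' := fun _ => smul_zero _
  add_mem' := fun {x y} hx hy t => by rw [smul_add, hx t, hy t]
  neg_mem' := fun {x} hx t => by rw [smul_neg, hx t]

/-- Fixed points of the lower unitriangular group. -/
def V1 : AddSubgroup M where
  carrier := {m | ∀ t : F, lSL t • m = m}
  zero_mem' := fun _ => smul_zero _
  add_mem' := fun {x y} hx hy t => by rw [smul_add, hx t, hy t]
  neg_mem' := fun {x} hx t => by rw [smul_neg, hx t]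

variable {M}

lemma mem_V0 {m : M} : m ∈ V0 (F := F) M ↔ ∀ t : F, uSL t • m = m := Iff.rfl
lemma mem_V1 {m : M} : m ∈ V1 (F := F) M ↔ ∀ t : F, lSL t • m = m := Iff.rfl

lemma w_mem_V0 {a : F} (ha : a ≠ 0) {v : M} (hv : v ∈ V1 (F := F) M) : wSL a • v ∈ V0 (F := F) M := by
  intro t
  rw [smul_smul, u_mul_w ha, mul_smul, hv]

lemma w_mem_V1 {a : F} (ha : a ≠ 0) {y : M} (hy : y ∈ V0 (F := F) M) : wSL a • y ∈ V1 (F := F) M := by
  intro t
  rw [smul_smul, l_mul_w ha, mul_smul, hy]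

/-- Projections onto the two summands. -/
structure Split (P0 P1 : M →+ M) : Prop where
  sum : ∀ m, P0 m + P1 m = m
  mem0 : ∀ m, P0 m ∈ V0 (F := F) M
  mem1 : ∀ m, P1 m ∈ V1 (F := F) M
  h00 : ∀ x ∈ V0 (F := F) M, P0 x = x
  h01 : ∀ x ∈ V0 (F := F) M, P1 x = 0
  h10 : ∀ y ∈ V1 (F := F) M, P0 y = 0
  h11 : ∀ y ∈ V1 (F := F) M, P1 y = y

/-- `P0 ∘ u(a)`. -/
def A (P0 : M →+ M) (a : F) : M →+ M :=
  P0.comp (DistribSMul.toAddMonoidHom M (uSL a : SpecialLinearGroup (Fin 2) F))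

/-- `P1 ∘ u(a)`. -/
def B (P1 : M →+ M) (a : F) : M →+ M :=
  P1.comp (DistribSMul.toAddMonoidHom M (uSL a : SpecialLinearGroup (Fin 2) F))

lemma A_apply (P0 : M →+ M) (a : F) (v : M) : A P0 a v = P0 (uSL a • v) := rfl
lemma B_apply (P1 : M →+ M) (a : F) (v : M) : B P1 a v = P1 (uSL a • v) := rfl

section Split

variable {P0 P1 : M →+ M} (hP : Split (F := F) P0 P1)
include hP

lemma u_eq (a : F) (v : M) : uSL a • v = A P0 a v + B P1 a v := (hP.sum _).symm

lemma A_mem (a : F) (v : M) : A P0 a v ∈ V0 (F := F) M := hP.mem0 _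
lemma B_mem (a : F) (v : M) : B P1 a v ∈ V1 (F := F) M := hP.mem1 _

lemma B_zero {v : M} (hv : v ∈ V1 (F := F) M) : B P1 (0 : F) v = v := by
  rw [B_apply, uSL_zero, one_smul, hP.h11 _ hv]

lemma A_zero {v : M} (hv : v ∈ V1 (F := F) M) : A P0 (0 : F) v = 0 := by
  rw [A_apply, uSL_zero, one_smul, hP.h10 _ hv]

lemma B_add {v : M} (a c : F) : B P1 (a + c) v = B P1 a (B P1 c v) := by
  have h : uSL (a + c) • v = uSL a • uSL c • v := by rw [smul_smul, uSL_mul]
  rw [B_apply, h, u_eq hP c v, smul_add, (A_mem hP c v) a, map_add, hP.h01 _ (A_mem hP c v), zero_add]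
  rfl

lemma A_add {v : M} (a c : F) : A P0 (a + c) v = A P0 c v + A P0 a (B P1 c v) := by
  have h : uSL (a + c) • v = uSL a • uSL c • v := by rw [smul_smul, uSL_mul]
  rw [A_apply, h, u_eq hP c v, smul_add, (A_mem hP c v) a, map_add, hP.h00 _ (A_mem hP c v)]
  rfl

/-- With `l = l(-a⁻¹)`: for `v ∈ V₁`, `W v = l (A v) + B v`. -/
lemma W_V1_eq {a : F} (ha : a ≠ 0) {v : M} (hv : v ∈ V1 (F := F) M) :
    wSL a • v = lSL (-a⁻¹) • A P0 a v + B P1 a v := by
  rw [wSL_eq' ha, mul_smul, mul_smul, hv, u_eq hP a v, smul_add, (B_mem hP a v)]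

lemma P1_l_A {a : F} (ha : a ≠ 0) {v : M} (hv : v ∈ V1 (F := F) M) :
    P1 (lSL (-a⁻¹) • A P0 a v) = - B P1 a v := by
  have h := congrArg P1 (W_V1_eq hP ha hv)
  rw [hP.h01 _ (w_mem_V0 ha hv), map_add, hP.h11 _ (B_mem hP a v)] at h
  exact (eq_neg_of_add_eq_zero_left h.symm)

lemma P0_l_A {a : F} (ha : a ≠ 0) {v : M} (hv : v ∈ V1 (F := F) M) :
    P0 (lSL (-a⁻¹) • A P0 a v) = wSL a • v := by
  have h := congrArg P0 (W_V1_eq hP ha hv)
  rw [hP.h00 _ (w_mem_V0 ha hv), map_add, hP.h10 _ (B_mem hP a v), add_zero] at h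
  exact h.symm

/-- For `y ∈ V₀`: `W y = u (l y)`. -/
lemma W_V0_eq {a : F} (ha : a ≠ 0) {y : M} (hy : y ∈ V0 (F := F) M) :
    wSL a • y = P0 (lSL (-a⁻¹) • y) + (A P0 a (P1 (lSL (-a⁻¹) • y)) + B P1 a (P1 (lSL (-a⁻¹) • y))) := by
  have h1 : wSL a • y = uSL a • lSL (-a⁻¹) • y := by
    unfold wSL
    rw [mul_smul, mul_smul, hy]
  conv_lhs => rw [h1, ← hP.sum (lSL (-a⁻¹) • y), smul_add, hP.mem0 _ a, u_eq hP a]

lemma P0_l_y {a : F} (ha : a ≠ 0) {y : M} (hy : y ∈ V0 (F := F) M) :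
    P0 (lSL (-a⁻¹) • y) + A P0 a (P1 (lSL (-a⁻¹) • y)) = 0 := by
  have h := congrArg P0 (W_V0_eq hP ha hy)
  rw [hP.h10 _ (w_mem_V1 ha hy), map_add, map_add, hP.h00 _ (hP.mem0 _), hP.h00 _ (A_mem hP _ _),
    hP.h10 _ (B_mem hP _ _), add_zero] at h
  exact h.symm

lemma W_y_eq {a : F} (ha : a ≠ 0) {y : M} (hy : y ∈ V0 (F := F) M) :
    wSL a • y = B P1 a (P1 (lSL (-a⁻¹) • y)) := by
  have h := congrArg P1 (W_V0_eq hP ha hy)
  rw [hP.h11 _ (w_mem_V1 ha hy), map_add, map_add, hP.h01 _ (hP.mem0 _), hP.h01 _ (A_mem hP _ _),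
    hP.h11 _ (B_mem hP _ _), zero_add, zero_add] at h
  exact h

/-- `W v = A (B v)` on `V₁`. -/
lemma W_eq_AB {a : F} (ha : a ≠ 0) {v : M} (hv : v ∈ V1 (F := F) M) :
    wSL a • v = A P0 a (B P1 a v) := by
  have h := P0_l_y hP ha (A_mem hP a v)
  rw [P1_l_A hP ha hv, P0_l_A hP ha hv, map_neg] at h
  exact eq_of_add_neg_eq_zero h

/-- `W (A v) = - B (B v)` on `V₁`. -/
lemma W_A {a : F} (ha : a ≠ 0) {v : M} (hv : v ∈ V1 (F := F) M) :
    wSL a • A P0 a v = - B P1 a (B P1 a v) := by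
  rw [W_y_eq hP ha (A_mem hP a v), P1_l_A hP ha hv, map_neg]

lemma WW {a : F} (ha : a ≠ 0) {v : M} (hv : v ∈ V1 (F := F) M) :
    wSL a • wSL a • v = - B P1 a (B P1 a (B P1 a v)) := by
  rw [W_eq_AB hP ha hv, W_A hP ha (B_mem hP a v)]

/-- `B⁶ = 1` on `V₁`. -/
lemma B6 {a : F} (ha : a ≠ 0) {v : M} (hv : v ∈ V1 (F := F) M) :
    (B P1 a)^[6] v = v := by
  have h4 : (wSL a * wSL a * (wSL a * wSL a)) • v = v := by rw [w4 ha, one_smul]
  simp only [mul_smul] at h4
  rw [WW hP ha hv, smul_neg, smul_neg, WW hP ha (B_mem hP _ _), neg_neg] at h4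
  exact h4

lemma A_inj {a : F} (ha : a ≠ 0) {v : M} (hv : v ∈ V1 (F := F) M) (h0 : A P0 a v = 0) : v = 0 := by
  have h := P1_l_A hP ha hv
  rw [h0, smul_zero, map_zero] at h
  have hb : B P1 a v = 0 := by simpa using h.symm
  have hw := W_eq_AB hP ha hv
  rw [hb, map_zero] at hw
  exact (smul_eq_zero_iff_eq (wSL a)).1 hw

lemma B_iterate (a : F) {v : M} (hv : v ∈ V1 (F := F) M) (k : ℕ) :
    (B P1 a)^[k] v = B P1 (k • a) v := by
  induction k with
  | zero => simp [B_zero hP hv]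
  | succ k ih =>
    rw [Function.iterate_succ_apply', ih, succ_nsmul', B_add hP]

end Split

/-! ### Invariance from the generators -/

lemma invariant_of_gens (K : AddSubgroup M) (hu : ∀ (t : F), ∀ a ∈ K, uSL t • a ∈ K)
    (hl : ∀ (t : F), ∀ a ∈ K, lSL t • a ∈ K) :
    ∀ g : SpecialLinearGroup (Fin 2) F, ∀ a ∈ K, g • a ∈ K := by
  let S : Subgroup (SpecialLinearGroup (Fin 2) F) :=
    { carrier := {g | (∀ a ∈ K, g • a ∈ K) ∧ (∀ a ∈ K, g⁻¹ • a ∈ K)}
      mul_mem' := fun {x y} hx hy => by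
        refine ⟨fun a ha => ?_, fun a ha => ?_⟩
        · rw [mul_smul]; exact hx.1 _ (hy.1 _ ha)
        · rw [_root_.mul_inv_rev, mul_smul]; exact hy.2 _ (hx.2 _ ha)
      one_mem' := by simp
      inv_mem' := fun {x} hx => ⟨hx.2, by simpa using hx.1⟩ }
  have hS : (⊤ : Subgroup (SpecialLinearGroup (Fin 2) F)) ≤ S := by
    rw [← sl2_sup (k := F)]
    refine sup_le ?_ ?_
    · intro g hg
      obtain ⟨t, rfl⟩ := mem_lower_iff.1 hg
      refine ⟨hl t, ?_⟩
      rw [lSL_inv]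
      exact hl (-t)
    · intro g hg
      obtain ⟨t, rfl⟩ := mem_upper_iff.1 hg
      refine ⟨hu t, ?_⟩
      rw [uSL_inv]
      exact hu (-t)
  exact fun g => (hS (Subgroup.mem_top g)).1

lemma w_inv {a : F} (ha : a ≠ 0) : (wSL a)⁻¹ = wSL a * wSL a * wSL a := by
  rw [inv_eq_iff_mul_eq_one]
  have := w4 ha
  simpa [mul_assoc] using this

lemma l_eq_w (s : F) : lSL s = wSL (1 : F) * uSL (-s) * (wSL (1 : F))⁻¹ := by
  rw [eq_mul_inv_iff_mul_eq, l_mul_w one_ne_zero]
  simp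

section Quad

variable {P0 P1 : M →+ M} (hP : Split (F := F) P0 P1)
include hP

/-- The case `p = 2`. -/
lemma quad2 (h2F : (2 : F) = 0) (h2 : ∀ m : M, (2 : ℕ) • m = 0) {a : F} (ha : a ≠ 0) {v : M}
    (hv : v ∈ V1 (F := F) M) : B P1 a v = v := by
  have haa : a + a = 0 := by rw [← two_mul, h2F, zero_mul]
  have h := A_add hP (v := v) a a
  rw [haa, A_zero hP hv, ← map_add] at h
  have h3 : v + B P1 a v ∈ V1 (F := F) M := add_mem hv (B_mem hP _ _)
  have h4 := A_inj hP ha h3 h.symm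
  have h5 := h2 v
  rw [two_nsmul] at h5
  have : B P1 a v = -v := eq_neg_of_add_eq_zero_right h4
  rw [this]
  exact neg_eq_of_add_eq_zero_right h5

lemma sum3 (h3F : (3 : F) = 0) (h3 : ∀ m : M, (3 : ℕ) • m = 0) (a : F) {v : M}
    (hv : v ∈ V1 (F := F) M) : v + B P1 a v + B P1 a (B P1 a v) = 0 := by
  by_cases ha : a = 0
  · subst ha
    rw [B_zero hP hv, B_zero hP hv]
    have := h3 v
    rw [show (3 : ℕ) = 2 + 1 from rfl, succ_nsmul, two_nsmul] at this
    exact this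
  have haaa : a + (a + a) = 0 := by
    have : a + (a + a) = 3 * a := by ring
    rw [this, h3F, zero_mul]
  have h := A_add hP (v := v) (a + a) a
  rw [add_assoc, haaa, A_add hP a a, A_zero hP hv] at h
  have h5 : A P0 a (v + B P1 a v + B P1 a (B P1 a v)) = 0 := by
    rw [map_add, map_add]
    have h6 := h.symm
    rw [← add_assoc] at h6
    exact h6
  exact A_inj hP ha (add_mem (add_mem hv (B_mem hP _ _)) (B_mem hP _ _)) h5

/-- Commutation. -/
lemma B_comm (a c : F) (v : M) : B P1 a (B P1 c v) = B P1 c (B P1 a v) := by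
  rw [← B_add hP, ← B_add hP, add_comm]

lemma A_cross (a c : F) (v : M) : A P0 a (B P1 c v - v) = A P0 c (B P1 a v - v) := by
  have h1 := A_add hP (v := v) a c
  have h2 := A_add hP (v := v) c a
  rw [add_comm c a, h1] at h2
  rw [map_sub, map_sub]
  rw [sub_eq_sub_iff_add_eq_add]
  rw [add_comm, h2, add_comm]

lemma B_cross (h3F : (3 : F) = 0) (h3 : ∀ m : M, (3 : ℕ) • m = 0) (a c : F) {v : M}
    (hv : v ∈ V1 (F := F) M) : B P1 a (B P1 c v) = B P1 a v + B P1 c v - v := by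
  have hs := sum3 hP h3F h3
  have h1 := hs (a + c) hv
  rw [B_add hP, B_add hP] at h1
  have h2 : B P1 a (B P1 c (B P1 a (B P1 c v))) = B P1 a (B P1 a (B P1 c (B P1 c v))) := by
    rw [B_comm hP c a]
  have e1 : B P1 c (B P1 c v) = - v - B P1 c v := by
    have := hs c hv
    rw [eq_sub_iff_add_eq, eq_neg_iff_add_eq_zero, ← this]
    abel
  have e2 : B P1 a (B P1 a v) = - v - B P1 a v := by
    have := hs a hv
    rw [eq_sub_iff_add_eq, eq_neg_iff_add_eq_zero, ← this]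
    abel
  have e3 : B P1 a (B P1 a (B P1 c v)) = - B P1 c v - B P1 a (B P1 c v) := by
    have := hs a (B_mem hP c v)
    rw [eq_sub_iff_add_eq, eq_neg_iff_add_eq_zero, ← this]
    abel
  rw [h2, e1, map_sub, map_neg, map_sub, map_neg, e2, e3] at h1
  set X := B P1 a (B P1 c v)
  set P := B P1 a v
  set Q := B P1 c v
  have key : X - (P + Q - v) = (2 : ℕ) • (v + X + (- (- v - P) - (- Q - X)))
      - ((3 : ℕ) • v + (3 : ℕ) • X + (3 : ℕ) • P + (3 : ℕ) • Q) := by
    abel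
  rw [h1, h3, h3, h3, h3] at key
  simpa [sub_eq_zero] using key

/-- `B a - 1`. -/
def E (P1 : M →+ M) (a : F) : M →+ M := B P1 a - AddMonoidHom.id M

omit hP in
lemma E_apply (a : F) (v : M) : E P1 a v = B P1 a v - v := rfl

lemma E_mem (a : F) {v : M} (hv : v ∈ V1 (F := F) M) : E P1 a v ∈ V1 (F := F) M :=
  sub_mem (B_mem hP a v) hv

section Three

variable (h3F : (3 : F) = 0) (h3 : ∀ m : M, (3 : ℕ) • m = 0)
include h3F h3

lemma E_E (a c : F) {v : M} (hv : v ∈ V1 (F := F) M) : E P1 a (E P1 c v) = 0 := by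
  rw [E_apply, E_apply, map_sub, B_cross hP h3F h3 a c hv]
  abel

lemma E_add (a c : F) {v : M} (hv : v ∈ V1 (F := F) M) : E P1 (a + c) v = E P1 a v + E P1 c v := by
  rw [E_apply, E_apply, E_apply, B_add hP, B_cross hP h3F h3 a c hv]
  abel

lemma A_EE (a c : F) {v : M} (hv : v ∈ V1 (F := F) M) :
    A P0 (a + c) (E P1 (a + c) v) =
      A P0 c (E P1 a v) + A P0 c (E P1 c v) + A P0 a (E P1 a v) + A P0 a (E P1 c v) := by
  have hx : B P1 c (E P1 (a + c) v) = E P1 (a + c) v := by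
    have h := E_E hP h3F h3 c (a + c) hv
    rw [E_apply, sub_eq_zero] at h
    exact h
  rw [A_add hP, hx, E_add hP h3F h3 a c hv, map_add, map_add]
  abel

/-- The set of values of `E`. -/
def EX (P1 : M →+ M) : Set M := {x | ∃ (a : F) (v : M), v ∈ V1 (F := F) M ∧ x = E P1 a v}

/-- The subgroup generated by the values of the `E`. -/
def N1 (P1 : M →+ M) : AddSubgroup M := AddSubgroup.closure (EX (F := F) P1)

/-- Its image under the Weyl element. -/
def N0 (P1 : M →+ M) : AddSubgroup M :=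
  AddSubgroup.closure ((fun x => wSL (1 : F) • x) '' EX (F := F) P1)

omit h3F h3 in
lemma N1_le : N1 (F := F) P1 ≤ V1 (F := F) M := by
  rw [N1, AddSubgroup.closure_le]
  rintro _ ⟨a, v, hv, rfl⟩
  exact E_mem hP a hv

omit h3F h3 in
lemma N0_le : N0 (F := F) P1 ≤ V0 (F := F) M := by
  rw [N0, AddSubgroup.closure_le]
  rintro _ ⟨_, ⟨a, v, hv, rfl⟩, rfl⟩
  exact w_mem_V0 one_ne_zero (E_mem hP a hv)

lemma E_N1 (t : F) {n : M} (hn : n ∈ N1 (F := F) P1) : E P1 t n = 0 := by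
  induction hn using AddSubgroup.closure_induction with
  | mem x hx =>
    obtain ⟨a, v, hv, rfl⟩ := hx
    exact E_E hP h3F h3 t a hv
  | zero => exact map_zero _
  | add x y _ _ hx hy => rw [map_add, hx, hy, add_zero]
  | neg x _ hx => rw [map_neg, hx, neg_zero]

omit h3F h3 in
lemma l_y_sub {y : M} (hy : y ∈ V0 (F := F) M) (b : F) :
    P0 (lSL b • y) - y ∈ N0 (F := F) P1 := by
  set w : SpecialLinearGroup (Fin 2) F := wSL (1 : F) with hw
  have h1 : (1 : F) ≠ 0 := one_ne_zero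
  set z : M := w⁻¹ • y with hz
  have hzV : z ∈ V1 (F := F) M := by
    rw [hz, w_inv h1, mul_smul, mul_smul]
    exact w_mem_V1 h1 (w_mem_V0 h1 (w_mem_V1 h1 hy))
  have hyz : y = w • z := by rw [hz, smul_inv_smul]
  have h2 : lSL b • y = w • A P0 (-b) z + w • B P1 (-b) z := by
    rw [l_eq_w, mul_smul, mul_smul, ← hz, u_eq hP (-b) z, smul_add]
  have hB : w • B P1 (-b) z ∈ V0 (F := F) M := w_mem_V0 h1 (B_mem hP _ _)
  have h3 : P0 (lSL b • y) - y = w • E P1 (-b) z := by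
    rw [h2, map_add, hP.h10 _ (w_mem_V1 h1 (A_mem hP _ _)), hP.h00 _ hB, zero_add, E_apply, smul_sub,
      ← hyz]
  rw [h3]
  exact AddSubgroup.subset_closure ⟨_, ⟨-b, z, hzV, rfl⟩, rfl⟩

omit h3F h3 in
lemma A_diag (t : F) {v : M} (hv : v ∈ V1 (F := F) M) : A P0 t (E P1 t v) ∈ N0 (F := F) P1 := by
  by_cases ht : t = 0
  · subst ht
    rw [E_apply, B_zero hP hv, sub_self, map_zero]
    exact zero_mem _
  · have h := l_y_sub hP (A_mem hP t v) (-t⁻¹)
    rw [P0_l_A hP ht hv, W_eq_AB hP ht hv] at h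
    rw [E_apply, map_sub]
    exact h

lemma A_N1 (t : F) {n : M} (hn : n ∈ N1 (F := F) P1) : A P0 t n ∈ N0 (F := F) P1 := by
  induction hn using AddSubgroup.closure_induction with
  | mem x hx =>
    obtain ⟨c, v, hv, rfl⟩ := hx
    have h1 := A_EE hP h3F h3 t c hv
    have h2 := A_cross hP t c v
    change A P0 t (E P1 c v) = A P0 c (E P1 t v) at h2
    have h5 : A P0 t (E P1 c v) = (2 : ℕ) • (A P0 (t + c) (E P1 (t + c) v) - A P0 t (E P1 t v)
        - A P0 c (E P1 c v)) - (3 : ℕ) • A P0 t (E P1 c v) := by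
      rw [h1, ← h2]
      abel
    rw [h5, h3, sub_zero]
    exact nsmul_mem (sub_mem (sub_mem (A_diag hP _ hv) (A_diag hP _ hv)) (A_diag hP _ hv)) 2
  | zero => rw [map_zero]; exact zero_mem _
  | add x y _ _ hx hy => rw [map_add]; exact add_mem hx hy
  | neg x _ hx => rw [map_neg]; exact neg_mem hx

omit h3F h3 hP in
lemma ww_comm {a : F} (ha : a ≠ 0) (t : F) :
    (wSL a * wSL a) * uSL t = uSL t * (wSL a * wSL a) := by
  apply Subtype.ext
  simp only [sl2_mul_coe, wSL_coe ha, uSL_coe, mul_fin_two]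
  congr 1
  ext i j
  fin_cases i <;> fin_cases j <;> simp [ha]

omit h3F h3 in
lemma ww_P1 {a : F} (ha : a ≠ 0) (m : M) : P1 (wSL a • wSL a • m) = wSL a • wSL a • P1 m := by
  conv_lhs => rw [← hP.sum m]
  rw [smul_add, smul_add, map_add, hP.h01 _ (w_mem_V0 ha (w_mem_V1 ha (hP.mem0 m))),
    hP.h11 _ (w_mem_V1 ha (w_mem_V0 ha (hP.mem1 m))), zero_add]

omit h3F h3 in
lemma ww_E {a : F} (ha : a ≠ 0) (c : F) (v : M) :
    wSL a • wSL a • E P1 c v = E P1 c (wSL a • wSL a • v) := by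
  have h1 : wSL a • wSL a • uSL c • v = uSL c • wSL a • wSL a • v := by
    simp only [← mul_smul]
    rw [← mul_assoc, ww_comm ha]
  rw [E_apply, E_apply, smul_sub, smul_sub, B_apply, B_apply, ← ww_P1 hP ha, h1]

/-- The whole subgroup is invariant. -/
lemma N_invariant :
    ∀ g : SpecialLinearGroup (Fin 2) F, ∀ n ∈ N0 (F := F) P1 ⊔ N1 (F := F) P1, g • n ∈ N0 (F := F) P1 ⊔ N1 (F := F) P1 := by
  have h1 : (1 : F) ≠ 0 := one_ne_zero
  set N := N0 (F := F) P1 ⊔ N1 (F := F) P1 with hN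
  have hu : ∀ (t : F), ∀ n ∈ N, uSL t • n ∈ N := by
    intro t n hn
    obtain ⟨x, hx, y, hy, rfl⟩ := AddSubgroup.mem_sup.1 hn
    have hxV : x ∈ V0 (F := F) M := N0_le hP hx
    have hBy : B P1 t y = y := by
      have := E_N1 hP h3F h3 t hy
      rwa [E_apply, sub_eq_zero] at this
    rw [smul_add, hxV t, u_eq hP t y, hBy]
    exact add_mem ((le_sup_left : _ ≤ N) hx) (add_mem ((le_sup_left : _ ≤ N) (A_N1 hP h3F h3 t hy))
      ((le_sup_right : _ ≤ N) hy))
  have hw1 : ∀ x ∈ N0 (F := F) P1, wSL (1 : F) • x ∈ N1 (F := F) P1 := by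
    intro x hx
    induction hx using AddSubgroup.closure_induction with
    | mem x hx =>
      obtain ⟨_, ⟨c, v, hv, rfl⟩, rfl⟩ := hx
      change wSL (1 : F) • wSL (1 : F) • E P1 c v ∈ _
      rw [ww_E hP h1]
      exact AddSubgroup.subset_closure ⟨c, _, w_mem_V1 h1 (w_mem_V0 h1 hv), rfl⟩
    | zero => rw [smul_zero]; exact zero_mem _
    | add x y _ _ hx hy => rw [smul_add]; exact add_mem hx hy
    | neg x _ hx => rw [smul_neg]; exact neg_mem hx
  have hw2 : ∀ y ∈ N1 (F := F) P1, wSL (1 : F) • y ∈ N0 (F := F) P1 := by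
    intro y hy
    induction hy using AddSubgroup.closure_induction with
    | mem x hx => exact AddSubgroup.subset_closure ⟨x, hx, rfl⟩
    | zero => rw [smul_zero]; exact zero_mem _
    | add x y _ _ hx hy => rw [smul_add]; exact add_mem hx hy
    | neg x _ hx => rw [smul_neg]; exact neg_mem hx
  have hw : ∀ n ∈ N, wSL (1 : F) • n ∈ N := by
    intro n hn
    obtain ⟨x, hx, y, hy, rfl⟩ := AddSubgroup.mem_sup.1 hn
    rw [smul_add]
    exact add_mem ((le_sup_right : _ ≤ N) (hw1 x hx)) ((le_sup_left : _ ≤ N) (hw2 y hy))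
  have hwi : ∀ n ∈ N, (wSL (1 : F))⁻¹ • n ∈ N := by
    intro n hn
    rw [w_inv h1, mul_smul, mul_smul]
    exact hw _ (hw _ (hw _ hn))
  refine invariant_of_gens N hu ?_
  intro t n hn
  rw [l_eq_w, mul_smul, mul_smul]
  exact hw _ (hu _ _ (hwi _ hn))

/-- The case `p = 3`. -/
lemma quad3 (hirr : ∀ K : AddSubgroup M, (∀ g : SpecialLinearGroup (Fin 2) F, ∀ a ∈ K, g • a ∈ K) → K = ⊥ ∨ K = ⊤)
    (a : F) {v : M} (hv : v ∈ V1 (F := F) M) : B P1 a v = v := by
  rw [← sub_eq_zero, ← E_apply]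
  rcases hirr _ (N_invariant hP h3F h3) with h | h
  · have h5 : E P1 a v ∈ N1 (F := F) P1 := AddSubgroup.subset_closure ⟨a, v, hv, rfl⟩
    have h6 : E P1 a v ∈ N0 (F := F) P1 ⊔ N1 (F := F) P1 := AddSubgroup.mem_sup_right h5
    rw [h] at h6
    simpa using h6
  · have h6 : v ∈ N0 (F := F) P1 ⊔ N1 (F := F) P1 := by rw [h]; trivial
    obtain ⟨x, hx, y, hy, rfl⟩ := AddSubgroup.mem_sup.1 h6
    have hxV := N0_le hP hx
    have hyV := N1_le hP hy
    have := hP.h11 _ hv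
    rw [map_add, hP.h01 _ hxV, hP.h11 _ hyV, zero_add] at this
    rw [← this]
    exact E_N1 hP h3F h3 a hy

end Three

/-- Quadratic action on `V₁`. -/
theorem quad_of_split {p : ℕ} (hp : p.Prime) (hpF : (p : F) = 0) (hpM : ∀ m : M, p • m = 0)
    (hirr : ∀ K : AddSubgroup M, (∀ g : SpecialLinearGroup (Fin 2) F, ∀ a ∈ K, g • a ∈ K) → K = ⊥ ∨ K = ⊤)
    (a : F) {v : M} (hv : v ∈ V1 (F := F) M) : B P1 a v = v := by
  by_cases ha : a = 0
  · subst ha; exact B_zero hP hv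
  by_cases h2 : p = 2
  · subst h2
    exact quad2 hP (by exact_mod_cast hpF) hpM ha hv
  by_cases h3 : p = 3
  · subst h3
    exact quad3 hP (by exact_mod_cast hpF) hpM hirr a hv
  have hcop : Nat.gcd 6 p = 1 := by
    rw [Nat.gcd_comm]
    apply (Nat.Prime.coprime_iff_not_dvd hp).2
    intro hd
    have : p ∣ 2 * 3 := hd
    rcases (Nat.Prime.dvd_mul hp).1 this with h | h
    · exact h2 ((Nat.prime_dvd_prime_iff_eq hp Nat.prime_two).1 h)
    · exact h3 ((Nat.prime_dvd_prime_iff_eq hp Nat.prime_three).1 h)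
  have h6 : Function.IsPeriodicPt (B P1 a) 6 v := B6 hP ha hv
  have hpp : Function.IsPeriodicPt (B P1 a) p v := by
    change (B P1 a)^[p] v = v
    rw [B_iterate hP a hv, nsmul_eq_mul, hpF, zero_mul, B_zero hP hv]
  have := h6.gcd hpp
  rw [hcop] at this
  exact this

end Quad

/-! ### Quadratic and split implies natural -/

/-- `u(a) - 1`. -/
def al (M : Type*) [AddCommGroup M] [DistribMulAction (SpecialLinearGroup (Fin 2) F) M] (a : F) : M →+ M :=
  DistribSMul.toAddMonoidHom M (uSL a : SpecialLinearGroup (Fin 2) F) - AddMonoidHom.id M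

/-- `l(b) - 1`. -/
def si (M : Type*) [AddCommGroup M] [DistribMulAction (SpecialLinearGroup (Fin 2) F) M] (b : F) : M →+ M :=
  DistribSMul.toAddMonoidHom M (lSL b : SpecialLinearGroup (Fin 2) F) - AddMonoidHom.id M

lemma al_apply (a : F) (m : M) : al M a m = uSL a • m - m := rfl
lemma si_apply (a : F) (m : M) : si M a m = lSL a • m - m := rfl

lemma u_smul_eq (a : F) (m : M) : uSL a • m = m + al M a m := by rw [al_apply]; abel
lemma l_smul_eq (a : F) (m : M) : lSL a • m = m + si M a m := by rw [si_apply]; abel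

lemma al_V0 (a : F) {y : M} (hy : y ∈ V0 (F := F) M) : al M a y = 0 := by
  rw [al_apply, hy a, sub_self]

lemma si_V1 (a : F) {y : M} (hy : y ∈ V1 (F := F) M) : si M a y = 0 := by
  rw [si_apply, hy a, sub_self]

lemma al_zero (m : M) : al M (0 : F) m = 0 := by rw [al_apply, uSL_zero, one_smul, sub_self]
lemma si_zero (m : M) : si M (0 : F) m = 0 := by rw [si_apply, lSL_zero, one_smul, sub_self]

lemma u_mulVec (a : F) (e : Fin 2 → F) :
    (uSL a : SpecialLinearGroup (Fin 2) F).1.mulVec e = ![e 0 + a * e 1, e 1] := by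
  ext i
  fin_cases i <;> simp [uSL_coe, Matrix.mulVec, dotProduct, Fin.sum_univ_two]

lemma l_mulVec (a : F) (e : Fin 2 → F) :
    (lSL a : SpecialLinearGroup (Fin 2) F).1.mulVec e = ![e 0, a * e 0 + e 1] := by
  ext i
  fin_cases i <;> simp [lSL_coe, Matrix.mulVec, dotProduct, Fin.sum_univ_two]

section Nat

variable {P0 P1 : M →+ M} (hP : Split (F := F) P0 P1)
  (hQ : ∀ (a : F), ∀ v ∈ V1 (F := F) M, B P1 a v = v)
include hP hQ

lemma al_mem (a : F) (m : M) : al M a m ∈ V0 (F := F) M := by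
  have h : al M a m = A P0 a (P1 m) := by
    rw [al_apply]
    conv_lhs => rw [← hP.sum m]
    rw [smul_add, hP.mem0 m a, u_eq hP a (P1 m), hQ a _ (hP.mem1 m)]
    abel
  rw [h]
  exact A_mem hP _ _

lemma si_mem (a : F) (m : M) : si M a m ∈ V1 (F := F) M := by
  have h : si M a m = wSL (1 : F) • al M (-a) ((wSL (1 : F))⁻¹ • m) := by
    rw [si_apply, al_apply, smul_sub, smul_inv_smul, l_eq_w, mul_smul, mul_smul]
  rw [h]
  exact w_mem_V1 one_ne_zero (al_mem hP hQ _ _)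

lemma al_add (a c : F) (m : M) : al M (a + c) m = al M a m + al M c m := by
  have h : uSL (a + c) • m = uSL a • uSL c • m := by rw [smul_smul, uSL_mul]
  rw [al_apply, h, u_smul_eq c m, smul_add, (al_mem hP hQ c m) a, al_apply a m]
  abel

lemma si_add (a c : F) (m : M) : si M (a + c) m = si M a m + si M c m := by
  have h : lSL (a + c) • m = lSL a • lSL c • m := by rw [smul_smul, lSL_mul]
  rw [si_apply, h, l_smul_eq c m, smul_add, (si_mem hP hQ c m) a, si_apply a m]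
  abel

lemma al_neg (a : F) (m : M) : al M (-a) m = - al M a m := by
  have h := al_add hP hQ (-a) a m
  rw [neg_add_cancel, al_zero] at h
  exact eq_neg_of_add_eq_zero_left h.symm

lemma si_neg (a : F) (m : M) : si M (-a) m = - si M a m := by
  have h := si_add hP hQ (-a) a m
  rw [neg_add_cancel, si_zero] at h
  exact eq_neg_of_add_eq_zero_left h.symm

/-- On `V₁`: `W v = l u v`. -/
lemma W_v {a : F} (ha : a ≠ 0) {v : M} (hv : v ∈ V1 (F := F) M) :
    wSL a • v = v + al M a v + si M (-a⁻¹) (al M a v) := by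
  rw [wSL_eq' ha, mul_smul, mul_smul, hv, u_smul_eq a v, smul_add, hv, l_smul_eq _ (al M a v)]
  abel

lemma W_v_eq {a : F} (ha : a ≠ 0) {v : M} (hv : v ∈ V1 (F := F) M) : wSL a • v = al M a v := by
  have h := congrArg P0 (W_v hP hQ ha hv)
  rw [hP.h00 _ (w_mem_V0 ha hv), map_add, map_add, hP.h10 _ hv, hP.h00 _ (al_mem hP hQ _ _),
    hP.h10 _ (si_mem hP hQ _ _), zero_add, add_zero] at h
  exact h

lemma si_al {a : F} (ha : a ≠ 0) {v : M} (hv : v ∈ V1 (F := F) M) :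
    si M (-a⁻¹) (al M a v) = - v := by
  have h := congrArg P1 (W_v hP hQ ha hv)
  rw [hP.h01 _ (w_mem_V0 ha hv), map_add, map_add, hP.h11 _ hv, hP.h01 _ (al_mem hP hQ _ _),
    hP.h11 _ (si_mem hP hQ _ _), add_zero] at h
  have := h.symm
  rw [add_comm] at this
  exact eq_neg_of_add_eq_zero_left this

/-- On `V₀`: `W y = u l y`. -/
lemma W_y {a : F} (ha : a ≠ 0) {y : M} (hy : y ∈ V0 (F := F) M) :
    wSL a • y = y + si M (-a⁻¹) y + al M a (si M (-a⁻¹) y) := by
  unfold wSL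
  rw [mul_smul, mul_smul, hy, l_smul_eq _ y, smul_add, hy, u_smul_eq a (si M _ y)]
  abel

lemma W_y_eq' {a : F} (ha : a ≠ 0) {y : M} (hy : y ∈ V0 (F := F) M) : wSL a • y = si M (-a⁻¹) y := by
  have h := congrArg P1 (W_y hP hQ ha hy)
  rw [hP.h11 _ (w_mem_V1 ha hy), map_add, map_add, hP.h01 _ hy, hP.h11 _ (si_mem hP hQ _ _),
    hP.h01 _ (al_mem hP hQ _ _), zero_add, add_zero] at h
  exact h

lemma al_si {a : F} (ha : a ≠ 0) {y : M} (hy : y ∈ V0 (F := F) M) :
    al M a (si M (-a⁻¹) y) = - y := by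
  have h := congrArg P0 (W_y hP hQ ha hy)
  rw [hP.h10 _ (w_mem_V1 ha hy), map_add, map_add, hP.h00 _ hy, hP.h10 _ (si_mem hP hQ _ _),
    hP.h00 _ (al_mem hP hQ _ _), add_zero] at h
  exact eq_neg_of_add_eq_zero_right h.symm

/-- `τ x = al x ∘ si 1`. -/
lemma tau_eq {x : F} (hx : x ≠ 0) {y : M} (hy : y ∈ V0 (F := F) M) :
    (wSL x * wSL (-1 : F)) • y = al M x (si M (1 : F) y) := by
  have h1 : (-1 : F) ≠ 0 := neg_ne_zero.2 one_ne_zero
  rw [mul_smul, W_y_eq' hP hQ h1 hy, W_v_eq hP hQ hx (si_mem hP hQ _ _)]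
  congr 2
  simp

lemma tau_mem (x : F) (y : M) : al M x (si M (1 : F) y) ∈ V0 (F := F) M := al_mem hP hQ _ _

lemma tau_mul (x z : F) {y : M} (hy : y ∈ V0 (F := F) M) :
    al M x (si M (1 : F) (al M z (si M (1 : F) y))) = al M (x * z) (si M (1 : F) y) := by
  by_cases hx : x = 0
  · subst hx; rw [al_zero, zero_mul, al_zero]
  by_cases hz : z = 0
  · subst hz; rw [al_zero, mul_zero, al_zero, map_zero, map_zero]
  rw [← tau_eq hP hQ hx (tau_mem hP hQ z y), ← tau_eq hP hQ hz hy,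
    ← tau_eq hP hQ (mul_ne_zero hx hz) hy, smul_smul, wwh hx hz]

lemma tau_one {y : M} (hy : y ∈ V0 (F := F) M) : al M (1 : F) (si M (1 : F) y) = y := by
  have h1 : (-1 : F) ≠ 0 := neg_ne_zero.2 one_ne_zero
  have h := al_si hP hQ h1 hy
  rw [show -(-1 : F)⁻¹ = 1 by simp, al_neg hP hQ] at h
  exact neg_injective h

lemma si_eq (z : F) {y : M} (hy : y ∈ V0 (F := F) M) :
    si M z y = si M (1 : F) (al M z (si M (1 : F) y)) := by
  by_cases hz : z = 0
  · subst hz; rw [si_zero, al_zero, map_zero]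
  have hzi : z⁻¹ ≠ 0 := inv_ne_zero hz
  set d := si M z y - si M (1 : F) (al M z (si M (1 : F) y)) with hd
  have hdV : d ∈ V1 (F := F) M := sub_mem (si_mem hP hQ _ _) (si_mem hP hQ _ _)
  have h1 : al M z⁻¹ (si M z y) = y := by
    have h := al_si hP hQ (neg_ne_zero.2 hzi) hy
    rw [show -(-z⁻¹)⁻¹ = z by simp, al_neg hP hQ] at h
    exact neg_injective h
  have h2 : al M z⁻¹ d = 0 := by
    rw [hd, map_sub, h1, tau_mul hP hQ _ _ hy, inv_mul_cancel₀ hz, tau_one hP hQ hy, sub_self]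
  have h3 := si_al hP hQ hzi hdV
  rw [h2, map_zero] at h3
  have h4 : d = 0 := by simpa using h3.symm
  exact sub_eq_zero.1 h4

/-- Split and quadratic implies natural. -/
theorem natural_of_split
    (hirr : ∀ K : AddSubgroup M, (∀ g : SpecialLinearGroup (Fin 2) F, ∀ a ∈ K, g • a ∈ K) → K = ⊥ ∨ K = ⊤)
    (hne : ∃ m : M, m ≠ 0) :
    ∃ ψ : M ≃+ (Fin 2 → F), ∀ (g : SpecialLinearGroup (Fin 2) F) (m : M),
      ψ (g • m) = g.1.mulVec (ψ m) := by
  classical
  -- a nonzero vector in `V₀`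
  obtain ⟨v₀, hv₀, hv₀0⟩ : ∃ v₀ ∈ V0 (F := F) M, v₀ ≠ 0 := by
    by_contra hcon
    push Not at hcon
    obtain ⟨m, hm⟩ := hne
    exact hm (hcon m (fun t => by
      have := hcon _ (al_mem hP hQ t m)
      rw [al_apply, sub_eq_zero] at this
      exact this))
  let f : (Fin 2 → F) →+ M :=
    { toFun := fun e => al M (e 0) (si M (1 : F) v₀) + si M (e 1) v₀
      map_zero' := by simp [al_zero, si_zero]
      map_add' := fun e e' => by
        simp only [Pi.add_apply, al_add hP hQ, si_add hP hQ]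
        abel }
  have hf : ∀ e, f e = al M (e 0) (si M (1 : F) v₀) + si M (e 1) v₀ := fun _ => rfl
  have hfu : ∀ (a : F) (e : Fin 2 → F), f ((uSL a : SpecialLinearGroup (Fin 2) F).1.mulVec e) = uSL a • f e := by
    intro a e
    have h0 : al M a (al M (e 0) (si M (1 : F) v₀)) = 0 := al_V0 a (al_mem hP hQ _ _)
    rw [u_mulVec, hf, hf, u_smul_eq (M := M) a, map_add, h0, zero_add]
    simp only [Matrix.cons_val_zero, Matrix.cons_val_one]
    rw [al_add hP hQ, si_eq hP hQ (e 1) hv₀, tau_mul hP hQ _ _ hv₀]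
    abel
  have hfl : ∀ (a : F) (e : Fin 2 → F), f ((lSL a : SpecialLinearGroup (Fin 2) F).1.mulVec e) = lSL a • f e := by
    intro a e
    have h0 : si M a (si M (e 1) v₀) = 0 := si_V1 a (si_mem hP hQ _ _)
    rw [l_mulVec, hf, hf, l_smul_eq (M := M) a, map_add, h0, add_zero]
    simp only [Matrix.cons_val_zero, Matrix.cons_val_one]
    rw [si_add hP hQ, si_eq hP hQ a (tau_mem hP hQ (e 0) v₀), tau_mul hP hQ _ _ hv₀,
      ← si_eq hP hQ _ hv₀]
    abel
  have hmv : ∀ (g h : SpecialLinearGroup (Fin 2) F) (e : Fin 2 → F),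
      (g * h).1.mulVec e = g.1.mulVec (h.1.mulVec e) := by
    intro g h e
    rw [sl2_mul_coe, Matrix.mulVec_mulVec]
  have hone : ∀ e : Fin 2 → F, (1 : SpecialLinearGroup (Fin 2) F).1.mulVec e = e := by
    intro e
    change (1 : Matrix (Fin 2) (Fin 2) F).mulVec e = e
    exact Matrix.one_mulVec e
  let S : Subgroup (SpecialLinearGroup (Fin 2) F) :=
    { carrier := {g | ∀ e, f (g.1.mulVec e) = g • f e}
      mul_mem' := fun {x y} hx hy e => by
        rw [hmv, hx, hy, mul_smul]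
      one_mem' := fun e => by rw [hone, one_smul]
      inv_mem' := fun {x} hx e => by
        have h1 := hx ((x⁻¹ : SpecialLinearGroup (Fin 2) F).1.mulVec e)
        rw [← hmv, mul_inv_cancel, hone] at h1
        rw [h1, inv_smul_smul] }
  have hS : (⊤ : Subgroup (SpecialLinearGroup (Fin 2) F)) ≤ S := by
    rw [← sl2_sup (k := F)]
    refine sup_le ?_ ?_
    · intro g hg
      obtain ⟨t, rfl⟩ := mem_lower_iff.1 hg
      exact hfl t
    · intro g hg
      obtain ⟨t, rfl⟩ := mem_upper_iff.1 hg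
      exact hfu t
  have heq : ∀ (g : SpecialLinearGroup (Fin 2) F) (e : Fin 2 → F), f (g.1.mulVec e) = g • f e :=
    fun g => hS (Subgroup.mem_top g)
  have he1 : f ![1, 0] = v₀ := by
    rw [hf]
    simp only [Matrix.cons_val_zero, Matrix.cons_val_one]
    rw [tau_one hP hQ hv₀, si_zero, add_zero]
  have hsurj : Function.Surjective f := by
    have hK : f.range = ⊥ ∨ f.range = ⊤ := by
      apply hirr
      rintro g _ ⟨e, rfl⟩
      exact ⟨g.1.mulVec e, heq g e⟩
    rcases hK with h | h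
    · exfalso
      have : v₀ ∈ f.range := ⟨_, he1⟩
      rw [h] at this
      exact hv₀0 (by simpa using this)
    · exact AddMonoidHom.range_eq_top.1 h
  have hinj : Function.Injective f := by
    rw [injective_iff_map_eq_zero]
    intro e he
    by_contra hne
    obtain ⟨A, hA0, hA1⟩ := H12.NatMod.exists_SL2_e1 hne
    have h1 : A.1.mulVec ![1, 0] = e := by
      ext i
      fin_cases i <;> simp [Matrix.mulVec, dotProduct, Fin.sum_univ_two, hA0, hA1]
    have h2 := heq A ![1, 0]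
    rw [h1, he, he1] at h2
    exact hv₀0 ((smul_eq_zero_iff_eq A).1 h2.symm)
  let e : (Fin 2 → F) ≃+ M := AddEquiv.ofBijective f ⟨hinj, hsurj⟩
  refine ⟨e.symm, fun g m => ?_⟩
  apply e.injective
  rw [AddEquiv.apply_symm_apply]
  change g • m = f _
  rw [heq]
  congr 1
  exact (e.apply_symm_apply m).symm

end Nat

/-! ### The splitting -/

lemma inf_eq_bot
    (hirr : ∀ K : AddSubgroup M, (∀ g : SpecialLinearGroup (Fin 2) F, ∀ a ∈ K, g • a ∈ K) → K = ⊥ ∨ K = ⊤)
    (hnt : ∃ (g : SpecialLinearGroup (Fin 2) F) (m : M), g • m ≠ m) :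
    V0 (F := F) M ⊓ V1 (F := F) M = ⊥ := by
  have hfix : ∀ m ∈ V0 (F := F) M ⊓ V1 (F := F) M, ∀ g : SpecialLinearGroup (Fin 2) F, g • m = m := by
    intro m hm g
    have hS : (⊤ : Subgroup (SpecialLinearGroup (Fin 2) F)) ≤ MulAction.stabilizer _ m := by
      rw [← sl2_sup (k := F)]
      refine sup_le ?_ ?_
      · intro g hg
        obtain ⟨t, rfl⟩ := mem_lower_iff.1 hg
        exact hm.2 t
      · intro g hg
        obtain ⟨t, rfl⟩ := mem_upper_iff.1 hg
        exact hm.1 t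
    exact hS (Subgroup.mem_top g)
  rcases hirr (V0 (F := F) M ⊓ V1 (F := F) M) (fun g a ha => by rw [hfix a ha g]; exact ha) with h | h
  · exact h
  · exfalso
    obtain ⟨g, m, hm⟩ := hnt
    exact hm (hfix m (by rw [h]; trivial) g)

/-- Construction of the projections. -/
lemma exists_split (hinf : V0 (F := F) M ⊓ V1 (F := F) M = ⊥)
    (hsum : ∀ m : M, ∃ x ∈ V0 (F := F) M, ∃ y ∈ V1 (F := F) M, x + y = m) :
    ∃ P0 P1 : M →+ M, Split (F := F) P0 P1 := by
  let φ : (V0 (F := F) M) × (V1 (F := F) M) →+ M :=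
    AddMonoidHom.coprod (V0 (F := F) M).subtype (V1 (F := F) M).subtype
  have hφ : ∀ x y, φ (x, y) = (x : M) + (y : M) := fun _ _ => rfl
  have hinj : Function.Injective φ := by
    rw [injective_iff_map_eq_zero]
    rintro ⟨x, y⟩ h
    rw [hφ] at h
    have hxy : (x : M) = - (y : M) := eq_neg_of_add_eq_zero_left h
    have h1 : (x : M) ∈ V0 (F := F) M ⊓ V1 (F := F) M :=
      ⟨x.2, by rw [hxy]; exact (V1 (F := F) M).neg_mem y.2⟩
    rw [hinf] at h1
    have hx : x = 0 := Subtype.ext (by simpa using h1)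
    have hy : y = 0 := by
      apply Subtype.ext
      rw [hx] at h
      simpa using h
    rw [hx, hy]
    rfl
  have hsurj : Function.Surjective φ := by
    intro m
    obtain ⟨x, hx, y, hy, h⟩ := hsum m
    exact ⟨(⟨x, hx⟩, ⟨y, hy⟩), h⟩
  let e := AddEquiv.ofBijective φ ⟨hinj, hsurj⟩
  let P0 : M →+ M := (V0 (F := F) M).subtype.comp ((AddMonoidHom.fst _ _).comp e.symm.toAddMonoidHom)
  let P1 : M →+ M := (V1 (F := F) M).subtype.comp ((AddMonoidHom.snd _ _).comp e.symm.toAddMonoidHom)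
  have hP0 : ∀ m, P0 m = ((e.symm m).1 : M) := fun _ => rfl
  have hP1 : ∀ m, P1 m = ((e.symm m).2 : M) := fun _ => rfl
  have hes : ∀ m, ((e.symm m).1 : M) + ((e.symm m).2 : M) = m := fun m => by
    have := e.apply_symm_apply m
    rw [show e (e.symm m) = ((e.symm m).1 : M) + ((e.symm m).2 : M) from rfl] at this
    exact this
  have hex : ∀ (x : V0 (F := F) M), e.symm (x : M) = (x, 0) := fun x => by
    apply e.injective
    rw [e.apply_symm_apply]
    change (x : M) = (x : M) + ((0 : V1 (F := F) M) : M)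
    simp
  have hey : ∀ (y : V1 (F := F) M), e.symm (y : M) = (0, y) := fun y => by
    apply e.injective
    rw [e.apply_symm_apply]
    change (y : M) = ((0 : V0 (F := F) M) : M) + (y : M)
    simp
  refine ⟨P0, P1, ⟨fun m => ?_, fun m => ?_, fun m => ?_, fun x hx => ?_, fun x hx => ?_, fun y hy => ?_, fun y hy => ?_⟩⟩
  · exact hes m
  · exact (e.symm m).1.2
  · exact (e.symm m).2.2
  · rw [hP0, show x = ((⟨x, hx⟩ : V0 (F := F) M) : M) from rfl, hex]
  · rw [hP1, show x = ((⟨x, hx⟩ : V0 (F := F) M) : M) from rfl, hex]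
    rfl
  · rw [hP0, show y = ((⟨y, hy⟩ : V1 (F := F) M) : M) from rfl, hey]
    rfl
  · rw [hP1, show y = ((⟨y, hy⟩ : V1 (F := F) M) : M) from rfl, hey]

/-- The sum from the dimension hypothesis. -/
lemma sum_of_card [Finite M] (hinf : V0 (F := F) M ⊓ V1 (F := F) M = ⊥)
    (hc : Nat.card M ≤ Nat.card (V0 (F := F) M) ^ 2) :
    ∀ m : M, ∃ x ∈ V0 (F := F) M, ∃ y ∈ V1 (F := F) M, x + y = m := by
  have h1 : (1 : F) ≠ 0 := one_ne_zero
  have hcard : Nat.card (V0 (F := F) M) ≤ Nat.card (V1 (F := F) M) := by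
    let g : V0 (F := F) M → V1 (F := F) M := fun x => ⟨wSL (1 : F) • (x : M), w_mem_V1 h1 x.2⟩
    have hg : Function.Injective g := by
      intro x y h
      have := congrArg Subtype.val h
      exact Subtype.ext (smul_left_cancel _ this)
    exact Nat.card_le_card_of_injective g hg
  let φ : (V0 (F := F) M) × (V1 (F := F) M) → M := fun q => (q.1 : M) + (q.2 : M)
  have hinj : Function.Injective φ := by
    rintro ⟨x, y⟩ ⟨x', y'⟩ h
    change (x : M) + y = x' + y' at h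
    have h2 : (x : M) - x' = y' - y := by
      rw [sub_eq_sub_iff_add_eq_add, h, add_comm]
    have h3 : (x : M) - x' ∈ V0 (F := F) M ⊓ V1 (F := F) M :=
      ⟨(V0 (F := F) M).sub_mem x.2 x'.2, by rw [h2]; exact (V1 (F := F) M).sub_mem y'.2 y.2⟩
    rw [hinf] at h3
    have h4 : (x : M) = x' := sub_eq_zero.1 (by simpa using h3)
    have h5 : (y : M) = y' := by
      rw [h4] at h
      exact add_left_cancel h
    rw [Subtype.ext h4, Subtype.ext h5]
  have hbij := hinj.bijective_of_nat_card_le (by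
    rw [Nat.card_prod]
    calc Nat.card M ≤ Nat.card (V0 (F := F) M) ^ 2 := hc
      _ = Nat.card (V0 (F := F) M) * Nat.card (V0 (F := F) M) := sq _
      _ ≤ _ := Nat.mul_le_mul_left _ hcard)
  intro m
  obtain ⟨⟨x, y⟩, h⟩ := hbij.2 m
  exact ⟨x, x.2, y, y.2, h⟩

/-- The sum from the quadratic hypothesis. -/
lemma sum_of_quad
    (hirr : ∀ K : AddSubgroup M, (∀ g : SpecialLinearGroup (Fin 2) F, ∀ a ∈ K, g • a ∈ K) → K = ⊥ ∨ K = ⊤)
    (hne : ∃ m : M, m ≠ 0)
    (hq : ∀ (a c : F) (m : M), uSL a • (uSL c • m - m) = uSL c • m - m) :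
    ∀ m : M, ∃ x ∈ V0 (F := F) M, ∃ y ∈ V1 (F := F) M, x + y = m := by
  have h1 : (1 : F) ≠ 0 := one_ne_zero
  have hal : ∀ (c : F) (m : M), al M c m ∈ V0 (F := F) M := fun c m a => hq a c m
  have hsi : ∀ (c : F) (m : M), si M c m ∈ V1 (F := F) M := by
    intro c m
    have h : si M c m = wSL (1 : F) • al M (-c) ((wSL (1 : F))⁻¹ • m) := by
      rw [si_apply, al_apply, smul_sub, smul_inv_smul, l_eq_w, mul_smul, mul_smul]
    rw [h]
    exact w_mem_V1 h1 (hal _ _)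
  obtain ⟨v₀, hv₀, hv₀0⟩ : ∃ v₀ ∈ V0 (F := F) M, v₀ ≠ 0 := by
    by_contra hcon
    push Not at hcon
    obtain ⟨m, hm⟩ := hne
    exact hm (hcon m (fun t => by
      have := hcon _ (hal t m)
      rw [al_apply, sub_eq_zero] at this
      exact this))
  have hK : V0 (F := F) M ⊔ V1 (F := F) M = ⊥ ∨ V0 (F := F) M ⊔ V1 (F := F) M = ⊤ := by
    apply hirr
    apply invariant_of_gens
    · intro t n hn
      obtain ⟨x, hx, y, hy, rfl⟩ := AddSubgroup.mem_sup.1 hn
      rw [smul_add, hx t, u_smul_eq t y, ← add_assoc]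
      exact add_mem (AddSubgroup.mem_sup.2 ⟨x, hx, y, hy, rfl⟩) (AddSubgroup.mem_sup_left (hal t y))
    · intro t n hn
      obtain ⟨x, hx, y, hy, rfl⟩ := AddSubgroup.mem_sup.1 hn
      rw [smul_add, hy t, l_smul_eq t x, add_right_comm]
      exact add_mem (AddSubgroup.mem_sup.2 ⟨x, hx, y, hy, rfl⟩) (AddSubgroup.mem_sup_right (hsi t x))
  rcases hK with h | h
  · exfalso
    have : v₀ ∈ V0 (F := F) M ⊔ V1 (F := F) M := AddSubgroup.mem_sup_left hv₀
    rw [h] at this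
    exact hv₀0 (by simpa using this)
  · intro m
    have : m ∈ V0 (F := F) M ⊔ V1 (F := F) M := by rw [h]; trivial
    exact AddSubgroup.mem_sup.1 this

/-- **Recognition of the natural module.** -/
theorem exists_natural [Finite M] {p : ℕ} (hp : p.Prime) (hpF : (p : F) = 0)
    (hpM : ∀ m : M, p • m = 0)
    (hirr : ∀ K : AddSubgroup M, (∀ g : SpecialLinearGroup (Fin 2) F, ∀ a ∈ K, g • a ∈ K) → K = ⊥ ∨ K = ⊤)
    (hnt : ∃ (g : SpecialLinearGroup (Fin 2) F) (m : M), g • m ≠ m)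
    (hyp : (∀ (a c : F) (m : M), uSL a • (uSL c • m - m) = uSL c • m - m) ∨
      Nat.card M ≤ Nat.card (V0 (F := F) M) ^ 2) :
    ∃ ψ : M ≃+ (Fin 2 → F), ∀ (g : SpecialLinearGroup (Fin 2) F) (m : M),
      ψ (g • m) = g.1.mulVec (ψ m) := by
  have hne : ∃ m : M, m ≠ 0 := by
    obtain ⟨g, m, hm⟩ := hnt
    refine ⟨m, fun h => hm ?_⟩
    rw [h, smul_zero]
  have hinf := inf_eq_bot hirr hnt
  have hsum : ∀ m : M, ∃ x ∈ V0 (F := F) M, ∃ y ∈ V1 (F := F) M, x + y = m := by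
    rcases hyp with h | h
    · exact sum_of_quad hirr hne h
    · exact sum_of_card hinf h
  obtain ⟨P0, P1, hP⟩ := exists_split hinf hsum
  have hQ : ∀ (a : F), ∀ v ∈ V1 (F := F) M, B P1 a v = v := fun a v hv =>
    quad_of_split hP hp hpF hpM hirr a hv
  exact natural_of_split hP hQ hirr hne

end Cfsg.Agent.H14.NatRec
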