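import Cfsg.Agent.Lib.H14.NatRec
import Cfsg.Prelude.Def_Transfer

/-!
# The natural module recognition, inside an ambient group
-/

set_option autoImplicit false
set_option linter.unusedSectionVars false
set_option linter.style.longLine false

namespace Cfsg.Agent.H14.NatRec

open Matrix Cfsg.Agent.H23

/-- Transfer of `exists_natural` to a conjugation action. -/
theorem transfer {X : Type*} [Group X] [Finite X] {p : ℕ} [hpp : Fact p.Prime] (V : Subgroup X)
    (hV : Cfsg.IsElementaryAbelian p V) {F : Type*} [Field F] (hpF : (p : F) = 0)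
    (R : SpecialLinearGroup (Fin 2) F →* X)
    (hR : ∀ g, R g ∈ Subgroup.normalizer (V : Set X))
    (hirr : ∀ U : Subgroup X, U ≤ V → (∀ g, R g ∈ Subgroup.normalizer (U : Set X)) → U = ⊥ ∨ U = V)
    (hnt : ∃ g, ∃ v ∈ V, R g * v * (R g)⁻¹ ≠ v)
    (hyp : (∀ a c : F, ∀ v ∈ V, R (uSL a) * (R (uSL c) * v * (R (uSL c))⁻¹ * v⁻¹) * (R (uSL a))⁻¹ =
        R (uSL c) * v * (R (uSL c))⁻¹ * v⁻¹) ∨
      ∃ (C : Subgroup X), C ≤ V ∧ (∀ t : F, ∀ x ∈ C, R (uSL t) * x * (R (uSL t))⁻¹ = x) ∧
        Nat.card V ≤ Nat.card C ^ 2) :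
    ∃ ψ : V → (Fin 2 → F), Function.Bijective ψ ∧ (∀ v w, ψ (v * w) = ψ v + ψ w) ∧
      ∀ g (v : V) (h : R g * v * (R g)⁻¹ ∈ V), ψ ⟨_, h⟩ = g.1.mulVec (ψ v) := by
  classical
  have hmem : ∀ g, ∀ v ∈ V, R g * v * (R g)⁻¹ ∈ V := fun g v hv =>
    (Subgroup.mem_normalizer_iff.1 (hR g) v).1 hv
  have hmem' : ∀ g, ∀ v, R g * v * (R g)⁻¹ ∈ V → v ∈ V := fun g v hv =>
    (Subgroup.mem_normalizer_iff.1 (hR g) v).2 hv
  have hcomm : ∀ a b : V, a * b = b * a := fun a b => by
    haveI := hV.1
    exact mul_comm' a b
  letI instC : CommGroup V := { (inferInstance : Group V) with mul_comm := hcomm }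
  let act : SpecialLinearGroup (Fin 2) F → Additive V → Additive V := fun g m =>
    Additive.ofMul ⟨R g * (m.toMul : X) * (R g)⁻¹, hmem g _ m.toMul.2⟩
  have hact : ∀ g (m : Additive V), ((act g m).toMul : X) = R g * (m.toMul : X) * (R g)⁻¹ := fun _ _ => rfl
  letI instA : DistribMulAction (SpecialLinearGroup (Fin 2) F) (Additive V) :=
    { smul := act
      one_smul := fun m => by
        apply Additive.toMul.injective
        apply Subtype.ext
        change ((act 1 m).toMul : X) = _
        rw [hact]
        simp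
      mul_smul := fun g h m => by
        apply Additive.toMul.injective
        apply Subtype.ext
        change ((act (g * h) m).toMul : X) = ((act g (act h m)).toMul : X)
        rw [hact, hact, hact, map_mul]
        group
      smul_zero := fun g => by
        apply Additive.toMul.injective
        apply Subtype.ext
        change ((act g 0).toMul : X) = 1
        rw [hact]
        change R g * 1 * (R g)⁻¹ = 1
        group
      smul_add := fun g m n => by
        apply Additive.toMul.injective
        apply Subtype.ext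
        change ((act g (m + n)).toMul : X) = ((act g m).toMul : X) * ((act g n).toMul : X)
        rw [hact, hact, hact]
        change R g * ((m.toMul : X) * (n.toMul : X)) * (R g)⁻¹ = _
        group }
  have hsmul : ∀ g (m : Additive V), ((g • m).toMul : X) = R g * (m.toMul : X) * (R g)⁻¹ := fun _ _ => rfl
  have hpM : ∀ m : Additive V, p • m = 0 := by
    intro m
    apply Additive.toMul.injective
    apply Subtype.ext
    change (m.toMul : X) ^ p = 1
    exact hV.2 _ m.toMul.2
  have hirr' : ∀ K : AddSubgroup (Additive V),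
      (∀ g : SpecialLinearGroup (Fin 2) F, ∀ a ∈ K, g • a ∈ K) → K = ⊥ ∨ K = ⊤ := by
    intro K hK
    let U : Subgroup X :=
      { carrier := {x | ∃ h : x ∈ V, Additive.ofMul (⟨x, h⟩ : V) ∈ K}
        mul_mem' := fun {x y} hx hy => by
          obtain ⟨h1, h2⟩ := hx
          obtain ⟨h3, h4⟩ := hy
          exact ⟨V.mul_mem h1 h3, K.add_mem h2 h4⟩
        one_mem' := ⟨V.one_mem, K.zero_mem⟩
        inv_mem' := fun {x} hx => by
          obtain ⟨h1, h2⟩ := hx
          exact ⟨V.inv_mem h1, K.neg_mem h2⟩ }
    have hU : ∀ x, x ∈ U ↔ ∃ h : x ∈ V, Additive.ofMul (⟨x, h⟩ : V) ∈ K := fun _ => Iff.rfl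
    have hfwd : ∀ g, ∀ x, x ∈ U → R g * x * (R g)⁻¹ ∈ U := by
      rintro g x ⟨h1, h2⟩
      exact ⟨hmem g x h1, hK g _ h2⟩
    have hcase := hirr U (fun x hx => hx.1) (fun g => by
      rw [Subgroup.mem_normalizer_iff]
      intro x
      constructor
      · exact hfwd g x
      · intro h
        have := hfwd g⁻¹ _ h
        simpa [mul_assoc] using this)
    rcases hcase with h | h
    · left
      rw [eq_bot_iff]
      intro m hm
      have h1 : (m.toMul : X) ∈ U := ⟨m.toMul.2, hm⟩
      rw [h] at h1
      have h2 : (m.toMul : X) = 1 := h1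
      have h3 : m = 0 := Additive.toMul.injective (Subtype.ext h2)
      rw [h3]
      exact zero_mem _
    · right
      rw [eq_top_iff]
      intro m _
      have h1 : (m.toMul : X) ∈ U := by rw [h]; exact m.toMul.2
      exact h1.2
  have hnt' : ∃ (g : SpecialLinearGroup (Fin 2) F) (m : Additive V), g • m ≠ m := by
    obtain ⟨g, v, hv, hne⟩ := hnt
    refine ⟨g, Additive.ofMul ⟨v, hv⟩, fun h => hne ?_⟩
    have := congrArg (fun m : Additive V => (m.toMul : X)) h
    exact this
  have hyp' : (∀ (a c : F) (m : Additive V), uSL a • (uSL c • m - m) = uSL c • m - m) ∨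
      Nat.card (Additive V) ≤ Nat.card (V0 (F := F) (Additive V)) ^ 2 := by
    rcases hyp with h | ⟨C, hCV, hC, hcard⟩
    · left
      intro a c m
      have hsub : ∀ m n : Additive V, ((m - n).toMul : X) = (m.toMul : X) * (n.toMul : X)⁻¹ := by
        intro m n
        rw [sub_eq_add_neg]
        rfl
      apply Additive.toMul.injective
      apply Subtype.ext
      rw [hsmul, hsub, hsmul]
      exact h a c _ m.toMul.2
    · right
      have h1 : Nat.card C ≤ Nat.card (V0 (F := F) (Additive V)) := by
        let φ : C → V0 (F := F) (Additive V) := fun x =>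
          ⟨Additive.ofMul ⟨x, hCV x.2⟩, fun t => by
            apply Additive.toMul.injective
            apply Subtype.ext
            exact hC t x x.2⟩
        have hφ : Function.Injective φ := by
          intro x y hxy
          have := congrArg (fun m : V0 (F := F) (Additive V) => ((m : Additive V).toMul : X)) hxy
          exact Subtype.ext this
        exact Nat.card_le_card_of_injective φ hφ
      calc Nat.card (Additive V) = Nat.card V := rfl
        _ ≤ Nat.card C ^ 2 := hcard
        _ ≤ _ := Nat.pow_le_pow_left h1 2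
  obtain ⟨ψ, hψ⟩ := exists_natural hpp.out hpF hpM hirr' hnt' hyp'
  refine ⟨fun v => ψ (Additive.ofMul v), ?_, fun v w => ?_, fun g v h => ?_⟩
  · exact ψ.bijective.comp Additive.ofMul.bijective
  · exact map_add ψ (Additive.ofMul v) (Additive.ofMul w)
  · exact hψ g (Additive.ofMul v)

end Cfsg.Agent.H14.NatRec
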