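import Mathlib
import Cfsg.Agent.Lib.H14.CentrallyLarge

/-! Counting lemmas for offenders on abelian subgroups (helper14). -/

set_option autoImplicit false

namespace Cfsg.Agent.H14

open Cfsg

variable {G : Type*} [Group G]

section count

variable [Finite G]

theorem card_quot_mul (E A : Subgroup G) (hEA : E ≤ A) :
    Nat.card (↥A ⧸ E.subgroupOf A) * Nat.card E = Nat.card A := by
  have h := Subgroup.card_eq_card_quotient_mul_card_subgroup (E.subgroupOf A)
  rw [Nat.card_congr (Subgroup.subgroupOfEquivOfLe hEA).toEquiv] at h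
  exact h.symm

/-- The map of cosets induced by `d`. -/
private noncomputable def cosetMap {A F E T : Subgroup G} (d : G → G)
    (hd : ∀ a ∈ A, d a ∈ F) : ↥A ⧸ E.subgroupOf A → ↥F ⧸ T.subgroupOf F :=
  fun q => QuotientGroup.mk ⟨d (q.out : ↥A), hd _ (q.out : ↥A).2⟩

private theorem cosetMap_injective {A F E T : Subgroup G} (d : G → G)
    (hd : ∀ a ∈ A, d a ∈ F)
    (hfib : ∀ a ∈ A, ∀ b ∈ A, (d a)⁻¹ * d b ∈ T → a⁻¹ * b ∈ E) :
    Function.Injective (cosetMap (E := E) (T := T) d hd) := by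
  intro q q' h
  have h1 := QuotientGroup.eq.mp h
  have h2 : (d (q.out : ↥A))⁻¹ * d (q'.out : ↥A) ∈ T := Subgroup.mem_subgroupOf.mp h1
  have h3 := hfib _ (q.out : ↥A).2 _ (q'.out : ↥A).2 h2
  have h4 : (QuotientGroup.mk (q.out) : ↥A ⧸ E.subgroupOf A) = QuotientGroup.mk (q'.out) :=
    QuotientGroup.eq.mpr (Subgroup.mem_subgroupOf.mpr (by simpa using h3))
  simpa using h4

/-- If a function on `A` has values in `F` and its fibres modulo `T` are inside cosets of `E`
then `|A| |T| ≤ |E| |F|`. -/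
theorem coset_count {A F E T : Subgroup G} (d : G → G) (hEA : E ≤ A) (hTF : T ≤ F)
    (hd : ∀ a ∈ A, d a ∈ F)
    (hfib : ∀ a ∈ A, ∀ b ∈ A, (d a)⁻¹ * d b ∈ T → a⁻¹ * b ∈ E) :
    Nat.card A * Nat.card T ≤ Nat.card E * Nat.card F := by
  have hle := Nat.card_le_card_of_injective _ (cosetMap_injective (E := E) (T := T) d hd hfib)
  rw [← card_quot_mul E A hEA, ← card_quot_mul T F hTF]
  calc Nat.card (↥A ⧸ E.subgroupOf A) * Nat.card E * Nat.card T
      ≤ Nat.card (↥F ⧸ T.subgroupOf F) * Nat.card E * Nat.card T := by gcongr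
    _ = Nat.card E * (Nat.card (↥F ⧸ T.subgroupOf F) * Nat.card T) := by ring

/-- If the count is tight then all cosets of `T` in `F` are hit. -/
theorem coset_surj {A F E T : Subgroup G} (d : G → G) (hEA : E ≤ A) (hTF : T ≤ F)
    (hd : ∀ a ∈ A, d a ∈ F)
    (hfib : ∀ a ∈ A, ∀ b ∈ A, (d a)⁻¹ * d b ∈ T → a⁻¹ * b ∈ E)
    (hcard : Nat.card E * Nat.card F ≤ Nat.card A * Nat.card T) (y : G) (hy : y ∈ F) :
    ∃ a ∈ A, (d a)⁻¹ * y ∈ T := by
  have hinj := cosetMap_injective (E := E) (T := T) d hd hfib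
  have hle : Nat.card (↥F ⧸ T.subgroupOf F) ≤ Nat.card (↥A ⧸ E.subgroupOf A) := by
    rw [← card_quot_mul E A hEA, ← card_quot_mul T F hTF] at hcard
    have hE : 0 < Nat.card E := Nat.card_pos
    have hT : 0 < Nat.card T := Nat.card_pos
    have : (Nat.card E * Nat.card T) * Nat.card (↥F ⧸ T.subgroupOf F)
        ≤ (Nat.card E * Nat.card T) * Nat.card (↥A ⧸ E.subgroupOf A) := by
      calc (Nat.card E * Nat.card T) * Nat.card (↥F ⧸ T.subgroupOf F)
          = Nat.card E * (Nat.card (↥F ⧸ T.subgroupOf F) * Nat.card T) := by ring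
        _ ≤ Nat.card (↥A ⧸ E.subgroupOf A) * Nat.card E * Nat.card T := hcard
        _ = (Nat.card E * Nat.card T) * Nat.card (↥A ⧸ E.subgroupOf A) := by ring
    exact Nat.le_of_mul_le_mul_left this (Nat.mul_pos hE hT)
  have hbij := hinj.bijective_of_nat_card_le hle
  obtain ⟨q, hq⟩ := hbij.2 (QuotientGroup.mk ⟨y, hy⟩)
  refine ⟨(q.out : ↥A), (q.out : ↥A).2, ?_⟩
  have h1 := QuotientGroup.eq.mp hq
  exact Subgroup.mem_subgroupOf.mp h1

/-- The offender bound for abelian subgroups of largest order on an abelian subgroup `W`. -/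
theorem offender_bound {A W E : Subgroup G} (hA : A ∈ maxAbelianSubgroups G)
    (hW : IsMulCommutative W) (hE : E ≤ A) :
    Nat.card E * Nat.card ↥(W ⊓ Subgroup.centralizer (E : Set G))
      ≤ Nat.card A * Nat.card ↥(W ⊓ Subgroup.centralizer (A : Set G)) := by
  have hEab : IsMulCommutative E := by
    apply isMulCommutative_of_le_centralizer
    exact (hE.trans (le_centralizer_of_isMulCommutative hA.1)).trans (centralizer_anti hE)
  have hWab : IsMulCommutative ↥(W ⊓ Subgroup.centralizer (E : Set G)) := by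
    apply isMulCommutative_of_le_centralizer
    exact (inf_le_left.trans (le_centralizer_of_isMulCommutative hW)).trans (centralizer_anti inf_le_left)
  have hX : IsMulCommutative ↥(E ⊔ (W ⊓ Subgroup.centralizer (E : Set G))) := by
    apply isMulCommutative_sup hEab hWab
    rw [Subgroup.le_centralizer_iff]
    exact inf_le_right
  have h1 := hA.2 _ hX
  have h2 := card_mul_card_le E (W ⊓ Subgroup.centralizer (E : Set G))
  have h3 : Nat.card ↥(E ⊓ (W ⊓ Subgroup.centralizer (E : Set G)))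
      ≤ Nat.card ↥(W ⊓ Subgroup.centralizer (A : Set G)) := by
    apply Subgroup.card_le_of_le
    rintro x ⟨hxE, hxW, _⟩
    refine ⟨hxW, ?_⟩
    exact le_centralizer_of_isMulCommutative hA.1 (hE hxE)
  calc Nat.card E * Nat.card ↥(W ⊓ Subgroup.centralizer (E : Set G))
      ≤ Nat.card ↥(E ⊔ (W ⊓ Subgroup.centralizer (E : Set G))) *
          Nat.card ↥(E ⊓ (W ⊓ Subgroup.centralizer (E : Set G))) := h2
    _ ≤ Nat.card A * Nat.card ↥(W ⊓ Subgroup.centralizer (A : Set G)) := Nat.mul_le_mul h1 h3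

/-- The stabilizer of a cocycle on an abelian group `E` acting on an abelian subgroup `W`. -/
theorem cocycle_count {E W : Subgroup G} (hEab : ∀ a ∈ E, ∀ b ∈ E, a * b = b * a)
    (hWab : ∀ a ∈ W, ∀ b ∈ W, a * b = b * a) (d : G → G)
    (hdW : ∀ a ∈ E, d a ∈ W)
    (hco : ∀ a ∈ E, ∀ b ∈ E, d (a * b) = d a * (a * d b * a⁻¹)) :
    ∃ E' : Subgroup G, E' ≤ E ∧ (∀ e, e ∈ E' ↔ e ∈ E ∧ d e ∈ W ⊓ Subgroup.centralizer (E : Set G)) ∧
      (∀ a ∈ E, d a ∈ W ⊓ Subgroup.centralizer (E' : Set G)) ∧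
      Nat.card E * Nat.card ↥(W ⊓ Subgroup.centralizer (E : Set G))
        ≤ Nat.card E' * Nat.card ↥(W ⊓ Subgroup.centralizer (E' : Set G)) := by
  set T := W ⊓ Subgroup.centralizer (E : Set G) with hT
  have hTfix : ∀ t ∈ T, ∀ a ∈ E, a * t * a⁻¹ = t := by
    intro t ht a ha
    have := Subgroup.mem_centralizer_iff.mp ht.2 a ha
    rw [this]; group
  have hd1 : d 1 = 1 := by
    have := hco 1 E.one_mem 1 E.one_mem
    simp only [mul_one, one_mul, inv_one] at this
    exact (left_eq_mul.mp this)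
  let E' : Subgroup G :=
    { carrier := {e | e ∈ E ∧ d e ∈ T}
      one_mem' := ⟨E.one_mem, by rw [hd1]; exact T.one_mem⟩
      mul_mem' := by
        rintro a b ⟨ha, hat⟩ ⟨hb, hbt⟩
        refine ⟨E.mul_mem ha hb, ?_⟩
        rw [hco a ha b hb, hTfix _ hbt a ha]
        exact T.mul_mem hat hbt
      inv_mem' := by
        rintro a ⟨ha, hat⟩
        refine ⟨E.inv_mem ha, ?_⟩
        have h1 := hco a⁻¹ (E.inv_mem ha) a ha
        rw [inv_mul_cancel, hd1, inv_inv] at h1
        have h2 : a⁻¹ * d a * a = d a := by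
          have := hTfix _ hat a⁻¹ (E.inv_mem ha)
          rwa [inv_inv] at this
        rw [h2] at h1
        have h3 : d a⁻¹ = (d a)⁻¹ := eq_inv_of_mul_eq_one_left h1.symm
        rw [h3]
        exact T.inv_mem hat }
  have hE'E : E' ≤ E := fun e he => he.1
  have hTF : T ≤ W ⊓ Subgroup.centralizer (E' : Set G) :=
    le_inf inf_le_left (inf_le_right.trans (Subgroup.centralizer_le hE'E))
  have hdF : ∀ a ∈ E, d a ∈ W ⊓ Subgroup.centralizer (E' : Set G) := by
    intro a ha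
    refine ⟨hdW a ha, ?_⟩
    show d a ∈ Subgroup.centralizer (E' : Set G)
    rw [Subgroup.mem_centralizer_iff]
    rintro e ⟨he, het⟩
    have h1 := hco e he a ha
    have h2 := hco a ha e he
    rw [hEab e he a ha, h2, hTfix _ het a ha] at h1
    -- d a * d e = d e * (e * d a * e⁻¹)
    have h3 : d e * d a = d e * (e * d a * e⁻¹) := by
      rw [← h1]
      exact hWab _ (hdW e he) _ (hdW a ha)
    have h4 : d a = e * d a * e⁻¹ := mul_left_cancel h3
    calc e * d a = (e * d a * e⁻¹) * e := by group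
      _ = d a * e := by rw [← h4]
  have hfib : ∀ a ∈ E, ∀ b ∈ E, (d a)⁻¹ * d b ∈ T → a⁻¹ * b ∈ E' := by
    intro a ha b hb h
    refine ⟨E.mul_mem (E.inv_mem ha) hb, ?_⟩
    have h1 := hco a ha (a⁻¹ * b) (E.mul_mem (E.inv_mem ha) hb)
    rw [mul_inv_cancel_left] at h1
    have h2 : a * d (a⁻¹ * b) * a⁻¹ = (d a)⁻¹ * d b := by
      rw [h1]; group
    have h3 := hTfix _ h a⁻¹ (E.inv_mem ha)
    rw [← h2] at h3
    have h4 : a⁻¹ * (a * d (a⁻¹ * b) * a⁻¹) * a⁻¹⁻¹ = d (a⁻¹ * b) := by group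
    rw [h4] at h3
    rw [h3]
    rw [h2]
    exact h
  refine ⟨E', hE'E, fun e => Iff.rfl, hdF, ?_⟩
  exact coset_count d hE'E hTF hdF hfib

theorem nat_chain' {M i s : ℕ} (hM : 0 < M) (h1 : i ≤ M) (h2 : s ≤ M)
    (h : M * M ≤ i * s) : i = M ∧ s = M := by
  constructor
  · by_contra hne
    have hlt : i < M := lt_of_le_of_ne h1 hne
    have : i * s < M * M := by
      calc i * s ≤ i * M := Nat.mul_le_mul_left _ h2
        _ < M * M := Nat.mul_lt_mul_of_pos_right hlt hM
    omega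
  · by_contra hne
    have hlt : s < M := lt_of_le_of_ne h2 hne
    have : i * s < M * M := by
      calc i * s ≤ M * s := Nat.mul_le_mul_right _ h1
        _ < M * M := Nat.mul_lt_mul_of_pos_left hlt hM
    omega

/-- Best offender subgroups are closed under intersection. -/
theorem offender_inf {A W E F : Subgroup G} (hA : A ∈ maxAbelianSubgroups G)
    (hW : IsMulCommutative W) (hE : E ≤ A) (hF : F ≤ A)
    (hEM : Nat.card E * Nat.card ↥(W ⊓ Subgroup.centralizer (E : Set G))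
      = Nat.card A * Nat.card ↥(W ⊓ Subgroup.centralizer (A : Set G)))
    (hFM : Nat.card F * Nat.card ↥(W ⊓ Subgroup.centralizer (F : Set G))
      = Nat.card A * Nat.card ↥(W ⊓ Subgroup.centralizer (A : Set G))) :
    Nat.card ↥(E ⊓ F) * Nat.card ↥(W ⊓ Subgroup.centralizer ((E ⊓ F : Subgroup G) : Set G))
      = Nat.card A * Nat.card ↥(W ⊓ Subgroup.centralizer (A : Set G)) := by
  set M := Nat.card A * Nat.card ↥(W ⊓ Subgroup.centralizer (A : Set G)) with hM
  have hMpos : 0 < M := Nat.mul_pos Nat.card_pos Nat.card_pos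
  have b1 : Nat.card ↥(E ⊓ F) * Nat.card ↥(W ⊓ Subgroup.centralizer ((E ⊓ F : Subgroup G) : Set G)) ≤ M :=
    offender_bound hA hW (inf_le_left.trans hE)
  have b2 : Nat.card ↥(E ⊔ F) * Nat.card ↥(W ⊓ Subgroup.centralizer ((E ⊔ F : Subgroup G) : Set G)) ≤ M :=
    offender_bound hA hW (sup_le hE hF)
  have c1 := card_mul_card_le E F
  have c2 := card_mul_card_le (W ⊓ Subgroup.centralizer (E : Set G)) (W ⊓ Subgroup.centralizer (F : Set G))
  have c3 : Nat.card ↥((W ⊓ Subgroup.centralizer (E : Set G)) ⊔ (W ⊓ Subgroup.centralizer (F : Set G)))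
      ≤ Nat.card ↥(W ⊓ Subgroup.centralizer ((E ⊓ F : Subgroup G) : Set G)) := by
    apply Subgroup.card_le_of_le
    exact sup_le (inf_le_inf_left _ (centralizer_anti inf_le_left))
      (inf_le_inf_left _ (centralizer_anti inf_le_right))
  have c4 : Nat.card ↥((W ⊓ Subgroup.centralizer (E : Set G)) ⊓ (W ⊓ Subgroup.centralizer (F : Set G)))
      ≤ Nat.card ↥(W ⊓ Subgroup.centralizer ((E ⊔ F : Subgroup G) : Set G)) := by
    apply Subgroup.card_le_of_le
    rw [centralizer_sup_eq]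
    rintro x ⟨⟨hx1, hx2⟩, ⟨_, hx3⟩⟩
    exact ⟨hx1, hx2, hx3⟩
  have chain : M * M ≤
      (Nat.card ↥(E ⊓ F) * Nat.card ↥(W ⊓ Subgroup.centralizer ((E ⊓ F : Subgroup G) : Set G))) *
      (Nat.card ↥(E ⊔ F) * Nat.card ↥(W ⊓ Subgroup.centralizer ((E ⊔ F : Subgroup G) : Set G))) := by
    calc M * M = (Nat.card E * Nat.card ↥(W ⊓ Subgroup.centralizer (E : Set G))) *
          (Nat.card F * Nat.card ↥(W ⊓ Subgroup.centralizer (F : Set G))) := by rw [hEM, hFM]
      _ = (Nat.card E * Nat.card F) * (Nat.card ↥(W ⊓ Subgroup.centralizer (E : Set G)) *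
            Nat.card ↥(W ⊓ Subgroup.centralizer (F : Set G))) := by ring
      _ ≤ (Nat.card ↥(E ⊔ F) * Nat.card ↥(E ⊓ F)) *
            (Nat.card ↥((W ⊓ Subgroup.centralizer (E : Set G)) ⊔ (W ⊓ Subgroup.centralizer (F : Set G))) *
              Nat.card ↥((W ⊓ Subgroup.centralizer (E : Set G)) ⊓ (W ⊓ Subgroup.centralizer (F : Set G)))) :=
          Nat.mul_le_mul c1 c2
      _ ≤ (Nat.card ↥(E ⊔ F) * Nat.card ↥(E ⊓ F)) *
            (Nat.card ↥(W ⊓ Subgroup.centralizer ((E ⊓ F : Subgroup G) : Set G)) *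
              Nat.card ↥(W ⊓ Subgroup.centralizer ((E ⊔ F : Subgroup G) : Set G))) := by gcongr
      _ = _ := by ring
  exact (nat_chain' hMpos b1 b2 chain).1

end count

end Cfsg.Agent.H14
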