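import Mathlib
import Cfsg.Agent.Lib.H14.QdInv

/-! If `Qd(p)` is involved in `G` then `SL₂(p)` is involved in a `p`-local subgroup. -/

set_option autoImplicit false

namespace Cfsg.Agent.H14

open Cfsg Matrix MatrixGroups
open Cfsg.Agent.H12.Qd

theorem involves_sl2_of_involves_qd {G : Type*} [Group G] [Finite G] {F : Type*} [Field F] [Fintype F]
    {p : ℕ} [Fact p.Prime] [CharP F p] (h : Involves ↥(Cfsg.qdOver F) G) :
    ∃ P : Subgroup G, IsPGroup p P ∧ P ≠ ⊥ ∧
      Involves (SL(2, F)) ↥(Subgroup.normalizer (P : Set G)) := by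
  classical
  have hp : p.Prime := Fact.out
  obtain ⟨K, θ, hθ⟩ := H09.exists_of_involves h
  let Φ : K →* SL(2, F) := (block : Cfsg.qdOver F →* SL(2, F)).comp θ
  have hΦ : Function.Surjective Φ := block_surjective.comp hθ
  let K₁ : Subgroup K := Φ.ker
  haveI hK₁n : K₁.Normal := MonoidHom.normal_ker Φ
  -- a `p`-element in `K₁`
  have hpK₁ : p ∣ Nat.card K₁ := by
    obtain ⟨k, hk⟩ := hθ (transl ![1, 0])
    have hkK₁ : k ∈ K₁ := by
      change block (θ k) = 1
      rw [hk]
      exact block_mk 1 _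
    have h1 : transl (![1, 0] : Fin 2 → F) ≠ 1 := by
      rw [← transl_zero]
      intro h
      have := congrFun (transl_inj h) 0
      simp at this
    have h2 : (transl (![1, 0] : Fin 2 → F)) ^ p = 1 := by
      rw [transl_pow, ← transl_zero]
      congr 1
      ext i
      fin_cases i <;> simp [nsmul_eq_mul, CharP.cast_eq_zero F p]
    have h3 : orderOf (transl (![1, 0] : Fin 2 → F)) = p := orderOf_eq_prime h2 h1
    have h4 : orderOf (θ k) ∣ orderOf k := orderOf_map_dvd θ k
    rw [hk, h3] at h4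
    have h5 : orderOf (⟨k, hkK₁⟩ : K₁) = orderOf k := Subgroup.orderOf_mk k hkK₁
    have h6 := orderOf_dvd_natCard (⟨k, hkK₁⟩ : K₁)
    rw [h5] at h6
    exact h4.trans h6
  obtain ⟨T₁⟩ : Nonempty (Sylow p K₁) := inferInstance
  have hT₁ne : (T₁ : Subgroup K₁) ≠ ⊥ := T₁.ne_bot_of_dvd_card hpK₁
  let T' : Subgroup K := (T₁ : Subgroup K₁).map K₁.subtype
  let T : Subgroup G := T'.map K.subtype
  have hT'ne : T' ≠ ⊥ := by
    intro h
    exact hT₁ne ((Subgroup.map_eq_bot_iff_of_injective _ K₁.subtype_injective).mp h)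
  have hTne : T ≠ ⊥ := by
    intro h
    exact hT'ne ((Subgroup.map_eq_bot_iff_of_injective _ K.subtype_injective).mp h)
  have hTp : IsPGroup p T := (T₁.isPGroup'.map _).map _
  refine ⟨T, hTp, hTne, ?_⟩
  let H : Subgroup K := Subgroup.normalizer (T' : Set K)
  have hsup : H ⊔ K₁ = ⊤ := Sylow.normalizer_sup_eq_top T₁
  let θ₂ : H →* SL(2, F) := Φ.comp H.subtype
  have hθ₂ : Function.Surjective θ₂ := by
    intro A
    obtain ⟨k, hk⟩ := hΦ A
    have hk' : k ∈ H ⊔ K₁ := by rw [hsup]; trivial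
    obtain ⟨a, ha, b, hb, rfl⟩ := Subgroup.mem_sup_of_normal_right.mp hk'
    refine ⟨⟨a, ha⟩, ?_⟩
    change Φ a = A
    rw [← hk, map_mul, MonoidHom.mem_ker.mp hb, mul_one]
  let ι : H →* ↥(Subgroup.normalizer (T : Set G)) :=
    { toFun := fun h => ⟨(h.1 : G), Subgroup.le_normalizer_map K.subtype ⟨h.1, h.2, rfl⟩⟩
      map_one' := rfl
      map_mul' := fun _ _ => rfl }
  have hι : Function.Injective ι := by
    intro a b hab
    have h1 : ((a.1 : K) : G) = ((b.1 : K) : G) :=
      congrArg (fun z : ↥(Subgroup.normalizer (T : Set G)) => (z : G)) hab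
    exact Subtype.ext (Subtype.ext h1)
  have h1 : Involves (SL(2, F)) H :=
    H09.involves_of_surjective ⊤ (θ₂.comp (Subgroup.topEquiv (G := H)).toMonoidHom)
      (hθ₂.comp (Subgroup.topEquiv).surjective)
  have h2 : Involves H ι.range := H09.involves_of_mulEquiv (MonoidHom.ofInjective hι)
  exact H09.Involves.trans' (H09.Involves.trans' h1 h2) (H09.involves_subgroup ι.range)

end Cfsg.Agent.H14
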