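import Mathlib
import Cfsg.Agent.Lib.H12.Subnormal
import Cfsg.Agent.Lib.H05.Comp2
import Cfsg.Agent.Lib.H05.Comp3
import Cfsg.Agent.Lib.H15.CIT
import Cfsg.Prelude.Def_SubgroupEmbedding

/-! Reduction lemmas for Sidki pairs. -/

set_option autoImplicit false

namespace Cfsg.Agent.H14.Sidki

open Cfsg

universe u

variable {G : Type u} [Group G]

theorem odd_inv_of_sq {x : G} (hodd : Odd (orderOf x)) : ∃ m : ℕ, (x ^ 2) ^ m = x := by
  apply exists_pow_eq_self_of_coprime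
  exact (Nat.coprime_two_left.mpr hodd)

theorem eq_one_of_sq_odd {x : G} (hodd : Odd (orderOf x)) (h : x ^ 2 = 1) : x = 1 := by
  obtain ⟨m, hm⟩ := odd_inv_of_sq hodd
  rw [← hm, h, one_pow]

/-- A Sidki pair passes to the quotient by a normal subgroup meeting it trivially. -/
theorem sidki_quot [Finite G] (V N : Subgroup G) [N.Normal] (hV : IsElementaryAbelian 2 V)
    (hS : IsSidkiPair V) (hVN : V ⊓ N = ⊥) : IsSidkiPair (V.map (QuotientGroup.mk' N)) := by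
  intro h v₁ hv₁ hodd hinv
  obtain ⟨v, hv, rfl⟩ := hv₁
  obtain ⟨h₁, rfl⟩ := QuotientGroup.mk'_surjective N h
  have hv2 : v * v = 1 := by
    have := hV.2 v hv
    rwa [pow_two] at this
  have hvi : v⁻¹ = v := inv_eq_of_mul_eq_one_left hv2
  obtain ⟨π, hπ⟩ : ∃ π, π = QuotientGroup.mk' N := ⟨_, rfl⟩
  rw [← hπ] at hodd hinv ⊢
  obtain ⟨u, hu⟩ : ∃ u, u = v * (h₁ * v * h₁⁻¹) := ⟨_, rfl⟩
  have hinvu : v * u * v⁻¹ = u⁻¹ := by
    rw [hu, hvi]
    calc v * (v * (h₁ * v * h₁⁻¹)) * v = (v * v) * (h₁ * v * h₁⁻¹) * v := by group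
      _ = (h₁ * v * h₁⁻¹) * v := by rw [hv2, one_mul]
      _ = (v * (h₁ * v * h₁⁻¹))⁻¹ := by
        have h5 : (h₁ * v * h₁⁻¹)⁻¹ = h₁ * v * h₁⁻¹ := by
          rw [_root_.mul_inv_rev, _root_.mul_inv_rev, inv_inv, hvi]
          group
        rw [_root_.mul_inv_rev, h5, hvi]
  have hπu : π u = ((π h₁)⁻¹) ^ 2 := by
    have h1 : π v * π h₁ * π v = (π h₁)⁻¹ := by
      have h2 : π v⁻¹ = π v := by rw [hvi]
      rw [map_inv] at h2
      rw [← hinv, h2]
    rw [hu, map_mul, map_mul, map_mul, map_inv, pow_two]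
    calc π v * (π h₁ * π v * (π h₁)⁻¹) = (π v * π h₁ * π v) * (π h₁)⁻¹ := by group
      _ = _ := by rw [h1]
  have hm0 : orderOf u ≠ 0 := (orderOf_pos u).ne'
  obtain ⟨a, b, hb, hab⟩ := Nat.exists_eq_two_pow_mul_odd hm0
  have hord : orderOf (u ^ 2 ^ a) = b := by
    rw [orderOf_pow_of_dvd (by positivity) (by rw [hab]; exact dvd_mul_right _ _), hab,
      Nat.mul_div_cancel_left _ (by positivity)]
  have hinvk : v * u ^ 2 ^ a * v⁻¹ = (u ^ 2 ^ a)⁻¹ := by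
    rw [← conj_pow, hinvu, inv_pow]
  obtain ⟨w, hw, hw1, hwc⟩ := hS (u ^ 2 ^ a) v hv (by rw [hord]; exact hb) hinvk
  refine ⟨π w, ⟨w, hw, by rw [hπ]⟩, ?_, ?_⟩
  · intro h1
    apply hw1
    have h2 : w ∈ N := by
      rw [← QuotientGroup.eq_one_iff]
      rw [hπ] at h1
      exact h1
    have h3 : w ∈ V ⊓ N := ⟨hw, h2⟩
    rw [hVN] at h3
    exact h3
  · have hc : Commute (π w) (π (u ^ 2 ^ a)) := by
      show π w * π (u ^ 2 ^ a) = π (u ^ 2 ^ a) * π w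
      rw [← map_mul, ← map_mul, hwc]
    rw [map_pow, hπu, ← pow_mul, ← pow_succ'] at hc
    have hodd' : Odd (orderOf (π h₁)⁻¹) := by rwa [orderOf_inv]
    have hco : (2 ^ (a + 1)).Coprime (orderOf (π h₁)⁻¹) :=
      Nat.Coprime.pow_left _ (Nat.coprime_two_left.mpr hodd')
    obtain ⟨m, hm⟩ := exists_pow_eq_self_of_coprime hco
    have h2 : Commute (π w) (π h₁)⁻¹ := by
      rw [← hm]
      exact hc.pow_right m
    have h3 := h2.inv_right
    rw [inv_inv] at h3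
    exact h3

/-- Explicit description of `X ⊔ T` when `T` normalizes `X`. -/
theorem mem_sup_decomp (X T : Subgroup G) (hTN : T ≤ Subgroup.normalizer (X : Set G)) {h : G}
    (hh : h ∈ X ⊔ T) : ∃ x ∈ X, ∃ t ∈ T, h = x * t := by
  let M : Subgroup G :=
    { carrier := {g | ∃ x ∈ X, ∃ t ∈ T, g = x * t}
      mul_mem' := by
        rintro _ _ ⟨x, hx, t, ht, rfl⟩ ⟨y, hy, s, hs, rfl⟩
        refine ⟨x * (t * y * t⁻¹), X.mul_mem hx ((Subgroup.mem_normalizer_iff.mp (hTN ht) y).mp hy),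
          t * s, T.mul_mem ht hs, by group⟩
      one_mem' := ⟨1, X.one_mem, 1, T.one_mem, by simp⟩
      inv_mem' := by
        rintro _ ⟨x, hx, t, ht, rfl⟩
        refine ⟨t⁻¹ * x⁻¹ * t⁻¹⁻¹, (Subgroup.mem_normalizer_iff.mp (hTN (T.inv_mem ht)) _).mp (X.inv_mem hx),
          t⁻¹, T.inv_mem ht, by group⟩ }
  have hle : X ⊔ T ≤ M := by
    apply sup_le
    · intro x hx
      exact ⟨x, hx, 1, T.one_mem, by simp⟩
    · intro t ht
      exact ⟨1, X.one_mem, t, ht, by simp⟩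
  exact hle hh

theorem odd_mem (X T : Subgroup G) (hTN : T ≤ Subgroup.normalizer (X : Set G))
    (hT : ∀ t ∈ T, t ^ 2 = 1) {h : G} (hh : h ∈ X ⊔ T) (hodd : Odd (orderOf h)) : h ∈ X := by
  obtain ⟨x, hx, t, ht, rfl⟩ := mem_sup_decomp X T hTN hh
  have ht2 : t * t = 1 := by
    have := hT t ht
    rwa [pow_two] at this
  have hti : t⁻¹ = t := inv_eq_of_mul_eq_one_left ht2
  have h2 : (x * t) ^ 2 ∈ X := by
    have h3 : (x * t) ^ 2 = x * (t * x * t⁻¹) := by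
      rw [pow_two, hti]
      group
    rw [h3]
    exact X.mul_mem hx ((Subgroup.mem_normalizer_iff.mp (hTN ht) x).mp hx)
  obtain ⟨m, hm⟩ := odd_inv_of_sq hodd
  rw [← hm]
  exact X.pow_mem h2 m

theorem normalizer_of_conj (H S : Subgroup G) (h : ∀ s ∈ S, ∀ x ∈ H, s * x * s⁻¹ ∈ H) :
    S ≤ Subgroup.normalizer (H : Set G) := by
  intro s hs
  rw [Subgroup.mem_normalizer_iff]
  intro x
  constructor
  · exact h s hs x
  · intro hx
    have := h s⁻¹ (S.inv_mem hs) _ hx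
    simpa [mul_assoc] using this

end Cfsg.Agent.H14.Sidki
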