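import Mathlib
import Cfsg.Agent.Lib.H14.Sidki1

/-! Reduction lemmas for Sidki pairs: the main tools. -/

set_option autoImplicit false

namespace Cfsg.Agent.H14.Sidki

open Cfsg

universe u

variable {G : Type u} [Group G] [Finite G]

/-- A pair not meeting `O₂` is not a Sidki pair. -/
theorem lemmaN
    (hmin : ∀ (H : Type u) [Group H] [Finite H] (W : Subgroup H), Nat.card H < Nat.card G →
      IsElementaryAbelian 2 W → W ≠ ⊥ → IsSidkiPair W → W ⊓ pCore 2 H ≠ ⊥)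
    (hO : pCore 2 G = ⊥) (X T : Subgroup G) (hX : X.IsSubnormal)
    (hTN : T ≤ Subgroup.normalizer (X : Set G))
    (hT : IsElementaryAbelian 2 T) (hT1 : T ≠ ⊥) (hcard : X ⊔ T ≠ ⊤)
    (hfaith : ∀ u ∈ T, (∀ x ∈ X, u * x = x * u) → u = 1) :
    ∃ t ∈ T, ∃ h ∈ X, Odd (orderOf h) ∧ t * h * t⁻¹ = h⁻¹ ∧ ∀ w ∈ T, w * h = h * w → w = 1 := by
  classical
  haveI : Fact (Nat.Prime 2) := ⟨Nat.prime_two⟩
  by_contra hno
  push Not at hno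
  obtain ⟨S, hS⟩ : ∃ S, S = X ⊔ T := ⟨_, rfl⟩
  have hTS : T ≤ S := hS ▸ le_sup_right
  have hXS : X ≤ S := hS ▸ le_sup_left
  have hcardS : Nat.card S < Nat.card G :=
    lt_of_le_of_ne (Subgroup.card_le_card_group S)
      (fun h => hcard (hS ▸ Subgroup.eq_top_of_card_eq S h))
  have hW1 : IsElementaryAbelian 2 (T.subgroupOf S) := by
    refine ⟨⟨⟨fun a b => ?_⟩⟩, fun a ha => ?_⟩
    · have ha' : ((a : S) : G) ∈ T := Subgroup.mem_subgroupOf.mp a.2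
      have hb' : ((b : S) : G) ∈ T := Subgroup.mem_subgroupOf.mp b.2
      have := hT.1.is_comm.comm ⟨_, ha'⟩ ⟨_, hb'⟩
      apply Subtype.ext
      apply Subtype.ext
      exact congrArg (Subtype.val : ↥T → G) this
    · have ha' : (a : G) ∈ T := Subgroup.mem_subgroupOf.mp ha
      apply Subtype.ext
      simpa using hT.2 _ ha'
  have hW2 : T.subgroupOf S ≠ ⊥ := by
    intro h
    apply hT1
    rw [Subgroup.subgroupOf_eq_bot, Subgroup.disjoint_def] at h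
    rw [eq_bot_iff]
    intro x hx
    exact h hx (hTS hx)
  have hW3 : IsSidkiPair (T.subgroupOf S) := by
    intro h v hv hodd hinv
    have hvT : (v : G) ∈ T := Subgroup.mem_subgroupOf.mp hv
    have hodd' : Odd (orderOf (h : G)) := by rwa [Subgroup.orderOf_coe]
    have hinv' : (v : G) * h * (v : G)⁻¹ = (h : G)⁻¹ := congrArg Subtype.val hinv
    have hhX : (h : G) ∈ X := odd_mem X T hTN hT.2 (hS ▸ h.2) hodd'
    obtain ⟨w, hw, hwc, hw1⟩ := hno v hvT h hhX hodd' hinv'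
    exact ⟨⟨w, hTS hw⟩, Subgroup.mem_subgroupOf.mpr hw, fun h => hw1 (congrArg Subtype.val h),
      Subtype.ext hwc⟩
  have h1 := hmin S (T.subgroupOf S) hcardS hW1 hW2 hW3
  obtain ⟨⟨u, huT, huO⟩, hu1⟩ := Subgroup.ne_bot_iff_exists_ne_one.mp h1
  have huT' : (u : G) ∈ T := Subgroup.mem_subgroupOf.mp huT
  apply hu1
  apply Subtype.ext
  apply Subtype.ext
  apply hfaith _ huT'
  intro x hx
  obtain ⟨Q, hQ⟩ : ∃ Q, Q = (pCore 2 S).map S.subtype ⊓ X := ⟨_, rfl⟩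
  haveI hOn : (pCore 2 S).Normal := H01.pCore_normal 2
  have hQX : Q ≤ X := hQ ▸ inf_le_right
  have hQp : IsPGroup 2 Q := by
    have h2 : IsPGroup 2 ((pCore 2 S).map S.subtype) := (H01.pCore_isPGroup 2).map _
    exact h2.to_le (hQ ▸ inf_le_left)
  have hQn : X ≤ Subgroup.normalizer (Q : Set G) := by
    apply normalizer_of_conj
    intro s hs y hy
    rw [hQ] at hy ⊢
    obtain ⟨⟨y', hy', rfl⟩, hy2⟩ := hy
    refine ⟨⟨⟨s, hXS hs⟩ * y' * ⟨s, hXS hs⟩⁻¹, hOn.conj_mem _ hy' _, rfl⟩, ?_⟩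
    exact X.mul_mem (X.mul_mem hs hy2) (X.inv_mem hs)
  have hQs : Q.IsSubnormal :=
    Subgroup.IsSubnormal.step Q X hQX hX ((Subgroup.normal_subgroupOf_iff_le_normalizer hQX).mpr hQn)
  have hQ1 := H12.le_pCore_of_isSubnormal hQs hQp
  rw [hO, le_bot_iff] at hQ1
  have hc : x * u * x⁻¹ * (u : G)⁻¹ ∈ Q := by
    rw [hQ]
    refine ⟨⟨⟨x, hXS hx⟩ * u * ⟨x, hXS hx⟩⁻¹ * u⁻¹, mul_mem (hOn.conj_mem _ huO _) (inv_mem huO), rfl⟩, ?_⟩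
    have h3 : (u : G) * x⁻¹ * (u : G)⁻¹ ∈ X :=
      (Subgroup.mem_normalizer_iff.mp (hTN huT') _).mp (X.inv_mem hx)
    have h4 : x * u * x⁻¹ * (u : G)⁻¹ = x * ((u : G) * x⁻¹ * (u : G)⁻¹) := by group
    rw [h4]
    exact X.mul_mem hx h3
  rw [hQ1] at hc
  have h5 : x * u * x⁻¹ * (u : G)⁻¹ = 1 := hc
  have h6 : x * u * x⁻¹ = u := by
    calc x * u * x⁻¹ = (x * u * x⁻¹ * (u : G)⁻¹) * u := by group
      _ = u := by rw [h5, one_mul]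
  calc (u : G) * x = (x * u * x⁻¹) * x := by rw [h6]
    _ = x * u := by group

/-- A nontrivial subnormal subgroup has an element of odd order when `O₂ = 1`. -/
theorem odd_element (hO : pCore 2 G = ⊥) (X : Subgroup G) (hX : X.IsSubnormal) (hX1 : X ≠ ⊥) :
    ∃ x ∈ X, x ≠ 1 ∧ Odd (orderOf x) := by
  haveI : Fact (Nat.Prime 2) := ⟨Nat.prime_two⟩
  by_contra hno
  push Not at hno
  have h1 : IsPGroup 2 X := by
    apply H13.isPGroup_of_forall_coprime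
    intro y hy hc
    by_contra hy1
    exact hno y hy hy1 (Nat.coprime_two_right.mp hc)
  have h2 := H12.le_pCore_of_isSubnormal hX h1
  rw [hO, le_bot_iff] at h2
  exact hX1 h2

theorem odd_mul {a b : G} (hab : a * b = b * a) (ha : Odd (orderOf a)) (hb : Odd (orderOf b)) :
    Odd (orderOf (a * b)) := by
  have h1 := (show Commute a b from hab).orderOf_mul_dvd_mul_orderOf
  exact Odd.of_dvd_nat (ha.mul hb) h1

/-- Two commuting normal subgroups with trivial intersection, on which `V` is faithful, give a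
contradiction. -/
theorem lemmaP
    (hmin : ∀ (H : Type u) [Group H] [Finite H] (W : Subgroup H), Nat.card H < Nat.card G →
      IsElementaryAbelian 2 W → W ≠ ⊥ → IsSidkiPair W → W ⊓ pCore 2 H ≠ ⊥)
    (hO : pCore 2 G = ⊥) (V : Subgroup G) (hV : IsElementaryAbelian 2 V) (hS : IsSidkiPair V)
    (hV1 : V ≠ ⊥) (X₁ X₂ : Subgroup G) [hn₁ : X₁.Normal] [hn₂ : X₂.Normal]
    (h12 : ∀ x ∈ X₁, ∀ y ∈ X₂, x * y = y * x) (hint : X₁ ⊓ X₂ = ⊥)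
    (hf : ∀ u ∈ V, (∀ x ∈ X₁, u * x = x * u) → (∀ x ∈ X₂, u * x = x * u) → u = 1)
    (h1 : X₁ ≠ ⊥) (h2 : X₂ ≠ ⊥) : False := by
  classical
  have hX₁s : X₁.IsSubnormal := hn₁.isSubnormal
  have hX₂s : X₂.IsSubnormal := hn₂.isSubnormal
  obtain ⟨e₁, he₁, he₁1, he₁o⟩ := odd_element hO X₁ hX₁s h1
  obtain ⟨e₂, he₂, he₂1, he₂o⟩ := odd_element hO X₂ hX₂s h2
  have hVcomm : ∀ a ∈ V, ∀ b ∈ V, a * b = b * a := fun a ha b hb =>
    congrArg Subtype.val (hV.1.is_comm.comm ⟨a, ha⟩ ⟨b, hb⟩)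
  have hsub : ∀ T : Subgroup G, T ≤ V → IsElementaryAbelian 2 T := by
    intro T hT
    refine ⟨⟨⟨fun a b => Subtype.ext (hVcomm _ (hT a.2) _ (hT b.2))⟩⟩, fun a ha => hV.2 a (hT ha)⟩
  have hN₁ : ∀ T : Subgroup G, T ≤ Subgroup.normalizer (X₁ : Set G) := fun T => by
    rw [Subgroup.normalizer_eq_top_iff.mpr hn₁]
    exact le_top
  have hN₂ : ∀ T : Subgroup G, T ≤ Subgroup.normalizer (X₂ : Set G) := fun T => by
    rw [Subgroup.normalizer_eq_top_iff.mpr hn₂]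
    exact le_top
  have hne₁ : ∀ T : Subgroup G, T ≤ V → X₁ ⊔ T ≠ ⊤ := by
    intro T hT h
    have h3 : e₂ ∈ X₁ ⊔ T := by
      rw [h]
      trivial
    have h4 := odd_mem X₁ T (hN₁ T) (hsub T hT).2 h3 he₂o
    have h5 : e₂ ∈ X₁ ⊓ X₂ := ⟨h4, he₂⟩
    rw [hint] at h5
    exact he₂1 h5
  have hne₂ : ∀ T : Subgroup G, T ≤ V → X₂ ⊔ T ≠ ⊤ := by
    intro T hT h
    have h3 : e₁ ∈ X₂ ⊔ T := by
      rw [h]
      trivial
    have h4 := odd_mem X₂ T (hN₂ T) (hsub T hT).2 h3 he₁o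
    have h5 : e₁ ∈ X₁ ⊓ X₂ := ⟨he₁, h4⟩
    rw [hint] at h5
    exact he₁1 h5
  -- `A₁ = C_V(X₁)`
  obtain ⟨A₁, hA₁⟩ : ∃ A₁, A₁ = V ⊓ Subgroup.centralizer (X₁ : Set G) := ⟨_, rfl⟩
  have hA₁V : A₁ ≤ V := hA₁ ▸ inf_le_left
  have hA₁c : ∀ a ∈ A₁, ∀ x ∈ X₁, a * x = x * a := by
    intro a ha x hx
    rw [hA₁] at ha
    exact (Subgroup.mem_centralizer_iff.mp ha.2 x hx).symm
  have hfirst : ∃ a₁ ∈ A₁, ∃ h₂ ∈ X₂, Odd (orderOf h₂) ∧ a₁ * h₂ * a₁⁻¹ = h₂⁻¹ ∧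
      ∀ w ∈ A₁, w * h₂ = h₂ * w → w = 1 := by
    by_cases hA : A₁ = ⊥
    · refine ⟨1, A₁.one_mem, 1, X₂.one_mem, by simp, by simp, ?_⟩
      intro w hw _
      rw [hA] at hw
      exact hw
    · exact lemmaN hmin hO X₂ A₁ hX₂s (hN₂ A₁) (hsub A₁ hA₁V) hA (hne₂ A₁ hA₁V)
        (fun u hu hux => hf u (hA₁V hu) (hA₁c u hu) hux)
  obtain ⟨a₁, ha₁, h₂, hh₂, hh₂o, hh₂i, hh₂c⟩ := hfirst
  obtain ⟨R, hR⟩ : ∃ R, R = V ⊓ Subgroup.centralizer ({h₂} : Set G) := ⟨_, rfl⟩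
  have hRV : R ≤ V := hR ▸ inf_le_left
  have hRc : ∀ r ∈ R, r * h₂ = h₂ * r := by
    intro r hr
    rw [hR] at hr
    exact Subgroup.mem_centralizer_singleton_iff.mp hr.2
  have hR1 : R ≠ ⊥ := by
    intro h
    obtain ⟨w, hw, hw1, hwc⟩ := hS h₂ a₁ (hA₁V ha₁) hh₂o hh₂i
    apply hw1
    have h3 : w ∈ R := by
      rw [hR]
      exact ⟨hw, Subgroup.mem_centralizer_singleton_iff.mpr hwc⟩
    rw [h] at h3
    exact h3
  obtain ⟨r, hr, y, hy, hyo, hyi, hyc⟩ := lemmaN hmin hO X₁ R hX₁s (hN₁ R) (hsub R hRV) hR1 (hne₁ R hRV)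
    (fun u hu hux => by
      apply hh₂c u _ (hRc u hu)
      rw [hA₁]
      exact ⟨hRV hu, Subgroup.mem_centralizer_iff.mpr (fun x hx => (hux x hx).symm)⟩)
  -- the common inverter
  have hcomm : y * h₂ = h₂ * y := h12 y hy h₂ hh₂
  have hodd := odd_mul hcomm hyo hh₂o
  have ha₁r : a₁ * r = r * a₁ := hVcomm _ (hA₁V ha₁) _ (hRV hr)
  have hv1 : (a₁ * r) * y * (a₁ * r)⁻¹ = y⁻¹ := by
    have h3 : a₁ * y⁻¹ * a₁⁻¹ = y⁻¹ := by
      rw [(hA₁c a₁ ha₁ y⁻¹ (X₁.inv_mem hy))]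
      group
    calc (a₁ * r) * y * (a₁ * r)⁻¹ = a₁ * (r * y * r⁻¹) * a₁⁻¹ := by group
      _ = y⁻¹ := by rw [hyi, h3]
  have hv2 : (a₁ * r) * h₂ * (a₁ * r)⁻¹ = h₂⁻¹ := by
    have h3 : r * h₂⁻¹ * r⁻¹ = h₂⁻¹ := by
      have h4 : r * h₂ * r⁻¹ = h₂ := by
        rw [hRc r hr]
        group
      rw [← inv_inj, show (r * h₂⁻¹ * r⁻¹)⁻¹ = r * h₂ * r⁻¹ by group, h4, inv_inv]
    calc (a₁ * r) * h₂ * (a₁ * r)⁻¹ = r * (a₁ * h₂ * a₁⁻¹) * r⁻¹ := by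
          rw [ha₁r]
          group
      _ = h₂⁻¹ := by rw [hh₂i, h3]
  have hinv : (a₁ * r) * (y * h₂) * (a₁ * r)⁻¹ = (y * h₂)⁻¹ := by
    calc (a₁ * r) * (y * h₂) * (a₁ * r)⁻¹ = ((a₁ * r) * y * (a₁ * r)⁻¹) * ((a₁ * r) * h₂ * (a₁ * r)⁻¹) := by
          group
      _ = y⁻¹ * h₂⁻¹ := by rw [hv1, hv2]
      _ = (h₂ * y)⁻¹ := by group
      _ = (y * h₂)⁻¹ := by rw [hcomm]
  obtain ⟨w, hw, hw1, hwc⟩ := hS (y * h₂) (a₁ * r) (V.mul_mem (hA₁V ha₁) (hRV hr)) hodd hinv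
  -- separate the components
  have hsplit : y⁻¹ * (w * y * w⁻¹) = h₂ * (w * h₂ * w⁻¹)⁻¹ := by
    have h3 : w * (y * h₂) * w⁻¹ = y * h₂ := by
      rw [hwc]
      group
    have h4 : (w * y * w⁻¹) * (w * h₂ * w⁻¹) = y * h₂ := by
      rw [← h3]
      group
    calc y⁻¹ * (w * y * w⁻¹) = y⁻¹ * ((w * y * w⁻¹) * (w * h₂ * w⁻¹)) * (w * h₂ * w⁻¹)⁻¹ := by group
      _ = y⁻¹ * (y * h₂) * (w * h₂ * w⁻¹)⁻¹ := by rw [h4]
      _ = _ := by group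
  have hm : y⁻¹ * (w * y * w⁻¹) ∈ X₁ ⊓ X₂ := by
    refine ⟨X₁.mul_mem (X₁.inv_mem hy) (hn₁.conj_mem _ hy _), ?_⟩
    rw [hsplit]
    exact X₂.mul_mem hh₂ (X₂.inv_mem (hn₂.conj_mem _ hh₂ _))
  rw [hint] at hm
  have hm1 : y⁻¹ * (w * y * w⁻¹) = 1 := hm
  have hwy : w * y * w⁻¹ = y := by
    calc w * y * w⁻¹ = y * (y⁻¹ * (w * y * w⁻¹)) := by group
      _ = y := by rw [hm1, mul_one]
  have hwh : w * h₂ * w⁻¹ = h₂ := by
    have h3 : h₂ * (w * h₂ * w⁻¹)⁻¹ = 1 := by rw [← hsplit, hm1]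
    have h4 := mul_inv_eq_one.mp h3
    exact h4.symm
  have hwR : w ∈ R := by
    rw [hR]
    refine ⟨hw, Subgroup.mem_centralizer_singleton_iff.mpr ?_⟩
    calc w * h₂ = (w * h₂ * w⁻¹) * w := by group
      _ = h₂ * w := by rw [hwh]
  apply hw1
  apply hyc w hwR
  calc w * y = (w * y * w⁻¹) * w := by group
    _ = y * w := by rw [hwy]

end Cfsg.Agent.H14.Sidki
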