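import Mathlib
import Cfsg.Agent.Lib.H14.Sidki2
import Cfsg.Agent.Lib.H09.Hyper
import Cfsg.Agent.Lib.H07.FStar

/-! Reduction lemmas for Sidki pairs: splitting the generalized Fitting subgroup. -/

set_option autoImplicit false

namespace Cfsg.Agent.H14.Sidki

open Cfsg

universe u

variable {G : Type u} [Group G] [Finite G]

omit [Finite G] in
theorem alpha_inv {w : G} (hw : w * w = 1) (e : G) :
    w * (e⁻¹ * (w * e * w⁻¹)) * w⁻¹ = (e⁻¹ * (w * e * w⁻¹))⁻¹ := by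
  have hwi : w⁻¹ = w := inv_eq_of_mul_eq_one_left hw
  rw [hwi]
  calc w * (e⁻¹ * (w * e * w)) * w = w * e⁻¹ * w * e * (w * w) := by group
    _ = w * e⁻¹ * w * e := by rw [hw, mul_one]
    _ = (e⁻¹ * (w * e * w))⁻¹ := by
      have h1 : (w * e * w)⁻¹ = w * e⁻¹ * w := by
        rw [_root_.mul_inv_rev, _root_.mul_inv_rev, hwi]
        group
      rw [_root_.mul_inv_rev, h1, inv_inv]

omit [Finite G] in
theorem split (E A : Subgroup G) (w : G) (hw : w * w = 1) (hAE : A ≤ E)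
    (hAc : ∀ a ∈ A, ∀ e ∈ E, a * e = e * a) (hAodd : ∀ a ∈ A, Odd (orderOf a))
    (hα : ∀ e ∈ E, e⁻¹ * (w * e * w⁻¹) ∈ A) (e : G) (he : e ∈ E) :
    ∃ k b, k ∈ E ∧ w * k * w⁻¹ = k ∧ b ∈ A ∧ w * b * w⁻¹ = b⁻¹ ∧ e = k * b := by
  obtain ⟨α, hαd⟩ : ∃ α, α = e⁻¹ * (w * e * w⁻¹) := ⟨_, rfl⟩
  have hαA : α ∈ A := hαd ▸ hα e he
  have hαi : w * α * w⁻¹ = α⁻¹ := by
    rw [hαd]
    exact alpha_inv hw e
  obtain ⟨m, hm⟩ := odd_inv_of_sq (hAodd α hαA)
  obtain ⟨β, hβ⟩ : ∃ β, β = α ^ m := ⟨_, rfl⟩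
  have hβA : β ∈ A := hβ ▸ A.pow_mem hαA m
  have hβ2 : β * β = α := by
    rw [hβ, ← pow_add, ← two_mul, pow_mul]
    exact hm
  have hβi : w * β * w⁻¹ = β⁻¹ := by
    rw [hβ, ← conj_pow, hαi, inv_pow]
  refine ⟨e * β, β⁻¹, E.mul_mem he (hAE hβA), ?_, A.inv_mem hβA, ?_, by group⟩
  · have h1 : w * e * w⁻¹ = e * α := by
      rw [hαd]
      group
    calc w * (e * β) * w⁻¹ = (w * e * w⁻¹) * (w * β * w⁻¹) := by group
      _ = e * α * β⁻¹ := by rw [h1, hβi]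
      _ = e * (β * β) * β⁻¹ := by rw [hβ2]
      _ = e * β := by group
  · have h2 : w * β⁻¹ * w⁻¹ = (w * β * w⁻¹)⁻¹ := by group
    rw [h2, hβi]

theorem split_contra
    (hmin : ∀ (H : Type u) [Group H] [Finite H] (W : Subgroup H), Nat.card H < Nat.card G →
      IsElementaryAbelian 2 W → W ≠ ⊥ → IsSidkiPair W → W ⊓ pCore 2 H ≠ ⊥)
    (hO : pCore 2 G = ⊥) (V : Subgroup G) (hV : IsElementaryAbelian 2 V) (hS : IsSidkiPair V)
    (hV1 : V ≠ ⊥) (E A : Subgroup G) [hEn : E.Normal] [hAn : A.Normal] (hVE : V ⊔ E = ⊤) (hAE : A ≤ E)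
    (hAc : ∀ a ∈ A, ∀ e ∈ E, a * e = e * a) (hAodd : ∀ a ∈ A, Odd (orderOf a))
    (w : G) (hwV : w ∈ V) (hα : ∀ e ∈ E, e⁻¹ * (w * e * w⁻¹) ∈ A)
    (hfaith : ∀ u ∈ V, (∀ e ∈ E, u * e = e * u) → u = 1) :
    E ⊓ Subgroup.centralizer ({w} : Set G) = ⊥ ∨ ∀ a ∈ A, w * a * w⁻¹ = a⁻¹ → a = 1 := by
  classical
  have hw2 : w * w = 1 := by
    have := hV.2 w hwV
    rwa [pow_two] at this
  have hVcomm : ∀ a ∈ V, ∀ b ∈ V, a * b = b * a := fun a ha b hb =>
    congrArg Subtype.val (hV.1.is_comm.comm ⟨a, ha⟩ ⟨b, hb⟩)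
  have hAcomm : ∀ a ∈ A, ∀ b ∈ A, a * b = b * a := fun a ha b hb => hAc a ha b (hAE hb)
  obtain ⟨B, hB⟩ : ∃ B : Subgroup G, ∀ a, a ∈ B ↔ a ∈ A ∧ w * a * w⁻¹ = a⁻¹ :=
    ⟨{ carrier := {a | a ∈ A ∧ w * a * w⁻¹ = a⁻¹}
       mul_mem' := by
         rintro a b ⟨ha, ha'⟩ ⟨hb, hb'⟩
         refine ⟨A.mul_mem ha hb, ?_⟩
         calc w * (a * b) * w⁻¹ = (w * a * w⁻¹) * (w * b * w⁻¹) := by group
           _ = a⁻¹ * b⁻¹ := by rw [ha', hb']
           _ = (b * a)⁻¹ := by group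
           _ = (a * b)⁻¹ := by rw [hAcomm a ha b hb]
       one_mem' := ⟨A.one_mem, by simp⟩
       inv_mem' := by
         rintro a ⟨ha, ha'⟩
         refine ⟨A.inv_mem ha, ?_⟩
         have h2 : w * a⁻¹ * w⁻¹ = (w * a * w⁻¹)⁻¹ := by group
         rw [h2, ha'] }, fun a => Iff.rfl⟩
  obtain ⟨K, hK⟩ : ∃ K, K = E ⊓ Subgroup.centralizer ({w} : Set G) := ⟨_, rfl⟩
  have hKmem : ∀ k, k ∈ K ↔ k ∈ E ∧ k * w = w * k := by
    intro k
    rw [hK, Subgroup.mem_inf, Subgroup.mem_centralizer_singleton_iff]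
  have htop : ∀ H : Subgroup G, V ≤ Subgroup.normalizer (H : Set G) → E ≤ Subgroup.normalizer (H : Set G) → H.Normal := by
    intro H h1 h2
    rw [← Subgroup.normalizer_eq_top_iff, eq_top_iff, ← hVE]
    exact sup_le h1 h2
  have hconj : ∀ e ∈ E, w * e * w⁻¹ = e * (e⁻¹ * (w * e * w⁻¹)) := fun e _ => by group
  have hKn : K.Normal := by
    apply htop
    · apply normalizer_of_conj
      intro v hv k hk
      obtain ⟨hk1, hk2⟩ := (hKmem k).mp hk
      refine (hKmem _).mpr ⟨hEn.conj_mem _ hk1 _, ?_⟩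
      have hvw := hVcomm v hv w hwV
      calc v * k * v⁻¹ * w = v * k * (v⁻¹ * w) := by group
        _ = v * k * (w * v⁻¹) := by
          congr 1
          have : v⁻¹ * w = w * v⁻¹ := by
            calc v⁻¹ * w = v⁻¹ * (w * v) * v⁻¹ := by group
              _ = v⁻¹ * (v * w) * v⁻¹ := by rw [hvw]
              _ = w * v⁻¹ := by group
          exact this
        _ = v * (k * w) * v⁻¹ := by group
        _ = v * (w * k) * v⁻¹ := by rw [hk2]
        _ = (v * w) * k * v⁻¹ := by group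
        _ = (w * v) * k * v⁻¹ := by rw [hvw]
        _ = w * (v * k * v⁻¹) := by group
    · apply normalizer_of_conj
      intro e he k hk
      obtain ⟨hk1, hk2⟩ := (hKmem k).mp hk
      refine (hKmem _).mpr ⟨hEn.conj_mem _ hk1 _, ?_⟩
      have hkw : w * k * w⁻¹ = k := by
        rw [← hk2]
        group
      obtain ⟨α, hαd⟩ : ∃ α, α = e⁻¹ * (w * e * w⁻¹) := ⟨_, rfl⟩
      have hαA : α ∈ A := hαd ▸ hα e he
      have h1 : w * e * w⁻¹ = e * α := by
        rw [hαd]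
        group
      have h2 : w * (e * k * e⁻¹) * w⁻¹ = e * k * e⁻¹ := by
        calc w * (e * k * e⁻¹) * w⁻¹ = (w * e * w⁻¹) * (w * k * w⁻¹) * (w * e * w⁻¹)⁻¹ := by group
          _ = (e * α) * k * (e * α)⁻¹ := by rw [hkw, h1]
          _ = e * (α * k) * α⁻¹ * e⁻¹ := by group
          _ = e * (k * α) * α⁻¹ * e⁻¹ := by rw [hAc α hαA k hk1]
          _ = e * k * e⁻¹ := by group
      calc e * k * e⁻¹ * w = (w * (e * k * e⁻¹) * w⁻¹) * w := by rw [h2]
        _ = w * (e * k * e⁻¹) := by group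
  have hBn : B.Normal := by
    apply htop
    · apply normalizer_of_conj
      intro v hv b hb
      obtain ⟨hb1, hb2⟩ := (hB b).mp hb
      refine (hB _).mpr ⟨hAn.conj_mem _ hb1 _, ?_⟩
      have hvw := hVcomm v hv w hwV
      have h1 : w * v = v * w := hvw.symm
      calc w * (v * b * v⁻¹) * w⁻¹ = (w * v) * b * (w * v)⁻¹ := by group
        _ = (v * w) * b * (v * w)⁻¹ := by rw [h1]
        _ = v * (w * b * w⁻¹) * v⁻¹ := by group
        _ = v * b⁻¹ * v⁻¹ := by rw [hb2]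
        _ = (v * b * v⁻¹)⁻¹ := by group
    · apply normalizer_of_conj
      intro e he b hb
      have h1 : e * b * e⁻¹ = b := by
        rw [← hAc b ((hB b).mp hb).1 e he]
        group
      rw [h1]
      exact hb
  by_contra hno
  push Not at hno
  obtain ⟨hK1, a, ha, hainv, ha1⟩ := hno
  have hB1 : B ≠ ⊥ := by
    intro h
    have : a ∈ B := (hB a).mpr ⟨ha, hainv⟩
    rw [h] at this
    exact ha1 this
  have hint : K ⊓ B = ⊥ := by
    rw [eq_bot_iff]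
    rintro x ⟨hx1, hx2⟩
    obtain ⟨hx3, hx4⟩ := (hKmem x).mp hx1
    obtain ⟨hx5, hx6⟩ := (hB x).mp hx2
    have h1 : x = x⁻¹ := by
      rw [← hx6, ← hx4]
      group
    have h2 : x ^ 2 = 1 := by
      rw [pow_two]
      nth_rw 1 [h1]
      group
    exact eq_one_of_sq_odd (hAodd x hx5) h2
  haveI := hKn
  haveI := hBn
  refine lemmaP hmin hO V hV hS hV1 K B ?_ hint ?_ (hK ▸ hK1) hB1
  · intro x hx y hy
    exact (hAc y ((hB y).mp hy).1 x ((hKmem x).mp hx).1).symm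
  · intro u hu hu1 hu2
    apply hfaith u hu
    intro e he
    obtain ⟨k, b, hk, hk2, hb, hb2, rfl⟩ := split E A w hw2 hAE hAc hAodd hα e he
    have hkK : k ∈ K := by
      refine (hKmem k).mpr ⟨hk, ?_⟩
      calc k * w = (w * k * w⁻¹) * w := by rw [hk2]
        _ = w * k := by group
    have hbB : b ∈ B := (hB b).mpr ⟨hb, hb2⟩
    calc u * (k * b) = (u * k) * b := by group
      _ = (k * u) * b := by rw [hu1 k hkK]
      _ = k * (u * b) := by group
      _ = k * (b * u) := by rw [hu2 b hbB]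
      _ = (k * b) * u := by group

theorem ab_case
    (hmin : ∀ (H : Type u) [Group H] [Finite H] (W : Subgroup H), Nat.card H < Nat.card G →
      IsElementaryAbelian 2 W → W ≠ ⊥ → IsSidkiPair W → W ⊓ pCore 2 H ≠ ⊥)
    (hO : pCore 2 G = ⊥) (V : Subgroup G) (hV : IsElementaryAbelian 2 V) (hS : IsSidkiPair V)
    (hV1 : V ≠ ⊥) (X : Subgroup G) [hXn : X.Normal] (hVX : V ⊔ X = ⊤)
    (hXc : ∀ a ∈ X, ∀ b ∈ X, a * b = b * a) (hXodd : ∀ a ∈ X, Odd (orderOf a))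
    (hfaith : ∀ u ∈ V, (∀ e ∈ X, u * e = e * u) → u = 1) (hX1 : X ≠ ⊥) : False := by
  classical
  have hinv : ∀ w ∈ V, w ≠ 1 → ∀ e ∈ X, w * e * w⁻¹ = e⁻¹ := by
    intro w hw hw1 e he
    have hw2 : w * w = 1 := by
      have := hV.2 w hw
      rwa [pow_two] at this
    have hα : ∀ e ∈ X, e⁻¹ * (w * e * w⁻¹) ∈ X := fun e he =>
      X.mul_mem (X.inv_mem he) (hXn.conj_mem _ he _)
    rcases split_contra hmin hO V hV hS hV1 X X hVX le_rfl hXc hXodd w hw hα hfaith with h | h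
    · obtain ⟨k, b, hk, hk2, hb, hb2, rfl⟩ := split X X w hw2 le_rfl hXc hXodd hα e he
      have hk1 : k = 1 := by
        have : k ∈ X ⊓ Subgroup.centralizer ({w} : Set G) := by
          refine ⟨hk, Subgroup.mem_centralizer_singleton_iff.mpr ?_⟩
          calc k * w = (w * k * w⁻¹) * w := by rw [hk2]
            _ = w * k := by group
        rw [h] at this
        exact this
      rw [hk1, one_mul]
      exact hb2
    · exfalso
      apply hw1
      apply hfaith w hw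
      intro e he
      have h1 := h _ (hα e he) (alpha_inv hw2 e)
      have h2 : w * e * w⁻¹ = e := by
        calc w * e * w⁻¹ = e * (e⁻¹ * (w * e * w⁻¹)) := by group
          _ = e := by rw [h1, mul_one]
      calc w * e = (w * e * w⁻¹) * w := by group
        _ = e * w := by rw [h2]
  obtain ⟨⟨h, hh⟩, hh1⟩ := Subgroup.ne_bot_iff_exists_ne_one.mp hX1
  have hh1' : h ≠ 1 := fun h0 => hh1 (Subtype.ext h0)
  obtain ⟨⟨w₀, hw₀⟩, hw₀1⟩ := Subgroup.ne_bot_iff_exists_ne_one.mp hV1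
  have hw₀1' : w₀ ≠ 1 := fun h0 => hw₀1 (Subtype.ext h0)
  obtain ⟨w, hw, hw1, hwc⟩ := hS h w₀ hw₀ (hXodd h hh) (hinv w₀ hw₀ hw₀1' h hh)
  have h1 := hinv w hw hw1 h hh
  have h2 : w * h * w⁻¹ = h := by
    rw [hwc]
    group
  rw [h2] at h1
  apply hh1'
  apply eq_one_of_sq_odd (hXodd h hh)
  rw [pow_two]
  nth_rw 1 [h1]
  group

/-- faithfulness of `V` on `F*`. -/
theorem faith_fstar (hO : pCore 2 G = ⊥) (V : Subgroup G) (hV : IsElementaryAbelian 2 V) (u : G) (hu : u ∈ V)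
    (huc : ∀ e ∈ generalizedFittingSubgroup G, u * e = e * u) : u = 1 := by
  classical
  haveI hEn : (generalizedFittingSubgroup G).Normal := H07.generalizedFitting_normal G
  have h1 : u ∈ Subgroup.centralizer (generalizedFittingSubgroup G : Set G) :=
    Subgroup.mem_centralizer_iff.mpr (fun e he => (huc e he).symm)
  have h2 := H05.centralizer_fstar_le h1
  obtain ⟨Z, hZ⟩ : ∃ Z, Z = generalizedFittingSubgroup G ⊓ Subgroup.centralizer (generalizedFittingSubgroup G : Set G) := ⟨_, rfl⟩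
  haveI hZn : Z.Normal := by
    rw [hZ]
    infer_instance
  have hZnil : Group.IsNilpotent Z := by
    apply H05.nil_of_comm
    rintro ⟨a, ha⟩ ⟨b, hb⟩
    apply Subtype.ext
    rw [hZ] at ha hb
    exact Subgroup.mem_centralizer_iff.mp hb.2 a ha.1
  have hZF := H05.sn_nil_le_fitting hZn.isSubnormal hZnil
  have h3 : u ∈ fittingSubgroup G := hZF (by rw [hZ]; exact ⟨h2, h1⟩)
  have hc := H09.fitting_coprime_two hO
  have h4 : u ^ Nat.card (fittingSubgroup G) = 1 := by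
    have := pow_card_eq_one' (G := fittingSubgroup G) (x := ⟨u, h3⟩)
    exact congrArg Subtype.val this
  have h5 := hV.2 u hu
  have h6 : orderOf u = 1 :=
    Nat.eq_one_of_dvd_coprimes hc (orderOf_dvd_of_pow_eq_one h4) (orderOf_dvd_of_pow_eq_one h5)
  exact orderOf_eq_one_iff.mp h6

theorem quot_step
    (hmin : ∀ (H : Type u) [Group H] [Finite H] (W : Subgroup H), Nat.card H < Nat.card G →
      IsElementaryAbelian 2 W → W ≠ ⊥ → IsSidkiPair W → W ⊓ pCore 2 H ≠ ⊥)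
    (V N : Subgroup G) [hN : N.Normal] (hV : IsElementaryAbelian 2 V) (hS : IsSidkiPair V) (hV1 : V ≠ ⊥)
    (hVN : V ⊓ N = ⊥) (hN1 : N ≠ ⊥) :
    V.map (QuotientGroup.mk' N) ⊓ pCore 2 (G ⧸ N) ≠ ⊥ := by
  have hcard : Nat.card (G ⧸ N) < Nat.card G := by
    have h1 : Nat.card N * N.index = Nat.card G := N.card_mul_index
    have h2 : 1 < Nat.card N := by
      haveI := (Subgroup.nontrivial_iff_ne_bot N).mpr hN1
      exact Finite.one_lt_card
    have h3 : 0 < N.index := Nat.pos_of_ne_zero (Subgroup.index_ne_zero_of_finite)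
    have h4 : Nat.card (G ⧸ N) = N.index := rfl
    rw [h4, ← h1]
    nlinarith
  refine hmin (G ⧸ N) _ hcard ?_ ?_ (sidki_quot V N hV hS hVN)
  · refine ⟨⟨⟨?_⟩⟩, ?_⟩
    · rintro ⟨_, a, ha, rfl⟩ ⟨_, b, hb, rfl⟩
      apply Subtype.ext
      show (QuotientGroup.mk' N) a * (QuotientGroup.mk' N) b = (QuotientGroup.mk' N) b * (QuotientGroup.mk' N) a
      rw [← map_mul, ← map_mul]
      congr 1
      exact congrArg Subtype.val (hV.1.is_comm.comm ⟨a, ha⟩ ⟨b, hb⟩)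
    · rintro _ ⟨a, ha, rfl⟩
      rw [← map_pow, hV.2 a ha, map_one]
  · intro h
    apply hV1
    rw [Subgroup.map_eq_bot_iff, QuotientGroup.ker_mk'] at h
    rw [eq_bot_iff, ← hVN]
    exact le_inf le_rfl h

end Cfsg.Agent.H14.Sidki
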