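import Mathlib
import Cfsg.Agent.Lib.H14.ChermakDelgado

/-!
A self-centralizing elementary abelian normal subgroup of order `p ^ 2` (`p` odd) splits when the
nonabelian quotient has a central involution.
-/

set_option autoImplicit false

namespace Cfsg.Agent.H14

variable {N : Type*} [Group N]

/-- Automorphisms of a subgroup of prime order commute. -/
theorem conj_comm_of_prime_card {p : ℕ} (hp : p.Prime) [Finite N] {C : Subgroup N}
    (hC : Nat.card C = p)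
    (hinv : ∀ n : N, ∀ c ∈ C, n * c * n⁻¹ ∈ C) (n m v : N) (hv : v ∈ C) :
    (n * m) * v * (n * m)⁻¹ = (m * n) * v * (m * n)⁻¹ := by
  by_cases hv1 : v = 1
  · subst hv1
    simp
  have hzp : C = Subgroup.zpowers v := by
    symm
    apply Subgroup.eq_of_le_of_card_ge
    · rw [Subgroup.zpowers_le]
      exact hv
    · rw [hC, Nat.card_zpowers]
      have h1 : orderOf v ∣ p := by
        rw [← hC]
        exact Subgroup.orderOf_dvd_natCard C hv
      rcases (Nat.dvd_prime hp).mp h1 with h | h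
      · exact absurd (orderOf_eq_one_iff.mp h) hv1
      · exact h.ge
  have h1 := hinv n v hv
  have h2 := hinv m v hv
  rw [hzp] at h1 h2
  obtain ⟨r, hr⟩ := h1
  obtain ⟨s, hs⟩ := h2
  have hr' : v ^ r = n * v * n⁻¹ := hr
  have hs' : v ^ s = m * v * m⁻¹ := hs
  calc (n * m) * v * (n * m)⁻¹ = n * (m * v * m⁻¹) * n⁻¹ := by group
    _ = n * v ^ s * n⁻¹ := by rw [hs']
    _ = (n * v * n⁻¹) ^ s := by rw [conj_zpow]
    _ = (v ^ r) ^ s := by rw [hr']
    _ = (v ^ s) ^ r := by rw [← zpow_mul, ← zpow_mul, mul_comm]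
    _ = (m * v * m⁻¹) ^ r := by rw [hs']
    _ = m * v ^ r * m⁻¹ := by rw [conj_zpow]
    _ = m * (n * v * n⁻¹) * m⁻¹ := by rw [hr']
    _ = (m * n) * v * (m * n)⁻¹ := by group

/-- Splitting over a self-centralizing subgroup of order `p²` via a central involution of the
quotient. -/
theorem split_of_central_involution [Finite N] {p : ℕ} [hp : Fact p.Prime] (hp2 : p ≠ 2)
    (A : Subgroup N) [hA : A.Normal] (hAcomm : ∀ a ∈ A, ∀ b ∈ A, a * b = b * a)
    (hAcard : Nat.card A = p ^ 2) (hApow : ∀ a ∈ A, a ^ p = 1)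
    (hAself : Subgroup.centralizer (A : Set N) = A)
    (hnc : ∃ n m : N ⧸ A, n * m ≠ m * n)
    (z : N ⧸ A) (hzc : z ∈ Subgroup.center (N ⧸ A)) (hz1 : z ≠ 1) (hz2 : z ^ 2 = 1) :
    ∃ U : Subgroup N, A ⊓ U = ⊥ ∧ A ⊔ U = ⊤ := by
  classical
  have hpp : p.Prime := hp.out
  have hodd : Odd p := hpp.odd_of_ne_two hp2
  obtain ⟨m, hm⟩ : ∃ m, 2 * m = p + 1 := by
    obtain ⟨k, hk⟩ := hodd
    exact ⟨k + 1, by omega⟩
  -- square roots in `A`
  have hsq : ∀ a ∈ A, (a ^ m) ^ 2 = a := by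
    intro a ha
    rw [← pow_mul, mul_comm, hm, pow_succ, hApow a ha, one_mul]
  have htwo : ∀ a ∈ A, a ^ 2 = 1 → a = 1 := by
    intro a ha h
    rw [← hsq a ha, ← pow_mul, mul_comm, pow_mul, h, one_pow]
  obtain ⟨t, rfl⟩ := QuotientGroup.mk'_surjective A z
  have hmk : ∀ v : N, (QuotientGroup.mk' A v = 1) ↔ v ∈ A := fun v => by
    rw [← MonoidHom.mem_ker, QuotientGroup.ker_mk']
  have htA : t ∉ A := fun h => hz1 ((hmk t).mpr h)
  have ht2 : t ^ 2 ∈ A := by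
    rw [← hmk, map_pow]
    exact hz2
  have hcent : ∀ n : N, n * t * n⁻¹ * t⁻¹ ∈ A := by
    intro n
    rw [← hmk]
    have h1 := Subgroup.mem_center_iff.mp hzc (QuotientGroup.mk' A n)
    rw [map_mul, map_mul, map_mul, map_inv, map_inv, h1]
    group
  -- conjugation by `t` on `A` is an involution
  have hconjA : ∀ a ∈ A, t * a * t⁻¹ ∈ A := fun a ha => hA.conj_mem a ha t
  have hinvol : ∀ a ∈ A, t * (t * a * t⁻¹) * t⁻¹ = a := by
    intro a ha
    have h1 : t * (t * a * t⁻¹) * t⁻¹ = t ^ 2 * a * (t ^ 2)⁻¹ := by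
      rw [pow_two]
      group
    rw [h1, hAcomm _ ht2 a ha]
    group
  let Cp : Subgroup N := A ⊓ Subgroup.centralizer ({t} : Set N)
  let Cm : Subgroup N :=
    { carrier := {a | a ∈ A ∧ t * a * t⁻¹ = a⁻¹}
      one_mem' := ⟨A.one_mem, by simp⟩
      mul_mem' := by
        rintro a b ⟨ha, ha'⟩ ⟨hb, hb'⟩
        refine ⟨A.mul_mem ha hb, ?_⟩
        have : t * (a * b) * t⁻¹ = (t * a * t⁻¹) * (t * b * t⁻¹) := by group
        rw [this, ha', hb', mul_inv_rev, hAcomm _ (A.inv_mem ha) _ (A.inv_mem hb)]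
      inv_mem' := by
        rintro a ⟨ha, ha'⟩
        refine ⟨A.inv_mem ha, ?_⟩
        have : t * a⁻¹ * t⁻¹ = (t * a * t⁻¹)⁻¹ := by group
        rw [this, ha'] }
  have hCpmem : ∀ a, a ∈ Cp ↔ a ∈ A ∧ t * a * t⁻¹ = a := by
    intro a
    constructor
    · rintro ⟨h1, h2⟩
      have h3 := Subgroup.mem_centralizer_singleton_iff.mp h2
      refine ⟨h1, ?_⟩
      rw [← h3]
      group
    · rintro ⟨h1, h2⟩
      refine ⟨h1, Subgroup.mem_centralizer_singleton_iff.mpr ?_⟩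
      calc a * t = (t * a * t⁻¹) * t := by rw [h2]
        _ = t * a := by group
  have hCmmem : ∀ a, a ∈ Cm ↔ a ∈ A ∧ t * a * t⁻¹ = a⁻¹ := fun a => Iff.rfl
  -- decomposition
  have hdecomp : ∀ a ∈ A, ∃ c ∈ Cp, ∃ d ∈ Cm, a = c * d := by
    intro a ha
    have hσ := hconjA a ha
    set σ := t * a * t⁻¹ with hσdef
    have hσσ : t * σ * t⁻¹ = a := hinvol a ha
    have hu : a * σ ∈ Cp := by
      refine (hCpmem _).mpr ⟨A.mul_mem ha hσ, ?_⟩
      have : t * (a * σ) * t⁻¹ = (t * a * t⁻¹) * (t * σ * t⁻¹) := by group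
      rw [this, hσσ, ← hσdef, hAcomm _ hσ _ ha]
    have hv : a * σ⁻¹ ∈ Cm := by
      refine (hCmmem _).mpr ⟨A.mul_mem ha (A.inv_mem hσ), ?_⟩
      have : t * (a * σ⁻¹) * t⁻¹ = (t * a * t⁻¹) * (t * σ * t⁻¹)⁻¹ := by group
      rw [this, hσσ, ← hσdef, mul_inv_rev, inv_inv]
    refine ⟨(a * σ) ^ m, Cp.pow_mem hu m, (a * σ⁻¹) ^ m, Cm.pow_mem hv m, ?_⟩
    have hcom : Commute (a * σ) (a * σ⁻¹) :=
      hAcomm _ (A.mul_mem ha hσ) _ (A.mul_mem ha (A.inv_mem hσ))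
    rw [← hcom.mul_pow]
    have h1 : a * σ * (a * σ⁻¹) = a ^ 2 := by
      have h2 : σ * a = a * σ := hAcomm _ hσ _ ha
      calc a * σ * (a * σ⁻¹) = a * (σ * a) * σ⁻¹ := by group
        _ = a * (a * σ) * σ⁻¹ := by rw [h2]
        _ = a ^ 2 := by rw [pow_two]; group
    rw [h1, ← pow_mul, mul_comm, pow_mul]
    exact (hsq a ha).symm
  have hinf : Cp ⊓ Cm = ⊥ := by
    rw [eq_bot_iff]
    rintro a ⟨h1, h2⟩
    have h3 := ((hCpmem a).mp h1).2
    have h4 := ((hCmmem a).mp h2).2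
    rw [h3] at h4
    have h5 : a ^ 2 = 1 := by
      rw [pow_two]
      nth_rewrite 1 [h4]
      simp
    exact htwo a h1.1 h5
  -- invariance
  have hCpinv : ∀ n : N, ∀ c ∈ Cp, n * c * n⁻¹ ∈ Cp := by
    intro n c hc
    obtain ⟨hcA, hct⟩ := (hCpmem c).mp hc
    refine (hCpmem _).mpr ⟨hA.conj_mem c hcA n, ?_⟩
    have ha₀ := hcent n
    set a₀ := n * t * n⁻¹ * t⁻¹ with ha₀def
    have ht' : t = a₀⁻¹ * (n * t * n⁻¹) := by rw [ha₀def]; group
    have hv := hA.conj_mem c hcA n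
    have h1 : a₀⁻¹ * (n * t * n⁻¹) * (n * c * n⁻¹) * ((n * t * n⁻¹)⁻¹ * a₀) = n * c * n⁻¹ := by
      have h2 : (n * t * n⁻¹) * (n * c * n⁻¹) * (n * t * n⁻¹)⁻¹ = n * c * n⁻¹ := by
        have : (n * t * n⁻¹) * (n * c * n⁻¹) * (n * t * n⁻¹)⁻¹ = n * (t * c * t⁻¹) * n⁻¹ := by group
        rw [this, hct]
      calc a₀⁻¹ * (n * t * n⁻¹) * (n * c * n⁻¹) * ((n * t * n⁻¹)⁻¹ * a₀)
          = a₀⁻¹ * ((n * t * n⁻¹) * (n * c * n⁻¹) * (n * t * n⁻¹)⁻¹) * a₀ := by group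
        _ = a₀⁻¹ * (n * c * n⁻¹) * a₀ := by rw [h2]
        _ = a₀⁻¹ * (a₀ * (n * c * n⁻¹)) := by rw [mul_assoc, hAcomm _ hv _ ha₀]
        _ = n * c * n⁻¹ := by group
    have h3 : t⁻¹ = (n * t * n⁻¹)⁻¹ * a₀ := by rw [ha₀def]; group
    calc t * (n * c * n⁻¹) * t⁻¹
        = (a₀⁻¹ * (n * t * n⁻¹)) * (n * c * n⁻¹) * ((n * t * n⁻¹)⁻¹ * a₀) := by
          rw [← h3, ← ht']
      _ = n * c * n⁻¹ := h1
  have hCminv : ∀ n : N, ∀ c ∈ Cm, n * c * n⁻¹ ∈ Cm := by
    intro n c hc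
    obtain ⟨hcA, hct⟩ := (hCmmem c).mp hc
    refine (hCmmem _).mpr ⟨hA.conj_mem c hcA n, ?_⟩
    have ha₀ := hcent n
    set a₀ := n * t * n⁻¹ * t⁻¹ with ha₀def
    have hv := hA.conj_mem c hcA n
    have hvi := A.inv_mem hv
    have h2 : (n * t * n⁻¹) * (n * c * n⁻¹) * (n * t * n⁻¹)⁻¹ = (n * c * n⁻¹)⁻¹ := by
      have : (n * t * n⁻¹) * (n * c * n⁻¹) * (n * t * n⁻¹)⁻¹ = n * (t * c * t⁻¹) * n⁻¹ := by group
      rw [this, hct]
      group
    have ht' : t = a₀⁻¹ * (n * t * n⁻¹) := by rw [ha₀def]; group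
    have h3 : t⁻¹ = (n * t * n⁻¹)⁻¹ * a₀ := by rw [ha₀def]; group
    calc t * (n * c * n⁻¹) * t⁻¹
        = (a₀⁻¹ * (n * t * n⁻¹)) * (n * c * n⁻¹) * ((n * t * n⁻¹)⁻¹ * a₀) := by
          rw [← h3, ← ht']
      _ = a₀⁻¹ * ((n * t * n⁻¹) * (n * c * n⁻¹) * (n * t * n⁻¹)⁻¹) * a₀ := by group
      _ = a₀⁻¹ * (n * c * n⁻¹)⁻¹ * a₀ := by rw [h2]
      _ = a₀⁻¹ * (a₀ * (n * c * n⁻¹)⁻¹) := by rw [mul_assoc, hAcomm _ hvi _ ha₀]
      _ = (n * c * n⁻¹)⁻¹ := by group
  have hCpA : Cp ≤ A := fun a ha => ha.1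
  have hCmA : Cm ≤ A := fun a ha => ha.1
  -- `Cp` is trivial
  have hCpbot : Cp = ⊥ := by
    by_contra hne
    have hCm0 : Cm ≠ ⊥ := by
      intro h
      apply htA
      rw [← hAself, Subgroup.mem_centralizer_iff]
      intro a ha
      obtain ⟨c, hc, d, hd, rfl⟩ := hdecomp a ha
      rw [h] at hd
      have hd1 : d = 1 := by simpa using hd
      subst hd1
      obtain ⟨-, h2⟩ := (hCpmem c).mp hc
      rw [mul_one]
      calc c * t = (t * c * t⁻¹) * t := by rw [h2]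
        _ = t * c := by group
    have hAp : IsPGroup p A := IsPGroup.of_card hAcard
    have hbound := card_mul_card_le Cp Cm
    rw [hinf, Subgroup.card_bot, mul_one] at hbound
    have hsup : Cp ⊔ Cm ≤ A := sup_le hCpA hCmA
    have hle : Nat.card Cp * Nat.card Cm ≤ p ^ 2 := by
      rw [← hAcard]
      exact hbound.trans (Subgroup.card_le_of_le hsup)
    have hcard : ∀ C : Subgroup N, C ≤ A → C ≠ ⊥ → ∃ k, 1 ≤ k ∧ Nat.card C = p ^ k := by
      intro C hC hC0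
      obtain ⟨k, hk⟩ := (hAp.to_le hC).exists_card_eq
      refine ⟨k, ?_, hk⟩
      rcases k with _ | k
      · rw [pow_zero] at hk
        exact absurd (Subgroup.card_eq_one.mp hk) hC0
      · omega
    obtain ⟨k, hk, hk'⟩ := hcard Cp hCpA hne
    obtain ⟨l, hl, hl'⟩ := hcard Cm hCmA hCm0
    rw [hk', hl', ← pow_add] at hle
    have hkl : k + l ≤ 2 := (Nat.pow_le_pow_iff_right hpp.one_lt).mp hle
    have hk1 : k = 1 := by omega
    have hl1 : l = 1 := by omega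
    rw [hk1, pow_one] at hk'
    rw [hl1, pow_one] at hl'
    obtain ⟨n, m', hnm⟩ := hnc
    apply hnm
    induction n using QuotientGroup.induction_on with | _ n
    induction m' using QuotientGroup.induction_on with | _ m'
    change ((n * m' : N) : N ⧸ A) = ((m' * n : N) : N ⧸ A)
    rw [QuotientGroup.eq, ← hAself, Subgroup.mem_centralizer_iff]
    intro a ha
    obtain ⟨c, hc, d, hd, rfl⟩ := hdecomp a ha
    have h1 := conj_comm_of_prime_card hpp hk' hCpinv n m' c hc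
    have h2 := conj_comm_of_prime_card hpp hl' hCminv n m' d hd
    -- the commutator fixes both factors
    have key : ∀ v : N, (n * m') * v * (n * m')⁻¹ = (m' * n) * v * (m' * n)⁻¹ →
        v * ((n * m')⁻¹ * (m' * n)) = ((n * m')⁻¹ * (m' * n)) * v := by
      intro v hv
      have h3 : (n * m')⁻¹ * ((n * m') * v * (n * m')⁻¹) * (m' * n) =
          (n * m')⁻¹ * ((m' * n) * v * (m' * n)⁻¹) * (m' * n) := by rw [hv]
      simpa [mul_assoc] using h3
    have hc' := key c h1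
    have hd' := key d h2
    calc c * d * ((n * m')⁻¹ * (m' * n)) = c * (d * ((n * m')⁻¹ * (m' * n))) := by group
      _ = c * (((n * m')⁻¹ * (m' * n)) * d) := by rw [hd']
      _ = (c * ((n * m')⁻¹ * (m' * n))) * d := by group
      _ = (((n * m')⁻¹ * (m' * n)) * c) * d := by rw [hc']
      _ = ((n * m')⁻¹ * (m' * n)) * (c * d) := by group
  -- hence `t` inverts `A`
  have hinvA : ∀ a ∈ A, t * a * t⁻¹ = a⁻¹ := by
    intro a ha
    obtain ⟨c, hc, d, hd, rfl⟩ := hdecomp a ha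
    rw [hCpbot] at hc
    have hc1 : c = 1 := by simpa using hc
    subst hc1
    rw [one_mul]
    exact ((hCmmem d).mp hd).2
  have htsq : t ^ 2 = 1 := by
    apply htwo _ ht2
    have h1 := hinvA _ ht2
    have h2 : t * t ^ 2 * t⁻¹ = t ^ 2 := by
      rw [pow_two]
      group
    rw [h2] at h1
    rw [pow_two (t ^ 2)]
    nth_rewrite 1 [h1]
    simp
  refine ⟨Subgroup.centralizer ({t} : Set N), ?_, ?_⟩
  · exact hCpbot
  · rw [eq_top_iff]
    intro n _
    have ha₀ : n * t * n⁻¹ * t⁻¹ ∈ A := hcent n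
    set a₀ := n * t * n⁻¹ * t⁻¹ with ha₀def
    set b := a₀ ^ m with hb
    have hbA : b ∈ A := A.pow_mem ha₀ m
    have hb2 : b * b = a₀ := by
      rw [← pow_two]
      exact hsq a₀ ha₀
    have hbt : t * b * t⁻¹ = b⁻¹ := hinvA b hbA
    have hmem : b⁻¹ * n ∈ Subgroup.centralizer ({t} : Set N) := by
      apply Subgroup.mem_centralizer_singleton_iff.mpr
      have h1 : n * t * n⁻¹ = a₀ * t := by rw [ha₀def]; group
      have h2 : t * b = b⁻¹ * t := by
        calc t * b = (t * b * t⁻¹) * t := by group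
          _ = b⁻¹ * t := by rw [hbt]
      calc b⁻¹ * n * t = b⁻¹ * (n * t * n⁻¹) * n := by group
        _ = b⁻¹ * (a₀ * t) * n := by rw [h1]
        _ = b⁻¹ * ((b * b) * t) * n := by rw [hb2]
        _ = (b * t) * n := by group
        _ = t * (b⁻¹ * n) := by
          have h3 : b * t = t * b⁻¹ := by
            have h4 : t * b⁻¹ * t⁻¹ = b := by
              have : t * b⁻¹ * t⁻¹ = (t * b * t⁻¹)⁻¹ := by group
              rw [this, hbt, inv_inv]
            calc b * t = (t * b⁻¹ * t⁻¹) * t := by rw [h4]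
              _ = t * b⁻¹ := by group
          rw [h3]
          group
    have : n = b * (b⁻¹ * n) := by group
    rw [this]
    exact Subgroup.mul_mem _ (Subgroup.mem_sup_left hbA) (Subgroup.mem_sup_right hmem)

end Cfsg.Agent.H14
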