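import Mathlib
import Cfsg.Prelude.Def_SylowChains
import Cfsg.Agent.Lib.H14.SylowGraph
import Cfsg.Agent.Lib.H14.CoprimeGen
import Cfsg.Agent.Lib.H13.SylIn
import Cfsg.Agent.Lib.H09.SylowIn
import Cfsg.Agent.Lib.H01.Hall
import Cfsg.Agent.Lib.H18.Syl

/-! Strong Alperin-Goldschmidt, part 1: normal subgroups of a group with disconnected Sylow graph. -/

set_option autoImplicit false
set_option linter.unusedSectionVars false
set_option linter.unusedVariables false
set_option linter.style.haveILetI false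

namespace Cfsg.Agent.H14.SAG

open Cfsg

section
variable {E : Type*} [Group E] [Finite E] {p : ℕ} [hp : Fact p.Prime]

theorem relIndex_sup_dvd (H L : Subgroup E) [hL : L.Normal] :
    H.relIndex (H ⊔ L) ∣ Nat.card L := by
  have h1 := (H.subgroupOf (H ⊔ L)).card_mul_index
  rw [Cfsg.Agent.H01.card_subgroupOf_of_le (le_sup_left : H ≤ H ⊔ L)] at h1
  have h2 := Cfsg.Agent.H01.card_sup_mul_card_inf H L
  refine ⟨Nat.card ↥(H ⊓ L), ?_⟩
  have hpos : 0 < Nat.card H := Nat.card_pos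
  apply Nat.eq_of_mul_eq_mul_left hpos
  rw [← mul_assoc, ← h2, ← h1]
  rfl

theorem dvd_card_of_ne_bot {Q : Subgroup E} (hQ : IsPGroup p Q) (hne : Q ≠ ⊥) : p ∣ Nat.card Q := by
  obtain ⟨k, hk⟩ := hQ.exists_card_eq
  have hk0 : k ≠ 0 := by
    rintro rfl
    rw [pow_zero] at hk
    exact hne (Subgroup.card_eq_one.mp hk)
  rw [hk]
  exact dvd_pow_self p hk0

/-- Two normal subgroups of order divisible by `p` in a group with disconnected Sylow graph meet in
a subgroup of order divisible by `p`. -/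
theorem inf_dvd (hc : ¬ Cfsg.IsSylowChainConnected p E) (Y₁ Y₂ : Subgroup E) [h1 : Y₁.Normal] [h2 : Y₂.Normal]
    (d1 : p ∣ Nat.card Y₁) (d2 : p ∣ Nat.card Y₂) : p ∣ Nat.card ↥(Y₁ ⊓ Y₂) := by
  classical
  by_contra hL
  obtain ⟨M, hMtop, hpM, hse⟩ := H14.exists_stronglyEmbedded hc
  obtain ⟨S, hSM⟩ := H14.exists_sylow_le_of_stronglyEmbedded hpM hse
  set L : Subgroup E := Y₁ ⊓ Y₂ with hLdef
  haveI hLn : L.Normal := inferInstance
  -- `S ∩ L = 1`
  have hSL : ∀ z, z ∈ (S : Subgroup E) → z ∈ L → z = 1 := by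
    intro z hzS hzL
    obtain ⟨k, hk⟩ := (IsPGroup.iff_orderOf.1 S.isPGroup') ⟨z, hzS⟩
    have h3 : orderOf z = p ^ k := by rw [← hk, Subgroup.orderOf_mk]
    have h4 : orderOf z ∣ Nat.card L := Subgroup.orderOf_dvd_natCard L hzL
    rcases k with _ | k
    · simpa using h3
    · exact absurd ((dvd_pow_self p (Nat.succ_ne_zero k)).trans (h3 ▸ h4)) hL
  -- elements of order `p` in `S ∩ Y`
  have hex : ∀ (Y : Subgroup E) [Y.Normal], p ∣ Nat.card Y → ∃ t ∈ (S : Subgroup E) ⊓ Y, orderOf t = p := by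
    intro Y _ hY
    let P : Sylow p Y := H18.sylowOfNormal S Y
    have hPmap : (P : Subgroup Y).map Y.subtype = (S : Subgroup E) ⊓ Y := H18.map_sylowOfNormal S Y
    have hPd : p ∣ Nat.card (P : Subgroup Y) :=
      dvd_card_of_ne_bot P.isPGroup' (P.ne_bot_of_dvd_card hY)
    obtain ⟨⟨t, ht⟩, hto⟩ := exists_prime_orderOf_dvd_card' p hPd
    refine ⟨t, ?_, ?_⟩
    · rw [← hPmap]
      exact ⟨t, ht, rfl⟩
    · rw [← hto, Subgroup.orderOf_mk, Subgroup.orderOf_coe]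
  obtain ⟨x, hx, hxo⟩ := hex Y₁ d1
  obtain ⟨y, hy, hyo⟩ := hex Y₂ d2
  -- commuting
  have hcomm : ∀ u ∈ Y₁, ∀ v ∈ Y₂, u * v * u⁻¹ * v⁻¹ ∈ L := by
    intro u hu v hv
    refine ⟨?_, ?_⟩
    · have : u * v * u⁻¹ * v⁻¹ = u * (v * u⁻¹ * v⁻¹) := by group
      rw [this]
      exact Y₁.mul_mem hu (h1.conj_mem _ (Y₁.inv_mem hu) v)
    · exact Y₂.mul_mem (h2.conj_mem _ hv u) (Y₂.inv_mem hv)
  have hxy : Commute x y := by
    have h3 : x * y * x⁻¹ * y⁻¹ = 1 := by
      refine hSL _ ?_ (hcomm x hx.2 y hy.2)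
      exact (S : Subgroup E).mul_mem ((S : Subgroup E).mul_mem ((S : Subgroup E).mul_mem hx.1 hy.1)
        ((S : Subgroup E).inv_mem hx.1)) ((S : Subgroup E).inv_mem hy.1)
    have h4 : x * y = y * x := by
      have h5 : x * y * x⁻¹ = y := by
        rw [mul_inv_eq_one] at h3
        exact h3
      rw [mul_inv_eq_iff_eq_mul] at h5
      exact h5
    exact h4
  have hxp : x ^ p = 1 := by rw [← hxo]; exact pow_orderOf_eq_one x
  have hyp : y ^ p = 1 := by rw [← hyo]; exact pow_orderOf_eq_one y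
  have hLN : Subgroup.normalizer (L : Set E) = ⊤ := Subgroup.normalizer_eq_top L
  -- `L ≤ M`
  have hLM : L ≤ M := by
    have h3 := H14.le_cgen (p := p) hxy hxp hyp (Nat.card L) L rfl (by rw [hLN]; trivial)
      (by rw [hLN]; trivial) hL
    refine h3.trans ?_
    refine (Subgroup.closure_le _).2 ?_
    rintro v ⟨hvL, a, b, hab, hvc⟩
    set e := x ^ a * y ^ b with he
    have heS : e ∈ (S : Subgroup E) :=
      (S : Subgroup E).mul_mem ((S : Subgroup E).pow_mem hx.1 a) ((S : Subgroup E).pow_mem hy.1 b)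
    have hene : e ≠ 1 := by
      intro he1
      have h4 : x ^ a = (y ^ b)⁻¹ := eq_inv_of_mul_eq_one_left he1
      have h5 : x ^ a ∈ L := by
        refine ⟨Y₁.pow_mem hx.2 a, ?_⟩
        rw [h4]
        exact Y₂.inv_mem (Y₂.pow_mem hy.2 b)
      have h6 := hSL _ ((S : Subgroup E).pow_mem hx.1 a) h5
      have h7 : y ^ b = 1 := by
        have h8 : x ^ a * y ^ b = 1 := he1
        rw [h6] at h8
        simpa using h8
      apply hab
      constructor
      · rw [← hxo]; exact orderOf_dvd_of_pow_eq_one h6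
      · rw [← hyo]; exact orderOf_dvd_of_pow_eq_one h7
    have hzp : IsPGroup p (Subgroup.zpowers e) :=
      S.isPGroup'.to_le ((Subgroup.zpowers_le).2 heS)
    have hzne : Subgroup.zpowers e ≠ ⊥ := by
      rw [Ne, Subgroup.zpowers_eq_bot]
      exact hene
    have hzM : Subgroup.zpowers e ≤ M := (Subgroup.zpowers_le).2 (hSM heS)
    have hN := H14.normalizer_le_of_stronglyEmbedded hse hzp hzne hzM
    apply hN
    -- `v` commutes with `e`
    rw [Subgroup.mem_normalizer_iff]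
    intro n
    constructor
    · rintro ⟨k, rfl⟩
      have : v * e ^ k * v⁻¹ = e ^ k := by
        have h8 : Commute v (e ^ k) := hvc.zpow_right k
        rw [h8.eq]
        simp
      change v * e ^ k * v⁻¹ ∈ _
      rw [this]
      exact ⟨k, rfl⟩
    · rintro ⟨k, hk⟩
      have : n = v⁻¹ * e ^ k * v := by
        have h9 : e ^ k = v * n * v⁻¹ := hk
        rw [h9]
        group
      have h10 : Commute v⁻¹ (e ^ k) := (hvc.zpow_right k).inv_left
      rw [this, h10.eq]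
      simp only [inv_mul_cancel_right]
      exact ⟨k, rfl⟩
  -- `Y₂ ≤ M`
  have hxS : x ∈ (S : Subgroup E) := hx.1
  have hxne : x ≠ 1 := by
    rintro rfl
    rw [orderOf_one] at hxo
    exact hp.out.one_lt.ne hxo
  set Z := Subgroup.zpowers x with hZ
  have hZp : IsPGroup p Z := S.isPGroup'.to_le ((Subgroup.zpowers_le).2 hxS)
  have hZM : Z ≤ M := (Subgroup.zpowers_le).2 (hSM hxS)
  have hZne : Z ≠ ⊥ := by
    rw [hZ, Ne, Subgroup.zpowers_eq_bot]
    exact hxne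
  have hNZ := H14.normalizer_le_of_stronglyEmbedded hse hZp hZne hZM
  set B : Subgroup E := Z ⊔ L with hB
  have hBM : B ≤ M := sup_le hZM hLM
  have hZB : Z ≤ B := le_sup_left
  have hZi : ¬ p ∣ Z.relIndex B := fun h => hL (h.trans (relIndex_sup_dvd Z L))
  have hY2 : Y₂ ≤ M := by
    intro z hz
    have hQB : Z.map (MulAut.conj z).toMonoidHom ≤ B := by
      rw [Subgroup.map_le_iff_le_comap, hZ, Subgroup.zpowers_le]
      change z * x * z⁻¹ ∈ B
      have h3 : z * x * z⁻¹ = x * (x⁻¹ * z * x⁻¹⁻¹ * z⁻¹) := by group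
      rw [h3]
      refine B.mul_mem (hZB (Subgroup.mem_zpowers x)) (Subgroup.mem_sup_right ?_)
      exact hcomm x⁻¹ (Y₁.inv_mem hx.2) z hz
    obtain ⟨b, hbB, hb⟩ := H09.exists_conj_le_of_not_dvd_relIndex (p := p) hZB hZp hZi hQB
      (H09.isPGroup_map_conj hZp z)
    rw [← H09.map_conj_mul] at hb
    have h4 : b * z ∈ Subgroup.normalizer (Z : Set E) := by
      apply H09.mem_normalizer_of_map_conj_eq
      exact Subgroup.eq_of_le_of_card_ge hb (by rw [H09.card_map_conj])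
    have h5 := hNZ h4
    have h6 := M.mul_mem (M.inv_mem (hBM hbB)) h5
    simpa using h6
  have htop := H14.sup_normal_eq_top_of_stronglyEmbedded hpM hse Y₂ d2
  rw [sup_eq_left.2 hY2] at htop
  exact hMtop htop

end

section quot
variable {G : Type*} [Group G] [Finite G] {p : ℕ} [hp : Fact p.Prime]

/-- the order of the image of `Y` in `N/U`. -/
theorem card_map_mk (N : Subgroup G) (U Y : Subgroup G) [hU : (U.subgroupOf N).Normal]
    (hUY : U ≤ Y) (hYN : Y ≤ N) :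
    Nat.card ((Y.subgroupOf N).map (QuotientGroup.mk' (U.subgroupOf N))) = U.relIndex Y := by
  have h0 := ((QuotientGroup.mk' (U.subgroupOf N)).comp (Y.subgroupOf N).subtype).ker
  have hk : ((QuotientGroup.mk' (U.subgroupOf N)).comp (Y.subgroupOf N).subtype).ker =
      (U.subgroupOf N).subgroupOf (Y.subgroupOf N) := by
    ext x
    simp [MonoidHom.mem_ker, Subgroup.mem_subgroupOf]
  have hr : ((QuotientGroup.mk' (U.subgroupOf N)).comp (Y.subgroupOf N).subtype).range =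
      (Y.subgroupOf N).map (QuotientGroup.mk' (U.subgroupOf N)) := by
    rw [MonoidHom.range_comp, Subgroup.range_subtype]
  rw [← hr, ← Subgroup.index_ker, hk]
  change (U.subgroupOf N).relIndex (Y.subgroupOf N) = _
  rw [← Subgroup.relIndex_map_map_of_injective _ _ N.subtype_injective,
    Subgroup.map_subgroupOf_eq_of_le (hUY.trans hYN), Subgroup.map_subgroupOf_eq_of_le hYN]

theorem inf_relIndex_dvd (N U Y₁ Y₂ : Subgroup G) [hU : (U.subgroupOf N).Normal]
    (hc : ¬ Cfsg.IsSylowChainConnected p (↥N ⧸ U.subgroupOf N))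
    (h1 : U ≤ Y₁) (h2 : U ≤ Y₂) (h1N : Y₁ ≤ N) (h2N : Y₂ ≤ N)
    (n1 : (Y₁.subgroupOf N).Normal) (n2 : (Y₂.subgroupOf N).Normal)
    (d1 : p ∣ U.relIndex Y₁) (d2 : p ∣ U.relIndex Y₂) : p ∣ U.relIndex (Y₁ ⊓ Y₂) := by
  set π := QuotientGroup.mk' (U.subgroupOf N) with hπ
  have hsurj : Function.Surjective π := QuotientGroup.mk'_surjective _
  haveI : ((Y₁.subgroupOf N).map π).Normal := n1.map π hsurj
  haveI : ((Y₂.subgroupOf N).map π).Normal := n2.map π hsurj
  have h3 := inf_dvd hc ((Y₁.subgroupOf N).map π) ((Y₂.subgroupOf N).map π)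
    (by rw [card_map_mk N U Y₁ h1 h1N]; exact d1) (by rw [card_map_mk N U Y₂ h2 h2N]; exact d2)
  have h4 : (Y₁.subgroupOf N).map π ⊓ (Y₂.subgroupOf N).map π = ((Y₁ ⊓ Y₂).subgroupOf N).map π := by
    apply le_antisymm
    · rintro z ⟨⟨y₁, hy₁, rfl⟩, ⟨y₂, hy₂, hy⟩⟩
      refine ⟨y₁, ?_, rfl⟩
      have hy₁' : (y₁ : G) ∈ Y₁ := hy₁
      have hy₂' : (y₂ : G) ∈ Y₂ := hy₂
      have h5 : y₂⁻¹ * y₁ ∈ U.subgroupOf N := by
        rw [← QuotientGroup.eq]
        exact hy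
      rw [Subgroup.mem_subgroupOf] at h5
      have h6 := Y₂.mul_mem hy₂' (h2 h5)
      have h7 : (y₁ : G) ∈ Y₂ := by simpa using h6
      exact (⟨hy₁', h7⟩ : (y₁ : G) ∈ Y₁ ⊓ Y₂)
    · rintro z ⟨y, hy, rfl⟩
      have hy' : (y : G) ∈ Y₁ ⊓ Y₂ := hy
      exact ⟨⟨y, hy'.1, rfl⟩, ⟨y, hy'.2, rfl⟩⟩
  rw [h4, card_map_mk N U (Y₁ ⊓ Y₂) (le_inf h1 h2) (inf_le_left.trans h1N)] at h3
  exact h3

/-- Existence of the smallest normal subgroup. -/
theorem exists_smallest (N U : Subgroup G) [hU : (U.subgroupOf N).Normal]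
    (hc : ¬ Cfsg.IsSylowChainConnected p (↥N ⧸ U.subgroupOf N))
    (hUN : U ≤ N) (hd : p ∣ U.relIndex N) :
    ∃ X : Subgroup G, U ≤ X ∧ X ≤ N ∧ (X.subgroupOf N).Normal ∧ p ∣ U.relIndex X ∧
      ∀ Y : Subgroup G, U ≤ Y → Y ≤ N → (Y.subgroupOf N).Normal → p ∣ U.relIndex Y → X ≤ Y := by
  let F : Set (Subgroup G) := {Y | U ≤ Y ∧ Y ≤ N ∧ (Y.subgroupOf N).Normal ∧ p ∣ U.relIndex Y}
  have hF : F.Nonempty := ⟨N, hUN, le_rfl, by
    rw [Subgroup.subgroupOf_self]; infer_instance, hd⟩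
  obtain ⟨X, hX, hmin⟩ := Set.exists_min_image F (fun Y => Nat.card Y) (Set.toFinite F) hF
  refine ⟨X, hX.1, hX.2.1, hX.2.2.1, hX.2.2.2, ?_⟩
  intro Y h1 h2 h3 h4
  have hXY : X ⊓ Y ∈ F := by
    refine ⟨le_inf hX.1 h1, inf_le_right.trans h2, ?_, ?_⟩
    · have e : (X ⊓ Y).subgroupOf N = X.subgroupOf N ⊓ Y.subgroupOf N := by
        ext x
        rfl
      rw [e]
      haveI := hX.2.2.1
      haveI := h3
      infer_instance
    · exact inf_relIndex_dvd N U X Y hc hX.1 h1 hX.2.1 h2 hX.2.2.1 h3 hX.2.2.2 h4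
  have h5 := hmin _ hXY
  have h6 : X ⊓ Y = X := Subgroup.eq_of_le_of_card_ge inf_le_left h5
  exact inf_eq_left.1 h6

end quot

end Cfsg.Agent.H14.SAG
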