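import Mathlib
import Cfsg.Agent.Lib.H14.StrongAG1
import Cfsg.Agent.Lib.H06.Layer2
import Cfsg.Agent.Lib.H12.Amalgam
import Cfsg.Prelude.Def_Local
import Cfsg.Agent.Lib.H03.PConstr

/-! Strong Alperin-Goldschmidt, part 2: connectedness and transport. -/

set_option autoImplicit false
set_option linter.unusedSectionVars false
set_option linter.unusedVariables false
set_option linter.style.haveILetI false

namespace Cfsg.Agent.H14.SAG

open Cfsg

section conn
variable {N : Type*} [Group N] [Finite N] {p : ℕ} [hp : Fact p.Prime]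

/-- If the Sylow graph of `N/D` is connected, a subgroup containing all `z` with
`R ∩ zRz⁻¹ ≰ D` is everything. -/
theorem eq_top_of_connected (D : Subgroup N) [hD : D.Normal] (R : Sylow p N)
    (hDR : D ≤ (R : Subgroup N)) (W : Subgroup N)
    (h : ∀ z : N, (∃ r ∈ (R : Subgroup N), z⁻¹ * r * z ∈ (R : Subgroup N) ∧ r ∉ D) → z ∈ W)
    (hne : ∃ r ∈ (R : Subgroup N), r ∉ D)
    (hc : Cfsg.IsSylowChainConnected p (N ⧸ D)) : W = ⊤ := by
  classical
  rw [H14.chainConnected_iff] at hc
  set π := QuotientGroup.mk' D with hπ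
  have hsurj : Function.Surjective π := QuotientGroup.mk'_surjective D
  let S₀ : Sylow p (N ⧸ D) := R.mapSurjective hsurj
  have hS₀ : ∀ x : N, π x ∈ S₀ ↔ x ∈ (R : Subgroup N) := by
    intro x
    have e : ((R.mapSurjective hsurj : Sylow p (N ⧸ D)) : Subgroup (N ⧸ D)) = (R : Subgroup N).map π :=
      Sylow.coe_mapSurjective hsurj R
    constructor
    · intro hx
      have h1 : π x ∈ (R : Subgroup N).map π := by
        rw [← e]
        exact hx
      obtain ⟨r, hr, hrx⟩ := h1
      have h2 : r⁻¹ * x ∈ D := QuotientGroup.eq.mp hrx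
      have h3 := (R : Subgroup N).mul_mem hr (hDR h2)
      simpa using h3
    · intro hx
      change π x ∈ ((R.mapSurjective hsurj : Sylow p (N ⧸ D)) : Subgroup (N ⧸ D))
      rw [e]
      exact ⟨x, hx, rfl⟩
  have hmem : ∀ (w a : N), π a ∈ π w • S₀ ↔ w⁻¹ * a * w ∈ (R : Subgroup N) := by
    intro w a
    rw [H14.mem_sylow_smul, ← hS₀]
    simp [map_mul, map_inv]
  -- the orbit statement
  have hstep : ∀ T : Sylow p (N ⧸ D), H14.sylowReach p (N ⧸ D) S₀ T → ∃ w ∈ W, T = π w • S₀ := by
    intro T hT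
    induction hT with
    | refl => exact ⟨1, W.one_mem, by simp⟩
    | @tail b d _ hbd ih =>
      obtain ⟨w, hw, rfl⟩ := ih
      obtain ⟨v₀, hv⟩ := MulAction.exists_smul_eq (N ⧸ D) S₀ d
      obtain ⟨v, rfl⟩ := hsurj v₀
      have hint : ((π w • S₀ : Sylow p (N ⧸ D)) : Subgroup (N ⧸ D)) ⊓ (d : Subgroup (N ⧸ D)) ≠ ⊥ := hbd.2
      rcases Subgroup.bot_or_exists_ne_one (((π w • S₀ : Sylow p (N ⧸ D)) : Subgroup (N ⧸ D)) ⊓ (d : Subgroup (N ⧸ D))) with hb | ⟨a₀, ⟨ha1, ha2⟩, hane⟩
      · exact absurd hb hint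
      obtain ⟨a, rfl⟩ := hsurj a₀
      have ha1' : π a ∈ π w • S₀ := ha1
      have ha2' : π a ∈ π v • S₀ := by rw [hv]; exact ha2
      rw [hmem] at ha1' ha2'
      have hz : w⁻¹ * v ∈ W := by
        apply h
        refine ⟨w⁻¹ * a * w, ha1', ?_, ?_⟩
        · convert ha2' using 1
          group
        · intro hD'
          apply hane
          have h1 : a ∈ D := by
            have h2 := hD.conj_mem _ hD' w
            convert h2 using 1
            group
          exact (QuotientGroup.eq_one_iff a).mpr h1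
      refine ⟨v, ?_, hv.symm⟩
      have := W.mul_mem hw hz
      simpa using this
  rw [eq_top_iff]
  intro x _
  obtain ⟨w, hw, hwx⟩ := hstep _ (hc S₀ (π x • S₀))
  obtain ⟨r, hr, hrD⟩ := hne
  have hz : w⁻¹ * x ∈ W := by
    apply h
    refine ⟨r, hr, ?_, hrD⟩
    have h1 : π ((w⁻¹ * x)⁻¹ * r * (w⁻¹ * x)) ∈ S₀ := by
      have h2 : π r ∈ π (w⁻¹ * x) • S₀ := by
        have h3 : π (w⁻¹ * x) • S₀ = S₀ := by
          rw [map_mul, mul_smul, hwx, map_inv, inv_smul_smul]
        rw [h3]
        exact (hS₀ r).2 hr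
      rw [H14.mem_sylow_smul] at h2
      simpa [map_mul, map_inv] using h2
    exact (hS₀ _).1 h1
  have := W.mul_mem hw hz
  simpa using this

end conn

section transport
variable {A B : Type*} [Group A] [Group B] {p : ℕ}

/-- transport of connectedness. -/
theorem connected_of_equiv [Finite A] [Finite B] [hp : Fact p.Prime] (e : A ≃* B)
    (h : Cfsg.IsSylowChainConnected p A) : Cfsg.IsSylowChainConnected p B := by
  classical
  rw [H14.chainConnected_iff] at h ⊢
  have hsurj : Function.Surjective (e.toMonoidHom) := e.surjective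
  let F : Sylow p A → Sylow p B := fun S => S.mapSurjective hsurj
  have hF : ∀ S : Sylow p A, ((F S : Sylow p B) : Subgroup B) = (S : Subgroup A).map e.toMonoidHom :=
    fun S => Sylow.coe_mapSurjective hsurj S
  have hFsurj : Function.Surjective F := by
    intro T
    have hs2 : Function.Surjective (e.symm.toMonoidHom) := e.symm.surjective
    refine ⟨T.mapSurjective hs2, ?_⟩
    apply Sylow.ext
    rw [hF, Sylow.coe_mapSurjective]
    ext x
    constructor
    · rintro ⟨_, ⟨y, hy, rfl⟩, rfl⟩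
      have e1 : e.toMonoidHom (e.symm.toMonoidHom y) = y := e.apply_symm_apply y
      rw [e1]
      exact hy
    · intro hx
      exact ⟨e.symm x, ⟨x, hx, rfl⟩, by simp⟩
  have hadj : ∀ S T : Sylow p A, H14.sylowAdj p A S T → H14.sylowAdj p B (F S) (F T) := by
    intro S T hST
    refine ⟨?_, ?_⟩
    · intro hE
      apply hST.1
      apply Sylow.ext
      have h1 : ((F S : Sylow p B) : Subgroup B) = (F T : Sylow p B) := by rw [hE]
      rw [hF, hF] at h1
      exact Subgroup.map_injective e.injective h1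
    · intro hbot
      apply hST.2
      rw [hF, hF, ← Subgroup.map_inf _ _ _ e.injective] at hbot
      exact (Subgroup.map_eq_bot_iff_of_injective _ e.injective).1 hbot
  have hreach : ∀ S T : Sylow p A, H14.sylowReach p A S T → H14.sylowReach p B (F S) (F T) := by
    intro S T hST
    induction hST with
    | refl => exact Relation.ReflTransGen.refl
    | tail _ hbc ih => exact Relation.ReflTransGen.tail ih (hadj _ _ hbc)
  intro S T
  obtain ⟨S', rfl⟩ := hFsurj S
  obtain ⟨T', rfl⟩ := hFsurj T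
  exact hreach _ _ (h S' T')

/-- transport of `O_{p',p}`. -/
theorem map_pPrimePCore_equiv [Finite A] [Finite B] [hp : Fact p.Prime] (e : A ≃* B) :
    (Cfsg.pPrimePCore p A).map e.toMonoidHom = Cfsg.pPrimePCore p B := by
  have hL : (Cfsg.pPrimeCore p A).map e.toMonoidHom = Cfsg.pPrimeCore p B :=
    Cfsg.Agent.H06.map_pPrimeCore_equiv e p
  haveI hA : (Cfsg.pPrimeCore p A).Normal := Cfsg.Agent.H03.pPrimeCore_normal'
  haveI hB : (Cfsg.pPrimeCore p B).Normal := Cfsg.Agent.H03.pPrimeCore_normal'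
  let e' : A ⧸ Cfsg.pPrimeCore p A ≃* B ⧸ Cfsg.pPrimeCore p B :=
    QuotientGroup.congr _ _ e hL
  have key : ∀ x : A, e x ∈ Cfsg.pPrimePCore p B ↔ x ∈ Cfsg.pPrimePCore p A := by
    intro x
    change ((e x : B) : B ⧸ Cfsg.pPrimeCore p B) ∈ Cfsg.pCore p _ ↔
      ((x : A) : A ⧸ Cfsg.pPrimeCore p A) ∈ Cfsg.pCore p _
    have h1 : ((e x : B) : B ⧸ Cfsg.pPrimeCore p B) = e' (x : A ⧸ Cfsg.pPrimeCore p A) := rfl
    rw [h1]
    exact Cfsg.Agent.H12.mem_pCore_equiv_iff e' _
  ext y
  constructor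
  · rintro ⟨x, hx, rfl⟩
    exact (key x).2 hx
  · intro hy
    refine ⟨e.symm y, (key _).1 (by simpa using hy), by simp⟩

end transport

end Cfsg.Agent.H14.SAG
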