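import Mathlib
import Cfsg.Agent.Lib.H14.StrongAG2
import Cfsg.Agent.Lib.H09.Engine
import Cfsg.Agent.Lib.H13.Basic
import Cfsg.Agent.Lib.H09.Focal
import Cfsg.Agent.Lib.H13.SylIn

/-! Strong Alperin-Goldschmidt, part 3: good data and the control relation. -/

set_option autoImplicit false
set_option linter.unusedSectionVars false
set_option linter.unusedVariables false
set_option linter.style.haveILetI false

namespace Cfsg.Agent.H14.SAG

open Cfsg Cfsg.Agent.H09

variable {G : Type*} [Group G] {p : ℕ}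

set_option quotPrecheck false in
local notation:max "𝐍" T:max => Subgroup.normalizer ((T : Subgroup G) : Set G)
set_option quotPrecheck false in
local notation:max "𝐂" T:max => Subgroup.centralizer ((T : Subgroup G) : Set G)
set_option quotPrecheck false in
local notation:65 T:66 " ⋆ " g:66 => Subgroup.map (MulAut.conj g).toMonoidHom T

/-- The data of one factor. -/
structure Good (p : ℕ) (P H X : Subgroup G) (x : G) : Prop where
  hP : H ≤ P
  syl : ¬ p ∣ (P ⊓ 𝐍 H).relIndex (𝐍 H)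
  cent : P ⊓ 𝐂 H ≤ H
  core : (Cfsg.pPrimePCore p ↥(𝐍 H)).map (𝐍 H).subtype = H ⊔ 𝐂 H
  disc : ¬ Cfsg.IsSylowChainConnected p (↥(𝐍 H) ⧸ H.subgroupOf (𝐍 H))
  hX1 : H ≤ X
  hX2 : X ≤ 𝐍 H
  hX3 : (X.subgroupOf (𝐍 H)).Normal
  hX4 : p ∣ H.relIndex X
  hX5 : ∀ Y : Subgroup G, H ≤ Y → Y ≤ 𝐍 H → (Y.subgroupOf (𝐍 H)).Normal → p ∣ H.relIndex Y → X ≤ Y
  hx : x ∈ (Cfsg.pResidual p ↥X).map X.subtype

theorem Good.inv {P H X : Subgroup G} {x : G} (h : Good p P H X x) : Good p P H X x⁻¹ :=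
  { h with hx := Subgroup.inv_mem _ h.hx }

section transport
variable [Finite G] [hp : Fact p.Prime]

theorem core_transport (φ : G ≃* G) (N N' : Subgroup G) (hN : N.map φ.toMonoidHom = N') :
    (Cfsg.pPrimePCore p ↥N').map N'.subtype =
      ((Cfsg.pPrimePCore p ↥N).map N.subtype).map φ.toMonoidHom := by
  subst hN
  have h1 : (Cfsg.pPrimePCore p ↥N).map (φ.subgroupMap N).toMonoidHom =
      Cfsg.pPrimePCore p ↥(N.map φ.toMonoidHom) := map_pPrimePCore_equiv (p := p) (φ.subgroupMap N)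
  rw [← h1]
  ext x
  constructor
  · rintro ⟨_, ⟨a, ha, rfl⟩, rfl⟩
    exact ⟨a, ⟨a, ha, rfl⟩, rfl⟩
  · rintro ⟨_, ⟨a, ha, rfl⟩, rfl⟩
    exact ⟨_, ⟨a, ha, rfl⟩, rfl⟩

theorem disc_transport (φ : G ≃* G) (N N' H H' : Subgroup G) (hN : N.map φ.toMonoidHom = N')
    (hH : H.map φ.toMonoidHom = H') [h1 : (H.subgroupOf N).Normal] [h2 : (H'.subgroupOf N').Normal]
    (hc : Cfsg.IsSylowChainConnected p (↥N' ⧸ H'.subgroupOf N')) :
    Cfsg.IsSylowChainConnected p (↥N ⧸ H.subgroupOf N) := by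
  subst hN
  subst hH
  haveI := h2
  let e : ↥N ≃* ↥(N.map φ.toMonoidHom) := φ.subgroupMap N
  have hmap : (H.subgroupOf N).map e.toMonoidHom = (H.map φ.toMonoidHom).subgroupOf (N.map φ.toMonoidHom) := by
    ext x
    constructor
    · rintro ⟨a, ha, rfl⟩
      exact ⟨a, ha, rfl⟩
    · rintro ⟨a, ha, hax⟩
      obtain ⟨b, hb⟩ := x.2
      have hab : b = a := φ.injective (hb.2.trans hax.symm)
      refine ⟨⟨b, hb.1⟩, ?_, Subtype.ext hb.2⟩
      change b ∈ H
      rw [hab]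
      exact ha
  let e' := QuotientGroup.congr _ _ e hmap
  exact connected_of_equiv e'.symm hc

end transport

theorem good_conj [Finite G] [hp : Fact p.Prime] {P H X : Subgroup G} {x y : G} (hy : y ∈ 𝐍 P)
    (h : Good p P H X x) : Good p P (H ⋆ y) (X ⋆ y) (y * x * y⁻¹) := by
  have hNy : 𝐍 (H ⋆ y) = (𝐍 H) ⋆ y := normalizer_map_conj H y
  have hP' : P ⋆ y = P := map_conj_eq_of_mem_normalizer hy
  have hC : 𝐂 (H ⋆ y) = (𝐂 H) ⋆ y := (H13.map_conj_centralizer y H).symm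
  refine ⟨?_, ?_, ?_, ?_, ?_, ?_, ?_, ?_, ?_, ?_, ?_⟩
  · rw [← hP']
    exact map_conj_mono h.hP y
  · rw [hNy]
    have e : P ⊓ ((𝐍 H) ⋆ y) = (P ⊓ 𝐍 H) ⋆ y := by
      rw [map_conj_inf', hP']
    rw [e, relIndex_map_conj]
    exact h.syl
  · rw [hC]
    have e : P ⊓ ((𝐂 H) ⋆ y) = (P ⊓ 𝐂 H) ⋆ y := by
      rw [map_conj_inf', hP']
    rw [e]
    exact map_conj_mono h.cent y
  · rw [core_transport (p := p) (MulAut.conj y) (𝐍 H) _ hNy.symm, h.core, Subgroup.map_sup, hC]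
  · intro hc
    exact h.disc (disc_transport (MulAut.conj y) (𝐍 H) _ H _ hNy.symm rfl hc)
  · exact map_conj_mono h.hX1 y
  · rw [hNy]
    exact map_conj_mono h.hX2 y
  · have h1 := h.hX3
    rw [Subgroup.normal_subgroupOf_iff_le_normalizer h.hX2] at h1
    rw [Subgroup.normal_subgroupOf_iff_le_normalizer (by rw [hNy]; exact map_conj_mono h.hX2 y),
      hNy, normalizer_map_conj]
    exact map_conj_mono h1 y
  · rw [relIndex_map_conj]
    exact h.hX4
  · intro Y h1 h2 h3 h4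
    have hY : (Y ⋆ y⁻¹) ⋆ y = Y := map_conj_cancel_inv Y y
    rw [← hY]
    apply map_conj_mono
    have h1' : H ≤ Y ⋆ y⁻¹ := by
      have := map_conj_mono h1 y⁻¹
      rwa [map_conj_inv_cancel] at this
    have h2' : Y ⋆ y⁻¹ ≤ 𝐍 H := by
      rw [hNy] at h2
      have := map_conj_mono h2 y⁻¹
      rwa [map_conj_inv_cancel] at this
    apply h.hX5 _ h1' h2'
    · rw [Subgroup.normal_subgroupOf_iff_le_normalizer h2', normalizer_map_conj]
      rw [Subgroup.normal_subgroupOf_iff_le_normalizer h2, hNy] at h3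
      have := map_conj_mono h3 y⁻¹
      rwa [map_conj_inv_cancel] at this
    · rw [← relIndex_map_conj H _ y, hY]
      exact h4
  · have h1 := conj_mem_map y h.hx
    have h2 := H13.resIn_map_conj (p := p) X y
    unfold H13.resIn at h2
    rw [h2] at h1
    exact h1

/-- Words in the good factors. -/
inductive W (p : ℕ) (P : Subgroup G) : Set G → G → Prop
  | nil (A : Set G) : W p P A 1
  | cons {A : Set G} {H X : Subgroup G} {x w : G} (h : Good p P H X x) (hA : A ⊆ (H : Set G))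
      (hw : W p P (cjs x⁻¹ A) w) : W p P A (x * w)

theorem W.res {P : Subgroup G} {A : Set G} {w : G} (h : W p P A w) :
    ∀ {B : Set G}, B ⊆ A → W p P B w := by
  induction h with
  | nil A => exact fun _ => W.nil _
  | cons hg hA _ ih =>
    intro B hB
    exact W.cons hg (hB.trans hA) (ih (cjs_mono hB _))

theorem W.append {P : Subgroup G} {A : Set G} {w : G} (h : W p P A w) :
    ∀ {w' : G}, W p P (cjs w⁻¹ A) w' → W p P A (w * w') := by
  induction h with
  | nil A =>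
    intro w' h'
    simpa [cjs_one] using h'
  | @cons A H X x w hg hA _ ih =>
    intro w' h'
    rw [mul_assoc]
    refine W.cons hg hA (ih ?_)
    rw [mul_inv_rev, cjs_mul] at h'
    exact h'

theorem W.inv {P : Subgroup G} {A : Set G} {w : G} (h : W p P A w) : W p P (cjs w⁻¹ A) w⁻¹ := by
  induction h with
  | nil A => simpa [cjs_one] using W.nil A
  | @cons A H X x w hg hA _ ih =>
    rw [mul_inv_rev, cjs_mul]
    refine ih.append ?_
    rw [inv_inv, cjs_cjs_inv]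
    have hxN : x⁻¹ ∈ 𝐍 H := Subgroup.inv_mem _ (hg.hX2 (Subgroup.map_subtype_le _ hg.hx))
    have h1 : W p P (cjs x⁻¹ A) (x⁻¹ * 1) := by
      refine W.cons hg.inv (cjs_subset_of_mem_normalizer hxN hA) ?_
      rw [inv_inv, cjs_cjs_inv]
      exact W.nil A
    simpa using h1

theorem W.conj [Finite G] [hp : Fact p.Prime] {P : Subgroup G} {y : G} (hy : y ∈ 𝐍 P) {A : Set G} {w : G}
    (h : W p P A w) : W p P (cjs y A) (y * w * y⁻¹) := by
  induction h with
  | nil A => simpa using W.nil (cjs y A)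
  | @cons A H X x w hg hA _ ih =>
    have e : y * (x * w) * y⁻¹ = (y * x * y⁻¹) * (y * w * y⁻¹) := by group
    rw [e]
    refine W.cons (good_conj hy hg) ?_ ?_
    · have := cjs_mono hA y
      rwa [cjs_coe] at this
    · have e2 : (y * x * y⁻¹)⁻¹ = y * x⁻¹ * y⁻¹ := by group
      rw [e2, ← cjs_mul, inv_mul_cancel_right, cjs_mul]
      exact ih

/-- The control relation. -/
def Ctl (p : ℕ) (P : Subgroup G) : Set G → G → Prop := fun A g =>
  ∃ c w y : G, c ∈ Subgroup.centralizer A ∧ y ∈ 𝐍 P ∧ W p P A w ∧ g⁻¹ = c * w * y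

theorem mem_centralizer_cjs {A : Set G} {c g : G} (h : c ∈ Subgroup.centralizer A) :
    g * c * g⁻¹ ∈ Subgroup.centralizer (cjs g A) := by
  rw [Subgroup.mem_centralizer_iff] at h ⊢
  rintro _ ⟨a, ha, rfl⟩
  have h1 := h a ha
  have : g * a * g⁻¹ * (g * c * g⁻¹) = g * (a * c) * g⁻¹ := by group
  rw [this, h1]
  group

theorem cjs_of_eq {A : Set G} {c : G} (h : c ∈ Subgroup.centralizer A) : cjs c A = A := by
  rw [Subgroup.mem_centralizer_iff] at h
  ext x
  rw [mem_cjs]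
  constructor
  · intro hx
    have h1 := h _ hx
    have e : c⁻¹ * x * c = x := by
      have h2 : c⁻¹ * x * c * c = x * c := by rw [h1]; group
      exact mul_right_cancel h2
    rwa [e] at hx
  · intro hx
    have h1 := h _ hx
    have e : c⁻¹ * x * c = x := by
      rw [mul_assoc, h1]
      group
    rwa [e]

theorem ctl_sys [Finite G] [hp : Fact p.Prime] (P : Subgroup G) : CtlSys (Ctl p P) where
  triv := by
    intro A g hA
    refine ⟨g⁻¹, 1, 1, ?_, Subgroup.one_mem _, W.nil A, by simp⟩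
    rw [Subgroup.mem_centralizer_iff]
    intro a ha
    have : a = 1 := hA ha
    simp [this]
  res := by
    rintro A B g hBA ⟨c, w, y, hc, hy, hw, e⟩
    exact ⟨c, w, y, Subgroup.centralizer_le hBA hc, hy, hw.res hBA, e⟩
  comp := by
    rintro A g h ⟨c, w, y, hc, hy, hw, e⟩ ⟨c', w', y', hc', hy', hw', e'⟩
    -- `g A g⁻¹ = y⁻¹ (w⁻¹ A w) y`
    have hAg : cjs g A = cjs y⁻¹ (cjs w⁻¹ A) := by
      have h1 : g = y⁻¹ * w⁻¹ * c⁻¹ := by
        have : g = (g⁻¹)⁻¹ := by simp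
        rw [this, e]
        group
      rw [h1, cjs_mul, cjs_mul, cjs_of_eq (Subgroup.inv_mem _ hc)]
    rw [hAg] at hc' hw'
    have hw'' : W p P (cjs w⁻¹ A) (y * w' * y⁻¹) := by
      have := hw'.conj hy
      rwa [cjs_cjs_inv] at this
    have hc'' : y * c' * y⁻¹ ∈ Subgroup.centralizer (cjs w⁻¹ A) := by
      have := mem_centralizer_cjs (g := y) hc'
      rwa [cjs_cjs_inv] at this
    have hc3 : w * (y * c' * y⁻¹) * w⁻¹ ∈ Subgroup.centralizer A := by
      have := mem_centralizer_cjs (g := w) hc''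
      rwa [cjs_cjs_inv] at this
    refine ⟨c * (w * (y * c' * y⁻¹) * w⁻¹), w * (y * w' * y⁻¹), y * y',
      Subgroup.mul_mem _ hc hc3, Subgroup.mul_mem _ hy hy', hw.append hw'', ?_⟩
    rw [mul_inv_rev, e, e']
    group
  inv := by
    rintro A g ⟨c, w, y, hc, hy, hw, e⟩
    have hAg : cjs g A = cjs y⁻¹ (cjs w⁻¹ A) := by
      have h1 : g = y⁻¹ * w⁻¹ * c⁻¹ := by
        have : g = (g⁻¹)⁻¹ := by simp
        rw [this, e]
        group
      rw [h1, cjs_mul, cjs_mul, cjs_of_eq (Subgroup.inv_mem _ hc)]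
    rw [hAg]
    have hy' : y⁻¹ ∈ 𝐍 P := Subgroup.inv_mem _ hy
    have h1 := hw.inv.conj hy'
    have hc1 : y⁻¹ * (w⁻¹ * c⁻¹ * w) * y⁻¹⁻¹ ∈ Subgroup.centralizer (cjs y⁻¹ (cjs w⁻¹ A)) := by
      apply mem_centralizer_cjs
      have h3 := mem_centralizer_cjs (g := w⁻¹) (c := c⁻¹) (Subgroup.inv_mem _ hc)
      simpa using h3
    refine ⟨_, _, y⁻¹, hc1, hy', h1, ?_⟩
    have h2 : g = y⁻¹ * w⁻¹ * c⁻¹ := by
      have : g = (g⁻¹)⁻¹ := by simp
      rw [this, e]
      group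
    rw [inv_inv, h2]
    group

end Cfsg.Agent.H14.SAG
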